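import Mathlib
import Cfsg.Prelude.Def_Solvable
import Cfsg.Prelude.Def_Transfer
import Cfsg.Agent.S0081

set_option autoImplicit false
set_option linter.unusedVariables false
set_option linter.unusedSectionVars false

/-!
Consequences of Tate's theorem: normal subgroups meeting a Sylow `p`-subgroup inside its Frattini
subgroup.
-/

namespace Cfsg.Agent.Lib.Helper82PQGroup

open Cfsg

variable {G : Type*} [Group G] [Finite G] {p : ℕ} [Fact p.Prime]

theorem mem_of_pow_mem_of_coprime {H : Subgroup G} {x : G} {a b : ℕ} (hab : a.Coprime b)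
    (ha : x ^ a ∈ H) (hb : x ^ b ∈ H) : x ∈ H := by
  have h1 : x ^ (Nat.gcd a b : ℤ) ∈ H := by
    rw [Nat.gcd_eq_gcd_ab, zpow_add, zpow_mul, zpow_mul, zpow_natCast, zpow_natCast]
    exact H.mul_mem (H.zpow_mem ha _) (H.zpow_mem hb _)
  rw [hab] at h1
  simpa using h1

/-- the `p'`-elements of a normal subgroup `T` with `T ∩ P ≤ Φ(P)` lie in `O_{p'}(G)`. -/
theorem mem_pPrimeCore_of_tate (P : Sylow p G) (T : Subgroup G) [T.Normal]
    (h : T ⊓ (P : Subgroup G) ≤ (frattini P).map (P : Subgroup G).subtype) {x : G} (hx : x ∈ T)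
    (hxp : ¬ p ∣ orderOf x) : x ∈ pPrimeCore p G := by
  have hp : p.Prime := Fact.out
  obtain ⟨P', Y, hYn, hY⟩ := Cfsg.Agent.S0081.result P T h
  have hcard := hY.card_mul_card
  have hidx : Y.index = Nat.card (P' : Subgroup T) := by
    have h1 := Y.card_mul_index
    have h2 : Nat.card Y * Y.index = Nat.card Y * Nat.card (P' : Subgroup T) := by
      rw [h1, hcard]
    exact Nat.eq_of_mul_eq_mul_left Nat.card_pos h2
  have hYcop : (Nat.card Y).Coprime p := by
    have h1 := P'.card_coprime_index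
    have h2 : (P' : Subgroup T).index = Nat.card Y := by
      have h3 := (P' : Subgroup T).card_mul_index
      have h4 : Nat.card (P' : Subgroup T) * (P' : Subgroup T).index
          = Nat.card (P' : Subgroup T) * Nat.card Y := by
        rw [h3, ← hcard]; ring
      exact Nat.eq_of_mul_eq_mul_left Nat.card_pos h4
    rw [h2] at h1
    by_contra hcon
    have hd : p ∣ Nat.card Y := by
      by_contra hnd
      exact hcon ((Nat.Prime.coprime_iff_not_dvd hp).2 hnd).symm
    -- then `p ∣ card T`, so `P'` is nontrivial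
    have hdT : p ∣ Nat.card T := by rw [← hcard]; exact Dvd.dvd.mul_right hd _
    have hdP : p ∣ Nat.card (P' : Subgroup T) := by
      rw [P'.card_eq_multiplicity]
      exact dvd_pow_self p (by
        have := (Nat.Prime.factorization_pos_of_dvd hp Nat.card_pos.ne' hdT)
        omega)
    exact (Nat.Prime.one_lt hp).ne' (Nat.eq_one_of_dvd_coprimes h1 hdP hd)
  obtain ⟨k, hk⟩ := (IsPGroup.iff_card.1 P'.isPGroup')
  have hmemY : ∀ t : T, ¬ p ∣ orderOf t → t ∈ Y := by
    intro t ht
    have h1 : t ^ Y.index ∈ Y := Y.pow_index_mem t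
    rw [hidx, hk] at h1
    have h2 : t ^ orderOf t ∈ Y := by rw [pow_orderOf_eq_one]; exact Y.one_mem
    exact mem_of_pow_mem_of_coprime
      (Nat.Coprime.pow_left k ((Nat.Prime.coprime_iff_not_dvd hp).2 ht)) h1 h2
  have hordY : ∀ t : T, t ∈ Y → ¬ p ∣ orderOf t := by
    intro t ht hd
    have h1 : orderOf (⟨t, ht⟩ : Y) ∣ Nat.card Y := orderOf_dvd_natCard _
    rw [Subgroup.orderOf_mk] at h1
    have h2 : p ∣ Nat.card Y := hd.trans h1
    exact (Nat.Prime.coprime_iff_not_dvd hp).1 hYcop.symm h2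
  have hnorm : (Y.map T.subtype).Normal := by
    constructor
    rintro _ ⟨y, hy, rfl⟩ g
    have hT : g * (y : G) * g⁻¹ ∈ T := (inferInstance : T.Normal).conj_mem _ y.2 g
    refine ⟨⟨_, hT⟩, ?_, rfl⟩
    apply hmemY
    have e1 : orderOf (⟨g * (y : G) * g⁻¹, hT⟩ : T) = orderOf y := by
      rw [← Subgroup.orderOf_coe, ← Subgroup.orderOf_coe y]
      exact (MulAut.conj g).orderOf_eq (y : G)
    rw [e1]
    exact hordY y hy
  have hcardmap : Nat.card (Y.map T.subtype) = Nat.card Y :=
    Subgroup.card_map_of_injective T.subtype_injective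
  have hle : Y.map T.subtype ≤ pPrimeCore p G := by
    apply le_sSup
    exact ⟨hnorm, by rw [hcardmap]; exact hYcop⟩
  apply hle
  refine ⟨⟨x, hx⟩, ?_, rfl⟩
  apply hmemY
  rw [Subgroup.orderOf_mk]
  exact hxp

/-- a normal subgroup `T ≥ K` of index prime to `p` over `K ≥ O_{p'}(G)`, `K ∩ P ≤ Φ(P)`,
equals `K`. -/
theorem le_of_coprime_relIndex (P : Sylow p G) (K T : Subgroup G) [K.Normal] [T.Normal]
    (hK : pPrimeCore p G ≤ K)
    (h : K ⊓ (P : Subgroup G) ≤ (frattini P).map (P : Subgroup G).subtype)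
    (hcop : (K.relIndex T).Coprime p) : T ≤ K := by
  have hp : p.Prime := Fact.out
  -- `p`-elements of `T` lie in `K`
  have h1 : ∀ x ∈ T, ∀ k : ℕ, x ^ (p ^ k) = 1 → x ∈ K := by
    intro x hx k hk
    have hn : (K.subgroupOf T).Normal := inferInstance
    have h2 : (⟨x, hx⟩ : T) ^ (K.subgroupOf T).index ∈ K.subgroupOf T :=
      (K.subgroupOf T).pow_index_mem _
    have h3 : x ^ (K.relIndex T) ∈ K := by
      rw [Subgroup.mem_subgroupOf] at h2
      simpa [Subgroup.relIndex] using h2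
    have h4 : x ^ (p ^ k) ∈ K := by rw [hk]; exact K.one_mem
    exact mem_of_pow_mem_of_coprime (Nat.Coprime.pow_right k hcop) h3 h4
  have h2 : T ⊓ (P : Subgroup G) ≤ (frattini P).map (P : Subgroup G).subtype := by
    intro x hx
    apply h
    refine ⟨?_, hx.2⟩
    obtain ⟨k, hk⟩ := P.isPGroup' ⟨x, hx.2⟩
    apply h1 x hx.1 k
    have := congrArg Subtype.val hk
    simpa using this
  intro t ht
  -- split `t`
  obtain ⟨k, m, hm, hkm⟩ := Nat.exists_eq_pow_mul_and_not_dvd (orderOf_pos t).ne' p hp.ne_one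
  have e1 : t ^ m ∈ K := by
    apply h1 _ (T.pow_mem ht m) k
    rw [← pow_mul, mul_comm, ← hkm, pow_orderOf_eq_one]
  have e2 : t ^ (p ^ k) ∈ K := by
    apply hK
    apply mem_pPrimeCore_of_tate P T h2 (T.pow_mem ht _)
    intro hd
    apply hm
    have h5 : (t ^ (p ^ k)) ^ m = 1 := by
      rw [← pow_mul, ← hkm, pow_orderOf_eq_one]
    exact hd.trans (orderOf_dvd_of_pow_eq_one h5)
  exact mem_of_pow_mem_of_coprime
    (Nat.Coprime.pow_right k ((Nat.Prime.coprime_iff_not_dvd hp).2 hm).symm) e1 e2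

end Cfsg.Agent.Lib.Helper82PQGroup
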