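import Mathlib
import Cfsg.Prelude.Def_Characters
import Cfsg.Agent.Lib.Helper83Char
import Cfsg.Agent.Lib.Helper83FS
import Cfsg.Agent.S0752

set_option autoImplicit false

/-! Frobenius–Schur indicator `-1` forces even multiplicity in permutation characters. -/

namespace Cfsg.Agent.Lib.Helper83FS3

open Representation Cfsg Cfsg.Agent.Lib.Helper83Char Cfsg.Agent.Lib.Helper83FS
open scoped ComplexConjugate Matrix

theorem exists_form {G : Type*} [Group G] [Fintype G] {n : ℕ} (ρ : Representation ℂ G (Fin n → ℂ))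
    [ρ.IsIrreducible] (hr : ∀ s : G, (ρ.character s).im = 0) :
    ∃ (B : Matrix (Fin n) (Fin n) ℂ) (ε : ℂ), IsUnit B.det ∧ Bᵀ = ε • B ∧ (ε = 1 ∨ ε = -1) ∧
      (∀ g : G, (M ρ g)ᵀ * B⁻¹ = B⁻¹ * M ρ g⁻¹) ∧
      ∑ g : G, ρ.character (g * g) = (Nat.card G : ℂ) * ε := by
  classical
  have hG : (Nat.card G : ℂ) ≠ 0 := by exact_mod_cast Nat.card_pos.ne'
  have : Invertible (Nat.card G : ℂ) := invertibleOfNonzero hG
  have hinv : ∀ g : G, ρ.character g⁻¹ = ρ.character g := by
    intro g
    rw [char_inv_eq_conj]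
    exact Complex.conj_eq_iff_im.2 (hr g)
  -- the space of intertwiners is one-dimensional
  have hfr : Module.finrank ℂ (IntertwiningMap (contra ρ) ρ) = 1 := by
    have h := card_inv_mul_sum_char_mul_char_eq_finrank (contra ρ) ρ
    have h2 := char_orthonormal ρ ρ
    rw [if_pos ⟨Representation.Equiv.refl ρ⟩] at h2
    have h3 : ∑ g : G, ρ.character g * (contra ρ).character g⁻¹ =
        ∑ g : G, ρ.character g * ρ.character g⁻¹ := by
      refine Finset.sum_congr rfl fun g _ => ?_
      rw [contra_character, inv_inv, hinv]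
    rw [h3, h2] at h
    exact_mod_cast h.symm
  obtain ⟨f₀, hf₀, hspan⟩ := finrank_eq_one_iff'.1 hfr
  set B : Matrix (Fin n) (Fin n) ℂ := LinearMap.toMatrix' f₀.toLinearMap with hBdef
  have hBlin : Matrix.toLin' B = f₀.toLinearMap := by rw [hBdef, Matrix.toLin'_toMatrix']
  have hB : ∀ h : G, B * (M ρ h⁻¹)ᵀ = M ρ h * B := by
    intro h
    have h1 := f₀.isIntertwining' h
    rw [contra_apply, ← hBlin, ← toLin'_M, ← Matrix.toLin'_mul, ← Matrix.toLin'_mul] at h1
    exact Matrix.toLin'.injective h1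
  have hsurj : Function.Surjective f₀ :=
    (IsIrreducible.surjective_or_eq_zero f₀).resolve_right hf₀
  have hinj : Function.Injective f₀ :=
    (LinearMap.injective_iff_surjective (f := f₀.toLinearMap)).2 hsurj
  have hBunit : IsUnit B := by
    rw [← Matrix.mulVec_injective_iff_isUnit]
    intro v w hvw
    apply hinj
    have e : ∀ u, B.mulVec u = f₀ u := fun u => by
      rw [← Matrix.toLin'_apply, hBlin]; rfl
    rw [← e, ← e]; exact hvw
  have hdet : IsUnit B.det := (Matrix.isUnit_iff_isUnit_det B).1 hBunit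
  have hB0 : B ≠ 0 := by
    intro h
    apply hf₀
    have : f₀.toLinearMap = 0 := by rw [← hBlin, h, map_zero]
    exact IntertwiningMap.ext this
  have hmult : ∀ X : Matrix (Fin n) (Fin n) ℂ, (∀ h : G, X * (M ρ h⁻¹)ᵀ = M ρ h * X) →
      ∃ c : ℂ, X = c • B := by
    intro X hX
    obtain ⟨c, hc⟩ := hspan (ofMatrix ρ X hX)
    refine ⟨c, ?_⟩
    have h1 := congrArg IntertwiningMap.toLinearMap hc
    have h2 : c • f₀.toLinearMap = Matrix.toLin' X := h1
    rw [← hBlin, ← map_smul] at h2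
    exact (Matrix.toLin'.injective h2).symm
  -- symmetry type
  obtain ⟨ε, hε⟩ := hmult Bᵀ (by
    intro h
    have h1 := congrArg Matrix.transpose (hB h⁻¹)
    rw [Matrix.transpose_mul, Matrix.transpose_mul, Matrix.transpose_transpose, inv_inv] at h1
    exact h1.symm)
  have hε2 : ε * ε = 1 := by
    have h1 : B = (ε * ε) • B := by
      conv_lhs => rw [← Matrix.transpose_transpose B, hε, Matrix.transpose_smul, hε, smul_smul]
    have h2 : (ε * ε - 1) • B = 0 := by
      rw [sub_smul, one_smul, ← h1, sub_self]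
    rcases smul_eq_zero.1 h2 with h3 | h3
    · exact sub_eq_zero.1 h3
    · exact absurd h3 hB0
  have hn : (n : ℂ) ≠ 0 := by
    have := finrank_pos_of_irreducible ρ
    rw [Module.finrank_fin_fun] at this
    exact_mod_cast this.ne'
  have hMB : ∀ g : G, (M ρ g)ᵀ * B⁻¹ = B⁻¹ * M ρ g⁻¹ := by
    intro g
    have h1 := hB g⁻¹
    rw [inv_inv] at h1
    calc (M ρ g)ᵀ * B⁻¹ = B⁻¹ * (B * (M ρ g)ᵀ) * B⁻¹ := by
          rw [← Matrix.mul_assoc, Matrix.nonsing_inv_mul _ hdet, Matrix.one_mul]
      _ = B⁻¹ * M ρ g⁻¹ := by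
          rw [h1, Matrix.mul_assoc, Matrix.mul_assoc, Matrix.mul_nonsing_inv _ hdet, Matrix.mul_one]
  have hlam : ∀ A : Matrix (Fin n) (Fin n) ℂ, ∃ c : ℂ, T ρ A = c • B ∧
      c * (n : ℂ) = (Nat.card G : ℂ) * (A * B⁻¹).trace := by
    intro A
    obtain ⟨c, hc⟩ := hmult (T ρ A) (M_T' ρ · A)
    refine ⟨c, hc, ?_⟩
    have h1 : (T ρ A * B⁻¹).trace = c * (n : ℂ) := by
      rw [hc, Matrix.smul_mul, Matrix.mul_nonsing_inv _ hdet, Matrix.trace_smul, Matrix.trace_one]
      simp
    rw [← h1, T, Finset.sum_mul, Matrix.trace_sum]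
    rw [Finset.sum_congr rfl (g := fun _ => (A * B⁻¹).trace)]
    · rw [Finset.sum_const, Finset.card_univ, nsmul_eq_mul, Nat.card_eq_fintype_card]
    · intro g _
      rw [Matrix.mul_assoc, hMB, Matrix.mul_assoc, Matrix.trace_mul_comm, Matrix.mul_assoc,
        Matrix.mul_assoc, M_inv_mul, Matrix.mul_one]
  have hsum : (∑ g : G, ρ.character (g * g)) * (n : ℂ) = (Nat.card G : ℂ) * ε * (n : ℂ) := by
    rw [sum_char_sq, Finset.sum_mul]
    have h1 : ∀ i j : Fin n, T ρ (Matrix.single j i (1 : ℂ)) i j * (n : ℂ) =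
        (Nat.card G : ℂ) * (B⁻¹ i j * B i j) := by
      intro i j
      obtain ⟨c, hc, hc2⟩ := hlam (Matrix.single j i (1 : ℂ))
      rw [hc, Matrix.smul_apply, smul_eq_mul, mul_right_comm, hc2, trace_single_mul]
      ring
    simp_rw [Finset.sum_mul, h1, ← Finset.mul_sum]
    have h2 : ∑ i, ∑ j, B⁻¹ i j * B i j = (B⁻¹ * Bᵀ).trace := by
      rw [Matrix.trace]
      simp only [Matrix.diag_apply, Matrix.mul_apply, Matrix.transpose_apply]
    rw [h2, hε, Matrix.mul_smul, Matrix.nonsing_inv_mul _ hdet, Matrix.trace_smul, Matrix.trace_one]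
    simp
    ring
  have hfinal : ∑ g : G, ρ.character (g * g) = (Nat.card G : ℂ) * ε := mul_right_cancel₀ hn hsum
  have hε' : ε = 1 ∨ ε = -1 := by
    have : (ε - 1) * (ε + 1) = 0 := by linear_combination hε2
    rcases mul_eq_zero.1 this with h | h
    · left; exact sub_eq_zero.1 h
    · right; exact eq_neg_of_add_eq_zero_left h
  exact ⟨B, ε, hdet, hε, hε', hMB, hfinal⟩

theorem even_finrank_of_alt {F V : Type*} [Field F] [AddCommGroup V] [Module F V]
    [FiniteDimensional F V] (β : LinearMap.BilinForm F V) (hA : ∀ x, β x x = 0)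
    (hnd : ∀ u, (∀ v, β u v = 0) → u = 0) : Even (Module.finrank F V) := by
  obtain ⟨m, k, b0, h1, h2, h3, h4⟩ := Cfsg.Agent.S0752.result β hA
  have hk : k = 0 := by
    by_contra hk
    have hpos : 0 < k := Nat.pos_of_ne_zero hk
    exact b0.ne_zero (Sum.inr ⟨0, hpos⟩) (hnd _ (h4 ⟨0, hpos⟩))
  subst hk
  have := Module.finrank_eq_card_basis b0
  simp only [Fintype.card_sum, Fintype.card_fin] at this
  exact ⟨m, by omega⟩

/-- If the indicator of a real irreducible representation is not `1`, the fixed space of every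
subgroup has even dimension. -/
theorem even_invariants {G : Type*} [Group G] [Fintype G] {n : ℕ}
    (ρ : Representation ℂ G (Fin n → ℂ)) [ρ.IsIrreducible]
    (hr : ∀ s : G, (ρ.character s).im = 0)
    (hneg : ∑ g : G, ρ.character (g * g) ≠ (Nat.card G : ℂ)) (R : Subgroup G) :
    Even (Module.finrank ℂ (invariants (ρ.comp R.subtype))) := by
  classical
  have : Fintype R := Fintype.ofFinite R
  obtain ⟨B, ε, hdet, hε, hε', hMB, hsum⟩ := exists_form ρ hr
  have hε1 : ε = -1 := by
    rcases hε' with h | h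
    · exact absurd (by rw [hsum, h, mul_one]) hneg
    · exact h
  set C : Matrix (Fin n) (Fin n) ℂ := B⁻¹ with hC
  have hCt : Cᵀ = -C := by
    rw [hC, Matrix.transpose_nonsing_inv, hε, hε1, neg_one_smul]
    apply Matrix.inv_eq_right_inv
    rw [neg_mul_neg, Matrix.mul_nonsing_inv _ hdet]
  have hCdet : IsUnit C.det := by
    rw [hC, Matrix.det_nonsing_inv]
    exact hdet.ringInverse
  -- the bilinear form
  set β : LinearMap.BilinForm ℂ (Fin n → ℂ) := Matrix.toBilin' C with hβ
  have hβapp : ∀ v w, β v w = v ⬝ᵥ C *ᵥ w := fun v w => Matrix.toBilin'_apply' C v w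
  have halt : ∀ v, β v v = 0 := by
    intro v
    have h1 : v ⬝ᵥ C *ᵥ v = -(v ⬝ᵥ C *ᵥ v) := by
      conv_lhs => rw [Matrix.dotProduct_mulVec, ← Matrix.mulVec_transpose, hCt, Matrix.neg_mulVec,
        neg_dotProduct, dotProduct_comm]
    rw [hβapp]
    have h2 : (2 : ℂ) * (v ⬝ᵥ C *ᵥ v) = 0 := by linear_combination h1
    rcases mul_eq_zero.mp h2 with h | h
    · norm_num at h
    · exact h
  have hρ : ∀ (g : G) (v : Fin n → ℂ), ρ g v = M ρ g *ᵥ v := by
    intro g v
    rw [← toLin'_M, Matrix.toLin'_apply]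
  have hinv : ∀ (g : G) (v w : Fin n → ℂ), β (ρ g v) (ρ g w) = β v w := by
    intro g v w
    rw [hβapp, hβapp, hρ, hρ, Matrix.mulVec_mulVec, Matrix.dotProduct_mulVec,
      Matrix.vecMul_mulVec, ← Matrix.dotProduct_mulVec, ← Matrix.mul_assoc, hMB,
      Matrix.mul_assoc, M_inv_mul, Matrix.mul_one]
  refine even_finrank_of_alt (β.restrict (invariants (ρ.comp R.subtype))) ?_ ?_
  · intro x
    exact halt x
  · intro u hu
    have hu' : ∀ r : R, ρ r (u : Fin n → ℂ) = u := fun r => u.2 r
    have key : ∀ v : Fin n → ℂ, β u v = 0 := by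
      intro v
      have hmem : (∑ r : R, ρ r v) ∈ invariants (ρ.comp R.subtype) := by
        intro s
        show ρ s (∑ r : R, ρ r v) = _
        rw [map_sum]
        rw [← Equiv.sum_comp (Equiv.mulLeft s) (fun r : R => ρ r v)]
        refine Finset.sum_congr rfl fun r _ => ?_
        simp [map_mul]
      have h1 := hu ⟨_, hmem⟩
      have h2 : β u (∑ r : R, ρ r v) = 0 := h1
      rw [map_sum] at h2
      have h3 : ∀ r : R, β u (ρ r v) = β u v := by
        intro r
        conv_lhs => rw [← hu' r]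
        exact hinv r u v
      simp only [h3, Finset.sum_const, Finset.card_univ, nsmul_eq_mul] at h2
      rcases mul_eq_zero.mp h2 with h | h
      · exact absurd h (by exact_mod_cast Fintype.card_ne_zero)
      · exact h
    apply Subtype.ext
    show (u : Fin n → ℂ) = 0
    have h4 : (u : Fin n → ℂ) ᵥ* C = 0 := by
      funext i
      have := key (Pi.single i 1)
      rw [hβapp, Matrix.dotProduct_mulVec] at this
      simpa using this
    have h5 := congrArg (fun x => x ᵥ* C⁻¹) h4
    simp only [Matrix.vecMul_vecMul, Matrix.mul_nonsing_inv _ hCdet, Matrix.vecMul_one,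
      Matrix.zero_vecMul] at h5
    exact h5

/-- A real irreducible character occurring with odd multiplicity in a permutation character has
Frobenius–Schur indicator `1`. -/
theorem fs_one_of_odd {G : Type*} [Group G] [Fintype G] {χ : G → ℂ} (hχ : IsIrrCharacter G χ)
    (hr : ∀ g : G, (χ g).im = 0) (R : Subgroup G) [Fintype R] (a : ℕ)
    (ha : (Nat.card R : ℂ)⁻¹ * ∑ r : R, χ r = a) (hodd : Odd a) :
    (Nat.card G : ℂ)⁻¹ * ∑ g : G, χ (g * g) = 1 := by
  classical
  obtain ⟨n, ρ, hρ, rfl⟩ := hχ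
  have hG : (Nat.card G : ℂ) ≠ 0 := by exact_mod_cast Nat.card_pos.ne'
  by_contra hne
  have hneg : ∑ g : G, ρ.character (g * g) ≠ (Nat.card G : ℂ) := by
    intro h
    apply hne
    rw [h, inv_mul_cancel₀ hG]
  have h1 := even_invariants ρ hr hneg R
  have hR : (Nat.card R : ℂ) ≠ 0 := by exact_mod_cast Nat.card_pos.ne'
  have : Invertible (Nat.card R : ℂ) := invertibleOfNonzero hR
  set σ : Representation ℂ R (Fin n → ℂ) := ρ.comp R.subtype with hσ
  have h2 := card_inv_mul_sum_char_eq_finrank σ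
  have h3 : ∀ r : R, σ.character r = ρ.character r := fun r => rfl
  simp only [h3] at h2
  rw [ha] at h2
  have h4 : a = Module.finrank ℂ (invariants σ) := by exact_mod_cast h2
  rw [← h4] at h1
  exact (Nat.not_even_iff_odd.mpr hodd) h1

end Cfsg.Agent.Lib.Helper83FS3
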