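import Mathlib
import Cfsg.Prelude.Def_Characters
import Cfsg.Prelude.Def_Blocks
import Cfsg.Prelude.Def_Transfer
import Cfsg.Agent.Lib.Helper83Char

set_option autoImplicit false
set_option linter.unusedSectionVars false

namespace Cfsg.Agent.Lib.Helper83Gagola

open Cfsg.Agent.Lib.Helper83Char
open scoped ComplexConjugate

variable {G : Type*} [Group G] [Finite G]

theorem exists_rep (χ : Cfsg.IrrCharacter G)
    (hχ : Nat.card {C : ConjClasses G // ∃ g ∈ C.carrier, (χ : G → ℂ) g ≠ 0} = 2) :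
    ∃ x : G, x ≠ 1 ∧ (χ : G → ℂ) x ≠ 0 ∧ ∀ g, (χ : G → ℂ) g ≠ 0 → g = 1 ∨ IsConj x g := by
  have h1 : (χ : G → ℂ) 1 ≠ 0 := irr_one_ne_zero χ.2
  let a : {C : ConjClasses G // ∃ g ∈ C.carrier, (χ : G → ℂ) g ≠ 0} :=
    ⟨ConjClasses.mk 1, 1, ConjClasses.mem_carrier_mk, h1⟩
  obtain ⟨⟨C, x, hxC, hx⟩, hne, huniq⟩ := (Nat.card_eq_two_iff' a).1 hχ
  rw [ConjClasses.mem_carrier_iff_mk_eq] at hxC
  refine ⟨x, ?_, hx, ?_⟩
  · rintro rfl
    apply hne
    exact Subtype.ext hxC.symm
  · intro g hg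
    by_cases hg1 : g = 1
    · exact Or.inl hg1
    · right
      have := huniq ⟨ConjClasses.mk g, g, ConjClasses.mem_carrier_mk, hg⟩ (by
        intro h
        have h2 : ConjClasses.mk g = ConjClasses.mk 1 := congrArg Subtype.val h
        rw [ConjClasses.mk_eq_mk_iff_isConj, isConj_one_left] at h2
        exact hg1 h2)
      have h3 : ConjClasses.mk g = C := congrArg Subtype.val this
      rw [← hxC, ConjClasses.mk_eq_mk_iff_isConj] at h3
      exact h3.symm

theorem value_of_isConj {χ : G → ℂ} (hχ : Cfsg.IsClassFunction G χ) {x g : G} (h : IsConj x g) :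
    χ g = χ x := by
  obtain ⟨c, rfl⟩ := isConj_iff.1 h
  exact hχ x c

theorem mul_ne_zero_of (χ : Cfsg.IrrCharacter G) (x : G)
    (hall : ∀ g, (χ : G → ℂ) g ≠ 0 → g = 1 ∨ IsConj x g) (hx : (χ : G → ℂ) x ≠ 0) (s t : G)
    (hs : (χ : G → ℂ) s ≠ 0) (ht : (χ : G → ℂ) t ≠ 0) : (χ : G → ℂ) (s * t) ≠ 0 := by
  classical
  have := Fintype.ofFinite G
  intro hst
  have hcl := irr_class χ.2
  have hconv := irr_conv_self χ.2 (s * t)
  rw [hst, mul_zero, zero_div] at hconv
  have hterm : ∀ h : G, (χ : G → ℂ) h⁻¹ * (χ : G → ℂ) (h * (s * t)) =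
      (χ : G → ℂ) x ^ 2 * (if (χ : G → ℂ) h⁻¹ ≠ 0 ∧ (χ : G → ℂ) (h * (s * t)) ≠ 0 then 1 else 0) := by
    intro h
    split_ifs with hh
    · obtain ⟨h1, h2⟩ := hh
      have e1 : (χ : G → ℂ) h⁻¹ = (χ : G → ℂ) x := by
        rcases hall _ h1 with h3 | h3
        · exfalso
          rw [inv_eq_one] at h3
          rw [h3, one_mul] at h2
          exact h2 hst
        · exact value_of_isConj hcl h3
      have e2 : (χ : G → ℂ) (h * (s * t)) = (χ : G → ℂ) x := by
        rcases hall _ h2 with h3 | h3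
        · exfalso
          have : h⁻¹ = s * t := by
            rw [inv_eq_iff_mul_eq_one]; exact h3
          rw [this] at h1
          exact h1 hst
        · exact value_of_isConj hcl h3
      rw [e1, e2]; ring
    · rw [mul_zero]
      by_contra hne
      exact hh ⟨left_ne_zero_of_mul hne, right_ne_zero_of_mul hne⟩
  simp_rw [hterm] at hconv
  rw [← Finset.mul_sum, Finset.sum_boole] at hconv
  have h0 := (mul_eq_zero.1 hconv).resolve_left (pow_ne_zero 2 hx)
  rw [Nat.cast_eq_zero, Finset.card_eq_zero, Finset.filter_eq_empty_iff] at h0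
  apply h0 (Finset.mem_univ s⁻¹)
  refine ⟨by simpa using hs, by simpa using ht⟩

/-- The support of `χ`, as a subgroup. -/
theorem exists_support_subgroup (χ : Cfsg.IrrCharacter G)
    (hχ : Nat.card {C : ConjClasses G // ∃ g ∈ C.carrier, (χ : G → ℂ) g ≠ 0} = 2) :
    ∃ N : Subgroup G, N.Normal ∧ ∀ g : G, g ∈ N ↔ (χ : G → ℂ) g ≠ 0 := by
  obtain ⟨x, hx1, hx, hall⟩ := exists_rep χ hχ
  refine ⟨{ carrier := {g | (χ : G → ℂ) g ≠ 0}
            mul_mem' := fun {s t} hs ht => mul_ne_zero_of χ x hall hx s t hs ht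
            one_mem' := irr_one_ne_zero χ.2
            inv_mem' := ?_ }, ?_, fun g => Iff.rfl⟩
  · intro g hg
    simp only [Set.mem_ofPred_eq] at hg ⊢
    rw [irr_inv χ.2]
    simpa using hg
  · constructor
    intro n hn g
    change (χ : G → ℂ) (g * n * g⁻¹) ≠ 0
    rw [irr_class χ.2]
    exact hn

section withN

variable (χ : Cfsg.IrrCharacter G)
  (hχ : Nat.card {C : ConjClasses G // ∃ g ∈ C.carrier, (χ : G → ℂ) g ≠ 0} = 2)
  (N : Subgroup G) (hN : ∀ g : G, g ∈ N ↔ (χ : G → ℂ) g ≠ 0)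

include hχ hN

theorem N_ne_bot : N ≠ ⊥ := by
  obtain ⟨x, hx1, hx, hall⟩ := exists_rep χ hχ
  intro h
  have : x ∈ N := (hN x).2 hx
  rw [h, Subgroup.mem_bot] at this
  exact hx1 this

theorem N_conj (x y : G) (hx : x ∈ N) (hy : y ∈ N) (hx1 : x ≠ 1) (hy1 : y ≠ 1) :
    ∃ g : G, g * x * g⁻¹ = y := by
  obtain ⟨x0, hx01, hx0, hall⟩ := exists_rep χ hχ
  have h1 := (hall x ((hN x).1 hx)).resolve_left hx1
  have h2 := (hall y ((hN y).1 hy)).resolve_left hy1
  exact isConj_iff.1 (h1.symm.trans h2)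

theorem N_le_of_normal (K : Subgroup G) (hK : K.Normal) (hK1 : K ≠ ⊥) : N ≤ K := by
  classical
  have := Fintype.ofFinite G
  obtain ⟨x0, hx01, hx0, hall⟩ := exists_rep χ hχ
  have key : x0 ∈ K := by
    by_contra hxK
    have hvan : ∀ k ∈ K, k ≠ 1 → (χ : G → ℂ) k = 0 := by
      intro k hk hk1
      by_contra hne
      obtain ⟨c, hc⟩ := isConj_iff.1 ((hall k hne).resolve_left hk1)
      apply hxK
      have := hK.conj_mem k hk c⁻¹
      rw [← hc] at this
      simpa [mul_assoc] using this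
    rcases irr_normal_dichotomy χ.2 K with h | h
    · apply hK1
      rw [Subgroup.eq_bot_iff_forall]
      intro k hk
      by_contra hk1
      have := h k hk 1
      rw [mul_one, hvan k hk hk1] at this
      exact irr_one_ne_zero χ.2 this.symm
    · have h1 := h 1
      simp only [mul_one] at h1
      rw [Finset.sum_eq_single (1 : K)] at h1
      · exact irr_one_ne_zero χ.2 h1
      · intro b _ hb
        exact hvan b b.2 (by simpa using hb)
      · simp
  intro g hg
  rcases hall g ((hN g).1 hg) with rfl | h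
  · exact K.one_mem
  · obtain ⟨c, rfl⟩ := isConj_iff.1 h
    exact hK.conj_mem _ key c

theorem N_elementary : ∃ p : ℕ, p.Prime ∧ Cfsg.IsElementaryAbelian p N := by
  obtain ⟨x0, hx01, hx0, hall⟩ := exists_rep χ hχ
  have hx0N : x0 ∈ N := (hN x0).2 hx0
  have hord : orderOf x0 ≠ 1 := by
    rw [Ne, orderOf_eq_one_iff]; exact hx01
  set p := (orderOf x0).minFac with hp
  have hpp : p.Prime := Nat.minFac_prime hord
  have hpd : p ∣ orderOf x0 := Nat.minFac_dvd _
  have hopos : 0 < orderOf x0 := orderOf_pos x0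
  -- the order of x0 is p
  have hox : orderOf x0 = p := by
    obtain ⟨k, hk⟩ := hpd
    have hkpos : 0 < k := by
      rcases Nat.eq_zero_or_pos k with h | h
      · rw [h, mul_zero] at hk; omega
      · exact h
    have hy : orderOf (x0 ^ k) = p := by
      rw [orderOf_pow' x0 hkpos.ne', hk, Nat.gcd_eq_right (Dvd.intro_left p rfl),
        Nat.mul_div_cancel _ hkpos]
    have hy1 : x0 ^ k ≠ 1 := by
      intro h
      rw [h, orderOf_one] at hy
      exact hpp.one_lt.ne hy
    obtain ⟨g, hg⟩ := N_conj χ hχ N hN x0 (x0 ^ k) hx0N (N.pow_mem hx0N k) hx01 hy1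
    rw [← hy, ← hg]
    exact ((MulAut.conj g).orderOf_eq x0).symm
  have hpow : ∀ a ∈ N, a ^ p = 1 := by
    intro a ha
    by_cases ha1 : a = 1
    · rw [ha1, one_pow]
    · obtain ⟨g, hg⟩ := N_conj χ hχ N hN x0 a hx0N ha hx01 ha1
      rw [← hg, conj_pow, ← hox, pow_orderOf_eq_one]
      simp
  refine ⟨p, hpp, ?_, hpow⟩
  -- commutativity
  have : Fact p.Prime := ⟨hpp⟩
  have hpg : IsPGroup p N := by
    intro a
    refine ⟨1, ?_⟩
    ext
    simpa using hpow a a.2
  have : Nontrivial N := by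
    rw [Subgroup.nontrivial_iff_ne_bot]
    exact N_ne_bot χ hχ N hN
  have := hpg.center_nontrivial
  obtain ⟨z, hz⟩ := exists_ne (1 : Subgroup.center N)
  have hz1 : ((z : N) : G) ≠ 1 := by
    intro h
    apply hz
    ext
    exact h
  have hNn : N.Normal := by
    constructor
    intro n hn g
    rw [hN, irr_class χ.2]
    exact (hN n).1 hn
  have hzc : ∀ n ∈ N, n * ((z : N) : G) = ((z : N) : G) * n := by
    intro n hn
    have := Subgroup.mem_center_iff.1 z.2 ⟨n, hn⟩
    exact congrArg Subtype.val this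
  have hcomm : ∀ a ∈ N, ∀ b ∈ N, a * b = b * a := by
    intro a ha b hb
    by_cases ha1 : a = 1
    · rw [ha1, one_mul, mul_one]
    · obtain ⟨g, hg⟩ := N_conj χ hχ N hN _ a (z : N).2 ha hz1 ha1
      have hb' : g⁻¹ * b * g ∈ N := by
        have := hNn.conj_mem b hb g⁻¹
        simpa using this
      have h2 := hzc _ hb'
      rw [← hg]
      calc g * ((z : N) : G) * g⁻¹ * b = g * (((z : N) : G) * (g⁻¹ * b * g)) * g⁻¹ := by group
        _ = g * ((g⁻¹ * b * g) * ((z : N) : G)) * g⁻¹ := by rw [h2]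
        _ = b * (g * ((z : N) : G) * g⁻¹) := by group
  exact ⟨⟨fun a b => Subtype.ext (hcomm a a.2 b b.2)⟩⟩


omit hχ hN [Finite G] in
theorem sum_eq_sum_subgroup [Fintype G] [Fintype N] (H : G → ℂ) (hH : ∀ g, g ∉ N → H g = 0) :
    ∑ g : G, H g = ∑ n : N, H n := by
  classical
  rw [sum_subgroup N H]
  refine Finset.sum_congr rfl fun g _ => ?_
  split_ifs with h
  · rfl
  · exact hH g h

omit hχ hN [Finite G] in
theorem sum_subgroup_const [Fintype N] (H : G → ℂ) (v : ℂ)
    (hH : ∀ n ∈ N, n ≠ 1 → H n = v) :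
    ∑ n : N, H n = H 1 + ((Nat.card N : ℂ) - 1) * v := by
  classical
  rw [← Finset.add_sum_erase Finset.univ _ (Finset.mem_univ (1 : N))]
  congr 1
  rw [Finset.sum_congr rfl (g := fun _ => v)]
  · rw [Finset.sum_const, Finset.card_erase_of_mem (Finset.mem_univ _), Finset.card_univ,
      nsmul_eq_mul, Nat.cast_sub Fintype.card_pos, Nat.card_eq_fintype_card]
    simp
  · intro n hn
    exact hH n n.2 (by simpa using (Finset.mem_erase.1 hn).1)

theorem card_N_ge_two : 2 ≤ Nat.card N := by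
  have : Nontrivial N := by
    rw [Subgroup.nontrivial_iff_ne_bot]
    exact N_ne_bot χ hχ N hN
  exact Finite.one_lt_card

theorem chi_ne_one (hG : 2 < Nat.card G) : (χ : G → ℂ) ≠ fun _ => (1 : ℂ) := by
  classical
  intro h1
  obtain ⟨x0, hx01, hx0, hall⟩ := exists_rep χ hχ
  obtain ⟨p, hp, ⟨hcomm⟩, -⟩ := N_elementary χ hχ N hN
  have hmem : ∀ g : G, g ∈ N := fun g => (hN g).2 (by rw [h1]; exact one_ne_zero)
  have hall' : ∀ g : G, g = 1 ∨ g = x0 := by
    intro g
    rcases hall g (by rw [h1]; exact one_ne_zero) with h | h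
    · exact Or.inl h
    · right
      obtain ⟨c, rfl⟩ := isConj_iff.1 h
      have := congrArg Subtype.val (hcomm.comm ⟨c, hmem c⟩ ⟨x0, hmem x0⟩)
      simp only [Subgroup.coe_mul] at this
      rw [this]; group
  have := Fintype.ofFinite G
  have hle : Fintype.card G ≤ ({1, x0} : Finset G).card := by
    apply Finset.card_le_card_of_surjOn id
    intro g _
    rcases hall' g with h | h <;> simp [h]
  have h2 : ({1, x0} : Finset G).card ≤ 2 := Finset.card_le_two
  rw [Nat.card_eq_fintype_card] at hG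
  omega

/-- The value of `χ` on the nonidentity elements of `N`. -/
theorem chi_value (hG : 2 < Nat.card G) (x : G) (hx : x ∈ N) (hx1 : x ≠ 1) :
    (χ : G → ℂ) 1 + ((Nat.card N : ℂ) - 1) * (χ : G → ℂ) x = 0 := by
  classical
  have := Fintype.ofFinite G
  have h0 := irr_sum_eq_zero χ.2 (chi_ne_one χ hχ N hN hG)
  rw [sum_eq_sum_subgroup N _ (fun g hg => by
    by_contra h; exact hg ((hN g).2 h))] at h0
  rw [sum_subgroup_const N _ ((χ : G → ℂ) x)] at h0
  · exact h0
  · intro n hn hn1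
    obtain ⟨g, hg⟩ := N_conj χ hχ N hN x n hx hn hx1 hn1
    rw [← hg, irr_class χ.2]

theorem faithful (hG : 2 < Nat.card G) (g : G) (hg : (χ : G → ℂ) g = (χ : G → ℂ) 1) : g = 1 := by
  by_contra hg1
  have hgN : g ∈ N := (hN g).2 (by rw [hg]; exact irr_one_ne_zero χ.2)
  have h := chi_value χ hχ N hN hG g hgN hg1
  rw [hg] at h
  have h2 : (Nat.card N : ℂ) * (χ : G → ℂ) 1 = 0 := by linear_combination h
  rcases mul_eq_zero.1 h2 with h3 | h3
  · have := card_N_ge_two χ hχ N hN
    rw [Nat.cast_eq_zero] at h3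
    omega
  · exact irr_one_ne_zero χ.2 h3

theorem unique_faithful (hG : 2 < Nat.card G) (ψ : Cfsg.IrrCharacter G)
    (hψ : ∀ g : G, (ψ : G → ℂ) g = (ψ : G → ℂ) 1 → g = 1) : ψ = χ := by
  classical
  have := Fintype.ofFinite G
  by_contra hne
  obtain ⟨x0, hx01, hx0, hall⟩ := exists_rep χ hχ
  have hx0N : x0 ∈ N := (hN x0).2 hx0
  have hNn : N.Normal := by
    constructor
    intro n hn g
    rw [hN, irr_class χ.2]
    exact (hN n).1 hn
  have hval : ∀ (φ : G → ℂ), Cfsg.IsClassFunction G φ → ∀ n ∈ N, n ≠ 1 → φ n = φ x0 := by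
    intro φ hφ n hn hn1
    obtain ⟨g, hg⟩ := N_conj χ hχ N hN x0 n hx0N hn hx01 hn1
    rw [← hg, hφ]
  have hψsum : (ψ : G → ℂ) 1 + ((Nat.card N : ℂ) - 1) * (ψ : G → ℂ) x0 = 0 := by
    rcases irr_normal_dichotomy ψ.2 N with h | h
    · exfalso
      have := h x0 hx0N 1
      rw [mul_one] at this
      exact hx01 (hψ x0 this)
    · have h1 := h 1
      simp only [mul_one] at h1
      rw [sum_subgroup_const N _ ((ψ : G → ℂ) x0) (hval _ (irr_class ψ.2))] at h1
      exact h1
  have hχsum := chi_value χ hχ N hN hG x0 hx0N hx01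
  have horth := irr_sum_mul_inv_ne ψ.2 χ.2 (fun h => hne (Subtype.ext h))
  rw [sum_eq_sum_subgroup N _ (fun g hg => by
    have : (χ : G → ℂ) g⁻¹ = 0 := by
      by_contra h
      exact hg (by simpa using (hN g⁻¹).2 h)
    rw [this, mul_zero])] at horth
  rw [sum_subgroup_const N (fun g => (ψ : G → ℂ) g * (χ : G → ℂ) g⁻¹)
    ((ψ : G → ℂ) x0 * (χ : G → ℂ) x0)] at horth
  · rw [inv_one] at horth
    have hc2 := card_N_ge_two χ hχ N hN
    have hc : ((Nat.card N : ℂ) - 1) ≠ 0 := by
      have : (Nat.card N : ℂ) ≠ 1 := by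
        exact_mod_cast (by omega : Nat.card N ≠ 1)
      exact sub_ne_zero.2 this
    have hcN : (Nat.card N : ℂ) ≠ 0 := by
      exact_mod_cast (by omega : Nat.card N ≠ 0)
    set c := (Nat.card N : ℂ) - 1 with hcdef
    have e1 : (ψ : G → ℂ) 1 = - c * (ψ : G → ℂ) x0 := by linear_combination hψsum
    have e2 : (χ : G → ℂ) 1 = - c * (χ : G → ℂ) x0 := by linear_combination hχsum
    rw [e1, e2] at horth
    have e3 : c * (c + 1) * ((ψ : G → ℂ) x0 * (χ : G → ℂ) x0) = 0 := by linear_combination horth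
    have hψx : (ψ : G → ℂ) x0 ≠ 0 := by
      intro h
      rw [h, mul_zero] at e1
      exact irr_one_ne_zero ψ.2 e1
    have hc1 : c + 1 ≠ 0 := by
      rw [hcdef]; simp
    exact (mul_ne_zero (mul_ne_zero hc hc1) (mul_ne_zero hψx hx0)) e3
  · intro n hn hn1
    rw [hval _ (irr_class ψ.2) n hn hn1,
      hval _ (irr_class χ.2) n⁻¹ (N.inv_mem hn) (by simpa using hn1)]


theorem N_normal : N.Normal := by
  constructor
  intro n hn g
  rw [hN, irr_class χ.2]
  exact (hN n).1 hn

theorem card_centralizer_mul (x : G) (hx : x ∈ N) (hx1 : x ≠ 1) :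
    (Nat.card N - 1) * Nat.card (Subgroup.centralizer ({x} : Set G)) = Nat.card G := by
  classical
  rw [← card_isConj_mul_card_centralizer x]
  congr 1
  have hNn := N_normal χ hχ N hN
  have e : {h : G // IsConj x h} ≃ {n : N // n ≠ 1} :=
    { toFun := fun h => ⟨⟨h.1, by
          obtain ⟨c, hc⟩ := isConj_iff.1 h.2
          rw [← hc]; exact hNn.conj_mem x hx c⟩, by
          intro h1
          have h2 : h.1 = 1 := congrArg Subtype.val h1
          have h3 := h.2
          rw [h2, isConj_one_left] at h3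
          exact hx1 h3⟩
      invFun := fun n => ⟨n.1.1, by
          obtain ⟨g, hg⟩ := N_conj χ hχ N hN x n.1.1 hx n.1.2 hx1 (by
            intro h; exact n.2 (Subtype.ext h))
          exact isConj_iff.2 ⟨g, hg⟩⟩
      left_inv := fun h => rfl
      right_inv := fun n => rfl }
  rw [Nat.card_congr e]
  have := Fintype.ofFinite N
  rw [Nat.card_eq_fintype_card, Nat.card_eq_fintype_card, Fintype.card_subtype_compl]
  simp

theorem degree_sq (hG : 2 < Nat.card G) :
    (Cfsg.charDegree (χ : G → ℂ)) ^ 2 * Nat.card N = Nat.card G * (Nat.card N - 1) := by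
  classical
  have := Fintype.ofFinite G
  obtain ⟨x0, hx01, hx0, hall⟩ := exists_rep χ hχ
  have hx0N : x0 ∈ N := (hN x0).2 hx0
  have hval : ∀ n ∈ N, n ≠ 1 → (χ : G → ℂ) n = (χ : G → ℂ) x0 := by
    intro n hn hn1
    obtain ⟨g, hg⟩ := N_conj χ hχ N hN x0 n hx0N hn hx01 hn1
    rw [← hg, irr_class χ.2]
  have hχsum := chi_value χ hχ N hN hG x0 hx0N hx01
  have hnorm := irr_sum_mul_inv_self χ.2
  rw [sum_eq_sum_subgroup N _ (fun g hg => by
    have : (χ : G → ℂ) g = 0 := by
      by_contra h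
      exact hg ((hN g).2 h)
    rw [this, zero_mul])] at hnorm
  rw [sum_subgroup_const N (fun g => (χ : G → ℂ) g * (χ : G → ℂ) g⁻¹)
    ((χ : G → ℂ) x0 * (χ : G → ℂ) x0)] at hnorm
  · rw [inv_one] at hnorm
    have hc2 := card_N_ge_two χ hχ N hN
    have hcast : ((Nat.card N - 1 : ℕ) : ℂ) = (Nat.card N : ℂ) - 1 := by
      rw [Nat.cast_sub (by omega)]; simp
    have : ((Cfsg.charDegree (χ : G → ℂ)) ^ 2 * Nat.card N : ℂ) =
        (Nat.card G : ℂ) * ((Nat.card N - 1 : ℕ) : ℂ) := by
      rw [charDegree_cast χ.2, hcast, ← hnorm]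
      set c := (Nat.card N : ℂ) - 1 with hcdef
      have e2 : (χ : G → ℂ) 1 = - c * (χ : G → ℂ) x0 := by linear_combination hχsum
      have e3 : (Nat.card N : ℂ) = c + 1 := by rw [hcdef]; ring
      rw [e2, e3]; ring
    exact_mod_cast this
  · intro n hn hn1
    rw [hval n hn hn1, hval n⁻¹ (N.inv_mem hn) (by simpa using hn1)]

theorem card_centralizer_eq (hG : 2 < Nat.card G) (p : ℕ) [Fact p.Prime] (hNp : IsPGroup p N)
    (x : G) (hx : x ∈ N) (hx1 : x ≠ 1) :
    Nat.card (Subgroup.centralizer ({x} : Set G)) = p ^ (Nat.card G).factorization p := by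
  classical
  have hp : p.Prime := Fact.out
  have h1 := card_centralizer_mul χ hχ N hN x hx hx1
  have h2 := degree_sq χ hχ N hN hG
  have hc2 := card_N_ge_two χ hχ N hN
  obtain ⟨a, ha⟩ := (IsPGroup.iff_card).1 hNp
  have ha0 : a ≠ 0 := by
    rintro rfl
    rw [pow_zero] at ha; omega
  set C := Nat.card (Subgroup.centralizer ({x} : Set G)) with hC
  set c := Nat.card N - 1 with hc
  set n := Cfsg.charDegree (χ : G → ℂ) with hn
  have hn0 : n ≠ 0 := (charDegree_pos χ.2).ne'
  have hC0 : C ≠ 0 := Nat.card_pos.ne'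
  have hc0 : c ≠ 0 := by omega
  have hg0 : Nat.card G ≠ 0 := Nat.card_pos.ne'
  have hN0 : Nat.card N ≠ 0 := by omega
  have f1 : c.factorization + C.factorization = (Nat.card G).factorization := by
    rw [← Nat.factorization_mul hc0 hC0, h1]
  have f2 : 2 • n.factorization + (Nat.card N).factorization =
      (Nat.card G).factorization + c.factorization := by
    rw [← Nat.factorization_pow, ← Nat.factorization_mul (pow_ne_zero 2 hn0) hN0, h2,
      Nat.factorization_mul hg0 hc0]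
  have hpc : ¬ p ∣ c := by
    intro hd
    have h3 : p ∣ Nat.card N := by rw [ha]; exact dvd_pow_self p ha0
    have h4 : p ∣ Nat.card N - c := Nat.dvd_sub h3 hd
    have h5 : Nat.card N - c = 1 := by omega
    rw [h5] at h4
    exact hp.one_lt.ne' (Nat.dvd_one.1 h4)
  apply Nat.eq_of_factorization_eq hC0 (pow_ne_zero _ hp.ne_zero)
  intro q
  have g1 := DFunLike.congr_fun f1 q
  have g2 := DFunLike.congr_fun f2 q
  simp only [Finsupp.add_apply, Finsupp.smul_apply, smul_eq_mul] at g1 g2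
  rw [Nat.Prime.factorization_pow hp, Finsupp.single_apply]
  by_cases hq : q.Prime
  · split_ifs with hpq
    · subst hpq
      have : c.factorization p = 0 := Nat.factorization_eq_zero_of_not_dvd hpc
      omega
    · have hNq : (Nat.card N).factorization q = 0 := by
        rw [ha, Nat.Prime.factorization_pow hp, Finsupp.single_apply, if_neg hpq]
      -- Sylow q-subgroup order divides the degree
      have : Fact q.Prime := ⟨hq⟩
      obtain ⟨Q⟩ : Nonempty (Sylow q G) := inferInstance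
      have hQN : ∀ g ∈ (Q : Subgroup G), g ≠ 1 → (χ : G → ℂ) g = 0 := by
        intro g hgQ hg1
        by_contra hne
        have hgN : g ∈ N := (hN g).2 hne
        obtain ⟨k1, hk1⟩ := (IsPGroup.iff_orderOf.1 Q.2 ⟨g, hgQ⟩)
        obtain ⟨k2, hk2⟩ := (IsPGroup.iff_orderOf.1 hNp ⟨g, hgN⟩)
        rw [Subgroup.orderOf_mk] at hk1 hk2
        have hk10 : k1 ≠ 0 := by
          rintro rfl
          rw [pow_zero, orderOf_eq_one_iff] at hk1
          exact hg1 hk1
        have : q ∣ p ^ k2 := by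
          rw [← hk2, hk1]; exact dvd_pow_self q hk10
        have := (Nat.prime_dvd_prime_iff_eq hq hp).1 (hq.dvd_of_dvd_pow this)
        exact hpq this.symm
      obtain ⟨k, hk⟩ := card_dvd_of_vanish (isCharacter_of_irr χ.2) (Q : Subgroup G) hQN
      rw [← charDegree_cast χ.2] at hk
      have hk' : n = Nat.card (Q : Subgroup G) * k := by exact_mod_cast hk
      rw [Q.card_eq_multiplicity] at hk'
      have hle : (Nat.card G).factorization q ≤ n.factorization q :=
        (Nat.Prime.pow_dvd_iff_le_factorization hq hn0).1 ⟨k, hk'⟩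
      omega
  · rw [Nat.factorization_eq_zero_of_not_prime _ hq]
    split_ifs with hpq
    · exact absurd (hpq ▸ hp) hq
    · rfl


omit hχ hN [Finite G] in
theorem sum_const_off_one {A : Type*} [Group A] [Fintype A] (H : A → ℂ) (v : ℂ)
    (hH : ∀ a, a ≠ 1 → H a = v) : ∑ a : A, H a = H 1 + ((Nat.card A : ℂ) - 1) * v := by
  classical
  rw [← Finset.add_sum_erase Finset.univ _ (Finset.mem_univ (1 : A))]
  congr 1
  rw [Finset.sum_congr rfl (g := fun _ => v)]
  · rw [Finset.sum_const, Finset.card_erase_of_mem (Finset.mem_univ _), Finset.card_univ,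
      nsmul_eq_mul, Nat.cast_sub Fintype.card_pos, Nat.card_eq_fintype_card]
    simp
  · intro n hn
    exact hH n (Finset.mem_erase.1 hn).1

omit hχ hN [Finite G] in
/-- The inertia subgroup of a function on a normal subgroup. -/
def inertia [N.Normal] (μ : N → ℂ) : Subgroup G where
  carrier := {g | ∀ n : N, μ (MulAut.conjNormal g n) = μ n}
  mul_mem' := by
    intro a b ha hb n
    rw [map_mul, MulAut.mul_apply, ha, hb]
  one_mem' := by
    intro n
    rw [map_one, MulAut.one_apply]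
  inv_mem' := by
    intro a ha n
    have := ha (MulAut.conjNormal a⁻¹ n)
    rw [← MulAut.mul_apply, ← map_mul, mul_inv_cancel, map_one, MulAut.one_apply] at this
    exact this.symm

omit hχ hN [Finite G] in
theorem mem_inertia [N.Normal] (μ : N → ℂ) (g : G) :
    g ∈ inertia N μ ↔ ∀ n n' : N, (n' : G) = g * n * g⁻¹ → μ n' = μ n := by
  constructor
  · intro h n n' hn
    have : n' = MulAut.conjNormal g n := by
      ext
      rw [hn, MulAut.conjNormal_apply]
    rw [this]
    exact h n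
  · intro h n
    exact h n _ (MulAut.conjNormal_apply g n)

theorem card_inertia_mul [N.Normal] (μ : Cfsg.IrrCharacter N)
    (hμ : (μ : N → ℂ) ≠ fun _ => (1 : ℂ)) :
    (Nat.card N - 1) * Nat.card (inertia N (μ : N → ℂ)) = Nat.card G := by
  classical
  have := Fintype.ofFinite G
  obtain ⟨x0, hx01, hx0, hall⟩ := exists_rep χ hχ
  have hx0N : x0 ∈ N := (hN x0).2 hx0
  obtain ⟨p, hp, hcomm, -⟩ := N_elementary χ hχ N hN
  have hμ1 : (μ : N → ℂ) 1 = 1 := irr_one_of_comm μ.2
  set T := inertia N (μ : N → ℂ) with hT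
  let cj : G →* MulAut N := MulAut.conjNormal
  let F : N → ℂ := fun y => ∑ g : G, (μ : N → ℂ) (cj g y)
  have F1 : F 1 = (Nat.card G : ℂ) := by
    simp only [F, map_one, hμ1, Finset.sum_const, Finset.card_univ, nsmul_eq_mul, mul_one,
      Nat.card_eq_fintype_card]
  have F2 : ∀ (a : G) (y : N), F (cj a y) = F y := by
    intro a y
    simp only [F]
    refine Fintype.sum_equiv (Equiv.mulRight a) _ _ fun g => ?_
    rw [Equiv.coe_mulRight, map_mul, MulAut.mul_apply]
  have F3 : ∑ y : N, F y = 0 := by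
    simp only [F]
    rw [Finset.sum_comm]
    refine Finset.sum_eq_zero fun g _ => ?_
    exact (Equiv.sum_comp (cj g).toEquiv (fun y => (μ : N → ℂ) y)).trans
      (irr_sum_eq_zero μ.2 hμ)
  have F4 : ∀ y : N, y ≠ 1 → F y = F ⟨x0, hx0N⟩ := by
    intro y hy
    obtain ⟨g, hg⟩ := N_conj χ hχ N hN x0 y hx0N y.2 hx01 (by
      intro h; exact hy (Subtype.ext h))
    have : y = cj g ⟨x0, hx0N⟩ := by
      ext
      rw [← hg]
      exact (MulAut.conjNormal_apply g ⟨x0, hx0N⟩).symm
    rw [this, F2]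
  set v := F ⟨x0, hx0N⟩ with hv
  have Φ : ∀ k : G, ∑ z : N, (μ : N → ℂ) (cj k z) * (μ : N → ℂ) z⁻¹ =
      if k ∈ T then (Nat.card N : ℂ) else 0 := by
    intro k
    split_ifs with hk
    · have : ∀ z : N, (μ : N → ℂ) (cj k z) = (μ : N → ℂ) z := hk
      simp_rw [this]
      exact irr_sum_mul_inv_self μ.2
    · apply irr_sum_mul_inv_ne (irr_comp_mulEquiv (cj k) μ.2) μ.2
      intro h
      exact hk (fun n => congrFun h n)
  have F5 : ∑ y : N, F y * F y⁻¹ = (Nat.card G : ℂ) * ((Nat.card N : ℂ) * (Nat.card T : ℂ)) := by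
    have step1 : ∀ g h : G, ∑ y : N, (μ : N → ℂ) (cj g y) * (μ : N → ℂ) (cj h y⁻¹) =
        if g * h⁻¹ ∈ T then (Nat.card N : ℂ) else 0 := by
      intro g h
      rw [← Φ]
      refine Fintype.sum_equiv (cj h).toEquiv _ _ fun y => ?_
      have e1 : (cj (g * h⁻¹)) ((cj h).toEquiv y) = cj g y := by
        change (cj (g * h⁻¹)) (cj h y) = cj g y
        rw [← MulAut.mul_apply, ← map_mul, inv_mul_cancel_right]
      have e2 : ((cj h).toEquiv y)⁻¹ = cj h y⁻¹ := by
        change (cj h y)⁻¹ = cj h y⁻¹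
        rw [map_inv]
      rw [e1, e2]
    simp only [F, Finset.sum_mul_sum]
    rw [Finset.sum_comm]
    simp_rw [Finset.sum_comm (s := (Finset.univ : Finset N))]
    simp_rw [step1]
    rw [Finset.sum_comm]
    have step2 : ∀ h : G, ∑ g : G, (if g * h⁻¹ ∈ T then (Nat.card N : ℂ) else 0) =
        (Nat.card N : ℂ) * (Nat.card T : ℂ) := by
      intro h
      rw [Fintype.sum_equiv (Equiv.mulRight h⁻¹)
        (fun g => if g * h⁻¹ ∈ T then (Nat.card N : ℂ) else 0)
        (fun k => if k ∈ T then (Nat.card N : ℂ) else 0) (fun g => rfl)]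
      rw [← sum_subgroup T (fun _ => (Nat.card N : ℂ))]
      rw [Finset.sum_const, Finset.card_univ, nsmul_eq_mul, Nat.card_eq_fintype_card (α := T)]
      ring
    simp_rw [step2]
    rw [Finset.sum_const, Finset.card_univ, nsmul_eq_mul, Nat.card_eq_fintype_card (α := G)]
  rw [sum_const_off_one F v F4] at F3
  rw [sum_const_off_one (fun y => F y * F y⁻¹) (v * v) (by
    intro a ha
    rw [F4 a ha, F4 a⁻¹ (by simpa using ha)])] at F5
  rw [inv_one, F1] at F5
  rw [F1] at F3
  have hc2 := card_N_ge_two χ hχ N hN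
  have hcast : ((Nat.card N - 1 : ℕ) : ℂ) = (Nat.card N : ℂ) - 1 := by
    rw [Nat.cast_sub (by omega)]; simp
  have hG0 : (Nat.card G : ℂ) ≠ 0 := by exact_mod_cast Nat.card_pos.ne'
  have hN0 : (Nat.card N : ℂ) ≠ 0 := by exact_mod_cast (by omega : Nat.card N ≠ 0)
  have key : ((Nat.card N - 1 : ℕ) : ℂ) * (Nat.card T : ℂ) = (Nat.card G : ℂ) := by
    rw [hcast]
    have : (Nat.card G : ℂ) * (Nat.card N : ℂ) *
        (((Nat.card N : ℂ) - 1) * (Nat.card T : ℂ) - (Nat.card G : ℂ)) = 0 := by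
      linear_combination (((Nat.card N : ℂ) - 1) * v - (Nat.card G : ℂ)) * F3 -
        ((Nat.card N : ℂ) - 1) * F5
    exact sub_eq_zero.1 ((mul_eq_zero.1 this).resolve_left (mul_ne_zero hG0 hN0))
  exact_mod_cast key

end withN

end Cfsg.Agent.Lib.Helper83Gagola
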