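import Mathlib
import Cfsg.Prelude.Def_Characters
import Cfsg.Prelude.Def_Blocks
import Cfsg.Prelude.Def_Transfer
import Cfsg.Agent.Lib.Helper83Gagola
import Cfsg.Agent.Lib.Helper4Char2
import Cfsg.Agent.Lib.Helper82Quot

set_option autoImplicit false
set_option linter.unusedSectionVars false

namespace Cfsg.Agent.Lib.Helper83Gagola2

open Cfsg.Agent.Lib.Helper83Char Cfsg.Agent.Lib.Helper83Gagola
open Cfsg.Agent.Lib.Helper4Char Cfsg.Agent.Lib.Helper4Char2 Cfsg.Agent.Lib.Helper82Quot
open scoped ComplexConjugate commutatorElement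

variable {G : Type*} [Group G] [Finite G]

variable (χ : Cfsg.IrrCharacter G)
  (hχ : Nat.card {C : ConjClasses G // ∃ g ∈ C.carrier, (χ : G → ℂ) g ≠ 0} = 2)
  (N : Subgroup G) (hN : ∀ g : G, g ∈ N ↔ (χ : G → ℂ) g ≠ 0)

include hχ hN

theorem ne_imp_ker (hG : 2 < Nat.card G) (ψ : Cfsg.IrrCharacter G) (hne : ψ ≠ χ) :
    ∀ n ∈ N, (ψ : G → ℂ) n = (ψ : G → ℂ) 1 := by
  have hψc := isCharacter_of_irr ψ.2
  have hK : charKer hψc ≠ ⊥ := by
    intro h
    apply hne
    apply unique_faithful χ hχ N hN hG ψ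
    intro g hg
    have : g ∈ charKer hψc := (mem_charKer hψc g).2 hg
    rw [h, Subgroup.mem_bot] at this
    exact this
  intro n hn
  exact (mem_charKer hψc n).1 (N_le_of_normal χ hχ N hN _ inferInstance hK hn)

theorem card_centralizer_quot [N.Normal] (hG : 2 < Nat.card G) (x : G) (hx : x ∉ N) :
    Nat.card (Subgroup.centralizer ({x} : Set G)) =
      Nat.card (Subgroup.centralizer ({(x : G ⧸ N)} : Set (G ⧸ N))) := by
  classical
  have := Fintype.ofFinite G
  have := Fintype.ofFinite (G ⧸ N)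
  have h1 := col_orth x x
  rw [if_pos (IsConj.refl x)] at h1
  have h2 := col_orth (x : G ⧸ N) (x : G ⧸ N)
  rw [if_pos (IsConj.refl _)] at h2
  have hχx : (χ : G → ℂ) x = 0 := by
    by_contra h
    exact hx ((hN x).2 h)
  have key : ∑ ψ : Cfsg.IrrCharacter G, (ψ : G → ℂ) x * conj ((ψ : G → ℂ) x) =
      ∑ ψ : Cfsg.IrrCharacter (G ⧸ N), (ψ : G ⧸ N → ℂ) x * conj ((ψ : G ⧸ N → ℂ) x) := by
    rw [← Fintype.sum_subtype_add_sum_subtype
      (fun ψ : Cfsg.IrrCharacter G => ∀ n ∈ N, (ψ : G → ℂ) n = (ψ : G → ℂ) 1)]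
    have hz : ∑ ψ : {ψ : Cfsg.IrrCharacter G // ¬ ∀ n ∈ N, (ψ : G → ℂ) n = (ψ : G → ℂ) 1},
        ((ψ : Cfsg.IrrCharacter G) : G → ℂ) x * conj (((ψ : Cfsg.IrrCharacter G) : G → ℂ) x) = 0 := by
      refine Finset.sum_eq_zero fun ψ _ => ?_
      have : (ψ : Cfsg.IrrCharacter G) = χ := by
        by_contra hne
        exact ψ.2 (ne_imp_ker χ hχ N hN hG ψ hne)
      rw [this, hχx, zero_mul]
    rw [hz, add_zero]
    exact (Fintype.sum_equiv (irrQuotEquiv N) _ _ (fun ψ => rfl)).symm
  rw [h1, h2] at key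
  exact_mod_cast key


/-- a `p`-subgroup of the centralizer of an element outside `N` is small -/
theorem card_mul_le [N.Normal] (hG : 2 < Nat.card G) (p : ℕ) [Fact p.Prime]
    (hNp : IsPGroup p N) (z : G) (hz : z ∉ N) (Q : Subgroup G) (hQ : IsPGroup p Q)
    (hQz : Q ≤ Subgroup.centralizer ({z} : Set G)) :
    Nat.card Q * Nat.card N ∣ p ^ (Nat.card G).factorization p := by
  have hp : p.Prime := Fact.out
  have h1 : Nat.card Q ∣ Nat.card (Subgroup.centralizer ({z} : Set G)) :=
    Subgroup.card_dvd_of_le hQz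
  rw [card_centralizer_quot χ hχ N hN hG z hz] at h1
  have h2 : Nat.card Q ∣ Nat.card (G ⧸ N) := h1.trans (Subgroup.card_subgroup_dvd_card _)
  have h3 : Nat.card Q * Nat.card N ∣ Nat.card G := by
    rw [Subgroup.card_eq_card_quotient_mul_card_subgroup N]
    exact Nat.mul_dvd_mul_right h2 _
  obtain ⟨a, ha⟩ := (IsPGroup.iff_card).1 hNp
  obtain ⟨b, hb⟩ := (IsPGroup.iff_card).1 hQ
  rw [ha, hb, ← pow_add] at h3 ⊢
  exact pow_dvd_pow p ((Nat.Prime.pow_dvd_iff_le_factorization hp Nat.card_pos.ne').1 h3)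

theorem center_le [N.Normal] (hG : 2 < Nat.card G) (p : ℕ) [Fact p.Prime]
    (hNp : IsPGroup p N) (P : Sylow p G) :
    (Subgroup.center ↥(P : Subgroup G)).map (P : Subgroup G).subtype ≤ N := by
  rintro _ ⟨z, hz, rfl⟩
  by_contra hzN
  have hPz : (P : Subgroup G) ≤ Subgroup.centralizer ({((P : Subgroup G).subtype z)} : Set G) := by
    intro h hh
    rw [Subgroup.mem_centralizer_singleton_iff]
    have := Subgroup.mem_center_iff.1 hz ⟨h, hh⟩
    exact congrArg Subtype.val this
  have h1 := card_mul_le χ hχ N hN hG p hNp _ hzN (P : Subgroup G) P.2 hPz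
  rw [P.card_eq_multiplicity] at h1
  have h2 := card_N_ge_two χ hχ N hN
  have hpos : 0 < p ^ (Nat.card G).factorization p := pow_pos (Fact.out : p.Prime).pos _
  have h3 := Nat.le_of_dvd hpos h1
  nlinarith

theorem sylow_eq_centralizer (hG : 2 < Nat.card G) (p : ℕ) [Fact p.Prime]
    (hNp : IsPGroup p N) (P : Sylow p G) (x : G) (hx : x ∈ N) (hx1 : x ≠ 1)
    (hPx : (P : Subgroup G) ≤ Subgroup.centralizer ({x} : Set G)) :
    (P : Subgroup G) = Subgroup.centralizer ({x} : Set G) := by
  apply Subgroup.eq_of_le_of_card_ge hPx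
  rw [card_centralizer_eq χ hχ N hN hG p hNp x hx hx1, P.card_eq_multiplicity]

theorem center_eq_iff [N.Normal] (hG : 2 < Nat.card G) (p : ℕ) [Fact p.Prime]
    (hNp : IsPGroup p N) (P : Sylow p G) :
    (Subgroup.center ↥(P : Subgroup G)).map (P : Subgroup G).subtype = N ↔
      (P : Subgroup G).Normal := by
  obtain ⟨x0, hx01, hx0, hall⟩ := exists_rep χ hχ
  have hx0N : x0 ∈ N := (hN x0).2 hx0
  constructor
  · intro hZ
    have hcent : ∀ x ∈ N, (P : Subgroup G) ≤ Subgroup.centralizer ({x} : Set G) := by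
      intro x hx h hh
      rw [← hZ] at hx
      obtain ⟨z, hz, rfl⟩ := hx
      rw [Subgroup.mem_centralizer_singleton_iff]
      have := Subgroup.mem_center_iff.1 hz ⟨h, hh⟩
      exact congrArg Subtype.val this
    constructor
    intro h hh g
    have hgx : g * x0 * g⁻¹ ∈ N := (inferInstance : N.Normal).conj_mem x0 hx0N g
    have hgx1 : g * x0 * g⁻¹ ≠ 1 := by
      intro h1
      apply hx01
      have : x0 = g⁻¹ * (g * x0 * g⁻¹) * g := by group
      rw [this, h1]; group
    rw [sylow_eq_centralizer χ hχ N hN hG p hNp P _ hgx hgx1 (hcent _ hgx),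
      Subgroup.mem_centralizer_singleton_iff]
    have h2 := Subgroup.mem_centralizer_singleton_iff.1 (hcent x0 hx0N hh)
    calc g * h * g⁻¹ * (g * x0 * g⁻¹) = g * (h * x0) * g⁻¹ := by group
      _ = g * (x0 * h) * g⁻¹ := by rw [h2]
      _ = g * x0 * g⁻¹ * (g * h * g⁻¹) := by group
  · intro hPn
    apply le_antisymm (center_le χ hχ N hN hG p hNp P)
    have huniq : ∀ Q : Sylow p G, Q = P := by
      intro Q
      have := Sylow.unique_of_normal P hPn
      exact Subsingleton.elim _ _
    have hNP : N ≤ (P : Subgroup G) := by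
      obtain ⟨Q, hQ⟩ := hNp.exists_le_sylow
      rw [huniq Q] at hQ
      exact hQ
    intro x hx
    refine ⟨⟨x, hNP hx⟩, ?_, rfl⟩
    rw [SetLike.mem_coe, Subgroup.mem_center_iff]
    intro h
    by_cases hx1 : x = 1
    · subst hx1
      ext; simp
    · have hc := card_centralizer_eq χ hχ N hN hG p hNp x hx hx1
      have h1 : (Sylow.ofCard _ hc : Sylow p G) = P := huniq _
      have h2 : Subgroup.centralizer ({x} : Set G) = (P : Subgroup G) := by
        rw [← h1]; rfl
      have h3 : (h : G) ∈ Subgroup.centralizer ({x} : Set G) := by rw [h2]; exact h.2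
      ext
      exact Subgroup.mem_centralizer_singleton_iff.1 h3

theorem exists_upperCentralSeries [N.Normal] (hG : 2 < Nat.card G) (p : ℕ) [Fact p.Prime]
    (hNp : IsPGroup p N) (P : Sylow p G) :
    ∃ i : ℕ, Subgroup.upperCentralSeries ↥(P : Subgroup G) i = N.subgroupOf (P : Subgroup G) := by
  classical
  by_contra hcon
  push Not at hcon
  have hNP : N ≤ (P : Subgroup G) := by
    obtain ⟨Q, hQ⟩ := hNp.exists_le_sylow
    obtain ⟨g, hg⟩ := MulAction.exists_smul_eq G Q P
    rw [← hg]
    intro n hn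
    rw [Sylow.coe_subgroup_smul, Subgroup.mem_smul_pointwise_iff_exists]
    refine ⟨g⁻¹ * n * g, hQ ?_, ?_⟩
    · have := (inferInstance : N.Normal).conj_mem n hn g⁻¹
      simpa using this
    · simp [MulAut.conj_apply, mul_assoc]
  have hcardN : Nat.card (N.subgroupOf (P : Subgroup G)) = Nat.card N :=
    Nat.card_congr (Subgroup.subgroupOfEquivOfLe hNP).toEquiv
  have hstep : ∀ i : ℕ, Subgroup.upperCentralSeries ↥(P : Subgroup G) i ≤
      N.subgroupOf (P : Subgroup G) := by
    intro i
    induction i with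
    | zero => simp
    | succ i ih =>
      intro z hz
      rw [Subgroup.mem_subgroupOf]
      by_contra hzN
      rw [Subgroup.mem_upperCentralSeries_succ_iff] at hz
      set Zi := Subgroup.upperCentralSeries ↥(P : Subgroup G) i with hZi
      have hlt : Nat.card Zi < Nat.card N := by
        rw [← hcardN]
        exact lt_of_not_ge (fun h => hcon i (Subgroup.eq_of_le_of_card_ge ih h))
      have hinj : Nat.card {h : ↥(P : Subgroup G) // IsConj z h} ≤ Nat.card Zi := by
        apply Nat.card_le_card_of_injective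
          (fun h : {h : ↥(P : Subgroup G) // IsConj z h} => (⟨h.1 * z⁻¹, by
            obtain ⟨c, hc⟩ := isConj_iff.1 h.2
            rw [← hc]
            have := Zi.inv_mem (hz c)
            have e : ⁅z, c⁆⁻¹ = c * z * c⁻¹ * z⁻¹ := by rw [commutatorElement_def]; group
            rwa [e] at this⟩ : Zi))
        intro a b hab
        have := congrArg Subtype.val hab
        simp only [mul_left_inj] at this
        exact Subtype.ext this
      have hcl := Helper83Char.card_isConj_mul_card_centralizer z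
      set C := Subgroup.centralizer ({z} : Set ↥(P : Subgroup G)) with hC
      have hCp : IsPGroup p (C.map (P : Subgroup G).subtype) :=
        (P.2.to_subgroup C).map _
      have hCz : C.map (P : Subgroup G).subtype ≤ Subgroup.centralizer ({(z : G)} : Set G) := by
        rintro _ ⟨c, hc, rfl⟩
        rw [Subgroup.mem_centralizer_singleton_iff]
        exact congrArg Subtype.val (Subgroup.mem_centralizer_singleton_iff.1 hc)
      have h1 := card_mul_le χ hχ N hN hG p hNp _ hzN _ hCp hCz
      have hcardC : Nat.card (C.map (P : Subgroup G).subtype) = Nat.card C :=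
        Subgroup.card_map_of_injective (Subgroup.subtype_injective _)
      rw [hcardC, ← P.card_eq_multiplicity] at h1
      have h2 := Nat.le_of_dvd Nat.card_pos h1
      have hCpos : 0 < Nat.card C := Nat.card_pos
      have h3 : Nat.card ↥(P : Subgroup G) ≤ Nat.card Zi * Nat.card C := by
        rw [← hcl]
        exact Nat.mul_le_mul_right _ hinj
      have h4 : Nat.card Zi * Nat.card C < Nat.card N * Nat.card C :=
        Nat.mul_lt_mul_of_pos_right hlt hCpos
      have h5 : Nat.card N * Nat.card C = Nat.card C * Nat.card N := mul_comm _ _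
      omega
  have hnil : Group.IsNilpotent ↥(P : Subgroup G) := P.2.isNilpotent
  obtain ⟨k, hk⟩ := hnil.nilpotent
  have h1 := hstep k
  rw [hk] at h1
  exact hcon k (hk.trans (le_antisymm h1 le_top))

end Cfsg.Agent.Lib.Helper83Gagola2
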