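import Mathlib
import Cfsg.Prelude.Def_Characters
import Cfsg.Prelude.Def_Blocks
import Cfsg.Prelude.Def_Local
import Cfsg.Agent.Lib.Helper83Char
import Cfsg.Agent.Lib.Helper83Ito
import Cfsg.Agent.Lib.Helper80PSolv
import Cfsg.Agent.Lib.Helper73PCompl
import Cfsg.Agent.Lib.Helper82Quot
import Cfsg.Agent.Lib.Helper19Det
import Cfsg.Agent.Lib.Helper19Cliff
import Cfsg.Agent.Lib.Helper19Ratio
import Cfsg.Agent.Lib.Helper83SR

set_option autoImplicit false

/-! Number of irreducible characters of degree divisible by `p` and the derived length of a Sylow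
`p`-subgroup of a `p`-solvable group. -/

namespace Cfsg.Agent.Lib.Helper83PSing

open Cfsg

universe u

/-- number of irreducible characters of degree divisible by `p`. -/
noncomputable def nS (p : ℕ) (G : Type*) [Group G] : ℕ :=
  Nat.card {χ : IrrCharacter G // p ∣ charDegree (χ : G → ℂ)}

section Derived

variable {G : Type*} [Group G]

theorem derived_le_of_quot (N : Subgroup G) [N.Normal] (Q : Subgroup G) (k : ℕ)
    (h : derivedSeries ↥(Q.map (QuotientGroup.mk' N)) k = ⊥) :
    ∀ x ∈ derivedSeries ↥Q k, (x : G) ∈ N := by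
  intro x hx
  set f : Q →* ↥(Q.map (QuotientGroup.mk' N)) := (QuotientGroup.mk' N).subgroupMap Q with hf
  have hs : Function.Surjective f := (QuotientGroup.mk' N).subgroupMap_surjective Q
  have h1 : f x ∈ derivedSeries ↥(Q.map (QuotientGroup.mk' N)) k :=
    map_derivedSeries_le_derivedSeries f k ⟨x, hx, rfl⟩
  rw [h, Subgroup.mem_bot] at h1
  have h2 := congrArg Subtype.val h1
  exact (QuotientGroup.eq_one_iff (x : G)).mp h2

theorem derived_succ_eq_bot (N : Subgroup G) (hN : ∀ a ∈ N, ∀ b ∈ N, a * b = b * a)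
    (Q : Subgroup G) (k : ℕ) (h : ∀ x ∈ derivedSeries ↥Q k, (x : G) ∈ N) :
    derivedSeries ↥Q (k + 1) = ⊥ := by
  rw [derivedSeries_succ, Subgroup.commutator_eq_bot_iff_le_centralizer]
  intro x hx
  rw [Subgroup.mem_centralizer_iff]
  intro y hy
  apply Subtype.ext
  exact hN _ (h y hy) _ (h x hx)

theorem derived_eq_bot_of_le {H : Type*} [Group H] {k l : ℕ} (hkl : k ≤ l)
    (h : derivedSeries H k = ⊥) : derivedSeries H l = ⊥ :=
  le_bot_iff.mp ((derivedSeries_antitone H hkl).trans h.le)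

end Derived

section Count

variable {G : Type*} [Group G] [Finite G] (p : ℕ)

theorem nS_quot_le (N : Subgroup G) [N.Normal] : nS p (G ⧸ N) ≤ nS p G := by
  have : Finite (IrrCharacter G) := Cfsg.Agent.Lib.Helper4Char.finite_irrCharacter
  refine Nat.card_le_card_of_injective
    (fun θ : {θ : IrrCharacter (G ⧸ N) // p ∣ charDegree (θ : G ⧸ N → ℂ)} =>
      (⟨Cfsg.Agent.Lib.Helper82Quot.inflate N θ.1, θ.2⟩ :
        {χ : IrrCharacter G // p ∣ charDegree (χ : G → ℂ)})) ?_
  intro a b hab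
  apply Subtype.ext
  exact Cfsg.Agent.Lib.Helper82Quot.inflate_injective N (congrArg Subtype.val hab)

theorem nS_quot_lt (N : Subgroup G) [N.Normal] (χ : IrrCharacter G)
    (h1 : p ∣ charDegree (χ : G → ℂ)) (h2 : ∃ n ∈ N, (χ : G → ℂ) n ≠ (χ : G → ℂ) 1) :
    nS p (G ⧸ N) < nS p G := by
  classical
  have : Finite (IrrCharacter G) := Cfsg.Agent.Lib.Helper4Char.finite_irrCharacter
  have : Finite (IrrCharacter (G ⧸ N)) := Cfsg.Agent.Lib.Helper4Char.finite_irrCharacter
  have : Fintype {χ : IrrCharacter G // p ∣ charDegree (χ : G → ℂ)} := Fintype.ofFinite _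
  have : Fintype {θ : IrrCharacter (G ⧸ N) // p ∣ charDegree (θ : G ⧸ N → ℂ)} :=
    Fintype.ofFinite _
  unfold nS
  rw [Nat.card_eq_fintype_card, Nat.card_eq_fintype_card]
  refine Fintype.card_lt_of_injective_of_notMem
    (fun θ : {θ : IrrCharacter (G ⧸ N) // p ∣ charDegree (θ : G ⧸ N → ℂ)} =>
      (⟨Cfsg.Agent.Lib.Helper82Quot.inflate N θ.1, θ.2⟩ :
        {χ : IrrCharacter G // p ∣ charDegree (χ : G → ℂ)})) ?_ (b := ⟨χ, h1⟩) ?_
  · intro a b hab
    apply Subtype.ext
    exact Cfsg.Agent.Lib.Helper82Quot.inflate_injective N (congrArg Subtype.val hab)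
  · rintro ⟨θ, hθ⟩
    obtain ⟨n, hn, hne⟩ := h2
    apply hne
    have h3 : Cfsg.Agent.Lib.Helper82Quot.inflate N θ.1 = χ := congrArg Subtype.val hθ
    rw [← h3]
    exact Cfsg.Agent.Lib.Helper82Quot.inflate_ker N θ.1 hn

end Count

section Ito

theorem ito_psolv {G : Type u} [Group G] [Finite G] (p : ℕ) [Fact p.Prime]
    (hG : IsPSolvable p G) (h : ∀ χ : IrrCharacter G, ¬ p ∣ charDegree (χ : G → ℂ))
    (P : Sylow p G) : ∀ a b : (P : Subgroup G), a * b = b * a := by
  have hn := Cfsg.Agent.Lib.Helper83Ito.normal_sylow_aux p (fun (H : Type u) _ => IsPSolvable p H)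
    (fun H _ _ N _ hH => Cfsg.Agent.Lib.Helper80PSolv.isPSolvable_quotient Fact.out hH N)
    (fun H _ _ _ hH => by
      obtain ⟨N, h1, h2, h3⟩ := Cfsg.Agent.Lib.Helper80PSolv.exists_normal_of_isPSolvable hH
      refine ⟨N, h1, h2, ?_⟩
      rcases h3 with ⟨m, hm⟩ | h3
      · exact Or.inl (IsPGroup.of_card hm)
      · exact Or.inr h3)
    (Nat.card G) G rfl hG h P
  exact Cfsg.Agent.Lib.Helper83Ito.comm_of_normal p h (P : Subgroup G) P.2 hn

end Ito

section Rel

open Cfsg.Agent.Lib.Helper19Lin Cfsg.Agent.Lib.Helper19Det Cfsg.Agent.Lib.Helper4Char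
  Cfsg.Agent.Lib.Helper4Char4 Cfsg.Agent.Lib.Helper19Cliff Cfsg.Agent.Lib.Helper83SR

open scoped commutatorElement

theorem detChar_const {F : Type*} [Group F] [Finite F] (m : ℕ) :
    IsCharacter F (fun _ => (m : ℂ)) ∧ detChar (fun _ : F => (m : ℂ)) = 1 := by
  have h1 : (Representation.trivial ℂ F (Fin m → ℂ)).character = fun _ => (m : ℂ) := by
    funext g
    show LinearMap.trace ℂ _ (Representation.trivial ℂ F (Fin m → ℂ) g) = _
    have h0 : Representation.trivial ℂ F (Fin m → ℂ) g = LinearMap.id := rfl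
    rw [h0]
    simp
  constructor
  · rw [← h1]; exact isCharacter_of_rep _
  · rw [← h1, detChar_rep]
    funext g
    have h0 : Representation.trivial ℂ F (Fin m → ℂ) g = LinearMap.id := rfl
    rw [h0]
    simp

theorem exists_ext {T F : Type*} [Group T] [Group F] [Finite T] [Finite F] (ι : F →* T)
    (lam : F →* ℂˣ) {ψ : T → ℂ} (hψ : IsCharacter T ψ) (m q : ℕ)
    (hres : ∀ f, ψ (ι f) = m * homFun lam f) (hq : lam ^ q = 1) (hcop : Nat.Coprime q m) :
    ∃ μ : T →* ℂˣ, ∀ f, μ (ι f) = lam f := by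
  obtain ⟨δ, hδ⟩ := exists_detHom hψ
  have h1 := detChar_comp ι hψ
  have h2 : (fun n => ψ (ι n)) = homFun lam * (fun _ => (m : ℂ)) := by
    funext f
    rw [hres, Pi.mul_apply, mul_comm]
  rw [h2, detChar_homFun_mul lam (detChar_const m).1 m rfl, (detChar_const m).2, mul_one, hδ] at h1
  obtain ⟨b, hb⟩ := root_exists lam q m hq hcop
  refine ⟨δ ^ b, fun f => ?_⟩
  have h3 := congrFun h1 f
  rw [Pi.pow_apply, homFun_apply, homFun_apply] at h3
  have h4 : δ (ι f) = lam f ^ m := by
    apply Units.ext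
    rw [← h3, Units.val_pow_eq_pow_val]
  rw [MonoidHom.pow_apply, h4]
  have h5 := DFunLike.congr_fun hb f
  rw [MonoidHom.pow_apply, MonoidHom.pow_apply] at h5
  rw [← pow_mul, mul_comm, pow_mul, h5]

section Ind2

variable {G : Type*} [Group G] [Fintype G] (N : Subgroup G) [hN : N.Normal] (T : Subgroup G)
    (hNT : N ≤ T) [Fintype N] [Fintype T] (lam : N →* ℂˣ)
    (hT : ∀ g : G, g ∈ T ↔ ∀ n : N, lam (MulAut.conjNormal g n) = lam n)

include hT in
theorem ind_irr2 {ψ : T → ℂ} (hψ : IsIrrCharacter T ψ)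
    (h : classInner (fun n => ψ (Subgroup.inclusion hNT n)) (homFun lam) ≠ 0) :
    IsIrrCharacter G (ind T.subtype ψ) :=
  ind_inertia_isIrr T.subtype T.subtype_injective (Subgroup.inclusion hNT)
    (Subgroup.inclusion_injective hNT) MulAut.conjNormal (hc_aux N T hNT)
    (irr_homFun lam) (hT_aux N T lam hT) hψ h

include hT in
theorem ind_not_ker2 (hlam : lam ≠ 1) {ψ : T → ℂ} (hψ : IsIrrCharacter T ψ)
    (h : classInner (fun n => ψ (Subgroup.inclusion hNT n)) (homFun lam) ≠ 0) :
    ∃ n ∈ N, ind T.subtype ψ n ≠ ind T.subtype ψ 1 := by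
  by_contra hcon
  push Not at hcon
  have h1 := classInner_res_ind_inertia T.subtype T.subtype_injective (Subgroup.inclusion hNT)
    (Subgroup.inclusion_injective hNT) MulAut.conjNormal (hc_aux N T hNT)
    (irr_homFun lam) (hT_aux N T lam hT) hψ h
  have h2 : (fun n : N => ind T.subtype ψ (T.subtype (Subgroup.inclusion hNT n)))
      = (ind T.subtype ψ 1) • (fun _ : N => (1 : ℂ)) := by
    funext n
    have : T.subtype (Subgroup.inclusion hNT n) = (n : G) := rfl
    rw [this, hcon n n.2]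
    simp
  rw [h2, classInner_smul_left, Cfsg.Agent.Lib.Helper4Char.classInner_irr_ne
    (Cfsg.Agent.Lib.Helper82Linear.isIrrCharacter_one (G := N))
    (irr_homFun lam), mul_zero] at h1
  · exact h h1.symm
  · intro h3
    apply hlam
    ext n
    have := congrFun h3 n
    simp only [MonoidHom.one_apply, Units.val_one]
    exact this.symm

omit hN [Fintype N] in
theorem ind_one2 (ψ : T → ℂ) : ind T.subtype ψ 1 = (T.index : ℂ) * ψ 1 := by
  rw [ind_subtype, Cfsg.Agent.Lib.Helper82Mult.indFun_one]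

include hT in
theorem res_eq2 {ψ : T → ℂ} (hψ : IsIrrCharacter T ψ)
    (h : classInner (fun n => ψ (Subgroup.inclusion hNT n)) (homFun lam) ≠ 0) (n : N) :
    ψ (Subgroup.inclusion hNT n) = ψ 1 * homFun lam n := by
  have h1 := res_inertia T.subtype T.subtype_injective (Subgroup.inclusion hNT)
    (Subgroup.inclusion_injective hNT) MulAut.conjNormal (hc_aux N T hNT)
    (irr_homFun lam) (hT_aux N T lam hT) hψ h
  have h2 := congrFun h1 1
  have h3 := congrFun h1 n
  simp only [Pi.smul_apply, smul_eq_mul, map_one, homFun_one, mul_one] at h2 h3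
  rw [h3, ← h2]

include hT in
/-- under the hypothesis, every irreducible character of `T` over `lam` has degree prime to `p`
and `p ∤ |G : T|`. -/
theorem not_dvd_of_over (p : ℕ) (hlam : lam ≠ 1)
    (h : ∀ χ : IrrCharacter G, (∃ a ∈ N, (χ : G → ℂ) a ≠ (χ : G → ℂ) 1) →
      ¬ p ∣ charDegree (χ : G → ℂ))
    {ψ : T → ℂ} (hψ : IsIrrCharacter T ψ)
    (hov : classInner (fun n => ψ (Subgroup.inclusion hNT n)) (homFun lam) ≠ 0) :
    ¬ p ∣ T.index * charDegree ψ := by
  have h1 := ind_irr2 N T hNT lam hT hψ hov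
  have h2 := ind_not_ker2 N T hNT lam hT hlam hψ hov
  have h3 := h ⟨_, h1⟩ h2
  have h4 : charDegree (ind T.subtype ψ) = T.index * charDegree ψ := by
    have h5 := Cfsg.Agent.Lib.Helper82Irr.charDegree_cast (IsIrrCharacter.isCharacter h1)
    rw [ind_one2, ← Cfsg.Agent.Lib.Helper82Irr.charDegree_cast (IsIrrCharacter.isCharacter hψ)] at h5
    exact_mod_cast h5
  rw [← h4]
  exact h3

end Ind2

theorem comm_le_of_rel {G : Type u} [Group G] [Finite G] (p : ℕ) [Fact p.Prime]
    (hG : IsPSolvable p G) (A : Subgroup G) [hAn : A.Normal]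
    (hAc : ∀ a ∈ A, ∀ b ∈ A, a * b = b * a) (hAp : IsPGroup p A) (hA : A ≠ ⊥)
    (h : ∀ χ : IrrCharacter G, (∃ a ∈ A, (χ : G → ℂ) a ≠ (χ : G → ℂ) 1) →
      ¬ p ∣ charDegree (χ : G → ℂ))
    (P : Sylow p G) : ∀ x ∈ P, ∀ y ∈ P, ⁅x, y⁆ ∈ A := by
  classical
  have hp : p.Prime := Fact.out
  have : Fintype G := Fintype.ofFinite G
  obtain ⟨n0, hn0, hn01⟩ : ∃ n ∈ A, n ≠ 1 := by
    by_contra hcon
    push Not at hcon
    exact hA ((Subgroup.eq_bot_iff_forall A).mpr hcon)
  obtain ⟨lam, hlam⟩ : ∃ lam : A →* ℂˣ, lam ⟨n0, hn0⟩ ≠ 1 := by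
    let _ : CommGroup A := { (inferInstance : Group A) with
      mul_comm := fun a b => Subtype.ext (hAc a a.2 b b.2) }
    exact CommGroup.exists_apply_ne_one_of_hasEnoughRootsOfUnity A ℂ
      (fun h => hn01 (congrArg Subtype.val h))
  have hlam1 : lam ≠ 1 := fun h => hlam (by rw [h]; rfl)
  let T : Subgroup G :=
    { carrier := {g | ∀ n : A, lam (MulAut.conjNormal g n) = lam n}
      mul_mem' := by
        intro a b ha hb n
        rw [map_mul, MulAut.mul_apply, ha, hb]
      one_mem' := by intro n; rw [map_one, MulAut.one_apply]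
      inv_mem' := by
        intro a ha n
        have h1 := ha (MulAut.conjNormal a⁻¹ n)
        rw [← MulAut.mul_apply, ← map_mul, mul_inv_cancel, map_one, MulAut.one_apply] at h1
        exact h1.symm }
  have hT : ∀ g : G, g ∈ T ↔ ∀ n : A, lam (MulAut.conjNormal g n) = lam n := fun g => Iff.rfl
  have hNT : A ≤ T := by
    intro m hm n
    congr 1
    apply Subtype.ext
    rw [MulAut.conjNormal_apply, hAc m hm n n.2]
    group
  -- a character over lam
  obtain ⟨χ, hχ⟩ := Cfsg.Agent.Lib.Helper83Ito.exists_over A (irr_homFun lam)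
  obtain ⟨ψ, hψ, hψχ, hψin⟩ := clifford_corr T.subtype T.subtype_injective (Subgroup.inclusion hNT)
    (Subgroup.inclusion_injective hNT) MulAut.conjNormal (hc_aux A T hNT)
    (irr_homFun lam) (hT_aux A T lam hT) χ.2 hχ
  have hov : classInner (fun n => ψ (Subgroup.inclusion hNT n)) (homFun lam) ≠ 0 := by
    rw [hψin]; exact hχ
  have hnd := not_dvd_of_over A T hNT lam hT p hlam1 h hψ hov
  have hndT : ¬ p ∣ T.index := fun hd => hnd (Dvd.dvd.mul_right hd _)
  have hndψ : ¬ p ∣ charDegree ψ := fun hd => hnd (Dvd.dvd.mul_left hd _)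
  -- extension
  obtain ⟨k, hk⟩ := (IsPGroup.iff_card (p := p) (G := A)).mp hAp
  obtain ⟨μ, hμ⟩ := exists_ext (Subgroup.inclusion hNT) lam (IsIrrCharacter.isCharacter hψ)
    (charDegree ψ) (Nat.card A)
    (fun f => by
      rw [Cfsg.Agent.Lib.Helper82Irr.charDegree_cast (IsIrrCharacter.isCharacter hψ)]
      exact res_eq2 A T hNT lam hT hψ hov f)
    (hom_pow_card_eq_one lam)
    (by rw [hk]; exact Nat.Coprime.pow_left _ ((Nat.Prime.coprime_iff_not_dvd hp).mpr hndψ))
  -- characters of T/A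
  have hAT : (A.subgroupOf T).Normal := inferInstance
  have hquot : ∀ β : IrrCharacter (T ⧸ A.subgroupOf T), ¬ p ∣ charDegree (β : T ⧸ A.subgroupOf T → ℂ) := by
    intro β
    have hirr : IsIrrCharacter T (homFun μ * (Cfsg.Agent.Lib.Helper82Quot.inflate (A.subgroupOf T) β : T → ℂ)) :=
      isIrr_homFun_mul μ (Cfsg.Agent.Lib.Helper82Quot.inflate (A.subgroupOf T) β).2
    have hres : (fun n => (homFun μ * (Cfsg.Agent.Lib.Helper82Quot.inflate (A.subgroupOf T) β : T → ℂ))
        (Subgroup.inclusion hNT n)) = ((β : T ⧸ A.subgroupOf T → ℂ) 1) • homFun lam := by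
      funext n
      rw [Pi.mul_apply, Pi.smul_apply, homFun_apply, hμ, homFun_apply, smul_eq_mul, mul_comm]
      congr 1
      have := Cfsg.Agent.Lib.Helper82Quot.inflate_ker (A.subgroupOf T) β
        (n := Subgroup.inclusion hNT n) (by rw [Subgroup.mem_subgroupOf]; exact n.2)
      rw [this]
      rfl
    have hov2 : classInner (fun n => (homFun μ * (Cfsg.Agent.Lib.Helper82Quot.inflate (A.subgroupOf T) β : T → ℂ))
        (Subgroup.inclusion hNT n)) (homFun lam) ≠ 0 := by
      rw [hres, classInner_smul_left, classInner_irr_self (irr_homFun lam), mul_one]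
      exact Cfsg.Agent.Lib.Helper83Char.irr_one_ne_zero β.2
    have hnd2 := not_dvd_of_over A T hNT lam hT p hlam1 h hirr hov2
    have hdeg : charDegree (homFun μ * (Cfsg.Agent.Lib.Helper82Quot.inflate (A.subgroupOf T) β : T → ℂ))
        = charDegree (β : T ⧸ A.subgroupOf T → ℂ) := by
      unfold charDegree
      rw [Pi.mul_apply, homFun_one, one_mul]
      rfl
    rw [hdeg] at hnd2
    exact fun hd => hnd2 (Dvd.dvd.mul_left hd _)
  have hTsolv : IsPSolvable p (T ⧸ A.subgroupOf T) :=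
    Cfsg.Agent.Lib.Helper80PSolv.isPSolvable_quotient hp
      (Cfsg.Agent.Lib.Helper73PCompl.isPSolvable_subgroup T hG) _
  obtain ⟨P₁, hP₁⟩ := Cfsg.Agent.Lib.Helper80PSolv.exists_sylow_le_of_not_dvd_index hndT
  have key : ∀ x ∈ P₁, ∀ y ∈ P₁, ⁅x, y⁆ ∈ A := by
    intro x hx y hy
    have hpg : IsPGroup p (((P₁ : Subgroup G).subgroupOf T).map (QuotientGroup.mk' (A.subgroupOf T))) :=
      (P₁.2.comap_subtype).map _
    obtain ⟨S, hS⟩ := hpg.exists_le_sylow
    have hab := ito_psolv p hTsolv hquot S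
    have hx' : QuotientGroup.mk' (A.subgroupOf T) ⟨x, hP₁ hx⟩ ∈ S :=
      hS ⟨⟨x, hP₁ hx⟩, by rw [SetLike.mem_coe, Subgroup.mem_subgroupOf]; exact hx, rfl⟩
    have hy' : QuotientGroup.mk' (A.subgroupOf T) ⟨y, hP₁ hy⟩ ∈ S :=
      hS ⟨⟨y, hP₁ hy⟩, by rw [SetLike.mem_coe, Subgroup.mem_subgroupOf]; exact hy, rfl⟩
    have h1 := congrArg Subtype.val (hab ⟨_, hx'⟩ ⟨_, hy'⟩)
    simp only [Subgroup.coe_mul] at h1
    have h2 : QuotientGroup.mk' (A.subgroupOf T) ⁅(⟨x, hP₁ hx⟩ : T), ⟨y, hP₁ hy⟩⁆ = 1 := by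
      rw [map_commutatorElement, commutatorElement_eq_one_iff_mul_comm]
      exact h1
    have h3 := (QuotientGroup.eq_one_iff _).mp h2
    rw [Subgroup.mem_subgroupOf] at h3
    exact h3
  obtain ⟨g, hg⟩ := MulAction.exists_smul_eq G P₁ P
  intro x hx y hy
  rw [← hg] at hx hy
  have hmem : ∀ z ∈ g • P₁, g⁻¹ * z * g ∈ P₁ := by
    intro z hz
    have h1 : z ∈ ((g • P₁ : Sylow p G) : Subgroup G) := hz
    rw [Sylow.coe_subgroup_smul, Subgroup.mem_pointwise_smul_iff_inv_smul_mem] at h1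
    have h2 : g⁻¹ * z * g ∈ (P₁ : Subgroup G) := by simpa [MulAut.smul_def] using h1
    exact h2
  have hx1 := hmem x hx
  have hy1 := hmem y hy
  have h1 := hAn.conj_mem _ (key _ hx1 _ hy1) g
  have h2 : g * ⁅g⁻¹ * x * g, g⁻¹ * y * g⁆ * g⁻¹ = ⁅x, y⁆ := by
    simp only [commutatorElement_def]
    group
  rw [← h2]
  exact h1

end Rel

section Main

open scoped commutatorElement

theorem main (p : ℕ) [Fact p.Prime] : ∀ (c : ℕ) (G : Type u) [Group G] [Finite G],
    Nat.card G = c → IsPSolvable p G → ∀ P : Sylow p G,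
    derivedSeries ↥(P : Subgroup G) (nS p G + 1) = ⊥ := by
  intro c
  induction c using Nat.strong_induction_on with
  | _ c ih =>
  intro G _ _ hc hG P
  have hp : p.Prime := Fact.out
  rcases subsingleton_or_nontrivial G with hs | hnt
  · exact Subsingleton.elim _ _
  obtain ⟨N, hNn, hN, hcase⟩ := Cfsg.Agent.Lib.Helper80PSolv.exists_normal_of_isPSolvable hG
  have hIH : ∀ (M : Subgroup G) [M.Normal], M ≠ ⊥ →
      derivedSeries ↥((P : Subgroup G).map (QuotientGroup.mk' M)) (nS p (G ⧸ M) + 1) = ⊥ := by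
    intro M _ hM
    have hlt : Nat.card (G ⧸ M) < c := by
      rw [← hc, M.card_eq_card_quotient_mul_card_subgroup]
      have h1 : 1 < Nat.card M := by
        rw [Finite.one_lt_card_iff_nontrivial]
        exact (Subgroup.nontrivial_iff_ne_bot M).mpr hM
      have h2 : 0 < Nat.card (G ⧸ M) := Nat.card_pos
      nlinarith
    exact ih _ hlt (G ⧸ M) rfl (Cfsg.Agent.Lib.Helper80PSolv.isPSolvable_quotient hp hG M)
      (P.mapSurjective (QuotientGroup.mk'_surjective M))
  rcases hcase with ⟨m, hm⟩ | hcop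
  · -- p-group case
    have hNp : IsPGroup p N := IsPGroup.of_card hm
    have hNnt : Nontrivial N := (Subgroup.nontrivial_iff_ne_bot N).mpr hN
    have hZnt : Nontrivial (Subgroup.center N) := hNp.center_nontrivial
    set A : Subgroup G := (Subgroup.center N).map N.subtype with hAdef
    have hAn : A.Normal := ConjAct.normal_of_characteristic_of_normal
    have hA : A ≠ ⊥ := by
      intro h0
      rw [hAdef, (Subgroup.map_eq_bot_iff_of_injective _ N.subtype_injective)] at h0
      exact (Subgroup.nontrivial_iff_ne_bot _).mp hZnt h0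
    have hAc : ∀ a ∈ A, ∀ b ∈ A, a * b = b * a := by
      rintro _ ⟨a, ha, rfl⟩ _ ⟨b, hb, rfl⟩
      have := (Subgroup.mem_center_iff.mp ha) b
      exact (congrArg Subtype.val this).symm
    have hAp : IsPGroup p A := (hNp.to_subgroup _).map _
    by_cases hB : ∃ χ : IrrCharacter G, p ∣ charDegree (χ : G → ℂ) ∧
        ∃ a ∈ A, (χ : G → ℂ) a ≠ (χ : G → ℂ) 1
    · obtain ⟨χ, h1, h2⟩ := hB
      have h3 := nS_quot_lt p A χ h1 h2
      have h4 := derived_eq_bot_of_le (Nat.succ_le_of_lt h3) (hIH A hA)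
      exact derived_succ_eq_bot A hAc P _ (derived_le_of_quot A P _ h4)
    · push Not at hB
      by_cases h0 : nS p G = 0
      · have h1 : ∀ χ : IrrCharacter G, ¬ p ∣ charDegree (χ : G → ℂ) := by
          intro χ hχ
          have : Finite (IrrCharacter G) := Cfsg.Agent.Lib.Helper4Char.finite_irrCharacter
          unfold nS at h0
          rw [Nat.card_eq_zero] at h0
          rcases h0 with h0 | h0
          · exact h0.false ⟨χ, hχ⟩
          · exact h0.false
        have h2 := ito_psolv p hG h1 P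
        rw [h0, zero_add, derivedSeries_succ, Subgroup.commutator_eq_bot_iff_le_centralizer]
        intro x _
        rw [Subgroup.mem_centralizer_iff]
        intro y _
        exact h2 y x
      · have h1 := comm_le_of_rel p hG A hAc hAp hA
          (fun χ ⟨a, ha, hne⟩ hd => hne (hB χ hd a ha)) P
        have h2 : ∀ x ∈ derivedSeries ↥(P : Subgroup G) 1, (x : G) ∈ A := by
          have h3 : derivedSeries ↥(P : Subgroup G) 1 ≤ A.subgroupOf (P : Subgroup G) := by
            rw [derivedSeries_succ, Subgroup.commutator_le]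
            intro x _ y _
            rw [Subgroup.mem_subgroupOf]
            exact h1 x x.2 y y.2
          intro x hx
          exact Subgroup.mem_subgroupOf.mp (h3 hx)
        have h3 := derived_succ_eq_bot A hAc P 1 h2
        exact derived_eq_bot_of_le (by omega) h3
  · -- p'-group case
    have h1 := derived_eq_bot_of_le (Nat.succ_le_succ (nS_quot_le p N)) (hIH N hN)
    have h2 := derived_le_of_quot N P _ h1
    rw [Subgroup.eq_bot_iff_forall]
    intro x hx
    have h3 : (x : G) ∈ N ⊓ (P : Subgroup G) := ⟨h2 x hx, x.2⟩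
    obtain ⟨k, hk⟩ := (IsPGroup.iff_card (p := p) (G := (P : Subgroup G))).mp P.2
    rw [Subgroup.inf_eq_bot_of_coprime (by rw [hk]; exact Nat.Coprime.pow_right _ hcop),
      Subgroup.mem_bot] at h3
    exact Subtype.ext h3

end Main

end Cfsg.Agent.Lib.Helper83PSing
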