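import Mathlib
import Cfsg.Agent.Lib.Helper65CSDefs
import Cfsg.Agent.Lib.Helper65CSBasic
import Cfsg.Agent.Lib.Helper65ClassGraph
import Cfsg.Agent.S4127

set_option autoImplicit false

namespace Cfsg.Agent.Lib.Helper84CSY1

open Cfsg.Agent.Lib.Helper65CSDefs Cfsg.Agent.Lib.Helper65CSBasic

variable {G : Type*} [Group G] [Finite G] {m n p : ℕ}

/-- a normal `p`-complement: normal, order prime to `p`, index a power of `p` -/
theorem exists_compl (h : Hyp G m n) [Fact p.Prime] (hpm : p ∣ m) (hpow : ∃ a : ℕ, m = p ^ a)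
    (u : G) (hu : IsP p u) (hI : (Cen u).index = m) :
    ∃ K : Subgroup G, K.Normal ∧ (Nat.card K).Coprime p ∧ ∃ k : ℕ, K.index = p ^ k := by
  have hp : p.Prime := Fact.out
  obtain ⟨a, rfl⟩ := hpow
  have hmax : ∀ y : G, ¬ p ^ (a + 1) ∣ (Subgroup.centralizer ({y} : Set G)).index := by
    intro y hd
    rcases h.all y with h1 | h1 | h1
    · rw [show (Subgroup.centralizer ({y} : Set G)).index = 1 from h1, Nat.dvd_one] at hd
      have : 1 < p ^ (a + 1) := Nat.one_lt_pow (by omega) hp.one_lt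
      omega
    · rw [show (Subgroup.centralizer ({y} : Set G)).index = p ^ a from h1] at hd
      have := (Nat.pow_dvd_pow_iff_le_right hp.one_lt).mp hd
      omega
    · rw [show (Subgroup.centralizer ({y} : Set G)).index = p ^ a * n from h1, pow_succ] at hd
      have := Nat.dvd_of_mul_dvd_mul_left (pow_pos hp.pos a) hd
      exact not_dvd_n h hp hpm this
  obtain ⟨P0, K, hKn, hKP⟩ := Cfsg.Agent.S4127.result p a hmax ⟨u, hu, hI⟩
  have h1 : Nat.card K * Nat.card P0 = Nat.card G := hKP.card_mul_card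
  have h2 : K.index = Nat.card P0 := by
    have h3 := K.card_mul_index
    have hK0 : 0 < Nat.card K := Nat.card_pos
    exact Nat.eq_of_mul_eq_mul_left hK0 (by rw [h3, h1])
  have h4 : Nat.card K = (P0 : Subgroup G).index := by
    have h3 := (P0 : Subgroup G).card_mul_index
    have hK0 : 0 < Nat.card P0 := Nat.card_pos
    exact Nat.eq_of_mul_eq_mul_left hK0 (by rw [h3, ← h1, mul_comm])
  refine ⟨K, hKn, ?_, ?_⟩
  · rw [h4]
    exact ((hp.coprime_iff_not_dvd).mpr P0.not_dvd_index).symm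
  · obtain ⟨k, hk⟩ := P0.isPGroup'.exists_card_eq
    exact ⟨k, by rw [h2]; exact hk⟩

theorem y1 (h : Hyp G m n) [Fact p.Prime] (hpm : p ∣ m) (hpow : ∃ a : ℕ, m = p ^ a)
    (hY : ∀ u : G, NP p u → ∃ w : G, NR p w ∧ Commute u w)
    (u : G) (hu : NP p u) (hI : (Cen u).index = m) : False := by
  have hp : p.Prime := Fact.out
  obtain ⟨K, hKn, hKc, k, hk⟩ := exists_compl h hpm hpow u hu.1 hI
  obtain ⟨a, ha⟩ := hpow
  have hKu : K ≤ Cen u := by
    apply Cfsg.Agent.Lib.Helper65ClassGraph.le_of_coprime_card_index K (Cen u)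
    rw [hI, ha]
    exact Nat.Coprime.pow_right a hKc
  obtain ⟨P, hRP⟩ := exists_sylow_ge_RR h hpm hu
  obtain ⟨t, htP, htR⟩ := exists_not_mem_RR h hpm hu P
  obtain ⟨htN, _⟩ := NP_of_not_mem_RR h hpm hu P.isPGroup' htP htR
  obtain ⟨w, hw, htw⟩ := hY t htN
  have hwK : w ∈ K := by
    apply Cfsg.Agent.Lib.Helper65ClassGraph.mem_of_coprime_index K w
    rw [hk]
    exact Nat.Coprime.pow_left k hw.1.symm
  have huw : Commute u w := (mem_Cen.mp (hKu hwK)).symm
  exact htR (mem_RR_of_commute h hpm hu hw huw P P.isPGroup' hRP htP htw)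

end Cfsg.Agent.Lib.Helper84CSY1
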