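import Mathlib
import Cfsg.Prelude.Def_Blocks
import Cfsg.Agent.Lib.Helper84Contrib

set_option autoImplicit false

namespace Cfsg.Agent.Lib.Helper84Det

open Cfsg
open Cfsg.Agent.Lib.Helper4Char Cfsg.Agent.Lib.Helper4Char2 Cfsg.Agent.Lib.Helper4Char4
open Cfsg.Agent.Lib.Helper32Virt Cfsg.Agent.Lib.Helper84Contrib
open Cfsg.Agent.Lib.Helper81Local

section Indicator

variable {G : Type*} [Group G] [Finite G]

/-- `gen_reg` for generalized characters. -/
theorem gen_reg' (q : ℕ) [Fact q.Prime] {θ : G → ℂ} (hθ : IsGeneralizedCharacter G θ) :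
    IsGeneralizedCharacter G (fun x : G => if q ∣ orderOf x then (0 : ℂ)
      else ((q ^ (Nat.card G).factorization q : ℕ) : ℂ) * θ x) := by
  obtain ⟨χ, ψ, hχ, hψ, rfl⟩ := hθ
  have h := gen_sub (gen_reg q hχ) (gen_reg q hψ)
  convert h using 1
  funext x
  simp only [Pi.sub_apply]
  split_ifs
  · simp
  · ring

open scoped Classical in
/-- For a finite set `S` of primes, `∏_{q ∈ S} |G|_q` times the indicator function of the
`S'`-elements is a generalized character. -/
theorem gen_indicator (S : Finset ℕ) (hS : ∀ q ∈ S, q.Prime) :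
    IsGeneralizedCharacter G (fun x : G => if ∃ q ∈ S, q ∣ orderOf x then (0 : ℂ)
      else ((∏ q ∈ S, q ^ (Nat.card G).factorization q : ℕ) : ℂ)) := by
  induction S using Finset.induction_on with
  | empty =>
    have h := gen_of_char (IsCharacter.one (G := G))
    convert h using 1
    funext x
    simp
  | insert q S hq ih =>
    haveI : Fact q.Prime := ⟨hS q (Finset.mem_insert_self q S)⟩
    have h := gen_reg' q (ih fun r hr => hS r (Finset.mem_insert_of_mem hr))
    convert h using 1
    funext x
    rw [Finset.prod_insert hq]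
    by_cases h1 : q ∣ orderOf x
    · have : ∃ r ∈ insert q S, r ∣ orderOf x := ⟨q, Finset.mem_insert_self q S, h1⟩
      rw [if_pos this, if_pos h1]
    · rw [if_neg h1]
      by_cases h2 : ∃ r ∈ S, r ∣ orderOf x
      · obtain ⟨r, hr, hrx⟩ := h2
        have : ∃ r ∈ insert q S, r ∣ orderOf x := ⟨r, Finset.mem_insert_of_mem hr, hrx⟩
        rw [if_pos this, if_pos ⟨r, hr, hrx⟩, mul_zero]
      · have : ¬ ∃ r ∈ insert q S, r ∣ orderOf x := by
          rintro ⟨r, hr, hrx⟩
          rcases Finset.mem_insert.1 hr with rfl | hr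
          · exact h1 hrx
          · exact h2 ⟨r, hr, hrx⟩
        rw [if_neg this, if_neg h2]
        push_cast
        ring

end Indicator

section Det

variable {M : Ideal AlgInt}

theorem prod_congr_mod [M.IsPrime] {ι : Type*} (s : Finset ι) (a a' : ι → ℂ)
    (h : ∀ i ∈ s, MemLocalRing M (a i)) (h' : ∀ i ∈ s, MemLocalRing M (a' i))
    (hd : ∀ i ∈ s, MemLocalIdeal M (a i - a' i)) :
    MemLocalIdeal M (∏ i ∈ s, a i - ∏ i ∈ s, a' i) := by
  classical
  induction s using Finset.induction_on with
  | empty => simpa using memLocalIdeal_zero (M := M)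
  | insert i s hi ih =>
    rw [Finset.prod_insert hi, Finset.prod_insert hi]
    have e : a i * ∏ j ∈ s, a j - a' i * ∏ j ∈ s, a' j
        = a i * (∏ j ∈ s, a j - ∏ j ∈ s, a' j) + (a i - a' i) * ∏ j ∈ s, a' j := by ring
    rw [e]
    apply memLocalIdeal_add
    · exact memLocalIdeal_mul (h i (Finset.mem_insert_self i s))
        (ih (fun j hj => h j (Finset.mem_insert_of_mem hj))
          (fun j hj => h' j (Finset.mem_insert_of_mem hj))
          (fun j hj => hd j (Finset.mem_insert_of_mem hj)))
    · exact memLocalIdeal_mul_right (hd i (Finset.mem_insert_self i s))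
        (memLocalRing_prod s a' fun j hj => h' j (Finset.mem_insert_of_mem hj))

theorem det_memLocalRing [M.IsPrime] {n : Type*} [Fintype n] [DecidableEq n]
    (A : Matrix n n ℂ) (h : ∀ i j, MemLocalRing M (A i j)) : MemLocalRing M A.det := by
  rw [Matrix.det_apply']
  apply memLocalRing_sum
  intro σ _
  exact memLocalRing_mul (memLocalRing_intCast _) (memLocalRing_prod _ _ fun i _ => h _ _)

/-- entrywise congruent matrices have congruent determinants. -/
theorem det_congr_mod [M.IsPrime] {n : Type*} [Fintype n] [DecidableEq n]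
    (A A' : Matrix n n ℂ) (h : ∀ i j, MemLocalRing M (A i j))
    (h' : ∀ i j, MemLocalRing M (A' i j)) (hd : ∀ i j, MemLocalIdeal M (A i j - A' i j)) :
    MemLocalIdeal M (A.det - A'.det) := by
  rw [Matrix.det_apply', Matrix.det_apply', ← Finset.sum_sub_distrib]
  apply memLocalIdeal_sum
  intro σ _
  rw [← mul_sub]
  exact memLocalIdeal_mul (memLocalRing_intCast _)
    (prod_congr_mod _ _ _ (fun i _ => h _ _) (fun i _ => h' _ _) (fun i _ => hd _ _))

/-- expansion of the determinant of a product of rectangular matrices along the rows. -/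
theorem det_sum_smul {n ι : Type*} [Fintype n] [DecidableEq n] [Fintype ι] [DecidableEq ι]
    (A : n → ι → ℂ) (W : ι → n → ℂ) :
    Matrix.det (Matrix.of fun j i => ∑ χ, A j χ * W χ i)
      = ∑ f : n → ι, (∏ j, A j (f j)) * Matrix.det (Matrix.of fun j i => W (f j) i) := by
  have h := (Matrix.detRowAlternating (n := n) (R := ℂ)).toMultilinearMap.map_sum
    (fun j χ => A j χ • W χ)
  have e1 : (Matrix.of fun j i => ∑ χ, A j χ * W χ i : Matrix n n ℂ)
      = fun j => ∑ χ, A j χ • W χ := by
    funext j i
    simp [Finset.sum_apply]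
  rw [e1]
  refine Eq.trans h ?_
  apply Finset.sum_congr rfl
  intro f _
  exact MultilinearMap.map_smul_univ _ (fun j => A j (f j)) (fun j => W (f j))

end Det

end Cfsg.Agent.Lib.Helper84Det
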