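import Mathlib
import Cfsg.Prelude.Def_Blocks
import Cfsg.Prelude.Def_BlockLocal
import Cfsg.Agent.Lib.Helper21PS
import Cfsg.Agent.Lib.Helper14PConstr
import Cfsg.Agent.Lib.Helper14HH
import Cfsg.Agent.Lib.Helper27Constr
import Cfsg.Agent.Lib.Helper27Constr2
import Cfsg.Agent.Lib.Helper77Glaub
import Cfsg.Agent.Lib.Helper20BrMap
import Cfsg.Agent.Lib.Helper20ModHom
import Cfsg.Agent.Lib.Helper20Cov

set_option autoImplicit false
set_option linter.unusedSectionVars false
set_option linter.unusedVariables false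

/-! Blocks over an invariant character of `O_{p'}(G)` in a `p`-constrained group are of
principal type. -/

namespace Cfsg.Agent.Lib.Helper84PType

open Cfsg
open scoped ComplexConjugate

section constr

theorem constrained_of {G : Type*} [Group G] [Finite G] {p : ℕ} [Fact p.Prime] (Q : Subgroup G)
    (hQL : Q ≤ pPrimePCore p G) (hQp : IsPGroup p Q)
    (hQS : ¬ p ∣ Q.relIndex (pPrimePCore p G))
    (hCQ : Subgroup.centralizer (Q : Set G) ≤ pPrimePCore p G) : IsPConstrained p G := by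
  rw [Helper14PConstr.isPConstrained_iff]
  have hQ' : IsPGroup p (Q.subgroupOf (pPrimePCore p G)) := hQp.comap_subtype
  let P : Sylow p (pPrimePCore p G) := hQ'.toSylow hQS
  rw [← Helper14PConstr.map_centralizer_PG P]
  rintro _ ⟨c, hc, rfl⟩
  have h1 : Helper14PConstr.PG P = Q := by
    change (Q.subgroupOf (pPrimePCore p G)).map (pPrimePCore p G).subtype = Q
    rw [Subgroup.subgroupOf_map_subtype, inf_eq_left.2 hQL]
  rw [h1] at hc
  exact hCQ hc

theorem block_of_constrained {G : Type*} [Group G] [Fintype G] {p : ℕ} [Fact p.Prime]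
    {M : Ideal Cfsg.AlgInt} (hM : IsPModular p M) (hcon : IsPConstrained p G)
    (N : Subgroup G) [hN : N.Normal] [Fintype N] (hNdef : N = pPrimeCore p G)
    (θ : IrrCharacter N) (hinv' : ∀ g : G, Helper21Cover.cjI hN θ g = θ) :
    ∃ B : Set (IrrCharacter G), IsPBlock M B ∧ (∀ χ, χ ∈ B ↔ Helper21Cover.Over χ θ) ∧
      blockDefect p B = (Nat.card G).factorization p := by
  classical
  subst hNdef
  have hp : p.Prime := Fact.out
  have hLn : (pPrimePCore p G).Normal := by unfold pPrimePCore; infer_instance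
  have hNp : ¬ p ∣ Nat.card (pPrimeCore p G) := by
    intro h
    have h1 := Cfsg.Agent.Lib.Helper14CoreB.card_pPrimeCore_coprime (G := G) p
    exact hp.one_lt.ne' (Nat.eq_one_of_dvd_coprimes h1 h dvd_rfl)
  have hNL : pPrimeCore p G ≤ pPrimePCore p G := by
    intro x hx
    unfold pPrimePCore
    rw [Subgroup.mem_comap]
    have : QuotientGroup.mk' (pPrimeCore p G) x = 1 := (QuotientGroup.eq_one_iff x).2 hx
    rw [this]
    exact Subgroup.one_mem _
  have hreg : ∀ l ∈ pPrimePCore p G, ¬ p ∣ orderOf l → l ∈ pPrimeCore p G := by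
    intro l hl hpl
    unfold pPrimePCore at hl
    rw [Subgroup.mem_comap] at hl
    obtain ⟨k, hk⟩ := (Cfsg.Agent.Lib.Helper14CoreB.pCore_isPGroup (G := G ⧸ pPrimeCore p G) p)
      ⟨_, hl⟩
    have hk' : (QuotientGroup.mk' (pPrimeCore p G) l) ^ p ^ k = 1 := by
      have := congrArg Subtype.val hk
      simpa using this
    have h2 : (QuotientGroup.mk' (pPrimeCore p G) l) ^ orderOf l = 1 := by
      rw [← map_pow, pow_orderOf_eq_one, map_one]
    have h3 : (p ^ k).Coprime (orderOf l) :=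
      Nat.Coprime.pow_left k ((Nat.Prime.coprime_iff_not_dvd hp).2 hpl)
    have h4 := Cfsg.Agent.Lib.Helper14HH.eq_one_of_pow_coprime hk' h2 h3
    exact (QuotientGroup.eq_one_iff l).1 h4
  have hC : ∀ Q : Subgroup G, Q ≤ pPrimePCore p G →
      Nat.card Q = p ^ (Nat.card (pPrimePCore p G)).factorization p →
      Subgroup.centralizer (Q : Set G) ≤ pPrimePCore p G := by
    intro Q hQL hQc
    have h1 : Nat.card (Q.subgroupOf (pPrimePCore p G))
        = p ^ (Nat.card (pPrimePCore p G)).factorization p := by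
      rw [← hQc]
      exact Nat.card_congr (Subgroup.subgroupOfEquivOfLe hQL).toEquiv
    have h2 := hcon (Sylow.ofCard _ h1)
    rw [Sylow.coe_ofCard, Subgroup.subgroupOf_map_subtype, inf_eq_left.2 hQL] at h2
    exact h2
  exact Cfsg.Agent.Lib.Helper21PS.block_over_invariant hM
    (pPrimeCore p G) (pPrimePCore p G) hNp hNL hreg hC θ hinv'

open Subgroup Cfsg.Agent.Lib.Helper27Rel in
theorem core_centralizer {G : Type*} [Group G] [Finite G] {p : ℕ} [Fact p.Prime]
    (hcon : IsPConstrained p G) {R : Subgroup G} (hR : IsPGroup p R) :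
    (pPrimeCore p (centralizer (R : Set G))).map (centralizer (R : Set G)).subtype
      = pPrimeCore p G ⊓ centralizer (R : Set G) := by
  have hL : pLayer p G = ⊥ := Helper27Constr.isPConstrained_iff.mp hcon
  rw [map_core]
  apply le_antisymm
  · refine le_inf ?_ (coreIn_le _)
    refine le_trans ?_ (Helper27Loc.coreIn_normalizer_le hL hR)
    apply le_coreIn _ (card_coreIn_coprime _)
    refine ⟨(coreIn_le _).trans ?_, ?_⟩
    · exact Subgroup.centralizer_le_normalizer _
    · exact (Helper27Loc.normalizer_le_normalizer_centralizer R).trans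
        (normalizer_le_normalizer_coreIn _)
  · apply le_coreIn
    · have h1 : Helper28Comp.NormIn (pPrimeCore p G) ⊤ :=
        Helper28Comp.normIn_top_iff.mpr inferInstance
      have h2 := h1.inf_right (centralizer (R : Set G))
      rwa [top_inf_eq] at h2
    · exact Nat.Coprime.coprime_dvd_left (card_dvd_of_le inf_le_left)
        (Helper14CoreB.card_pPrimeCore_coprime p)

end constr

section idem

open Cfsg.Agent.Lib.Helper81Local Cfsg.Agent.Lib.Helper81Base Cfsg.Agent.Lib.Helper81BB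
open Cfsg.Agent.Lib.Helper21Cover Cfsg.Agent.Lib.Helper19Ind
open Cfsg.Agent.Lib.Helper20Center Cfsg.Agent.Lib.Helper20Block Cfsg.Agent.Lib.Helper20Induced

variable {G : Type*} [Group G] [Fintype G] {M : Ideal Cfsg.AlgInt} {p : ℕ} [Fact p.Prime]
variable {K : Subgroup G} [Fintype K]

/-- the coefficient function of the central idempotent of `θ`, extended by zero. -/
noncomputable def eTh (θ : IrrCharacter K) : G → ℂ :=
  extendByZero K (blockCoeff ({θ} : Set (IrrCharacter K)))

theorem blockCoeff_singleton (θ : IrrCharacter K) (k : K) :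
    blockCoeff ({θ} : Set (IrrCharacter K)) k
      = (Nat.card K : ℂ)⁻¹ * ((θ : K → ℂ) 1 * conj ((θ : K → ℂ) k)) := by
  unfold blockCoeff
  rw [finsum_mem_singleton]

theorem stable_singleton (hK : K.Normal) {θ : IrrCharacter K} (hinv : ∀ g : G, cjI hK θ g = θ) :
    Stable hK ({θ} : Set (IrrCharacter K)) := by
  intro θ' hθ' g
  rw [Set.mem_singleton_iff] at hθ' ⊢
  rw [hθ', hinv]

theorem isSC_eTh (hM : IsPModular p M) (hK : K.Normal) (hKp : ¬ p ∣ Nat.card K)
    {θ : IrrCharacter K} (hinv : ∀ g : G, cjI hK θ g = θ) : IsSC M (eTh θ) := by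
  have := IsPModular.isPrime hM
  refine ⟨ext_blockCoeff_classfn hK (stable_singleton hK hinv), fun g => ?_⟩
  apply ext_local
  intro k
  rw [blockCoeff_singleton]
  apply memLocalRing_mul (card_inv_local hM hKp)
  apply memLocalRing_mul (memLocalRing_of_isIntegral (irr_integral θ 1))
  rw [← irr_inv]
  exact memLocalRing_of_isIntegral (irr_integral θ _)

open scoped Classical in
theorem om_eTh (hK : K.Normal) {θ : IrrCharacter K} (hinv : ∀ g : G, cjI hK θ g = θ)
    (χ : IrrCharacter G) : om (χ : G → ℂ) (eTh θ) = if Over χ θ then 1 else 0 := by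
  rw [← Helper20Cov.om81_eq]
  unfold eTh
  split_ifs with h
  · rw [om_ext_blockCoeff hK (stable_singleton hK hinv) h, if_pos (Set.mem_singleton θ)]
  · obtain ⟨θ', hθ'⟩ := exists_under (N := K) χ
    rw [om_ext_blockCoeff hK (stable_singleton hK hinv) hθ', if_neg]
    intro h2
    rw [Set.mem_singleton_iff] at h2
    exact h (h2 ▸ hθ')

variable {X : Subgroup G} [Fintype X] {KX : Subgroup X} [Fintype KX]

/-- the inclusion of `K ∩ X` (a subgroup of `X`) into `K`. -/
def iot (hKX : ∀ x : X, x ∈ KX ↔ (x : G) ∈ K) : KX →* K where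
  toFun c := ⟨((c : X) : G), (hKX c).1 c.2⟩
  map_one' := rfl
  map_mul' _ _ := rfl

theorem res_eTh (hKX : ∀ x : X, x ∈ KX ↔ (x : G) ∈ K) (θ : IrrCharacter K) :
    res X (eTh θ) = extendByZero KX
      (fun c => blockCoeff ({θ} : Set (IrrCharacter K)) (iot hKX c)) := by
  funext x
  unfold res eTh
  by_cases hx : x ∈ KX
  · rw [extendByZero_of_mem KX _ hx, extendByZero_of_mem K _ ((hKX x).1 hx)]
    rfl
  · rw [extendByZero_of_not_mem KX _ hx, extendByZero_of_not_mem K _ (fun h => hx ((hKX x).2 h))]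

theorem om_res_eTh (hK : K.Normal) {θ : IrrCharacter K} (hinv : ∀ g : G, cjI hK θ g = θ)
    (hKX : ∀ x : X, x ∈ KX ↔ (x : G) ∈ K) {ξ : IrrCharacter X} {η : IrrCharacter KX}
    (h : Over ξ η) :
    om (ξ : X → ℂ) (res X (eTh θ))
      = (θ : K → ℂ) 1 * (Nat.card KX : ℂ)
          * classInner (η : KX → ℂ) (fun c => (θ : K → ℂ) (iot hKX c))
          / ((Nat.card K : ℂ) * (η : KX → ℂ) 1) := by
  have hcf : IsClassFunction X (res X (eTh θ)) :=
    res_isClassFunction X (ext_blockCoeff_classfn hK (stable_singleton hK hinv))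
  rw [← Helper20Cov.om81_eq]
  rw [res_eTh hKX] at hcf ⊢
  rw [om_ext hcf h]
  unfold Helper81Block.om classInner
  simp only [blockCoeff_singleton]
  have hc : (Nat.card KX : ℂ) ≠ 0 := Nat.cast_ne_zero.2 Nat.card_pos.ne'
  have hc2 : (Nat.card K : ℂ) ≠ 0 := Nat.cast_ne_zero.2 Nat.card_pos.ne'
  have hη := irr_one_ne_zero η
  rw [← Finset.sum_div, div_eq_div_iff hη (mul_ne_zero hc2 hη)]
  rw [← mul_assoc, mul_assoc ((θ : K → ℂ) 1), mul_inv_cancel_left₀ hc, Finset.mul_sum,
    Finset.sum_mul, Finset.sum_mul, Finset.sum_mul]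
  apply Finset.sum_congr rfl
  intro c _
  field_simp

theorem unit_iff (hM : IsPModular p M) (hKp : ¬ p ∣ Nat.card K) (hKXp : ¬ p ∣ Nat.card KX)
    (θ : IrrCharacter K) (η : IrrCharacter KX) (m : ℕ) :
    MemLocalIdeal M ((θ : K → ℂ) 1 * (Nat.card KX : ℂ) * (m : ℂ)
      / ((Nat.card K : ℂ) * (η : KX → ℂ) 1)) ↔ p ∣ m := by
  have := IsPModular.isPrime hM
  have hp : p.Prime := Fact.out
  rw [← charDegree_eq θ, ← charDegree_eq η]
  have h1 : ¬ p ∣ charDegree (θ : K → ℂ) := fun h => hKp (h.trans (irr_deg_dvd θ))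
  have h2 : ¬ p ∣ charDegree (η : KX → ℂ) := fun h => hKXp (h.trans (irr_deg_dvd η))
  set a := charDegree (θ : K → ℂ) * Nat.card KX with ha
  set b := Nat.card K * charDegree (η : KX → ℂ) with hb
  have hap : ¬ p ∣ a := fun h => (hp.dvd_mul.1 h).elim h1 hKXp
  have hbp : ¬ p ∣ b := fun h => (hp.dvd_mul.1 h).elim hKp h2
  have e : ((charDegree (θ : K → ℂ) : ℕ) : ℂ) * (Nat.card KX : ℂ) * (m : ℂ)
      / ((Nat.card K : ℂ) * ((charDegree (η : KX → ℂ) : ℕ) : ℂ)) = ((a * m : ℕ) : ℂ) * (b : ℂ)⁻¹ := by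
    rw [ha, hb]; push_cast; rw [div_eq_mul_inv]
  rw [e]
  have hb0 : (b : ℂ) ≠ 0 := by
    intro h
    apply hbp
    rw [Nat.cast_eq_zero] at h
    rw [h]; exact dvd_zero p
  have hbl : MemLocalRing M ((b : ℂ)⁻¹) :=
    memLocalRing_inv (memLocalRing_natCast b) (fun h => hbp ((memLocalIdeal_natCast_iff hM).1 h))
  constructor
  · intro h
    have h3 : MemLocalIdeal M ((a * m : ℕ) : ℂ) := by
      have := memLocalIdeal_mul (memLocalRing_natCast (M := M) b) h
      rwa [mul_comm, mul_assoc, inv_mul_cancel₀ hb0, mul_one] at this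
    exact ((hp.dvd_mul.1 ((memLocalIdeal_natCast_iff hM).1 h3)).resolve_left hap)
  · intro h
    exact memLocalIdeal_mul_right ((memLocalIdeal_natCast_iff hM).2 (h.mul_left a)) hbl

open Cfsg.Agent.Lib.Helper77Glaub Cfsg.Agent.Lib.Helper5Clifford in
theorem principal_type (hM : IsPModular p M) (hK : K.Normal) (hKp : ¬ p ∣ Nat.card K)
    {θ : IrrCharacter K} (hinv : ∀ g : G, cjI hK θ g = θ)
    {B : Set (IrrCharacter G)} (hB : IsPBlock M B) (hBmem : ∀ χ, χ ∈ B ↔ Over χ θ)
    {R : Subgroup G} (hR : IsPGroup p R) (hX : X = Subgroup.centralizer (R : Set G))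
    (hKXn : KX.Normal) (hKX : ∀ x : X, x ∈ KX ↔ (x : G) ∈ K)
    (hblk : ∀ η : IrrCharacter KX, (∀ x : X, cjI hKXn η x = η) →
      ∃ f : Set (IrrCharacter X), IsPBlock M f ∧ ∀ ξ, ξ ∈ f ↔ Over ξ η) :
    ∃! f : Set (IrrCharacter X), IsInducedBlock M X f B := by
  classical
  have hP := IsPModular.isPrime hM
  have hnorm : ∀ s ∈ R, ∀ g ∈ K, s * g * s⁻¹ ∈ K := fun s _ g hg => hK.conj_mem g hg s
  set φ := conjAct K R hnorm with hφ
  have hfix : IsFix φ (iot hKX) := by
    refine ⟨fun c c' h => ?_, fun k => ⟨fun hk => ?_, ?_⟩⟩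
    · apply Subtype.ext
      apply Subtype.ext
      exact congrArg (fun k : K => (k : G)) h
    · have hkX : (k : G) ∈ X := by
        rw [hX, Subgroup.mem_centralizer_iff]
        intro s hs
        have := congrArg Subtype.val (hk ⟨s, hs⟩)
        rw [conjAct_apply_coe] at this
        exact mul_inv_eq_iff_eq_mul.mp this
      exact ⟨⟨⟨k, hkX⟩, (hKX _).2 k.2⟩, rfl⟩
    · rintro ⟨c, rfl⟩ s
      apply Subtype.ext
      rw [conjAct_apply_coe]
      have hc : ((c : X) : G) ∈ Subgroup.centralizer (R : Set G) := hX ▸ (c : X).2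
      rw [Subgroup.mem_centralizer_iff] at hc
      have := hc s s.2
      change (s : G) * ((c : X) : G) * (s : G)⁻¹ = ((c : X) : G)
      rw [this, mul_inv_cancel_right]
  have hinvφ : Inv φ (θ : K → ℂ) := by
    intro s k
    have := congrArg (fun t : IrrCharacter K => (t : K → ℂ) k) (hinv (s : G))
    simp only [cjI_apply] at this
    rw [← this]
    rfl
  have hKXp : ¬ p ∣ Nat.card KX := not_dvd_card_fix p hR hfix hKp
  obtain ⟨θs, hθs⟩ := exists_corr p hR hfix hKp θ.2 hinvφ
  have hinvs : ∀ x : X, cjI hKXn θs x = θs := by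
    intro x
    apply corr_unique p hR hfix hKp θ.2 hinvφ _ _ _ hθs
    have e : mlt (iot hKX) (θ : K → ℂ) (cjI hKXn θs x : KX → ℂ)
        = mlt (iot hKX) (θ : K → ℂ) (θs : KX → ℂ) := by
      unfold mlt
      have h1 := classInner_cj_cj hKXn (fun c => (θ : K → ℂ) (iot hKX c)) (θs : KX → ℂ) x
      have h2 : cj hKXn (fun c => (θ : K → ℂ) (iot hKX c)) x
          = fun c => (θ : K → ℂ) (iot hKX c) := by
        funext c
        rw [cj_apply]
        have := congrArg (fun t : IrrCharacter K => (t : K → ℂ) (iot hKX c)) (hinv (x : G))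
        simp only [cjI_apply] at this
        rw [← this]
        rfl
      rw [h2] at h1
      have h3 : ((cjI hKXn θs x : IrrCharacter KX) : KX → ℂ) = cj hKXn (θs : KX → ℂ) x := rfl
      rw [h3, h1]
    rw [e]
    exact hθs
  obtain ⟨f0, hf0, hf0mem⟩ := hblk θs hinvs
  have hSC : IsSC M (eTh θ) := isSC_eTh hM hK hKp hinv
  have hform : ∀ (ξ : IrrCharacter X) (η : IrrCharacter KX), Over ξ η →
      (MemLocalIdeal M (om (ξ : X → ℂ) (res X (eTh θ))) ↔ p ∣ mlt (iot hKX) (θ : K → ℂ) η) := by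
    intro ξ η h
    rw [om_res_eTh hK hinv hKX h, mlt_spec' (iot hKX) (Helper4Char.IsIrrCharacter.isCharacter θ.2)
      (Helper4Char.IsIrrCharacter.isCharacter η.2)]
    exact unit_iff hM hKp hKXp θ η _
  have hkey : ∀ ξ : IrrCharacter X,
      ¬ MemLocalIdeal M (om (ξ : X → ℂ) (res X (eTh θ))) ↔ ξ ∈ f0 := by
    intro ξ
    constructor
    · intro h
      obtain ⟨η, hη⟩ := exists_under (N := KX) ξ
      rw [hform ξ η hη] at h
      have := corr_unique p hR hfix hKp θ.2 hinvφ η θs h hθs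
      rw [hf0mem, ← this]
      exact hη
    · intro h
      rw [hform ξ θs ((hf0mem ξ).1 h)]
      exact hθs
  have hbr : ∀ a : G → ℂ, Helper20BrMap.brRes R X a = res X a := by
    intro a
    funext h
    unfold Helper20BrMap.brRes res
    rw [if_pos (hX ▸ h.2)]
  refine ⟨f0, ?_, ?_⟩
  · obtain ⟨ξ, hξ⟩ := IsPBlock.nonempty hP hf0
    have hmod := Helper20BrMap.isModHom_brauer hM hR (H := X) (le_of_eq hX.symm)
      (hX ▸ Subgroup.centralizer_le_normalizer _) ξ.2
    obtain ⟨χ', hχ'⟩ := hmod.exists_irr hP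
    simp only [hbr] at hχ'
    have hχB : χ' ∈ B := by
      rw [hBmem]
      by_contra hno
      have h1 := hχ' _ hSC
      rw [om_eTh hK hinv, if_neg hno, sub_zero] at h1
      exact (hkey ξ).2 hξ h1
    refine ⟨hf0, hB, fun ξ' hξ' χ hχ g => ?_⟩
    have hcl : IsSC M (classInd g) := ⟨classInd_isClassFunction g, fun x => by
      unfold classInd
      split_ifs
      · simpa using memLocalRing_natCast (M := M) 1
      · simpa using memLocalRing_natCast (M := M) 0⟩
    rw [inducedCentralChar_eq, ← om_classInd (Helper4Char.IsIrrCharacter.isClassFunction χ.2)]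
    have h1 := sameBlock_om hP ξ'.2 ξ.2 (IsPBlock.sameBlock hP hf0 hξ' hξ) (res_isSC X hcl)
    have h2 := hχ' _ hcl
    have h3 := sameBlock_om hP χ'.2 χ.2 (IsPBlock.sameBlock hP hB hχB hχ) hcl
    have := memLocalIdeal_add (memLocalIdeal_add h1 h2) h3
    convert this using 1
    ring
  · intro f hf
    obtain ⟨ξ, hξ⟩ := IsPBlock.nonempty hP hf.1
    obtain ⟨χ, hχ⟩ := IsPBlock.nonempty hP hB
    have h1 := isInducedBlock_om X hP hf hξ hχ hSC
    rw [om_eTh hK hinv, if_pos ((hBmem χ).1 hχ)] at h1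
    have h2 : ξ ∈ f0 := by
      rw [← hkey]
      intro h3
      apply not_memLocalIdeal_one (M := M)
      have := memLocalIdeal_sub h3 h1
      simpa using this
    exact IsPBlock.eq_of_mem hP hf.1 hf0 hξ h2

end idem

end Cfsg.Agent.Lib.Helper84PType
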