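import Cfsg.Agent.Lib.Helper43SpDefs
import Cfsg.Agent.Lib.Helper45Sp

set_option autoImplicit false

/-! Project 243, piece `spcenter`. -/

namespace Cfsg.Agent.Lib.Helper84SpSpcenter

open Matrix Cfsg.Agent.Lib.Helper43St Cfsg.Agent.Lib.Helper43Sp

-- piece `spcenter`
theorem sp_center (m : ℕ) (F : Type*) [Field F] :
    ∃ c : Sp m F, Subgroup.center (Sp m F) = Subgroup.normalClosure {c} := by
  rcases Nat.eq_zero_or_pos m with rfl | hm
  · refine ⟨1, ?_⟩
    have hsub : Subsingleton (Sp 0 F) := ⟨fun a b => Subtype.ext (by ext i j; exact (i.elim (fun x => x.elim0) (fun x => x.elim0)))⟩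
    exact Subsingleton.elim _ _
  · refine ⟨⟨-1, SymplecticGroup.neg_mem (one_mem _)⟩, ?_⟩
    apply le_antisymm
    · intro z hz
      rcases (Cfsg.Agent.Lib.Helper45Sp.mem_center_iff hm z).1 hz with h | h
      · have : z = 1 := Subtype.ext h
        rw [this]; exact one_mem _
      · have : z = ⟨-1, SymplecticGroup.neg_mem (one_mem _)⟩ := Subtype.ext h
        rw [this]
        exact Subgroup.subset_normalClosure (Set.mem_singleton _)
    · apply Subgroup.normalClosure_le_normal
      intro z hz
      rw [Set.mem_singleton_iff] at hz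
      rw [hz]
      exact (Cfsg.Agent.Lib.Helper45Sp.mem_center_iff hm _).2 (Or.inr rfl)

end Cfsg.Agent.Lib.Helper84SpSpcenter
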