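import Mathlib
import Cfsg.Prelude.Def_Blocks
import Cfsg.Prelude.Def_BlockRank
import Cfsg.Agent.Lib.Helper84Subsec2
import Cfsg.Agent.Lib.Helper84Ramanujan2

set_option autoImplicit false

/-!
Rows of the contribution matrix (real form) and an arithmetic lemma for `2`-blocks.
-/

namespace Cfsg.Agent.Lib.Helper84Subsec3

open Cfsg
open Cfsg.Agent.Lib.Helper81Local Cfsg.Agent.Lib.Helper81Base Cfsg.Agent.Lib.Helper81BB
  Cfsg.Agent.Lib.Helper81Block Cfsg.Agent.Lib.Helper81Subsec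
  Cfsg.Agent.Lib.Helper84Subsec Cfsg.Agent.Lib.Helper84Subsec2
open scoped ComplexConjugate

variable {G : Type*} [Group G] [Fintype G] {p : ℕ} {M : Ideal AlgInt}

/-- the diagonal contribution is the square norm of its row. -/
theorem row_norm [Fact p.Prime] (hM : IsPModular p M) (u : G)
    (hu : ∃ k : ℕ, orderOf u = p ^ k) (H : Subgroup G) [Fintype H]
    (hH : H = Subgroup.centralizer ({u} : Set G))
    {b : Set (IrrCharacter H)} {B : Set (IrrCharacter G)}
    [DecidablePred (· ∈ B)] (hind : IsInducedBlock M H b B) (χ : IrrCharacter G) :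
    ((∑ ψ : IrrCharacter G, (if ψ ∈ B then ‖mm p b u (χ : G → ℂ) (ψ : G → ℂ)‖ ^ 2 else 0) : ℝ) : ℂ)
      = mm p b u (χ : G → ℂ) (χ : G → ℂ) := by
  subst hH
  have hMp := hM.2.1.isPrime
  rw [← sum_mm_sq hM u hu (isBlockUnion_of_isPBlock hind.1) χ]
  push_cast
  apply Finset.sum_congr rfl
  intro ψ _
  split_ifs with hψ
  · rw [Complex.mul_conj']
    push_cast
    rfl
  · rw [mm_eq_zero hM u hu hind _ hψ, zero_mul]
    simp

/-- arithmetic behind the bound for the number of characters of height zero in a `2`-block. -/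
theorem arith {ι : Type*} (k0 D l : ℕ) (I0 : Finset ι) (hk : I0.card = k0) (A : ι → ℤ)
    (hodd : ∀ χ ∈ I0, Odd (A χ))
    (hI : ∀ χ ∈ I0, (k0 : ℤ) - 1 + A χ ^ 2 ≤ D * A χ)
    (hII : ∑ χ ∈ I0, A χ ≤ D * l) :
    (Odd (Nat.sqrt l) → k0 ≤ Nat.sqrt l * D) ∧
      (¬ Odd (Nat.sqrt l) → (Nat.sqrt l + 1) * k0 ≤ l * D) := by
  set α := Nat.sqrt l with hα
  have hα1 : α * α ≤ l := Nat.sqrt_le l
  have hα2 : l < (α + 1) * (α + 1) := Nat.lt_succ_sqrt l
  have hα1' : (α : ℤ) * α ≤ l := by exact_mod_cast hα1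
  have hα2' : (l : ℤ) + 1 ≤ (α + 1) * (α + 1) := by exact_mod_cast hα2
  have hD : (0 : ℤ) ≤ D := Int.natCast_nonneg D
  have hpos : ∀ χ ∈ I0, 1 ≤ A χ := by
    intro χ hχ
    have h1 : 1 ≤ k0 := by rw [← hk]; exact Finset.card_pos.2 ⟨χ, hχ⟩
    have h1' : (1 : ℤ) ≤ k0 := by exact_mod_cast h1
    obtain ⟨m, hm⟩ := hodd χ hχ
    have h2 := hI χ hχ
    by_contra hcon
    have h3 : A χ ≤ -1 := by omega
    nlinarith
  constructor
  · intro hodda
    by_cases h : ∃ χ ∈ I0, A χ ≤ α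
    · obtain ⟨χ, hχ, hle⟩ := h
      have h2 := hI χ hχ
      have h3 := hpos χ hχ
      have h4 : (k0 : ℤ) ≤ α * D := by nlinarith
      exact_mod_cast h4
    · push Not at h
      have h1 : ∀ χ ∈ I0, (α : ℤ) + 2 ≤ A χ := by
        intro χ hχ
        obtain ⟨m, hm⟩ := hodd χ hχ
        obtain ⟨n, hn⟩ := hodda
        have := h χ hχ
        omega
      have h2 : I0.card • ((α : ℤ) + 2) ≤ ∑ χ ∈ I0, A χ := Finset.card_nsmul_le_sum _ _ _ h1
      rw [hk, nsmul_eq_mul] at h2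
      have h3 : (k0 : ℤ) * (α + 2) ≤ (α * D) * (α + 2) := by nlinarith
      have h4 : (k0 : ℤ) ≤ α * D := le_of_mul_le_mul_right h3 (by positivity)
      exact_mod_cast h4
  · intro hodda
    rw [Nat.not_odd_iff_even] at hodda
    by_cases h : ∃ χ ∈ I0, A χ ≤ α
    · obtain ⟨χ, hχ, hle⟩ := h
      have h2 := hI χ hχ
      have h3 := hpos χ hχ
      have h5 : A χ ≤ (α : ℤ) - 1 := by
        obtain ⟨m, hm⟩ := hodd χ hχ
        obtain ⟨n, hn⟩ := hodda
        omega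
      have h6 : (k0 : ℤ) ≤ D * ((α : ℤ) - 1) := by nlinarith
      have h7 : ((α : ℤ) + 1) * k0 ≤ l * D := by
        have h8 : ((α : ℤ) + 1) * k0 ≤ ((α : ℤ) + 1) * (D * ((α : ℤ) - 1)) :=
          mul_le_mul_of_nonneg_left h6 (by positivity)
        nlinarith
      exact_mod_cast h7
    · push Not at h
      have h1 : ∀ χ ∈ I0, (α : ℤ) + 1 ≤ A χ := by
        intro χ hχ
        have := h χ hχ
        omega
      have h2 : I0.card • ((α : ℤ) + 1) ≤ ∑ χ ∈ I0, A χ := Finset.card_nsmul_le_sum _ _ _ h1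
      rw [hk, nsmul_eq_mul] at h2
      have h7 : ((α : ℤ) + 1) * k0 ≤ l * D := by nlinarith
      exact_mod_cast h7

end Cfsg.Agent.Lib.Helper84Subsec3
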