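import Mathlib
import Cfsg.Agent.Lib.Helper86PPowerN
import Cfsg.Prelude.Def_FusionReduction

set_option autoImplicit false
set_option linter.unusedSectionVars false

/-! Residual limits of fusion systems: uniqueness, and invariance under passing to a subsystem of
`p`-power index. -/

namespace Cfsg.Agent.Lib.Helper86ResLim

open Cfsg Cfsg.FusionSystem Cfsg.Agent.Lib.Helper87Fusion Cfsg.Agent.Lib.Helper87Fusion2
  Cfsg.Agent.Lib.Helper87Fusion3 Cfsg.Agent.Lib.Helper87Closed
  Cfsg.Agent.Lib.Helper87Hyperfocal Cfsg.Agent.Lib.Helper87Split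
  Cfsg.Agent.Lib.Helper87PrimeIndex Cfsg.Agent.Lib.Helper86Fusion Cfsg.Agent.Lib.Helper86PPowerN
  Cfsg.Agent.Lib.Helper87PPower

universe u

variable {Ω : Type u} [Group Ω]

/-- two fusion systems (over a priori different subgroups) with the same maps. -/
def Same {S₁ S₂ : Subgroup Ω} (F₁ : FusionSystem S₁) (F₂ : FusionSystem S₂) : Prop :=
  ∀ P : Subgroup Ω, F₁.Hom P = F₂.Hom P

theorem Same.symm {S₁ S₂ : Subgroup Ω} {F₁ : FusionSystem S₁} {F₂ : FusionSystem S₂}
    (h : Same F₁ F₂) : Same F₂ F₁ := fun P => (h P).symm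

theorem Same.trans {S₁ S₂ S₃ : Subgroup Ω} {F₁ : FusionSystem S₁} {F₂ : FusionSystem S₂}
    {F₃ : FusionSystem S₃} (h : Same F₁ F₂) (h' : Same F₂ F₃) : Same F₁ F₃ :=
  fun P => (h P).trans (h' P)

theorem pPrimeResidual_unique {S : Subgroup Ω} {F D D' : FusionSystem S} {p : ℕ}
    (h : F.IsPPrimeResidual p D) (h' : F.IsPPrimeResidual p D') : D = D' :=
  Cfsg.Agent.Lib.Helper86Fusion4.fusionSystem_le_antisymm (h.2.2 D' h'.1 h'.2.1)
    (h'.2.2 D h.1 h.2.1)

theorem pPowerIndex_self {S : Subgroup Ω} (F : FusionSystem S) (p : ℕ)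
    (h : F.hyperfocalSubgroup p ≤ S) : F.HasPPowerIndexIn F p := by
  refine ⟨fun P => subset_rfl, h, fun P _ => ?_⟩
  rintro _ ⟨a, -, rfl⟩
  exact a.2

/-- auxiliary: the residuals of a stable system are the system itself. -/
theorem stable_aux {S U : Subgroup Ω} [Finite S] {p : ℕ} [Fact p.Prime] (hS : IsPGroup p S)
    {F : FusionSystem S} (hU : U = S) (hres : F.IsPPrimeResidual p F)
    (hhyp : F.hyperfocalSubgroup p = S) {D D' : FusionSystem U}
    (hD : D.IsSaturated p) (hD2 : D.HasPPowerIndexIn F p) (hD' : D.IsPPrimeResidual p D') :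
    Same D' F ∧ D'.hyperfocalSubgroup p = U ∧ D'.IsPPrimeResidual p D' := by
  subst hU
  have h1 : D = F := pPowerIndex_unique hS D F hD hD2 hres.1 (pPowerIndex_self F p hhyp.le)
  subst h1
  have h2 : D' = D := pPrimeResidual_unique hD' hres
  subst h2
  exact ⟨fun P => rfl, hhyp, hres⟩

theorem residualLimit_stable {T S : Subgroup Ω} {L : FusionSystem T} {F : FusionSystem S} {p : ℕ}
    (h : IsResidualLimitOf L F p) : ∀ [Fact p.Prime], Finite S → IsPGroup p S →
      F.hyperfocalSubgroup p = S → F.IsPPrimeResidual p F → Same L F := by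
  induction h with
  | stable F p _ _ => intro _ _ _ _ _ P; rfl
  | step F p D D' hD hD' _ ih =>
    intro _ hfin hS hhyp hres
    obtain ⟨h1, h2, h3⟩ := stable_aux hS hhyp hres hhyp hD.1 hD.2 hD'
    have hle : F.hyperfocalSubgroup p ≤ _ := hhyp.le
    exact (ih (finite_of_le hle) (hS.to_le hle) h2 h3).trans h1

theorem residualLimit_unique {T S : Subgroup Ω} {L : FusionSystem T} {F : FusionSystem S} {p : ℕ}
    (h : IsResidualLimitOf L F p) : ∀ [Fact p.Prime] {T₂ : Subgroup Ω} (L₂ : FusionSystem T₂),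
      IsResidualLimitOf L₂ F p → Finite S → IsPGroup p S → Same L L₂ := by
  induction h with
  | stable F p h1 h2 =>
    intro _ T₂ L₂ h hfin hS
    exact (residualLimit_stable h hfin hS h1 h2).symm
  | step F p D D' hD hD' hlim ih =>
    intro _ T₂ L₂ h hfin hS
    cases h with
    | stable _ _ h1 h2 =>
      exact residualLimit_stable (IsResidualLimitOf.step F p D D' hD hD' hlim) hfin hS h1 h2
    | step _ _ D₂ D₂' hD₂ hD₂' hlim₂ =>
      have e1 : D = D₂ := pPowerIndex_unique hS D D₂ hD.1 hD.2 hD₂.1 hD₂.2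
      subst e1
      have e2 : D' = D₂' := pPrimeResidual_unique hD' hD₂'
      subst e2
      have hle := subsystem_le hD.2.1
      exact ih L₂ hlim₂ (finite_of_le hle) (hS.to_le hle)

section ppower

variable {S T : Subgroup Ω}

/-- `O^p(Aut_F(P)) ≤ O^p(Aut_E(P))` for a subsystem of `p`-power index. -/
theorem pResidual_le_of_pPowerIndex {p : ℕ} {F : FusionSystem S} {E : FusionSystem T}
    (hidx : E.HasPPowerIndexIn F p) {P : Subgroup Ω} (hP : P ≤ T) :
    (pResidual p (F.autGroup P)).map (F.autGroup P).subtype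
      ≤ (pResidual p (E.autGroup P)).map (E.autGroup P).subtype := by
  rintro _ ⟨a, ha, rfl⟩
  unfold pResidual at ha
  induction ha using Subgroup.closure_induction with
  | mem x hx =>
    have h1 : ((F.autGroup P).subtype x) ∈ E.autGroup P :=
      hidx.2.2 P hP ⟨x, Subgroup.subset_closure hx, rfl⟩
    refine ⟨⟨_, h1⟩, Subgroup.subset_closure ?_, rfl⟩
    show (orderOf (⟨_, h1⟩ : E.autGroup P)).Coprime p
    rw [← Subgroup.orderOf_coe]
    have hx' : (orderOf x).Coprime p := hx
    rw [← Subgroup.orderOf_coe] at hx'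
    exact hx'
  | one => simp only [map_one]; exact Subgroup.one_mem _
  | mul x y _ _ hx hy => simp only [map_mul]; exact Subgroup.mul_mem _ hx hy
  | inv x _ hx => simp only [map_inv]; exact Subgroup.inv_mem _ hx

/-- the hyperfocal subgroup of a subsystem of `p`-power index. -/
theorem hyperfocal_eq_of_pPowerIndex [Finite S] {p : ℕ} [Fact p.Prime] (hS : IsPGroup p S)
    {F : FusionSystem S} {E : FusionSystem T} (hidx : E.HasPPowerIndexIn F p)
    (hT : F.StronglyClosed T) : E.hyperfocalSubgroup p = F.hyperfocalSubgroup p := by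
  apply le_antisymm (hyperfocal_mono hidx.1 p)
  conv_lhs => unfold hyperfocalSubgroup
  rw [Subgroup.closure_le]
  rintro _ ⟨P, α, x, hPS, hα, rfl⟩
  have hET : E.hyperfocalSubgroup p ≤ T := (hyperfocal_mono hidx.1 p).trans hidx.2.1
  have hinv : ∀ α ∈ F.autGroup P, ∀ x : P, (x : Ω) ∈ P ⊓ T → ((α x : P) : Ω) ∈ P ⊓ T := by
    intro α hα x hx
    refine ⟨(α x).2, ?_⟩
    rw [← totA_apply]
    exact StronglyClosed_mem hT ((mem_autGroup_iff_totA F hPS α).1 hα) x.2 hx.2
  -- (ii): elements of `P ∩ T`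
  have hii : ∀ a : F.autGroup P, a ∈ pResidual p (F.autGroup P) → ∀ y : P, (y : Ω) ∈ T →
      (y : Ω)⁻¹ * ((a : MulAut P) y : P) ∈ E.hyperfocalSubgroup p := by
    intro a ha y hy
    have h1 : resAut F inf_le_left hPS hinv a ∈ pResidual p (F.autGroup (P ⊓ T)) :=
      pResidual_map _ ha
    obtain ⟨a', ha', e⟩ := pResidual_le_of_pPowerIndex hidx (inf_le_right : P ⊓ T ≤ T) ⟨_, h1, rfl⟩
    have h2 := mem_hyperfocal (inf_le_right : P ⊓ T ≤ T) ha' ⟨y, y.2, hy⟩
    have e' : (a' : MulAut ↥(P ⊓ T)) = (resAut F inf_le_left hPS hinv a : MulAut ↥(P ⊓ T)) := e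
    rw [e', resAut_apply] at h2
    exact h2
  revert x
  show ∀ x : P, (x : Ω)⁻¹ * ((α : MulAut P) x : P) ∈ E.hyperfocalSubgroup p
  unfold pResidual at hα
  induction hα using Subgroup.closure_induction with
  | mem a ha =>
    intro x
    have ha' : a ∈ pResidual p (F.autGroup P) := Subgroup.subset_closure ha
    have hcop : (orderOf a).Coprime p := ha
    set r : Ω := (x : Ω)⁻¹ * ((a : MulAut P) x : P) with hr
    have hrT : r ∈ T := hidx.2.1 (mem_hyperfocal hPS ha' x)
    have hrP : r ∈ P := P.mul_mem (P.inv_mem x.2) ((a : MulAut P) x).2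
    have hstep : ∀ k : ℕ, ∃ h ∈ E.hyperfocalSubgroup p,
        ((((a : MulAut P) ^ k) x : P) : Ω) = x * r ^ k * h := by
      intro k
      induction k with
      | zero => exact ⟨1, Subgroup.one_mem _, by simp⟩
      | succ k ih =>
        obtain ⟨h, hh, e⟩ := ih
        have hyP : r ^ k * h ∈ P := by
          have : r ^ k * h = (x : Ω)⁻¹ * ((((a : MulAut P) ^ k) x : P) : Ω) := by
            rw [e]; group
          rw [this]
          exact P.mul_mem (P.inv_mem x.2) (((a : MulAut P) ^ k) x).2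
        have hyT : r ^ k * h ∈ T := T.mul_mem (T.pow_mem hrT k) (hET hh)
        have h3 := hii a ha' ⟨r ^ k * h, hyP⟩ hyT
        refine ⟨h * ((r ^ k * h)⁻¹ * ((a : MulAut P) ⟨r ^ k * h, hyP⟩ : P)),
          Subgroup.mul_mem _ hh h3, ?_⟩
        have e2 : ((a : MulAut P) ^ k) x = x * ⟨r ^ k * h, hyP⟩ := by
          apply Subtype.ext
          rw [e, mul_assoc]
          rfl
        rw [pow_succ', MulAut.mul_apply, e2, map_mul, Subgroup.coe_mul]
        have e3 : (((a : MulAut P) x : P) : Ω) = x * r := by rw [hr]; group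
        rw [e3, pow_succ']
        group
    obtain ⟨h, hh, e⟩ := hstep (orderOf a)
    have e1 : (a : MulAut P) ^ orderOf a = 1 := by
      rw [← Subgroup.coe_pow, pow_orderOf_eq_one]; rfl
    rw [e1, MulAut.one_apply] at e
    have h4 : r ^ orderOf a ∈ E.hyperfocalSubgroup p := by
      have : r ^ orderOf a = h⁻¹ := by
        have e5 : (x : Ω) * (r ^ orderOf a * h) = x * 1 := by rw [← mul_assoc, ← e, mul_one]
        exact eq_inv_of_mul_eq_one_left (mul_left_cancel e5)
      rw [this]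
      exact Subgroup.inv_mem _ hh
    obtain ⟨m, hm⟩ := hS ⟨r, hT.1 hrT⟩
    have hm' : r ^ p ^ m = 1 := by simpa using congrArg Subtype.val hm
    have hc : (orderOf a).Coprime (p ^ m) := Nat.Coprime.pow_right m hcop
    obtain ⟨u, hu⟩ := exists_pow_eq_self_of_coprime (x := r) (n := orderOf a)
      (Nat.Coprime.coprime_dvd_right (orderOf_dvd_of_pow_eq_one hm') hc)
    rw [← hu]
    exact Subgroup.pow_mem _ h4 u
  | one => intro x; simp
  | mul a b _ _ ha hb =>
    intro x
    have h1 := hb x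
    have h2 := ha ((b : MulAut P) x)
    have := Subgroup.mul_mem _ h1 h2
    rw [mul_assoc, mul_inv_cancel_left] at this
    exact this
  | inv a _ ha =>
    intro x
    have h1 := Subgroup.inv_mem _ (ha ((a : MulAut P)⁻¹ x))
    rw [mul_inv_rev, inv_inv, MulAut.apply_inv_self] at h1
    exact h1

/-- a subsystem of `p`-power index in a subsystem of `p`-power index. -/
theorem pPowerIndex_trans [Finite S] {p : ℕ} [Fact p.Prime] (hS : IsPGroup p S)
    {F : FusionSystem S} {E : FusionSystem T} (hidx : E.HasPPowerIndexIn F p)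
    (hT : F.StronglyClosed T) {U : Subgroup Ω} {D : FusionSystem U}
    (hD : D.HasPPowerIndexIn E p) : D.HasPPowerIndexIn F p := by
  refine ⟨fun P => (hD.1 P).trans (hidx.1 P), ?_, fun P hP => ?_⟩
  · rw [← hyperfocal_eq_of_pPowerIndex hS hidx hT]
    exact hD.2.1
  · exact (pResidual_le_of_pPowerIndex hidx (hP.trans (subsystem_le hD.1))).trans (hD.2.2 P hP)

theorem transport_aux [Finite S] {p : ℕ} [Fact p.Prime] (hS : IsPGroup p S) {F : FusionSystem S}
    {U₁ U₂ : Subgroup Ω} (h : U₁ = U₂) {D₁ D₁' : FusionSystem U₁} {D₂ D₂' : FusionSystem U₂}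
    (h1 : D₁.IsSaturated p) (h1' : D₁.HasPPowerIndexIn F p) (h2 : D₂.IsSaturated p)
    (h2' : D₂.HasPPowerIndexIn F p) (r1 : D₁.IsPPrimeResidual p D₁')
    (r2 : D₂.IsPPrimeResidual p D₂') {V₁ V₂ : Subgroup Ω} {L₁ : FusionSystem V₁}
    {L₂ : FusionSystem V₂} (l1 : IsResidualLimitOf L₁ D₁' p) (l2 : IsResidualLimitOf L₂ D₂' p) :
    Same L₁ L₂ := by
  subst h
  have e1 : D₁ = D₂ := pPowerIndex_unique hS D₁ D₂ h1 h1' h2 h2'
  subst e1
  have e2 : D₁' = D₂' := pPrimeResidual_unique r1 r2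
  subst e2
  have hle := subsystem_le h1'.1
  exact residualLimit_unique l1 L₂ l2 (finite_of_le hle) (hS.to_le hle)

theorem transport_aux2 [Finite S] {p : ℕ} [Fact p.Prime] (hS : IsPGroup p S) {F : FusionSystem S}
    {U₁ U₂ : Subgroup Ω} (h : U₁ = U₂) {D₁ D₁' : FusionSystem U₁} {E : FusionSystem U₂}
    (h1 : D₁.IsSaturated p) (h1' : D₁.HasPPowerIndexIn F p) (h2 : E.IsSaturated p)
    (h2' : E.HasPPowerIndexIn F p) (r1 : D₁.IsPPrimeResidual p D₁')
    (k1 : E.hyperfocalSubgroup p = U₂) (k2 : E.IsPPrimeResidual p E) {V₁ : Subgroup Ω}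
    {L₁ : FusionSystem V₁} (l1 : IsResidualLimitOf L₁ D₁' p) : Same L₁ E := by
  subst h
  have e1 : D₁ = E := pPowerIndex_unique hS D₁ E h1 h1' h2 h2'
  subst e1
  have e2 : D₁' = D₁ := pPrimeResidual_unique r1 k2
  subst e2
  have hle := subsystem_le h1'.1
  exact residualLimit_stable l1 (finite_of_le hle) (hS.to_le hle) k1 k2

/-- Residual limits of a saturated subsystem of `p`-power index (over a strongly closed
subgroup) and of the whole system coincide. -/
theorem residualLimit_of_pPowerIndex [Finite S] {p : ℕ} [Fact p.Prime] (hS : IsPGroup p S)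
    {F : FusionSystem S} (hF : F.IsSaturated p) {E : FusionSystem T} (hE : E.IsSaturated p)
    (hidx : E.HasPPowerIndexIn F p) (hT : F.StronglyClosed T) {U V : Subgroup Ω}
    {Finf : FusionSystem U} (hFinf : Finf.IsResidualLimitOf F p) {Einf : FusionSystem V}
    (hEinf : Einf.IsResidualLimitOf E p) : Same Finf Einf := by
  have hTS : T ≤ S := hT.1
  have hhyp := hyperfocal_eq_of_pPowerIndex hS hidx hT
  have hhS : F.hyperfocalSubgroup p ≤ S := hidx.2.1.trans hTS
  cases hFinf with
  | stable _ _ h1 h2 =>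
    have hTeq : T = S := le_antisymm hTS (h1 ▸ hidx.2.1)
    subst hTeq
    have e : E = F := pPowerIndex_unique hS E F hE hidx hF (pPowerIndex_self F p hhS)
    subst e
    exact (residualLimit_stable hEinf inferInstance hS h1 h2).symm
  | step _ _ D D' hD hD' hlim =>
    cases hEinf with
    | stable _ _ k1 k2 =>
      exact transport_aux2 hS (hhyp.symm.trans k1) hD.1 hD.2 hE hidx hD' k1 k2 hlim
    | step _ _ D₂ D₂' hD₂ hD₂' hlim₂ =>
      exact transport_aux hS hhyp.symm hD.1 hD.2 hD₂.1 (pPowerIndex_trans hS hidx hT hD₂.2)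
        hD' hD₂' hlim hlim₂

end ppower

end Cfsg.Agent.Lib.Helper86ResLim
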