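import Mathlib
import Cfsg.Agent.Lib.Helper44SLDefs
import Cfsg.Agent.Lib.Helper44VDefs
import Cfsg.Agent.Lib.Helper40SLhc
import Cfsg.Agent.Lib.Helper4Char2

set_option autoImplicit false
set_option linter.unusedSectionVars false
set_option warn.classDefReducibility false
set_option linter.style.haveILetI false

/-! PROJECT 45 (S2336), piece `phchar`. -/

namespace Cfsg.Agent.Lib.Helper86Vphchar

open Matrix Cfsg Cfsg.Agent.Lib.Helper44Wt Cfsg.Agent.Lib.Helper44SLDefs Cfsg.Agent.Lib.Helper44VDefs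

variable {F : Type*} [Field F] [Fintype F] [DecidableEq F] {n : ℕ}

theorem mulVec_ne_zero (g : Matrix.SpecialLinearGroup (Fin n) F) (v : Fin n → F) (hv : v ≠ 0) :
    (g : Matrix (Fin n) (Fin n) F).mulVec v ≠ 0 := by
  intro h
  apply hv
  have h1 : ((g⁻¹ * g : Matrix.SpecialLinearGroup (Fin n) F) : Matrix (Fin n) (Fin n) F).mulVec v
      = 0 := by
    rw [Matrix.SpecialLinearGroup.coe_mul, ← Matrix.mulVec_mulVec, h, Matrix.mulVec_zero]
  rwa [inv_mul_cancel, Matrix.SpecialLinearGroup.coe_one, Matrix.one_mulVec] at h1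

/-- the action of `SL_n(F) × Fˣ` on the nonzero vectors: `(g, c) • v = c⁻¹ g v`. -/
def act (F : Type*) [Field F] [Fintype F] [DecidableEq F] (n : ℕ) :
    MulAction (Matrix.SpecialLinearGroup (Fin n) F × Fˣ) {v : Fin n → F // v ≠ 0} where
  smul a v := ⟨((a.2⁻¹ : Fˣ) : F) • (a.1 : Matrix (Fin n) (Fin n) F).mulVec v.1,
    smul_ne_zero (Units.ne_zero _) (mulVec_ne_zero a.1 v.1 v.2)⟩
  one_smul v := by
    apply Subtype.ext
    show (((1 : Matrix.SpecialLinearGroup (Fin n) F × Fˣ).2⁻¹ : Fˣ) : F) •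
      ((1 : Matrix.SpecialLinearGroup (Fin n) F × Fˣ).1 : Matrix (Fin n) (Fin n) F).mulVec v.1 = v.1
    simp
  mul_smul a b v := by
    apply Subtype.ext
    show ((((a * b).2)⁻¹ : Fˣ) : F) • ((a * b).1 : Matrix (Fin n) (Fin n) F).mulVec v.1
      = ((a.2⁻¹ : Fˣ) : F) • (a.1 : Matrix (Fin n) (Fin n) F).mulVec
        (((b.2⁻¹ : Fˣ) : F) • (b.1 : Matrix (Fin n) (Fin n) F).mulVec v.1)
    rw [Matrix.mulVec_smul, smul_smul, Matrix.mulVec_mulVec, Prod.fst_mul, Prod.snd_mul,
      Matrix.SpecialLinearGroup.coe_mul, mul_inv, Units.val_mul]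

theorem ph_isCharacter (n : ℕ) (l : AddChar (Additive Fˣ) ℂ) :
    IsCharacter (Matrix.SpecialLinearGroup (Fin n) F) (ph n l) := by
  classical
  letI := act F n
  have h := Cfsg.Agent.Lib.Helper4Char.isCharacter_of_rep
    (Representation.ofMulAction ℂ (Matrix.SpecialLinearGroup (Fin n) F × Fˣ)
      {v : Fin n → F // v ≠ 0})
  let u : Multiplicative (Additive Fˣ) →* Matrix.SpecialLinearGroup (Fin n) F × Fˣ :=
    { toFun := fun a => (1, Additive.toMul (Multiplicative.toAdd a))
      map_one' := rfl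
      map_mul' := by
        intro a b
        ext1
        · simp
        · rfl }
  have h2 := Cfsg.Agent.Lib.Helper40SLhc.hc_char _ h u l
    (MonoidHom.inl (Matrix.SpecialLinearGroup (Fin n) F) Fˣ) (by
      intro γ
      refine ⟨Equiv.refl _, ?_, fun a => rfl⟩
      intro a
      ext1
      · simp [u]
      · simp [u])
  convert h2 using 1
  funext γ
  unfold ph hc
  have hc1 : Fintype.card (Additive Fˣ) = Fintype.card Fˣ :=
    Fintype.card_congr Additive.toMul
  rw [hc1]
  congr 1
  refine Fintype.sum_equiv Additive.ofMul _ _ ?_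
  intro c
  rw [Cfsg.Agent.Lib.Helper4Char2.ofMulAction_character, mul_comm]
  congr 2
  refine Nat.card_congr ?_
  have hu : u (Multiplicative.ofAdd (Additive.ofMul c)) *
      (MonoidHom.inl (Matrix.SpecialLinearGroup (Fin n) F) Fˣ) γ = (γ, c) := by
    ext1
    · simp [u]
    · simp [u]
  rw [hu]
  have hiff : ∀ v : Fin n → F, ((c⁻¹ : Fˣ) : F) • (γ : Matrix (Fin n) (Fin n) F).mulVec v = v ↔
      (γ : Matrix (Fin n) (Fin n) F).mulVec v = (c : F) • v := by
    intro v
    constructor
    · intro h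
      rw [← h, smul_smul, Units.mul_inv, one_smul, h]
    · intro h
      rw [h, smul_smul, Units.inv_mul, one_smul]
  exact
    { toFun := fun v => ⟨⟨v.1, v.2.1⟩, by
        rw [MulAction.mem_fixedBy]
        apply Subtype.ext
        exact (hiff v.1).mpr v.2.2⟩
      invFun := fun v => ⟨v.1.1, v.1.2, by
        have h := v.2
        rw [MulAction.mem_fixedBy] at h
        exact (hiff v.1.1).mp (congrArg Subtype.val h)⟩
      left_inv := fun v => rfl
      right_inv := fun v => rfl }

end Cfsg.Agent.Lib.Helper86Vphchar
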