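import Mathlib
import Cfsg.Agent.Lib.Helper90ModelUnique
import Cfsg.Agent.Lib.Helper87ModelQ
import Cfsg.Agent.Lib.Helper38PSolv
import Cfsg.Agent.Lib.Helper38HH
import Cfsg.Agent.Lib.Helper55PSolv
import Cfsg.Agent.S5145
import Cfsg.Agent.S5090

set_option autoImplicit false
set_option linter.unusedSectionVars false
set_option linter.unusedVariables false

namespace Cfsg.Agent.Lib.Helper87ModelAut

open Cfsg Cfsg.FusionSystem Cfsg.Agent.Lib.Helper87Fusion Cfsg.Agent.Lib.Helper87Fusion2
  Cfsg.Agent.Lib.Helper87Fusion3 Cfsg.Agent.Lib.Helper87Realized Cfsg.Agent.Lib.Helper86Fusion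
  Cfsg.Agent.Lib.Helper90ModelUnique Cfsg.Agent.Lib.Helper87Model

universe u

variable {Ω : Type u} [Group Ω] {S : Subgroup Ω} [Finite S] {G : Type*} [Group G] {p : ℕ}
  [Fact p.Prime]

/-- `O_p(F)` corresponds to `O_p(G)` for a model `G`. -/
theorem core_eq_pull {F : FusionSystem S} {ι : S →* G} (hM : F.IsModel p G ι) :
    F.core = pull ι (pCore p G) := by
  obtain ⟨hfin, hι, ⟨T, hT⟩, hc⟩ := id hM
  apply le_antisymm
  · have hcn : F.IsNormal F.core := Cfsg.Agent.S5145.result F
    have h1 : (hat ι F.core).Normal := hat_normal hM hcn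
    have h2 : IsPGroup p (hat ι F.core) := by
      have h3 : IsPGroup p ι.range := hT ▸ T.isPGroup'
      exact h3.to_le (hat_le_range ι _)
    have h3 : hat ι F.core ≤ pCore p G := Cfsg.Agent.Lib.Helper87Fusion3.le_pCore h1 h2
    intro x hx
    exact mem_pull.2 ⟨hcn.1 hx, h3 (iot_mem_hat hcn.1 hx)⟩
  · exact le_sSup (pull_isNormal hι (Cfsg.Agent.Lib.Helper87Fusion3.pCore_normal p G)
      (pCore_le_range hM))

open scoped IsMulCommutative

attribute [local instance] Cfsg.Agent.Lib.Helper90Model.actCenter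

/-- for a model `G` of `F`, `Aut_F(O_p(F))` is a quotient of `G` by a `p`-subgroup. -/
theorem exists_hom_aut_core (hS : IsPGroup p S) {F : FusionSystem S} {ι : S →* G}
    (hM : F.IsModel p G ι) :
    ∃ π : G →* F.autGroup F.core, Function.Surjective π ∧ IsPGroup p π.ker := by
  obtain ⟨hfin, hι, ⟨T, hT⟩, hc⟩ := id hM
  have hF : F.IsSaturated p := saturated_of_realized hι T hT
  have hcn : F.IsNormal F.core := Cfsg.Agent.S5145.result F
  have hcc : F.IsCentric F.core := by rw [core_eq_pull hM]; exact pull_pCore_isCentric hM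
  have hhat : hat ι F.core = pCore p G := by
    rw [core_eq_pull hM]; exact hat_pull (pCore_le_range hM)
  have hsc := Cfsg.Agent.Lib.Helper86Sub.normal_stronglyClosed hcn
  obtain ⟨π, hπ⟩ := isExt_of_model (hQS := hcn.1)
    (hn := fun s hs x hx => StronglyClosed_conj_mem hsc hs hx) hS hF hcn hcc hι
    (by rw [hhat]; exact Cfsg.Agent.Lib.Helper87Fusion3.pCore_normal p G) (by rw [hhat]; exact hc)
  refine ⟨π, hπ.surj, ?_⟩
  have h3 : IsPGroup p ι.range := hT ▸ T.isPGroup'
  refine h3.to_le (fun g hg => ?_)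
  obtain ⟨z, hz⟩ := hπ.ker g hg
  exact ⟨_, hz.symm⟩

theorem constrained_of_model {F : FusionSystem S} {ι : S →* G} (hM : F.IsModel p G ι) :
    F.IsConstrained p := by
  obtain ⟨hfin, hι, ⟨T, hT⟩, hc⟩ := id hM
  exact ⟨saturated_of_realized hι T hT, _,
    pull_isNormal hι (Cfsg.Agent.Lib.Helper87Fusion3.pCore_normal p G) (pCore_le_range hM),
    pull_pCore_isCentric hM⟩

/-- a `p`-solvable group realizing `F` on a Sylow subgroup gives a `p`-solvable model. -/
theorem model_of_pSolvable [Finite G] {F : FusionSystem S} {ι : S →* G} (hι : F.IsRealizedBy ι)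
    (T : Sylow p G) (hT : (T : Subgroup G) = ι.range) (hps : IsPSolvable p G) :
    F.IsModel p (G ⧸ pPrimeCore p G) ((QuotientGroup.mk' (pPrimeCore p G)).comp ι) := by
  refine ⟨inferInstance, Cfsg.Agent.Lib.Helper87ModelQ.realized_quot hι T hT _
    (Cfsg.Agent.Lib.Helper14CoreB.card_pPrimeCore_coprime p),
    ⟨T.mapSurjective (QuotientGroup.mk'_surjective _), ?_⟩, ?_⟩
  · rw [Sylow.coe_mapSurjective, hT, MonoidHom.range_eq_map, MonoidHom.range_eq_map,
      Subgroup.map_map]
  · exact Cfsg.Agent.Lib.Helper38HH.centralizer_pCore_le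
      (Cfsg.Agent.Lib.Helper38PSolv.isPSolvable_quotient _ hps)
      (Cfsg.Agent.Lib.Helper14CoreB.pPrimeCore_quotient_eq_bot p)

theorem pSolvable_model_iff (hS : IsPGroup p S) {F : FusionSystem S} {ι : S →* G}
    (hM : F.IsModel p G ι) : IsPSolvable p G ↔ IsPSolvable p (F.autGroup F.core) := by
  obtain ⟨π, hsurj, hker⟩ := exists_hom_aut_core hS hM
  have hfin := hM.1
  constructor
  · exact Cfsg.Agent.Lib.Helper38PSolv.isPSolvable_of_surjective π hsurj
  · intro h
    obtain ⟨m, hm⟩ := IsPGroup.iff_card.1 hker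
    refine Cfsg.Agent.Lib.Helper55PSolv.isPSolvable_of_quotient π.ker (Or.inl ⟨m, hm⟩) ?_
    exact Cfsg.Agent.Lib.Helper38PSolv.isPSolvable_of_surjective
      (QuotientGroup.quotientKerEquivOfSurjective π hsurj).symm.toMonoidHom
      (QuotientGroup.quotientKerEquivOfSurjective π hsurj).symm.surjective h

end Cfsg.Agent.Lib.Helper87ModelAut
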