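import Mathlib
import Cfsg.Prelude.Def_FusionComponents
import Cfsg.Agent.Lib.Helper87Fusion3
import Cfsg.Agent.Lib.Helper87Sylow
import Cfsg.Agent.Lib.Helper87Mk
import Cfsg.Agent.Lib.Helper87Realized
import Cfsg.Agent.Lib.Helper86Fusion2

set_option autoImplicit false
set_option linter.unusedSectionVars false

/-! Direct products of fusion systems. -/

namespace Cfsg.Agent.Lib.Helper87Prod

open Cfsg Cfsg.FusionSystem Cfsg.Agent.Lib.Helper87Fusion Cfsg.Agent.Lib.Helper87Fusion2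
  Cfsg.Agent.Lib.Helper87Fusion3 Cfsg.Agent.Lib.Helper87Sylow Cfsg.Agent.Lib.Helper87Mk
  Cfsg.Agent.Lib.Helper86Fusion Cfsg.Agent.Lib.Helper86Fusion2

variable {Ω₁ Ω₂ : Type*} [Group Ω₁] [Group Ω₂] {S₁ : Subgroup Ω₁} {S₂ : Subgroup Ω₂}

/-- first projection -/
abbrev pr1 (P : Subgroup (Ω₁ × Ω₂)) : Subgroup Ω₁ := P.map (MonoidHom.fst Ω₁ Ω₂)

/-- second projection -/
abbrev pr2 (P : Subgroup (Ω₁ × Ω₂)) : Subgroup Ω₂ := P.map (MonoidHom.snd Ω₁ Ω₂)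

theorem fst_mem_pr1 {P : Subgroup (Ω₁ × Ω₂)} {x : Ω₁ × Ω₂} (hx : x ∈ P) : x.1 ∈ pr1 P := ⟨x, hx, rfl⟩

theorem snd_mem_pr2 {P : Subgroup (Ω₁ × Ω₂)} {x : Ω₁ × Ω₂} (hx : x ∈ P) : x.2 ∈ pr2 P := ⟨x, hx, rfl⟩

theorem exists_of_mem_pr1 {P : Subgroup (Ω₁ × Ω₂)} {y : Ω₁} (hy : y ∈ pr1 P) :
    ∃ x ∈ P, x.1 = y := hy

theorem exists_of_mem_pr2 {P : Subgroup (Ω₁ × Ω₂)} {y : Ω₂} (hy : y ∈ pr2 P) :
    ∃ x ∈ P, x.2 = y := hy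

theorem pr1_mono {P Q : Subgroup (Ω₁ × Ω₂)} (h : P ≤ Q) : pr1 P ≤ pr1 Q := Subgroup.map_mono h

theorem pr2_mono {P Q : Subgroup (Ω₁ × Ω₂)} (h : P ≤ Q) : pr2 P ≤ pr2 Q := Subgroup.map_mono h

theorem pr1_le {P : Subgroup (Ω₁ × Ω₂)} (h : P ≤ S₁.prod S₂) : pr1 P ≤ S₁ := by
  rintro _ ⟨x, hx, rfl⟩
  exact (Subgroup.mem_prod.1 (h hx)).1

theorem pr2_le {P : Subgroup (Ω₁ × Ω₂)} (h : P ≤ S₁.prod S₂) : pr2 P ≤ S₂ := by
  rintro _ ⟨x, hx, rfl⟩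
  exact (Subgroup.mem_prod.1 (h hx)).2

theorem le_prod_pr (P : Subgroup (Ω₁ × Ω₂)) : P ≤ (pr1 P).prod (pr2 P) :=
  fun _ hx => Subgroup.mem_prod.2 ⟨fst_mem_pr1 hx, snd_mem_pr2 hx⟩

/-- the maps of the product system, as total functions -/
def PMap (F₁ : FusionSystem S₁) (F₂ : FusionSystem S₂) (P : Subgroup (Ω₁ × Ω₂))
    (f : Ω₁ × Ω₂ → Ω₁ × Ω₂) : Prop :=
  P ≤ S₁.prod S₂ ∧ ∃ f₁ f₂, IsMap F₁ (pr1 P) f₁ ∧ IsMap F₂ (pr2 P) f₂ ∧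
    ∀ x ∈ P, f x = (f₁ x.1, f₂ x.2)

theorem image_pr1 {P P' : Subgroup (Ω₁ × Ω₂)} {f : Ω₁ × Ω₂ → Ω₁ × Ω₂} {f₁ : Ω₁ → Ω₁} {f₂ : Ω₂ → Ω₂}
    (hf : ∀ x ∈ P, f x = (f₁ x.1, f₂ x.2)) (hP' : f '' (P : Set (Ω₁ × Ω₂)) = (P' : Set (Ω₁ × Ω₂))) :
    f₁ '' (pr1 P : Set Ω₁) = (pr1 P' : Set Ω₁) := by
  ext y
  constructor
  · rintro ⟨_, ⟨x, hx, rfl⟩, rfl⟩
    refine ⟨f x, IsMap.mem_image hP' hx, ?_⟩
    rw [hf x hx]; rfl
  · rintro ⟨z, hz, rfl⟩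
    obtain ⟨x, hx, rfl⟩ := IsMap.exists_of_mem_image hP' hz
    refine ⟨x.1, fst_mem_pr1 hx, ?_⟩
    rw [hf x hx]; rfl

theorem image_pr2 {P P' : Subgroup (Ω₁ × Ω₂)} {f : Ω₁ × Ω₂ → Ω₁ × Ω₂} {f₁ : Ω₁ → Ω₁} {f₂ : Ω₂ → Ω₂}
    (hf : ∀ x ∈ P, f x = (f₁ x.1, f₂ x.2)) (hP' : f '' (P : Set (Ω₁ × Ω₂)) = (P' : Set (Ω₁ × Ω₂))) :
    f₂ '' (pr2 P : Set Ω₂) = (pr2 P' : Set Ω₂) := by
  ext y
  constructor
  · rintro ⟨_, ⟨x, hx, rfl⟩, rfl⟩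
    refine ⟨f x, IsMap.mem_image hP' hx, ?_⟩
    rw [hf x hx]; rfl
  · rintro ⟨z, hz, rfl⟩
    obtain ⟨x, hx, rfl⟩ := IsMap.exists_of_mem_image hP' hz
    refine ⟨x.2, snd_mem_pr2 hx, ?_⟩
    rw [hf x hx]; rfl

/-- the data of the product system -/
def prodData (F₁ : FusionSystem S₁) (F₂ : FusionSystem S₂) : MapData (S₁.prod S₂) where
  M := PMap F₁ F₂
  congr := by
    rintro P f g ⟨hP, f₁, f₂, h1, h2, h3⟩ hfg
    exact ⟨hP, f₁, f₂, h1, h2, fun x hx => by rw [← hfg x hx, h3 x hx]⟩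
  le := by
    rintro P f ⟨hP, f₁, f₂, h1, h2, h3⟩
    refine ⟨hP, fun x hx => ?_⟩
    rw [h3 x hx]
    exact Subgroup.mem_prod.2 ⟨h1.mem (fst_mem_pr1 hx), h2.mem (snd_mem_pr2 hx)⟩
  inj := by
    rintro P f ⟨hP, f₁, f₂, h1, h2, h3⟩ x hx y hy hxy
    rw [h3 x hx, h3 y hy, Prod.mk.injEq] at hxy
    exact Prod.ext (h1.inj (fst_mem_pr1 hx) (fst_mem_pr1 hy) hxy.1)
      (h2.inj (snd_mem_pr2 hx) (snd_mem_pr2 hy) hxy.2)
  hom := by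
    rintro P f ⟨hP, f₁, f₂, h1, h2, h3⟩ x hx y hy
    rw [h3 x hx, h3 y hy, h3 _ (P.mul_mem hx hy)]
    exact Prod.ext (h1.map_mul (fst_mem_pr1 hx) (fst_mem_pr1 hy))
      (h2.map_mul (snd_mem_pr2 hx) (snd_mem_pr2 hy))
  conj := by
    intro P g hP hg
    exact ⟨hP, _, _, isMap_conj F₁ (pr1_le hP) (Subgroup.mem_prod.1 hg).1,
      isMap_conj F₂ (pr2_le hP) (Subgroup.mem_prod.1 hg).2, fun x _ => rfl⟩
  comp := by
    rintro P Q f g ⟨hP, f₁, f₂, h1, h2, h3⟩ ⟨hQ, g₁, g₂, k1, k2, k3⟩ hfQ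
    refine ⟨hP, _, _, h1.comp k1 ?_, h2.comp k2 ?_, fun x hx => ?_⟩
    · rintro _ ⟨x, hx, rfl⟩
      have := fst_mem_pr1 (hfQ x hx)
      rw [h3 x hx] at this
      exact this
    · rintro _ ⟨x, hx, rfl⟩
      have := snd_mem_pr2 (hfQ x hx)
      rw [h3 x hx] at this
      exact this
    · show g (f x) = _
      rw [k3 _ (hfQ x hx), h3 x hx]
  inv := by
    rintro P P' f ⟨hP, f₁, f₂, h1, h2, h3⟩ hP'
    obtain ⟨g₁, hg₁, a1, -, -⟩ := h1.inv (image_pr1 h3 hP')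
    obtain ⟨g₂, hg₂, a2, -, -⟩ := h2.inv (image_pr2 h3 hP')
    refine ⟨fun y => (g₁ y.1, g₂ y.2), ⟨?_, g₁, g₂, hg₁, hg₂, fun _ _ => rfl⟩, fun x hx => ?_⟩
    · intro y hy
      obtain ⟨x, hx, rfl⟩ := IsMap.exists_of_mem_image hP' hy
      rw [h3 x hx]
      exact Subgroup.mem_prod.2 ⟨h1.mem (fst_mem_pr1 hx), h2.mem (snd_mem_pr2 hx)⟩
    · rw [h3 x hx]
      exact Prod.ext (a1 _ (fst_mem_pr1 hx)) (a2 _ (snd_mem_pr2 hx))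

theorem mem_hom_product_iff {F₁ : FusionSystem S₁} {F₂ : FusionSystem S₂}
    {P : Subgroup (Ω₁ × Ω₂)} {φ : P →* Ω₁ × Ω₂} :
    (P ≤ S₁.prod S₂ ∧
      ∃ φ₁ ∈ F₁.Hom (P.map (MonoidHom.fst Ω₁ Ω₂)), ∃ φ₂ ∈ F₂.Hom (P.map (MonoidHom.snd Ω₁ Ω₂)),
        ∀ (x : P) (h₁ : (x : Ω₁ × Ω₂).1 ∈ P.map (MonoidHom.fst Ω₁ Ω₂))
          (h₂ : (x : Ω₁ × Ω₂).2 ∈ P.map (MonoidHom.snd Ω₁ Ω₂)),
          φ x = (φ₁ ⟨(x : Ω₁ × Ω₂).1, h₁⟩, φ₂ ⟨(x : Ω₁ × Ω₂).2, h₂⟩)) ↔ PMap F₁ F₂ P (tot φ) := by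
  constructor
  · rintro ⟨hP, φ₁, hφ₁, φ₂, hφ₂, h⟩
    refine ⟨hP, tot φ₁, tot φ₂, isMap_tot hφ₁, isMap_tot hφ₂, fun x hx => ?_⟩
    rw [tot_of_mem φ hx, h ⟨x, hx⟩ (fst_mem_pr1 hx) (snd_mem_pr2 hx),
      tot_of_mem φ₁ (fst_mem_pr1 hx), tot_of_mem φ₂ (snd_mem_pr2 hx)]
  · rintro ⟨hP, f₁, f₂, ⟨φ₁, hφ₁, h1⟩, ⟨φ₂, hφ₂, h2⟩, h3⟩
    refine ⟨hP, φ₁, hφ₁, φ₂, hφ₂, fun x a1 a2 => ?_⟩
    rw [← tot_apply φ x, h3 x x.2]
    exact Prod.ext (h1 ⟨_, a1⟩).symm (h2 ⟨_, a2⟩).symm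

theorem prodData_isProductSystem (F₁ : FusionSystem S₁) (F₂ : FusionSystem S₂) :
    IsProductSystem F₁ F₂ (prodData F₁ F₂).toFusion := by
  intro P φ
  rw [mem_toFusion_hom, mem_hom_product_iff]
  rfl

theorem isMap_product_iff {F₁ : FusionSystem S₁} {F₂ : FusionSystem S₂}
    {E : FusionSystem (S₁.prod S₂)} (hE : IsProductSystem F₁ F₂ E) {P : Subgroup (Ω₁ × Ω₂)}
    {f : Ω₁ × Ω₂ → Ω₁ × Ω₂} : IsMap E P f ↔ PMap F₁ F₂ P f := by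
  constructor
  · rintro ⟨φ, hφ, hf⟩
    have := mem_hom_product_iff.1 ((hE P φ).1 hφ)
    exact (prodData F₁ F₂).congr this (fun x hx => by rw [tot_of_mem φ hx]; exact hf ⟨x, hx⟩)
  · intro h
    refine ⟨homOf f ((prodData F₁ F₂).hom h), (hE P _).2 (mem_hom_product_iff.2 ?_), fun x => rfl⟩
    refine (prodData F₁ F₂).congr h (fun x hx => ?_)
    rw [tot_of_mem _ hx]; rfl

theorem receptive_of_pr {F₁ : FusionSystem S₁} {F₂ : FusionSystem S₂}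
    {E : FusionSystem (S₁.prod S₂)} (hE : IsProductSystem F₁ F₂ E) {P : Subgroup (Ω₁ × Ω₂)}
    (hP : P ≤ S₁.prod S₂) (h1 : F₁.IsReceptive (pr1 P)) (h2 : F₂.IsReceptive (pr2 P)) :
    E.IsReceptive P := by
  apply isReceptive_of hP
  intro R f hf hfP N hN
  obtain ⟨hR, f₁, f₂, m1, m2, m3⟩ := (isMap_product_iff hE).1 hf
  obtain ⟨N₁, f₁', hN₁, hf₁', e1⟩ := receptive_extend h1 m1 (image_pr1 m3 hfP)
  obtain ⟨N₂, f₂', hN₂, hf₂', e2⟩ := receptive_extend h2 m2 (image_pr2 m3 hfP)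
  have hNS : N ≤ S₁.prod S₂ := fun g hg => ((hN g).1 hg).1
  have k1 : pr1 N ≤ N₁ := by
    rintro _ ⟨g, hg, rfl⟩
    obtain ⟨a1, a2, h, hh, a3⟩ := (hN g).1 hg
    rw [hN₁]
    refine ⟨(Subgroup.mem_prod.1 a1).1, Subgroup.le_normalizer_map _ ⟨g, a2, rfl⟩, h.1,
      (Subgroup.mem_prod.1 hh).1, ?_⟩
    rintro _ ⟨x, hx, rfl⟩
    have hgx : g * x * g⁻¹ ∈ R := (Subgroup.mem_normalizer_iff.1 a2 x).1 hx
    have := a3 x hx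
    rw [m3 _ hgx, m3 x hx] at this
    exact congrArg Prod.fst this
  have k2 : pr2 N ≤ N₂ := by
    rintro _ ⟨g, hg, rfl⟩
    obtain ⟨a1, a2, h, hh, a3⟩ := (hN g).1 hg
    rw [hN₂]
    refine ⟨(Subgroup.mem_prod.1 a1).2, Subgroup.le_normalizer_map _ ⟨g, a2, rfl⟩, h.2,
      (Subgroup.mem_prod.1 hh).2, ?_⟩
    rintro _ ⟨x, hx, rfl⟩
    have hgx : g * x * g⁻¹ ∈ R := (Subgroup.mem_normalizer_iff.1 a2 x).1 hx
    have := a3 x hx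
    rw [m3 _ hgx, m3 x hx] at this
    exact congrArg Prod.snd this
  refine ⟨fun y => (f₁' y.1, f₂' y.2), (isMap_product_iff hE).2 ⟨hNS, f₁', f₂', hf₁'.restrict k1,
    hf₂'.restrict k2, fun _ _ => rfl⟩, fun x hx => ?_⟩
  rw [m3 x hx]
  exact Prod.ext (e1 _ (fst_mem_pr1 hx)) (e2 _ (snd_mem_pr2 hx))

theorem card_subgroup_prod {A B : Type*} [Group A] [Group B] (X : Subgroup A) (Y : Subgroup B) :
    Nat.card (X.prod Y) = Nat.card X * Nat.card Y := by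
  rw [← Nat.card_prod]
  exact Nat.card_congr (Subgroup.prodEquiv X Y).toEquiv

theorem sylIn_prod {A B : Type*} [Group A] [Group B] [Finite A] [Finite B] {p : ℕ} [Fact p.Prime]
    {X N : Subgroup A} {Y M : Subgroup B} (h1 : SylIn p X N) (h2 : SylIn p Y M) :
    SylIn p (X.prod Y) (N.prod M) := by
  refine ⟨Subgroup.prod_mono h1.1 h2.1, ?_⟩
  rw [card_subgroup_prod, card_subgroup_prod, h1.2, h2.2,
    Nat.factorization_mul Nat.card_pos.ne' Nat.card_pos.ne', Finsupp.add_apply, pow_add]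

/-- pairs of automorphisms stabilizing `P ≤ P₁ × P₂` -/
def Stab (P₁ : Subgroup Ω₁) (P₂ : Subgroup Ω₂) (P : Subgroup (Ω₁ × Ω₂)) :
    Subgroup (MulAut P₁ × MulAut P₂) where
  carrier := {a | ∀ (x₁ : P₁) (x₂ : P₂), ((x₁ : Ω₁), (x₂ : Ω₂)) ∈ P ↔
    (((a.1 x₁ : P₁) : Ω₁), ((a.2 x₂ : P₂) : Ω₂)) ∈ P}
  mul_mem' := by
    intro a b ha hb x₁ x₂
    rw [hb x₁ x₂, ha (b.1 x₁) (b.2 x₂)]
    rfl
  one_mem' := fun _ _ => Iff.rfl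
  inv_mem' := by
    intro a ha x₁ x₂
    rw [ha (a⁻¹.1 x₁) (a⁻¹.2 x₂)]
    simp

/-- the product map of a pair of automorphisms -/
noncomputable def pmap {P₁ : Subgroup Ω₁} {P₂ : Subgroup Ω₂} (a : MulAut P₁ × MulAut P₂) :
    Ω₁ × Ω₂ → Ω₁ × Ω₂ := fun x => (totA a.1 x.1, totA a.2 x.2)

theorem isMap_pmap {F₁ : FusionSystem S₁} {F₂ : FusionSystem S₂}
    {E : FusionSystem (S₁.prod S₂)} (hE : IsProductSystem F₁ F₂ E) {P₁ : Subgroup Ω₁}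
    {P₂ : Subgroup Ω₂} (h1 : P₁ ≤ S₁) (h2 : P₂ ≤ S₂) {P : Subgroup (Ω₁ × Ω₂)}
    (hP : P ≤ P₁.prod P₂) {a : MulAut P₁ × MulAut P₂}
    (ha : a ∈ (F₁.autGroup P₁).prod (F₂.autGroup P₂)) : IsMap E P (pmap a) := by
  refine (isMap_product_iff hE).2 ⟨hP.trans (Subgroup.prod_mono h1 h2), totA a.1, totA a.2,
    ((mem_autGroup_iff_totA F₁ h1 a.1).1 ha.1).restrict (pr1_le hP),
    ((mem_autGroup_iff_totA F₂ h2 a.2).1 ha.2).restrict (pr2_le hP), fun _ _ => rfl⟩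

theorem mem_iff_pmap {P₁ : Subgroup Ω₁} {P₂ : Subgroup Ω₂} {P P' : Subgroup (Ω₁ × Ω₂)}
    (hP : P ≤ P₁.prod P₂) {a : MulAut P₁ × MulAut P₂}
    (hP' : pmap a '' (P : Set (Ω₁ × Ω₂)) = (P' : Set (Ω₁ × Ω₂))) (x₁ : P₁) (x₂ : P₂) :
    ((x₁ : Ω₁), (x₂ : Ω₂)) ∈ P ↔ (((a.1 x₁ : P₁) : Ω₁), ((a.2 x₂ : P₂) : Ω₂)) ∈ P' := by
  constructor
  · intro h
    have := IsMap.mem_image hP' h
    unfold pmap at this
    rw [totA_apply, totA_apply] at this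
    exact this
  · intro h
    obtain ⟨z, hz, hzx⟩ := IsMap.exists_of_mem_image hP' h
    obtain ⟨z1, z2⟩ := Subgroup.mem_prod.1 (hP hz)
    unfold pmap at hzx
    rw [totA_of_mem _ z1, totA_of_mem _ z2, Prod.mk.injEq] at hzx
    have e1 : (⟨z.1, z1⟩ : P₁) = x₁ := a.1.injective (Subtype.ext hzx.1)
    have e2 : (⟨z.2, z2⟩ : P₂) = x₂ := a.2.injective (Subtype.ext hzx.2)
    rw [← e1, ← e2]
    exact hz

theorem cj_Stab {P₁ : Subgroup Ω₁} {P₂ : Subgroup Ω₂} {P P' : Subgroup (Ω₁ × Ω₂)}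
    (hP : P ≤ P₁.prod P₂) {a : MulAut P₁ × MulAut P₂}
    (hP' : pmap a '' (P : Set (Ω₁ × Ω₂)) = (P' : Set (Ω₁ × Ω₂))) :
    cj a (Stab P₁ P₂ P) = Stab P₁ P₂ P' := by
  have key := mem_iff_pmap hP hP'
  ext b
  rw [mem_cj]
  constructor
  · intro h y₁ y₂
    have := h (a⁻¹.1 y₁) (a⁻¹.2 y₂)
    rw [key, key] at this
    simpa using this
  · intro h x₁ x₂
    rw [key x₁ x₂, h, key]
    simp

/-- restriction to `P` of a pair of automorphisms stabilizing `P` -/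
def resS {P₁ : Subgroup Ω₁} {P₂ : Subgroup Ω₂} {P : Subgroup (Ω₁ × Ω₂)} (hP : P ≤ P₁.prod P₂)
    (a : MulAut P₁ × MulAut P₂) (h : a ∈ Stab P₁ P₂ P) : MulAut P where
  toFun x := ⟨((a.1 ⟨x.1.1, (Subgroup.mem_prod.1 (hP x.2)).1⟩ : P₁),
    (a.2 ⟨x.1.2, (Subgroup.mem_prod.1 (hP x.2)).2⟩ : P₂)), (h _ _).1 x.2⟩
  invFun x := ⟨((a.1.symm ⟨x.1.1, (Subgroup.mem_prod.1 (hP x.2)).1⟩ : P₁),
    (a.2.symm ⟨x.1.2, (Subgroup.mem_prod.1 (hP x.2)).2⟩ : P₂)), by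
      rw [h, MulEquiv.apply_symm_apply, MulEquiv.apply_symm_apply]; exact x.2⟩
  left_inv x := by simp
  right_inv x := by simp
  map_mul' x y := by
    have e1 := congrArg (Subtype.val (p := fun z => z ∈ P₁))
      (map_mul a.1 ⟨x.1.1, (Subgroup.mem_prod.1 (hP x.2)).1⟩ ⟨y.1.1, (Subgroup.mem_prod.1 (hP y.2)).1⟩)
    have e2 := congrArg (Subtype.val (p := fun z => z ∈ P₂))
      (map_mul a.2 ⟨x.1.2, (Subgroup.mem_prod.1 (hP x.2)).2⟩ ⟨y.1.2, (Subgroup.mem_prod.1 (hP y.2)).2⟩)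
    exact Subtype.ext (Prod.ext e1 e2)

/-- the restriction homomorphism -/
def resSHom {P₁ : Subgroup Ω₁} {P₂ : Subgroup Ω₂} {P : Subgroup (Ω₁ × Ω₂)} (hP : P ≤ P₁.prod P₂)
    (A : Subgroup (MulAut P₁ × MulAut P₂)) : (A ⊓ Stab P₁ P₂ P : Subgroup _) →* MulAut P :=
  MonoidHom.mk' (fun a => resS hP a.1 a.2.2) (by
    intro a b
    ext x <;> rfl)

theorem resSHom_apply {P₁ : Subgroup Ω₁} {P₂ : Subgroup Ω₂} {P : Subgroup (Ω₁ × Ω₂)}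
    (hP : P ≤ P₁.prod P₂) (A : Subgroup (MulAut P₁ × MulAut P₂))
    (a : (A ⊓ Stab P₁ P₂ P : Subgroup _)) (x : P) :
    ((resSHom hP A a x : P) : Ω₁ × Ω₂) = pmap (a : MulAut P₁ × MulAut P₂) x := by
  unfold pmap
  rw [totA_of_mem _ (Subgroup.mem_prod.1 (hP x.2)).1, totA_of_mem _ (Subgroup.mem_prod.1 (hP x.2)).2]
  rfl

theorem fullyAutomized_of_sylIn [Finite S₁] [Finite S₂] {p : ℕ} [Fact p.Prime]
    {F₁ : FusionSystem S₁} {F₂ : FusionSystem S₂}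
    {E : FusionSystem (S₁.prod S₂)} (hE : IsProductSystem F₁ F₂ E) {P₁ : Subgroup Ω₁}
    {P₂ : Subgroup Ω₂} {P : Subgroup (Ω₁ × Ω₂)} (h1 : pr1 P = P₁) (h2 : pr2 P = P₂)
    (hP₁ : P₁ ≤ S₁) (hP₂ : P₂ ≤ S₂)
    (h : SylIn p ((autInducedBy S₁ P₁).prod (autInducedBy S₂ P₂) ⊓ Stab P₁ P₂ P)
      ((F₁.autGroup P₁).prod (F₂.autGroup P₂) ⊓ Stab P₁ P₂ P)) : E.IsFullyAutomized p P := by
  subst h1 h2
  have hPle : P ≤ (pr1 P).prod (pr2 P) := le_prod_pr P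
  have hPS : P ≤ S₁.prod S₂ := hPle.trans (Subgroup.prod_mono hP₁ hP₂)
  have : Finite (pr1 P) := finite_of_le hP₁
  have : Finite (pr2 P) := finite_of_le hP₂
  have : Finite ((pr1 P).prod (pr2 P)) := Finite.of_equiv _ (Subgroup.prodEquiv _ _).symm.toEquiv
  have : Finite P := Finite.of_injective _ (Subgroup.inclusion_injective hPle)
  refine ⟨hPS, ?_⟩
  obtain ⟨R₀, hR₀⟩ := (sylIn_iff h.1).1 h
  apply Cfsg.Agent.Lib.Helper87Realized.sylow_transport (resSHom hPle _) R₀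
  · apply le_antisymm
    · rintro _ ⟨a, rfl⟩
      rw [mem_autGroup_iff_isMap E hPS _ (f := pmap a.1)]
      · exact isMap_pmap hE hP₁ hP₂ hPle a.2.1
      · intro x
        exact resSHom_apply hPle _ a x
    · intro β hβ
      have hβm := (mem_autGroup_iff_totA E hPS β).1 hβ
      obtain ⟨-, f₁, f₂, m1, m2, m3⟩ := (isMap_product_iff hE).1 hβm
      obtain ⟨α₁, hα₁, e1⟩ := m1.exists_aut (image_pr1 m3 (totA_image β))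
      obtain ⟨α₂, hα₂, e2⟩ := m2.exists_aut (image_pr2 m3 (totA_image β))
      have hst : (α₁, α₂) ∈ Stab (pr1 P) (pr2 P) P := by
        intro x₁ x₂
        show _ ↔ (((α₁ x₁ : pr1 P) : Ω₁), ((α₂ x₂ : pr2 P) : Ω₂)) ∈ P
        rw [e1, e2]
        constructor
        · intro hx
          have := totA_mem β hx
          rw [m3 _ hx] at this
          exact this
        · intro hx
          obtain ⟨z, hz, hzx⟩ := IsMap.exists_of_mem_image (totA_image β) hx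
          rw [m3 z hz, Prod.mk.injEq] at hzx
          have a1 := m1.inj (fst_mem_pr1 hz) x₁.2 hzx.1
          have a2 := m2.inj (snd_mem_pr2 hz) x₂.2 hzx.2
          rw [← a1, ← a2]
          exact hz
      refine ⟨⟨(α₁, α₂), ⟨hα₁, hα₂⟩, hst⟩, ?_⟩
      apply MulEquiv.ext
      intro x
      apply Subtype.ext
      rw [resSHom_apply, ← totA_apply β x, m3 x x.2]
      unfold pmap
      rw [totA_of_mem _ (fst_mem_pr1 x.2), totA_of_mem _ (snd_mem_pr2 x.2)]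
      exact Prod.ext (e1 _) (e2 _)
  · rw [hR₀]
    apply le_antisymm
    · rintro _ ⟨a, ha, rfl⟩
      have ha' := Subgroup.mem_subgroupOf.1 ha
      obtain ⟨g₁, hg₁, e1⟩ := (mem_autInducedBy_iff S₁ _ _).1 ha'.1.1
      obtain ⟨g₂, hg₂, e2⟩ := (mem_autInducedBy_iff S₂ _ _).1 ha'.1.2
      rw [mem_autInducedBy_iff]
      refine ⟨(g₁, g₂), Subgroup.mem_prod.2 ⟨hg₁, hg₂⟩, fun x => ?_⟩
      rw [resSHom_apply]
      unfold pmap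
      rw [totA_of_mem _ (fst_mem_pr1 x.2), totA_of_mem _ (snd_mem_pr2 x.2), e1, e2]
      rfl
    · intro β hβ
      obtain ⟨g, hg, hgβ⟩ := (mem_autInducedBy_iff _ P β).1 hβ
      have hgN : g ∈ Subgroup.normalizer (P : Set (Ω₁ × Ω₂)) := by
        apply Cfsg.Agent.Lib.Helper87Realized.mem_normalizer_of_conj_mem
        intro y hy
        rw [← hgβ ⟨y, hy⟩]; exact (β ⟨y, hy⟩).2
      obtain ⟨α₁, hα₁, e1⟩ := exists_conjAut (K := S₁) (P := pr1 P) (Subgroup.mem_prod.1 hg).1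
        (Subgroup.le_normalizer_map _ ⟨g, hgN, rfl⟩)
      obtain ⟨α₂, hα₂, e2⟩ := exists_conjAut (K := S₂) (P := pr2 P) (Subgroup.mem_prod.1 hg).2
        (Subgroup.le_normalizer_map _ ⟨g, hgN, rfl⟩)
      have hst : (α₁, α₂) ∈ Stab (pr1 P) (pr2 P) P := by
        intro x₁ x₂
        show _ ↔ (((α₁ x₁ : pr1 P) : Ω₁), ((α₂ x₂ : pr2 P) : Ω₂)) ∈ P
        rw [e1, e2]
        exact Subgroup.mem_normalizer_iff.1 hgN (x₁, x₂)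
      refine ⟨⟨(α₁, α₂), ⟨autInducedBy_le_autGroup F₁ hP₁ hα₁, autInducedBy_le_autGroup F₂ hP₂ hα₂⟩,
        hst⟩, Subgroup.mem_subgroupOf.2 ⟨⟨hα₁, hα₂⟩, hst⟩, ?_⟩
      apply MulEquiv.ext
      intro x
      apply Subtype.ext
      rw [resSHom_apply, hgβ]
      unfold pmap
      rw [totA_of_mem _ (fst_mem_pr1 x.2), totA_of_mem _ (snd_mem_pr2 x.2)]
      exact Prod.ext (e1 _) (e2 _)

theorem cj_inf {A : Type*} [Group A] (a : A) (X Y : Subgroup A) :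
    cj a (X ⊓ Y) = cj a X ⊓ cj a Y := by
  ext y
  simp only [mem_cj, Subgroup.mem_inf]

theorem product_saturated [Finite S₁] [Finite S₂] {p : ℕ} [Fact p.Prime]
    {F₁ : FusionSystem S₁} {F₂ : FusionSystem S₂} (hF₁ : F₁.IsSaturated p)
    (hF₂ : F₂.IsSaturated p) {E : FusionSystem (S₁.prod S₂)} (hE : IsProductSystem F₁ F₂ E) :
    E.IsSaturated p := by
  intro P hP
  obtain ⟨P₁, c1, a1, r1⟩ := hF₁ (pr1 P) (pr1_le hP)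
  obtain ⟨P₂, c2, a2, r2⟩ := hF₂ (pr2 P) (pr2_le hP)
  obtain ⟨f₁, m1, i1⟩ := fconj_iff.1 c1
  obtain ⟨f₂, m2, i2⟩ := fconj_iff.1 c2
  have hf : IsMap E P (fun x => (f₁ x.1, f₂ x.2)) :=
    (isMap_product_iff hE).2 ⟨hP, f₁, f₂, m1, m2, fun _ _ => rfl⟩
  obtain ⟨P0, hP0⟩ := hf.exists_image
  have j1 : pr1 P0 = P₁ := SetLike.coe_injective ((image_pr1 (fun _ _ => rfl) hP0).symm.trans i1)
  have j2 : pr2 P0 = P₂ := SetLike.coe_injective ((image_pr2 (fun _ _ => rfl) hP0).symm.trans i2)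
  have hP0le : P0 ≤ P₁.prod P₂ := j1 ▸ j2 ▸ le_prod_pr P0
  have : Finite P₁ := finite_of_le a1.1
  have : Finite P₂ := finite_of_le a2.1
  have s1 : SylIn p (autInducedBy S₁ P₁) (F₁.autGroup P₁) :=
    (sylIn_iff (autInducedBy_le_autGroup F₁ a1.1)).2 a1.2
  have s2 : SylIn p (autInducedBy S₂ P₂) (F₂.autGroup P₂) :=
    (sylIn_iff (autInducedBy_le_autGroup F₂ a2.1)).2 a2.2
  have s := sylIn_prod s1 s2
  obtain ⟨R, hR⟩ := exists_sylIn (p := p) ((F₁.autGroup P₁).prod (F₂.autGroup P₂) ⊓ Stab P₁ P₂ P0)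
  obtain ⟨a, ha, haR⟩ := s.exists_conj_le (hR.1.trans inf_le_left) hR.isPGroup
  have hm := isMap_pmap hE a1.1 a2.1 hP0le ha
  obtain ⟨P', hP'⟩ := hm.exists_image
  have hcj : cj a ((F₁.autGroup P₁).prod (F₂.autGroup P₂) ⊓ Stab P₁ P₂ P0) =
      (F₁.autGroup P₁).prod (F₂.autGroup P₂) ⊓ Stab P₁ P₂ P' := by
    rw [cj_inf, cj_of_mem ha, cj_Stab hP0le hP']
  have h2 := hR.conj a
  rw [hcj] at h2
  have h3 : cj a R ≤ (autInducedBy S₁ P₁).prod (autInducedBy S₂ P₂) ⊓ Stab P₁ P₂ P' :=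
    le_inf haR (h2.1.trans inf_le_right)
  have h4 := h2.eq_of_le h3 (inf_le_inf s.1 le_rfl) (s.isPGroup.to_le inf_le_left)
  have k1 : pr1 P' = P₁ := SetLike.coe_injective (by
    rw [← image_pr1 (f := pmap a) (fun _ _ => rfl) hP', j1]; exact totA_image a.1)
  have k2 : pr2 P' = P₂ := SetLike.coe_injective (by
    rw [← image_pr2 (f := pmap a) (fun _ _ => rfl) hP', j2]; exact totA_image a.2)
  refine ⟨P', isConj_trans (fconj_iff.2 ⟨_, hf, hP0⟩) (fconj_iff.2 ⟨_, hm, hP'⟩),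
    fullyAutomized_of_sylIn hE k1 k2 a1.1 a2.1 (h4 ▸ h2),
    receptive_of_pr hE (hm.image_le hP') (k1 ▸ r1) (k2 ▸ r2)⟩

end Cfsg.Agent.Lib.Helper87Prod
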