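import Mathlib
import Cfsg.Prelude.Def_Spor_Conway
import Cfsg.Prelude.Def_Spor_Mathieu
import Cfsg.Agent.Lib.Helper10Co0Center
import Cfsg.Agent.S0404

set_option autoImplicit false

/-!
The order of the group `Spor.McL`, and the embedding of `Spor.M22` into it by coordinate
permutations.
-/

namespace Cfsg.Agent.Lib.Helper88McL

open Cfsg Cfsg.Spor Cfsg.Agent.Lib.Helper10Co0Center
open Cfsg.Agent.S5546 (e8)

theorem co0_add {f : Equiv.Perm leechLattice} (hf : f ∈ Co0) (v w : leechLattice) :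
    f (v + w) = f v + f w := hf.1 v w

theorem co0_zero {f : Equiv.Perm leechLattice} (hf : f ∈ Co0) : f 0 = 0 := by
  have := co0_add hf 0 0
  rw [add_zero] at this
  exact (add_eq_left.1 this.symm)

theorem co0_neg {f : Equiv.Perm leechLattice} (hf : f ∈ Co0) (v : leechLattice) :
    f (-v) = - f v := by
  have := co0_add hf (-v) v
  rw [neg_add_cancel, co0_zero hf] at this
  exact eq_neg_of_add_eq_zero_left this.symm

theorem mem_McL (f : Equiv.Perm leechLattice) :
    f ∈ Spor.McL ↔ f ∈ Co0 ∧ f leechV = leechV ∧ f leechU = leechU := by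
  constructor
  · rintro ⟨⟨h1, h2⟩, h3⟩
    exact ⟨h1, h2, h3⟩
  · rintro ⟨h1, h2, h3⟩
    exact ⟨⟨h1, h2⟩, h3⟩

theorem McL_eq : Spor.McL = (MulAction.stabilizer Co0 (-leechU) ⊓
    MulAction.stabilizer Co0 (leechV + leechU)).map Co0.subtype := by
  ext f
  rw [mem_McL]
  constructor
  · rintro ⟨h1, h2, h3⟩
    refine ⟨⟨f, h1⟩, ⟨?_, ?_⟩, rfl⟩
    · show f (-leechU) = -leechU
      rw [co0_neg h1, h3]
    · show f (leechV + leechU) = leechV + leechU
      rw [co0_add h1, h2, h3]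
  · rintro ⟨⟨g, hg⟩, ⟨h1, h2⟩, rfl⟩
    have h1' : g (-leechU) = -leechU := h1
    have h2' : g (leechV + leechU) = leechV + leechU := h2
    rw [co0_neg hg] at h1'
    rw [co0_add hg, neg_inj.1 h1'] at h2'
    exact ⟨hg, add_right_cancel h2', neg_inj.1 h1'⟩

theorem card_McL : Nat.card Spor.McL = 898128000 := by
  have h := Cfsg.Agent.S0404.result (-leechU) (leechV + leechU) (by decide +kernel)
    (by decide +kernel) (by decide +kernel)
  rw [McL_eq, Subgroup.card_map_of_injective Co0.subtype_injective]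
  exact h.2

theorem fact_McL : (Nat.card Spor.McL).factorization 2 = 7 := by
  rw [card_McL]
  have h : (898128000 : ℕ) = 2 ^ 7 * 7016625 := by norm_num
  rw [h, Nat.factorization_mul (by norm_num) (by norm_num), Nat.Prime.factorization_pow Nat.prime_two]
  have h2 : (7016625 : ℕ).factorization 2 = 0 := Nat.factorization_eq_zero_of_not_dvd (by norm_num)
  simp [h2]

theorem M22_le : Spor.M22 ≤ M24 := inf_le_left.trans inf_le_left

theorem prm_mul (σ τ : Equiv.Perm GolayPt) (hσ : σ ∈ M24) (hτ : τ ∈ M24) :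
    prm (σ * τ) (M24.mul_mem hσ hτ) = prm σ hσ * prm τ hτ := by
  apply Subtype.ext
  apply Equiv.ext
  intro v
  apply Subtype.ext
  funext i
  obtain ⟨k, rfl⟩ : ∃ k, i = (σ * τ) k := ⟨(σ * τ)⁻¹ i, by simp⟩
  have h1 := prm_apply (σ * τ) (M24.mul_mem hσ hτ) v k
  have h2 := prm_apply σ hσ (prm τ hτ • v) (τ k)
  have h3 := prm_apply τ hτ v k
  exact h1.trans (h3.symm.trans h2.symm)

theorem e8_inj {j k : GolayPt} (h : e8 j = e8 k) : j = k := by
  have h1 : (Pi.single j 8 : GolayPt → ℤ) = Pi.single k 8 := congrArg Subtype.val h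
  have h2 := congrFun h1 j
  by_contra hjk
  rw [Pi.single_eq_same, Pi.single_eq_of_ne hjk] at h2
  norm_num at h2

theorem prm_inj {σ τ : Equiv.Perm GolayPt} {hσ : σ ∈ M24} {hτ : τ ∈ M24}
    (h : prm σ hσ = prm τ hτ) : σ = τ := by
  apply Equiv.ext
  intro j
  apply e8_inj
  rw [← prm_e8 σ hσ, ← prm_e8 τ hτ, h]

theorem prm_mem_McL (σ : Equiv.Perm GolayPt) (hσ : σ ∈ Spor.M22) :
    (prm σ (M22_le hσ)).1 ∈ Spor.McL := by
  have h0 : σ none = none := hσ.1.2
  have h1 : σ (some 0) = some 0 := hσ.2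
  have e0 : ∀ k, σ k = none ↔ k = none := fun k => by
    constructor
    · intro h
      exact σ.injective (h.trans h0.symm)
    · rintro rfl
      exact h0
  have e1 : ∀ k, σ k = some 0 ↔ k = some 0 := fun k => by
    constructor
    · intro h
      exact σ.injective (h.trans h1.symm)
    · rintro rfl
      exact h1
  rw [mem_McL]
  refine ⟨(prm σ (M22_le hσ)).2, ?_, ?_⟩
  · apply Subtype.ext
    funext i
    obtain ⟨k, rfl⟩ : ∃ k, i = σ k := ⟨σ⁻¹ i, by simp⟩
    refine (prm_apply σ (M22_le hσ) leechV k).trans ?_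
    show vecV k = vecV (σ k)
    simp only [vecV, e0]
  · apply Subtype.ext
    funext i
    obtain ⟨k, rfl⟩ : ∃ k, i = σ k := ⟨σ⁻¹ i, by simp⟩
    refine (prm_apply σ (M22_le hσ) leechU k).trans ?_
    show vecU k = vecU (σ k)
    simp only [vecU, e0, e1]

/-- the embedding of `M22` into `McL` -/
noncomputable def emb : ↥Spor.M22 →* ↥Spor.McL :=
  MonoidHom.mk' (fun σ => ⟨(prm σ.1 (M22_le σ.2)).1, prm_mem_McL σ.1 σ.2⟩) (by
    intro σ τ
    apply Subtype.ext
    have h := prm_mul σ.1 τ.1 (M22_le σ.2) (M22_le τ.2)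
    have h2 : (prm (σ.1 * τ.1) (M24.mul_mem (M22_le σ.2) (M22_le τ.2))).1
        = (prm σ.1 (M22_le σ.2)).1 * (prm τ.1 (M22_le τ.2)).1 := by
      rw [h]
      rfl
    exact h2)

theorem emb_val (σ : ↥Spor.M22) : (emb σ).1 = (prm σ.1 (M22_le σ.2)).1 := rfl

theorem emb_inj : Function.Injective emb := by
  intro σ τ h
  apply Subtype.ext
  have h1 : (prm σ.1 (M22_le σ.2)).1 = (prm τ.1 (M22_le τ.2)).1 := by
    rw [← emb_val, ← emb_val, h]
  exact prm_inj (Subtype.ext h1)

end Cfsg.Agent.Lib.Helper88McL
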