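import Mathlib
import Cfsg.Agent.Lib.Helper3PGroup

set_option autoImplicit false

/-!
Abstract counting arguments for a group of order 512 with an abelian subgroup `A` of order 64:
centres of maximal subgroups and uniqueness of `A`, from data on commutation.
-/

namespace Cfsg.Agent.Lib.Helper88Q512

variable {S : Type*} [Group S] [Finite S]

theorem center_coatom_le (hS : Nat.card S = 512) (W : Finset S) (hW : W.card ≤ 15)
    (hwit : ∀ x : S, x ∈ W ∨ ∃ s t : S, ¬ Commute x s ∧ ¬ Commute x t ∧ ¬ Commute x (s⁻¹ * t))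
    (M : Subgroup S) (hM : IsCoatom M) : Nat.card (Subgroup.center M) ≤ 8 := by
  have hfact : Fact (Nat.Prime 2) := ⟨Nat.prime_two⟩
  have hp : IsPGroup 2 S := IsPGroup.of_card (n := 9) (by rw [hS]; norm_num)
  have hidx : M.index = 2 := Cfsg.Agent.Lib.Helper3PGroup.coatom_index hp hM
  have hcomm : ∀ z : Subgroup.center M, ∀ s ∈ M, Commute ((z : M) : S) s := by
    intro z s hs
    have := Subgroup.mem_center_iff.1 z.2 ⟨s, hs⟩
    exact (congrArg Subtype.val this).symm
  have hsub : ∀ z : Subgroup.center M, ((z : M) : S) ∈ W := by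
    intro z
    rcases hwit ((z : M) : S) with h | ⟨s, t, hs, ht, hst⟩
    · exact h
    · exfalso
      have hs' : s ∉ M := fun h => hs (hcomm z s h)
      have ht' : t ∉ M := fun h => ht (hcomm z t h)
      apply hst
      apply hcomm
      rw [Subgroup.mul_mem_iff_of_index_two hidx, Subgroup.inv_mem_iff]
      exact ⟨fun h => absurd h hs', fun h => absurd h ht'⟩
  have h1 : Nat.card (Subgroup.center M) ≤ W.card := by
    have := Nat.card_le_card_of_injective
      (fun z : Subgroup.center M => (⟨((z : M) : S), hsub z⟩ : W)) (by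
      intro a b h
      apply Subtype.ext; apply Subtype.ext
      exact congrArg (fun w : W => (w : S)) h)
    simpa using this
  obtain ⟨n, hn⟩ := IsPGroup.iff_card.1 ((hp.to_subgroup M).to_subgroup (Subgroup.center M))
  rw [hn] at h1 ⊢
  have hn3 : n ≤ 3 := by
    by_contra hcon
    have : 2 ^ 4 ≤ 2 ^ n := Nat.pow_le_pow_right (by norm_num) (by omega)
    omega
  calc 2 ^ n ≤ 2 ^ 3 := Nat.pow_le_pow_right (by norm_num) hn3
    _ = 8 := by norm_num

open Classical in
theorem abelian64_le (A : Subgroup S) (hAc : ∀ a ∈ A, ∀ b ∈ A, Commute a b)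
    (R : Finset S) (hRcard : R.card ≤ 7) (hR : ∀ g : S, g ∈ A ∨ ∃ r ∈ R, r⁻¹ * g ∈ A)
    (h16 : ∀ r ∈ R, {a : S | a ∈ A ∧ Commute r a}.ncard ≤ 16)
    (h8 : ∀ r ∈ R, ∀ r' ∈ R, r ≠ r' → {a : S | a ∈ A ∧ Commute r a ∧ Commute r' a}.ncard ≤ 8)
    (r₀ : S) (hr₀ : r₀ ∈ R) (h4 : {a : S | a ∈ A ∧ Commute r₀ a}.ncard ≤ 4)
    (B : Subgroup S) (hBc : ∀ a ∈ B, ∀ b ∈ B, Commute a b) (hB : Nat.card B = 64) : B ≤ A := by
  by_contra hcon
  obtain ⟨b₁, hb₁, hb₁A⟩ := SetLike.not_le_iff_exists.1 hcon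
  have : Fintype S := Fintype.ofFinite S
  -- the index map
  let κ : S → Option S := fun g => if h : g ∈ A then none else some (Classical.choose ((hR g).resolve_left h))
  have hκn : ∀ g, κ g = none ↔ g ∈ A := by
    intro g
    by_cases h : g ∈ A
    · simp [κ, h]
    · simp [κ, h]
  have hκs : ∀ g r, κ g = some r → r ∈ R ∧ r⁻¹ * g ∈ A := by
    intro g r h
    by_cases hg : g ∈ A
    · simp [κ, hg] at h
    · simp only [κ, hg, dite_false, Option.some.injEq] at h
      rw [← h]
      exact Classical.choose_spec ((hR g).resolve_left hg)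
  let Bf : Finset S := Finset.univ.filter (· ∈ B)
  let Cf : Finset S := Finset.univ.filter (fun a => a ∈ B ∧ a ∈ A)
  have hBf : Bf.card = 64 := by
    rw [← hB, Nat.card_eq_fintype_card, Fintype.card_subtype]
  set m := Cf.card with hm
  -- the bound from one element
  have K1 : ∀ b ∈ B, ∀ r, r⁻¹ * b ∈ A → ∀ a, a ∈ B → a ∈ A → Commute r a := by
    intro b hb r hr a haB haA
    have e : r = b * (r⁻¹ * b)⁻¹ := by group
    rw [e]
    exact (hBc b hb a haB).mul_left ((hAc _ hr a haA).inv_left)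
  have hfib : ∀ k ∈ Bf.image κ, (Bf.filter (fun x => κ x = k)).card ≤ m := by
    intro k hk
    obtain ⟨b₀, hb₀, hb₀k⟩ := Finset.mem_image.1 hk
    have hb₀B : b₀ ∈ B := (Finset.mem_filter.1 hb₀).2
    apply Finset.card_le_card_of_injOn (fun b => b₀⁻¹ * b)
    · intro b hb
      have hb' := Finset.mem_filter.1 (Finset.mem_coe.1 hb)
      have hbB : b ∈ B := (Finset.mem_filter.1 hb'.1).2
      refine Finset.mem_coe.2 (Finset.mem_filter.2 ⟨Finset.mem_univ _, B.mul_mem (B.inv_mem hb₀B) hbB, ?_⟩)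
      cases k with
      | none =>
        exact A.mul_mem (A.inv_mem ((hκn _).1 hb₀k)) ((hκn _).1 hb'.2)
      | some r =>
        have h1 := (hκs _ _ hb₀k).2
        have h2 := (hκs _ _ hb'.2).2
        have e : b₀⁻¹ * b = (r⁻¹ * b₀)⁻¹ * (r⁻¹ * b) := by group
        show b₀⁻¹ * b ∈ A
        rw [e]
        exact A.mul_mem (A.inv_mem h1) h2
    · intro a _ b _ h
      exact mul_left_cancel h
  have hcount : 64 ≤ m * (Bf.image κ).card := by
    rw [← hBf]
    exact Finset.card_le_mul_card_image _ _ hfib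
  have hIsub : Bf.image κ ⊆ insert none (R.image some) := by
    intro k hk
    obtain ⟨b, _, rfl⟩ := Finset.mem_image.1 hk
    cases h : κ b with
    | none => exact Finset.mem_insert_self _ _
    | some r => exact Finset.mem_insert_of_mem (Finset.mem_image_of_mem _ (hκs _ _ h).1)
  have hI8' : (insert none (R.image some) : Finset (Option S)).card ≤ 8 := by
    calc _ ≤ (R.image some).card + 1 := Finset.card_insert_le _ _
      _ ≤ R.card + 1 := by
        have := Finset.card_image_le (s := R) (f := (some : S → Option S))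
        omega
      _ ≤ 8 := by omega
  have hI8 : (Bf.image κ).card ≤ 8 := (Finset.card_le_card hIsub).trans hI8'
  -- m bounded by centralizers
  have hmle : ∀ r, some r ∈ Bf.image κ → m ≤ {a : S | a ∈ A ∧ Commute r a}.ncard := by
    intro r hr
    obtain ⟨b, hb, hbr⟩ := Finset.mem_image.1 hr
    have hbB : b ∈ B := (Finset.mem_filter.1 hb).2
    rw [hm, ← Set.ncard_coe_finset]
    apply Set.ncard_le_ncard _ (Set.toFinite _)
    intro a ha
    have ha' := (Finset.mem_filter.1 (Finset.mem_coe.1 ha)).2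
    exact ⟨ha'.2, K1 b hbB r (hκs _ _ hbr).2 a ha'.1 ha'.2⟩
  have hmle2 : ∀ r r', some r ∈ Bf.image κ → some r' ∈ Bf.image κ →
      m ≤ {a : S | a ∈ A ∧ Commute r a ∧ Commute r' a}.ncard := by
    intro r r' hr hr'
    obtain ⟨b, hb, hbr⟩ := Finset.mem_image.1 hr
    obtain ⟨b', hb', hbr'⟩ := Finset.mem_image.1 hr'
    have hbB : b ∈ B := (Finset.mem_filter.1 hb).2
    have hbB' : b' ∈ B := (Finset.mem_filter.1 hb').2
    rw [hm, ← Set.ncard_coe_finset]
    apply Set.ncard_le_ncard _ (Set.toFinite _)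
    intro a ha
    have ha' := (Finset.mem_filter.1 (Finset.mem_coe.1 ha)).2
    exact ⟨ha'.2, K1 b hbB r (hκs _ _ hbr).2 a ha'.1 ha'.2, K1 b' hbB' r' (hκs _ _ hbr').2 a ha'.1 ha'.2⟩
  -- stage 1
  obtain ⟨r₁, hr₁⟩ : ∃ r, κ b₁ = some r := by
    cases h : κ b₁ with
    | none => exact absurd ((hκn _).1 h) hb₁A
    | some r => exact ⟨r, rfl⟩
  have hr₁I : some r₁ ∈ Bf.image κ :=
    Finset.mem_image.2 ⟨b₁, Finset.mem_filter.2 ⟨Finset.mem_univ _, hb₁⟩, hr₁⟩
  have hm16 : m ≤ 16 := (hmle r₁ hr₁I).trans (h16 r₁ (hκs _ _ hr₁).1)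
  have hI4 : 4 ≤ (Bf.image κ).card := by
    by_contra h
    have : m * (Bf.image κ).card ≤ 16 * 3 := Nat.mul_le_mul hm16 (by omega)
    omega
  -- stage 2
  have hI2 : 1 < (((Bf.image κ).erase none).erase (some r₁)).card + 1 := by
    have h1 := Finset.pred_card_le_card_erase (s := Bf.image κ) (a := none)
    have h2 := Finset.pred_card_le_card_erase (s := (Bf.image κ).erase none) (a := some r₁)
    omega
  obtain ⟨k, hk⟩ : (((Bf.image κ).erase none).erase (some r₁)).Nonempty := by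
    rw [← Finset.card_pos]; omega
  have hk1 := Finset.mem_erase.1 hk
  have hk2 := Finset.mem_erase.1 hk1.2
  obtain ⟨r₂, rfl⟩ : ∃ r, k = some r := by
    cases k with
    | none => exact absurd rfl hk2.1
    | some r => exact ⟨r, rfl⟩
  have hne : r₁ ≠ r₂ := fun h => hk1.1 (by rw [h])
  have hr₂R : r₂ ∈ R := by
    obtain ⟨b, _, hb⟩ := Finset.mem_image.1 hk2.2
    exact (hκs _ _ hb).1
  have hm8 : m ≤ 8 := (hmle2 r₁ r₂ hr₁I hk2.2).trans (h8 r₁ (hκs _ _ hr₁).1 r₂ hr₂R hne)
  have hI8'' : 8 ≤ (Bf.image κ).card := by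
    by_contra h
    have : m * (Bf.image κ).card ≤ 8 * 7 := Nat.mul_le_mul hm8 (by omega)
    omega
  -- stage 3
  have hIeq : Bf.image κ = insert none (R.image some) :=
    Finset.eq_of_subset_of_card_le hIsub (hI8'.trans hI8'')
  have hr₀I : some r₀ ∈ Bf.image κ := by
    rw [hIeq]
    exact Finset.mem_insert_of_mem (Finset.mem_image_of_mem _ hr₀)
  have hm4 : m ≤ 4 := (hmle r₀ hr₀I).trans h4
  have : m * (Bf.image κ).card ≤ 4 * 8 := Nat.mul_le_mul hm4 hI8
  omega

end Cfsg.Agent.Lib.Helper88Q512
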