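import Mathlib

set_option autoImplicit false

/-!
The elements `½(1+X)(1+Y)` of a symplectic group, for commuting `X`, `Y` with `X² = Y² = -1`.
-/

namespace Cfsg.Agent.Lib.Helper88Sp4Half

section ring

variable {A : Type*} [Ring A]

theorem r_sq {X : A} (hX : X * X = -1) : (1 + X) * (1 + X) = X + X := by
  have : (1 + X) * (1 + X) = 1 + X + X + X * X := by noncomm_ring
  rw [this, hX]; abel

theorem r_a {X R : A} (h : R * X = X * R) : (1 + X) * R = R * (1 + X) := by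
  rw [add_mul, mul_add, h, one_mul, mul_one]

theorem r_b {X R : A} (hX : X * X = -1) (h : R * X = -(X * R)) :
    (1 + X) * R = X * R * (1 + X) := by
  have e : X * R * (1 + X) = X * R + X * (R * X) := by noncomm_ring
  rw [e, h, mul_neg, ← mul_assoc, hX]
  noncomm_ring

theorem anti_of {X R : A} (hX : X * X = -1) (h : X * (R * X) = R) : R * X = -(X * R) := by
  have h1 : X * (X * (R * X)) = X * R := by rw [h]
  rw [← mul_assoc, hX] at h1
  rw [← h1]; noncomm_ring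

theorem comm1 {X Y : A} (hXY : X * Y = Y * X) : (1 + X) * (1 + Y) = (1 + Y) * (1 + X) := by
  have e1 : (1 + X) * (1 + Y) = 1 + X + Y + X * Y := by noncomm_ring
  have e2 : (1 + Y) * (1 + X) = 1 + X + Y + Y * X := by noncomm_ring
  rw [e1, e2, hXY]

theorem u_sq {X Y : A} (hXY : X * Y = Y * X) (hX : X * X = -1) (hY : Y * Y = -1) :
    ((1 + X) * (1 + Y)) * ((1 + X) * (1 + Y)) = (X + X) * (Y + Y) := by
  rw [← r_sq hX, ← r_sq hY]
  calc ((1 + X) * (1 + Y)) * ((1 + X) * (1 + Y)) = (1 + X) * ((1 + Y) * (1 + X)) * (1 + Y) := by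
        simp only [mul_assoc]
    _ = (1 + X) * ((1 + X) * (1 + Y)) * (1 + Y) := by rw [comm1 hXY]
    _ = _ := by simp only [mul_assoc]

theorem u_a {X Y R : A} (hRX : R * X = X * R) (hRY : R * Y = Y * R) :
    ((1 + X) * (1 + Y)) * R = R * ((1 + X) * (1 + Y)) := by
  rw [mul_assoc, r_a hRY, ← mul_assoc, r_a hRX, mul_assoc]

theorem u_b {X Y R : A} (hX : X * X = -1) (hRX : R * X = -(X * R)) (hRY : R * Y = Y * R) :
    ((1 + X) * (1 + Y)) * R = (X * R) * ((1 + X) * (1 + Y)) := by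
  rw [mul_assoc, r_a hRY, ← mul_assoc, r_b hX hRX, mul_assoc]

theorem u_c {X Y R : A} (hXY : X * Y = Y * X) (hY : Y * Y = -1) (hRX : R * X = X * R)
    (hRY : R * Y = -(Y * R)) :
    ((1 + X) * (1 + Y)) * R = (Y * R) * ((1 + X) * (1 + Y)) := by
  have h1 : (Y * R) * X = X * (Y * R) := by
    rw [mul_assoc, hRX, ← mul_assoc, ← hXY, mul_assoc]
  rw [mul_assoc, r_b hY hRY, ← mul_assoc, r_a h1, mul_assoc]

end ring

open Matrix

variable {l : Type*} [DecidableEq l] [Fintype l] {K : Type*} [Field K]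

local notation "Sp" => Matrix.symplecticGroup l K
local notation "MM" => Matrix (l ⊕ l) (l ⊕ l) K

theorem hJ {X : MM} (hS : X * J l K * Xᵀ = J l K) (hX : X * X = -1) :
    (1 + X) * J l K * (1 + X)ᵀ = J l K + J l K := by
  have h1 : X * J l K = -(J l K * Xᵀ) := by
    have : X * (X * J l K * Xᵀ) = X * J l K := by rw [hS]
    rw [← this]
    have e : X * (X * J l K * Xᵀ) = (X * X) * (J l K * Xᵀ) := by noncomm_ring
    rw [e, hX]; noncomm_ring
  rw [transpose_add, transpose_one]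
  have e : (1 + X) * J l K * (1 + Xᵀ) = J l K + J l K * Xᵀ + X * J l K + X * J l K * Xᵀ := by
    noncomm_ring
  rw [e, hS, h1]; abel

theorem half_mem (h2 : (2 : K) ≠ 0) {X Y : MM} (hXS : X * J l K * Xᵀ = J l K)
    (hYS : Y * J l K * Yᵀ = J l K) (hX : X * X = -1) (hY : Y * Y = -1) :
    ((2 : K)⁻¹ • ((1 + X) * (1 + Y))) ∈ Matrix.symplecticGroup l K := by
  rw [SymplecticGroup.mem_iff, transpose_smul, transpose_mul]
  simp only [smul_mul_assoc, mul_smul_comm]
  have e : (1 + X) * (1 + Y) * J l K * ((1 + Y)ᵀ * (1 + X)ᵀ)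
      = (1 + X) * ((1 + Y) * J l K * (1 + Y)ᵀ) * (1 + X)ᵀ := by noncomm_ring
  rw [e, hJ hYS hY, mul_add, add_mul, hJ hXS hX, smul_smul]
  have e2 : J l K + J l K + (J l K + J l K) = (4 : K) • J l K := by
    rw [show (4 : K) = 1 + 1 + 1 + 1 by norm_num]
    simp only [add_smul, one_smul]; abel
  rw [e2, smul_smul]
  have : (2 : K)⁻¹ * 2⁻¹ * 4 = 1 := by field_simp; norm_num
  rw [this, one_smul]

theorem half (h2 : (2 : K) ≠ 0) (X Y : Sp) (hXY : X * Y = Y * X)
    (hX : (X : MM) * (X : MM) = -1) (hY : (Y : MM) * (Y : MM) = -1) :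
    ∃ u : Sp, u * u = X * Y ∧ (∀ r, r * X = X * r → r * Y = Y * r → u * r * u⁻¹ = r) ∧
      (∀ r, r * X * r⁻¹ = X⁻¹ → r * Y = Y * r → u * r * u⁻¹ = X * r) ∧
      (∀ r, r * X = X * r → r * Y * r⁻¹ = Y⁻¹ → u * r * u⁻¹ = Y * r) := by
  have hXS := (SymplecticGroup.mem_iff).1 X.2
  have hYS := (SymplecticGroup.mem_iff).1 Y.2
  have hc : (X : MM) * (Y : MM) = (Y : MM) * (X : MM) := congrArg Subtype.val hXY
  have anti : ∀ (W r : Sp), (W : MM) * (W : MM) = -1 → r * W * r⁻¹ = W⁻¹ →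
      (r : MM) * (W : MM) = -((W : MM) * (r : MM)) := by
    intro W r hW hr
    apply anti_of hW
    have h1 : W * (r * W) = r := by
      have : r * W = W⁻¹ * r := mul_inv_eq_iff_eq_mul.1 hr
      rw [this]; group
    exact congrArg Subtype.val h1
  refine ⟨⟨_, half_mem h2 hXS hYS hX hY⟩, ?_, ?_, ?_, ?_⟩
  · apply Subtype.ext
    show ((2 : K)⁻¹ • ((1 + (X : MM)) * (1 + (Y : MM)))) * ((2 : K)⁻¹ • ((1 + (X : MM)) * (1 + (Y : MM))))
      = (X : MM) * (Y : MM)
    simp only [smul_mul_assoc, mul_smul_comm, smul_smul]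
    rw [u_sq hc hX hY]
    have e : ((X : MM) + X) * ((Y : MM) + Y) = (4 : K) • ((X : MM) * (Y : MM)) := by
      rw [show (4 : K) = 1 + 1 + 1 + 1 by norm_num]
      simp only [add_smul, one_smul, add_mul, mul_add]; abel
    rw [e, smul_smul]
    have : (2 : K)⁻¹ * 2⁻¹ * 4 = 1 := by field_simp; norm_num
    rw [this, one_smul]
  · intro r hrX hrY
    rw [mul_inv_eq_iff_eq_mul]
    apply Subtype.ext
    show ((2 : K)⁻¹ • ((1 + (X : MM)) * (1 + (Y : MM)))) * (r : MM)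
      = (r : MM) * ((2 : K)⁻¹ • ((1 + (X : MM)) * (1 + (Y : MM))))
    rw [smul_mul_assoc, mul_smul_comm,
      u_a (congrArg Subtype.val hrX) (congrArg Subtype.val hrY)]
  · intro r hrX hrY
    rw [mul_inv_eq_iff_eq_mul]
    apply Subtype.ext
    show ((2 : K)⁻¹ • ((1 + (X : MM)) * (1 + (Y : MM)))) * (r : MM)
      = ((X : MM) * (r : MM)) * ((2 : K)⁻¹ • ((1 + (X : MM)) * (1 + (Y : MM))))
    rw [smul_mul_assoc, mul_smul_comm,
      u_b hX (anti X r hX hrX) (congrArg Subtype.val hrY)]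
  · intro r hrX hrY
    rw [mul_inv_eq_iff_eq_mul]
    apply Subtype.ext
    show ((2 : K)⁻¹ • ((1 + (X : MM)) * (1 + (Y : MM)))) * (r : MM)
      = ((Y : MM) * (r : MM)) * ((2 : K)⁻¹ • ((1 + (X : MM)) * (1 + (Y : MM))))
    rw [smul_mul_assoc, mul_smul_comm,
      u_c hc hY (congrArg Subtype.val hrX) (anti Y r hY hrY)]

end Cfsg.Agent.Lib.Helper88Sp4Half
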