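import Mathlib
import Cfsg.Agent.Lib.Helper86Sub
import Cfsg.Agent.Lib.Helper89Fusion2
import Cfsg.Agent.Lib.H38GTDefs
import Cfsg.Agent.Lib.H38GTInv
import Cfsg.Agent.Lib.H38GTFrat
import Cfsg.Agent.Lib.H38GTFN
import Cfsg.Agent.Lib.H38GTPFn
import Cfsg.Agent.Lib.H38GTPTr
import Cfsg.Agent.Lib.H38GTFA
import Cfsg.Agent.Lib.H38GTRec
import Cfsg.Agent.Lib.H38GTCen
import Cfsg.Agent.Lib.H38GTStarTr
import Cfsg.Agent.Lib.H38GTPCore
import Cfsg.Agent.Lib.H38GTNor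
import Cfsg.Agent.Lib.H38GTIdx
import Cfsg.Agent.S5110

set_option autoImplicit false

namespace Cfsg.Agent.Lib.Helper89GT

open Cfsg Cfsg.FusionSystem Cfsg.Agent.Lib.Helper87Fusion Cfsg.Agent.Lib.H38GTDefs

variable {Ω : Type*} [Group Ω] {S : Subgroup Ω}

/-- GT (see notes/helper89/S5243_S5140.md): subsystems of index prime to `p` from a "kernel" predicate
`K` on maps, well behaved on a family `H` of subgroups containing the essential ones. -/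
theorem gt [Finite S] {p : ℕ} [Fact p.Prime] (hS : IsPGroup p S) (F : FusionSystem S)
    (hF : F.IsSaturated p) (H : Set (Subgroup Ω)) (K : Subgroup Ω → (Ω → Ω) → Prop)
    (hHS : ∀ P ∈ H, P ≤ S)
    (hHconj : ∀ P ∈ H, ∀ Q, F.IsConj P Q → Q ∈ H)
    (hHover : ∀ P ∈ H, ∀ Q, P ≤ Q → Q ≤ S → Q ∈ H)
    (hHtop : S ∈ H)
    (hHess : ∀ P, F.IsEssential p P → P ∈ H)
    (hcongr : ∀ (P : Subgroup Ω) (f g : Ω → Ω), (∀ x ∈ P, f x = g x) → K P f → K P g)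
    (hconj : ∀ (P : Subgroup Ω) (g : Ω), P ≤ S → g ∈ S → K P (fun x => g * x * g⁻¹))
    (hcomp : ∀ (P Q : Subgroup Ω) (f g : Ω → Ω), IsMap F P f → IsMap F Q g → (∀ x ∈ P, f x ∈ Q) →
      K P f → K Q g → K P (fun x => g (f x)))
    (hinv : ∀ (P Q : Subgroup Ω) (f g : Ω → Ω), IsMap F P f → f '' (P : Set Ω) = (Q : Set Ω) →
      IsMap F Q g → (∀ x ∈ P, g (f x) = x) → K P f → K Q g)
    (hext : ∀ (P P' : Subgroup Ω) (f : Ω → Ω), P ∈ H → P ≤ P' → IsMap F P' f → K P f → K P' f)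
    (hfrat : ∀ (P : Subgroup Ω) (f : Ω → Ω), P ∈ H → IsMap F P f →
      ∃ a f₀ : Ω → Ω, IsMap F S a ∧ IsMap F P f₀ ∧ K P f₀ ∧ ∀ x ∈ P, f x = a (f₀ x))
    (hinvar : ∀ (P P' : Subgroup Ω) (a a' f : Ω → Ω), IsMap F S a → IsMap F S a' →
      (∀ x ∈ S, a' (a x) = x) → a '' (P : Set Ω) = (P' : Set Ω) → IsMap F P f → K P f →
      K P' (fun x => a (f (a' x))))
    (hstar : ∀ P : Subgroup Ω, F.IsCentric P → P ∉ H → ∃ Q, F.IsConj P Q ∧
      ¬ (autInducedBy S Q ⊓ (pCore p ↥(F.autGroup Q)).map (F.autGroup Q).subtype ≤ Inn Q)) :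
    ∃ F₀ : FusionSystem S, F₀.IsSaturated p ∧ F₀.IsNormalIn F p ∧ F₀.HasPrimeToPIndexIn F p ∧
      (∀ P ∈ H, ∀ f : Ω → Ω, IsMap F₀ P f ↔ IsMap F P f ∧ K P f) ∧
      (∀ D : FusionSystem S, (∀ P ∈ H, ∀ f : Ω → Ω, IsMap F P f → K P f → IsMap D P f) → F₀ ≤ D) := by
  obtain ⟨F₀, hF₀⟩ : ∃ F₀ : FusionSystem S, F₀ = gen F (fun P f => P ∈ H ∧ K P f) := ⟨_, rfl⟩
  -- G1
  have hsub : Sub F₀ F := fun P f hf => by
    rw [hF₀] at hf
    exact gen_isMap hf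
  have hK : ∀ (P : Subgroup Ω) (f : Ω → Ω), IsMap F₀ P f → K P f := fun P f hf => by
    rw [hF₀] at hf
    exact gen_induction K hcongr hconj hcomp hinv (fun Q g _ hG => hG.2) hf
  have h1 : ∀ P ∈ H, ∀ f : Ω → Ω, IsMap F₀ P f ↔ IsMap F P f ∧ K P f := fun P hP f =>
    ⟨fun hf => ⟨hsub P f hf, hK P f hf⟩, fun hf => by
      rw [hF₀]
      exact gen_of hf.1 ⟨hP, hf.2⟩⟩
  have hmin : ∀ D : FusionSystem S,
      (∀ P ∈ H, ∀ f : Ω → Ω, IsMap F P f → K P f → IsMap D P f) → F₀ ≤ D := fun D hD => by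
    rw [hF₀]
    exact gen_le (fun Q g hg hG => hD Q hG.1 g hg hG.2)
  -- G2
  have hI : Inv F₀ F := by
    rw [hF₀]
    exact H38GTInv.inv_gen F H K hHconj hinvar
  -- G3
  have hFr : Frat F₀ F := by
    refine H38GTFrat.frat hS F F₀ hF hI (fun P f hP hf => ?_)
    have hPH : P ∈ H := by
      rcases hP with rfl | hP
      · exact hHtop
      · exact hHess P hP
    obtain ⟨a, f₀, ha, hf₀, hKf₀, h⟩ := hfrat P f hPH hf
    exact ⟨a, f₀, ha, (h1 P hPH f₀).2 ⟨hf₀, hKf₀⟩, h⟩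
  -- G4
  have hPE : PElt F₀ F p := by
    intro P hP
    obtain ⟨Q, hPQ, hQ⟩ := H38GTFN.exists_fn F F₀ hsub hFr hP
    have hQa := (Helper86Fusion2.saturated_fullyNormalized hS hF hQ).2.1
    exact H38GTPTr.pelt_transport F F₀ hsub hPQ
      (fun α hα k hk => H38GTPFn.pelt_fn F F₀ hI hFr hQa α hα k hk)
  have hconjF : ∀ P Q : Subgroup Ω, F₀.IsConj P Q → F.IsConj P Q := fun P Q h => by
    obtain ⟨f, hf, hfQ⟩ := isConj_iff.1 h
    exact isConj_iff.2 ⟨f, hsub P f hf, hfQ⟩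
  -- G7
  have hsat : F₀.IsSaturated p := by
    refine Cfsg.Agent.S5110.result p hS F₀ H hHS (fun P hP Q hPQ => hHconj P hP Q (hconjF P Q hPQ))
      ?_ ?_ ?_
    · -- G5
      intro P hP
      obtain ⟨Q, hPQ, hQ⟩ := H38GTFN.exists_fn F F₀ hsub hFr (hHS P hP)
      obtain ⟨-, hQa, hQr⟩ := Helper86Fusion2.saturated_fullyNormalized hS hF hQ
      exact ⟨Q, hPQ, H38GTFA.fullyAutomized_of_sub F F₀ hsub hQa,
        H38GTRec.receptive F F₀ H K hHconj hHover hcongr hext hsub h1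
          (hHconj P hP Q (hconjF P Q hPQ)) hQr⟩
    · intro E hE
      refine hmin E (fun P hP f hf hKf => ?_)
      obtain ⟨φ, hφ, hφf⟩ := (h1 P hP f).2 ⟨hf, hKf⟩
      exact ⟨φ, hE P hP hφ, hφf⟩
    · -- G6
      intro P hPc hPH
      obtain ⟨Q', hPQ', hQ'⟩ := hstar P (H38GTCen.centric F F₀ hFr hPc) hPH
      obtain ⟨f, hf, hfQ'⟩ := isConj_iff.1 hPQ'
      obtain ⟨a, f₀, ha, hf₀, hff₀⟩ := hFr P f hf
      obtain ⟨Q, hQ⟩ := hf₀.exists_image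
      have hQS : Q ≤ S := hf₀.image_le hQ
      have haQ : a '' (Q : Set Ω) = (Q' : Set Ω) := by
        rw [← hQ, ← hfQ', Set.image_image]
        exact Set.image_congr (fun x hx => (hff₀ x hx).symm)
      refine ⟨Q, isConj_iff.2 ⟨f₀, hf₀, hQ⟩, fun hle => ?_⟩
      refine H38GTStarTr.star_transport F ha hQS haQ hQ' (fun α hα => ?_)
      exact hle ⟨hα.1, H38GTPCore.pCore_le F F₀ hsub hPE hQS hα.2⟩
  exact ⟨F₀, hsat, H38GTNor.normalIn F F₀ hsat hF hsub hI hFr, H38GTIdx.primeToP F F₀ hsub hPE, h1,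
    hmin⟩

end Cfsg.Agent.Lib.Helper89GT
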