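import Mathlib
import Cfsg.Agent.Lib.Helper11SmallExp
import Cfsg.Agent.Lib.Helper89Omega

set_option autoImplicit false
set_option linter.unusedSectionVars false
set_option linter.unusedVariables false

/-! Invariant subgroups of small exponent detect `p'`-automorphisms (helper89). -/

namespace Cfsg.Agent.Lib.Helper89SmallExp

open Cfsg.Agent.Lib.Helper11SmallExp Cfsg.Agent.Lib.Helper89Omega

variable {Q : Type*} [Group Q] [Finite Q] {p : ℕ} [hp : Fact p.Prime]

theorem fix_of_comm_fixed (hQ : IsPGroup p Q) {k : MulAut Q} (hk : (orderOf k).Coprime p) {x : Q}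
    (hd : k (x⁻¹ * k x) = x⁻¹ * k x) : k x = x := by
  obtain ⟨d, hdd⟩ : ∃ d, d = x⁻¹ * k x := ⟨_, rfl⟩
  rw [← hdd] at hd
  have hkx : k x = x * d := by rw [hdd]; group
  have hpow : ∀ n : ℕ, (k ^ n) x = x * d ^ n := by
    intro n
    induction n with
    | zero => simp
    | succ n ih =>
      rw [pow_succ', MulAut.mul_apply, ih, map_mul, map_pow, hd, hkx, pow_succ', mul_assoc]
  have h1 := hpow (orderOf k)
  rw [pow_orderOf_eq_one, MulAut.one_apply] at h1
  have h2 : d ^ orderOf k = 1 := by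
    have : x * 1 = x * d ^ orderOf k := by rw [mul_one]; exact h1
    exact (mul_left_cancel this).symm
  obtain ⟨j, hj⟩ := hQ d
  have h3 : orderOf d ∣ Nat.gcd (orderOf k) (p ^ j) :=
    Nat.dvd_gcd (orderOf_dvd_of_pow_eq_one h2) (orderOf_dvd_of_pow_eq_one hj)
  have h4 : Nat.gcd (orderOf k) (p ^ j) = 1 := Nat.Coprime.pow_right j hk
  rw [h4, Nat.dvd_one, orderOf_eq_one_iff] at h3
  rw [hkx, h3, mul_one]

theorem fixes_of_chain (hQ : IsPGroup p Q) {k : MulAut Q} (hk : (orderOf k).Coprime p)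
    (C : ℕ → Subgroup Q) (h0 : C 0 = ⊥) (h : ∀ i, ∀ y ∈ C (i + 1), y⁻¹ * k y ∈ C i) :
    ∀ i, ∀ y ∈ C i, k y = y := by
  intro i
  induction i with
  | zero =>
    intro y hy
    rw [h0, Subgroup.mem_bot] at hy
    rw [hy, map_one]
  | succ i ih =>
    intro y hy
    exact fix_of_comm_fixed hQ hk (ih _ (h i y hy))

/-- Let `K` be an `A`-invariant set of `p'`-elements of `A ≤ Aut(Q)`.  If `K` fixes elementwise every
`A`-invariant subgroup of `D` of exponent `p` (resp. `4`), then it fixes every `A`-invariant subgroup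
of `D`. -/
theorem fixes_of_fixes_small (hQ : IsPGroup p Q) (A : Subgroup (MulAut Q)) (K : Set (MulAut Q))
    (hKA : ∀ k ∈ K, k ∈ A) (hKp : ∀ k ∈ K, (orderOf k).Coprime p)
    (hKc : ∀ a ∈ A, ∀ k ∈ K, a * k * a⁻¹ ∈ K) (D : Subgroup Q)
    (H : ∀ R : Subgroup Q, R ≤ D → (∀ a ∈ A, ∀ x ∈ R, a x ∈ R) → (∀ x ∈ R, x ^ smallExp p = 1) →
      ∀ k ∈ K, ∀ x ∈ R, k x = x) :
    ∀ (n : ℕ) (R : Subgroup Q), Nat.card R = n → R ≤ D → (∀ a ∈ A, ∀ x ∈ R, a x ∈ R) →
      ∀ k ∈ K, ∀ x ∈ R, k x = x := by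
  intro n
  induction n using Nat.strong_induction_on with
  | _ n ih =>
  intro R hn hRD hR
  have hlt : ∀ R' : Subgroup Q, R' ≤ R → R' ≠ R → (∀ a ∈ A, ∀ x ∈ R', a x ∈ R') →
      ∀ k ∈ K, ∀ x ∈ R', k x = x := by
    intro R' hle hne hinv
    exact ih _ (hn ▸ Cfsg.Agent.Lib.Helper30Coprime.card_lt_of_lt (lt_of_le_of_ne hle hne)) R' rfl
      (hle.trans hRD) hinv
  obtain ⟨R₁, hR₁⟩ : ∃ R₁, R₁ = Subgroup.closure {y | ∃ x ∈ R, ∃ k ∈ K, y = x⁻¹ * k x} := ⟨_, rfl⟩
  have hR₁R : R₁ ≤ R := by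
    rw [hR₁, Subgroup.closure_le]
    rintro _ ⟨x, hx, k, hk, rfl⟩
    exact R.mul_mem (R.inv_mem hx) (hR k (hKA k hk) x hx)
  have hgen : ∀ x ∈ R, ∀ k ∈ K, x⁻¹ * k x ∈ R₁ := by
    intro x hx k hk
    rw [hR₁]
    exact Subgroup.subset_closure ⟨x, hx, k, hk, rfl⟩
  have hR₁inv : ∀ a ∈ A, ∀ y ∈ R₁, a y ∈ R₁ := by
    intro a ha
    have : R₁ ≤ R₁.comap a.toMonoidHom := by
      conv_lhs => rw [hR₁]
      rw [Subgroup.closure_le]
      rintro _ ⟨x, hx, k, hk, rfl⟩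
      show a (x⁻¹ * k x) ∈ R₁
      have e : a (x⁻¹ * k x) = (a x)⁻¹ * (a * k * a⁻¹) (a x) := by
        rw [map_mul, map_inv, MulAut.mul_apply, MulAut.mul_apply, MulAut.inv_apply_self]
      rw [e]
      exact hgen _ (hR a ha x hx) _ (hKc a ha k hk)
    exact fun y hy => this hy
  by_cases h1 : R₁ = R
  swap
  · intro k hk x hx
    exact fix_of_comm_fixed hQ (hKp k hk) (hlt R₁ hR₁R h1 hR₁inv k hk _ (hgen x hx k hk))
  by_cases hbot : R = ⊥
  · intro k hk x hx
    rw [hbot, Subgroup.mem_bot] at hx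
    rw [hx, map_one]
  obtain ⟨M₀, hM₀R, hM₀ne, hpow₀, hcomm₀⟩ :=
    exists_proper_frattini_like p R (hQ.to_subgroup R) hbot
  obtain ⟨M, hM⟩ : ∃ M, M = Subgroup.closure ({y | ∃ x ∈ R, y = x ^ p} ∪
      {y | ∃ x ∈ R, ∃ z ∈ R, y = x * z * x⁻¹ * z⁻¹}) := ⟨_, rfl⟩
  have hMM₀ : M ≤ M₀ := by
    rw [hM, Subgroup.closure_le]
    rintro _ (⟨x, hx, rfl⟩ | ⟨x, hx, z, hz, rfl⟩)
    · exact hpow₀ x hx
    · exact hcomm₀ x hx z hz
  have hMR : M ≤ R := hMM₀.trans hM₀R
  have hMne : M ≠ R := fun e => hM₀ne (le_antisymm hM₀R (e ▸ hMM₀))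
  have hpowM : ∀ x ∈ R, x ^ p ∈ M := by
    intro x hx
    rw [hM]
    exact Subgroup.subset_closure (Or.inl ⟨x, hx, rfl⟩)
  have hcommM : ∀ x ∈ R, ∀ z ∈ R, x * z * x⁻¹ * z⁻¹ ∈ M := by
    intro x hx z hz
    rw [hM]
    exact Subgroup.subset_closure (Or.inr ⟨x, hx, z, hz, rfl⟩)
  have hMinv : ∀ a ∈ A, ∀ y ∈ M, a y ∈ M := by
    intro a ha
    have : M ≤ M.comap a.toMonoidHom := by
      conv_lhs => rw [hM]
      rw [Subgroup.closure_le]
      rintro _ (⟨x, hx, rfl⟩ | ⟨x, hx, z, hz, rfl⟩)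
      · show a (x ^ p) ∈ M
        rw [map_pow]
        exact hpowM _ (hR a ha x hx)
      · show a (x * z * x⁻¹ * z⁻¹) ∈ M
        rw [map_mul, map_mul, map_mul, map_inv, map_inv]
        exact hcommM _ (hR a ha x hx) _ (hR a ha z hz)
    exact fun y hy => this hy
  have hMfix := hlt M hMR hMne hMinv
  -- `M` is central in `R`
  have hcen : ∀ m ∈ M, ∀ r ∈ R, r * m = m * r := by
    intro m hm r hr
    rw [← h1, hR₁] at hr
    induction hr using Subgroup.closure_induction with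
    | mem r hr =>
      obtain ⟨x, hx, k, hk, rfl⟩ := hr
      have hm' : x * m * x⁻¹ ∈ M := by
        have := M.mul_mem (hcommM x hx m (hMR hm)) hm
        rwa [inv_mul_cancel_right] at this
      have e1 := hMfix k hk _ hm'
      rw [map_mul, map_mul, map_inv, hMfix k hk m hm] at e1
      calc x⁻¹ * k x * m = x⁻¹ * (k x * m * (k x)⁻¹) * k x := by group
        _ = x⁻¹ * (x * m * x⁻¹) * k x := by rw [e1]
        _ = m * (x⁻¹ * k x) := by group
    | one => simp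
    | mul a b _ _ ha hb =>
      calc a * b * m = a * (b * m) := by group
        _ = a * (m * b) := by rw [hb]
        _ = (a * m) * b := by group
        _ = (m * a) * b := by rw [ha]
        _ = m * (a * b) := by group
    | inv a _ ha =>
      calc a⁻¹ * m = a⁻¹ * (m * a) * a⁻¹ := by group
        _ = a⁻¹ * (a * m) * a⁻¹ := by rw [ha]
        _ = m * a⁻¹ := by group
  -- the power map is multiplicative
  have hmul : ∀ x ∈ R, ∀ y ∈ R, (x * y) ^ smallExp p = x ^ smallExp p * y ^ smallExp p := by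
    intro x hx y hy
    obtain ⟨c, hc⟩ : ∃ c, c = y * x * y⁻¹ * x⁻¹ := ⟨_, rfl⟩
    have hcM : c ∈ M := hc ▸ hcommM y hy x hx
    have hyx : y * x = c * x * y := by rw [hc]; group
    have hcx : Commute c x := (hcen c hcM x hx).symm
    have hcy : Commute c y := (hcen c hcM y hy).symm
    have hcp : c ^ p = 1 := by
      have h2 := pow_mul_comm_of x y c hyx hcy p
      have h3 : y ^ p * x = x * y ^ p := (hcen _ (hpowM y hy) x hx).symm
      rw [h3] at h2
      have h4 : 1 * (x * y ^ p) = c ^ p * (x * y ^ p) := by rw [one_mul, ← mul_assoc]; exact h2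
      exact (mul_right_cancel h4).symm
    rw [mul_pow_of_class_two x y c hyx hcx hcy]
    obtain ⟨t, ht⟩ := smallExp_choose p
    rw [ht, pow_mul, hcp, one_pow, mul_one]
  have hpowfix : ∀ x ∈ R, ∀ k ∈ K, k (x ^ smallExp p) = x ^ smallExp p := by
    intro x hx k hk
    obtain ⟨t, ht⟩ := smallExp_dvd p
    apply hMfix k hk
    rw [ht, pow_mul]
    exact M.pow_mem (hpowM x hx) t
  have hexp : ∀ r ∈ R, r ^ smallExp p = 1 := by
    intro r hr
    have hr' := hr
    rw [← h1, hR₁] at hr'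
    induction hr' using Subgroup.closure_induction with
    | mem r hr0 =>
      obtain ⟨x, hx, k, hk, rfl⟩ := hr0
      rw [hmul _ (R.inv_mem hx) _ (hR k (hKA k hk) x hx), ← map_pow, hpowfix x hx k hk, inv_pow,
        inv_mul_cancel]
    | one => simp
    | mul a b ha' hb' ha hb =>
      have haR : a ∈ R := by rw [← h1, hR₁]; exact ha'
      have hbR : b ∈ R := by rw [← h1, hR₁]; exact hb'
      rw [hmul a haR b hbR, ha haR, hb hbR, one_mul]
    | inv a ha' ha =>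
      have haR : a ∈ R := by rw [← h1, hR₁]; exact ha'
      rw [inv_pow, ha haR, inv_one]
  exact H R hRD hR hexp

end Cfsg.Agent.Lib.Helper89SmallExp
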