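import Mathlib

set_option autoImplicit false
set_option linter.unusedVariables false
set_option linter.unusedSectionVars false

namespace Cfsg.Agent.Lib.Helper8Schur

section claims

variable {F : Type*} [Field F] [Fintype F] {A : Type*} [AddCommGroup A]

theorem exists_notMem [DecidableEq F] (S : Finset F) (h : S.card < Fintype.card F) : ∃ x, x ∉ S := by
  by_contra hcon
  simp only [not_exists, not_not] at hcon
  have : S = Finset.univ := Finset.eq_univ_iff_forall.2 hcon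
  rw [this, Finset.card_univ] at h
  exact lt_irrefl _ h

/-- four elements all of whose nonempty subset sums are nonzero -/
theorem exists_indep4 (h2 : (2 : F) = 0) (hc : 8 < Fintype.card F) :
    ∃ c1 c2 c3 c4 : F, c1 ≠ 0 ∧ c2 ≠ 0 ∧ c3 ≠ 0 ∧ c4 ≠ 0 ∧ c1 + c2 ≠ 0 ∧ c1 + c3 ≠ 0 ∧ c1 + c4 ≠ 0 ∧ c2 + c3 ≠ 0 ∧ c2 + c4 ≠ 0 ∧ c3 + c4 ≠ 0 ∧ c1 + c2 + c3 ≠ 0 ∧ c1 + c2 + c4 ≠ 0 ∧ c1 + c3 + c4 ≠ 0 ∧ c2 + c3 + c4 ≠ 0 ∧ c1 + c2 + c3 + c4 ≠ 0 := by
  classical
  obtain ⟨c1, h1⟩ := exists_notMem ({0} : Finset F) (lt_of_le_of_lt (Finset.card_le_one.2 (by simp)) (by omega))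
  obtain ⟨c2, h2'⟩ := exists_notMem ({0, c1} : Finset F) (lt_of_le_of_lt Finset.card_le_two (by omega))
  obtain ⟨c3, h3⟩ := exists_notMem ({0, c1, c2, c1 + c2} : Finset F)
    (lt_of_le_of_lt Finset.card_le_four (by omega))
  obtain ⟨c4, h4⟩ := exists_notMem ({0, c1, c2, c1 + c2, c3, c1 + c3, c2 + c3, c1 + c2 + c3} : Finset F)
    (lt_of_le_of_lt (by
      refine (Finset.card_insert_le _ _).trans ?_
      refine (Nat.succ_le_succ (Finset.card_insert_le _ _)).trans ?_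
      refine (Nat.succ_le_succ (Nat.succ_le_succ Finset.card_le_six)).trans ?_
      exact le_refl 8) hc)
  refine ⟨c1, c2, c3, c4, ?_⟩
  refine ⟨?_, ?_, ?_, ?_, ?_, ?_, ?_, ?_, ?_, ?_, ?_, ?_, ?_, ?_, ?_⟩
  · intro h; exact h1 (by rw [h]; simp)
  · intro h; exact h2' (by rw [h]; simp)
  · intro h; exact h3 (by rw [h]; simp)
  · intro h; exact h4 (by rw [h]; simp)
  · intro h
    have e : c2 = c1 := by linear_combination h - (c1) * h2
    exact h2' (by rw [e]; simp)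
  · intro h
    have e : c3 = c1 := by linear_combination h - (c1) * h2
    exact h3 (by rw [e]; simp)
  · intro h
    have e : c4 = c1 := by linear_combination h - (c1) * h2
    exact h4 (by rw [e]; simp)
  · intro h
    have e : c3 = c2 := by linear_combination h - (c2) * h2
    exact h3 (by rw [e]; simp)
  · intro h
    have e : c4 = c2 := by linear_combination h - (c2) * h2
    exact h4 (by rw [e]; simp)
  · intro h
    have e : c4 = c3 := by linear_combination h - (c3) * h2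
    exact h4 (by rw [e]; simp)
  · intro h
    have e : c3 = c1 + c2 := by linear_combination h - (c1 + c2) * h2
    exact h3 (by rw [e]; simp)
  · intro h
    have e : c4 = c1 + c2 := by linear_combination h - (c1 + c2) * h2
    exact h4 (by rw [e]; simp)
  · intro h
    have e : c4 = c1 + c3 := by linear_combination h - (c1 + c3) * h2
    exact h4 (by rw [e]; simp)
  · intro h
    have e : c4 = c2 + c3 := by linear_combination h - (c2 + c3) * h2
    exact h4 (by rw [e]; simp)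
  · intro h
    have e : c4 = c1 + c2 + c3 := by linear_combination h - (c1 + c2 + c3) * h2
    exact h4 (by rw [e]; simp)

theorem claim1 (h2 : (2 : F) = 0) (hc : 8 < Fintype.card F) (β : F → F → A)
    (hl : ∀ x x' y, β (x + x') y = β x y + β x' y) (hr : ∀ x y y', β x (y + y') = β x y + β x y')
    (hinv : ∀ c x y, c ≠ 0 → β (c * x) (c * y) = β x y) (x y : F) : β x y = 0 := by
  obtain ⟨c1, c2, c3, c4, n1, n2, n3, n4, n12, n13, n14, n23, n24, n34, n123, n124, n134, n234, n1234⟩ := exists_indep4 h2 hc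
  have e : β ((c1) * x) ((c1) * y) + β ((c2) * x) ((c2) * y) + β ((c3) * x) ((c3) * y) + β ((c1 + c2 + c3) * x) ((c1 + c2 + c3) * y) - (β ((c1 + c2) * x) ((c1 + c2) * y) + β ((c1 + c3) * x) ((c1 + c3) * y) + β ((c2 + c3) * x) ((c2 + c3) * y)) = 0 := by
    simp only [add_mul, hl, hr]
    abel
  rw [hinv _ x y n1, hinv _ x y n2, hinv _ x y n3, hinv _ x y n12, hinv _ x y n13, hinv _ x y n23, hinv _ x y n123] at e
  have e2 : β x y + β x y + β x y + β x y - (β x y + β x y + β x y) = β x y := by abel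
  rw [← e2, e]

theorem claim2 (h2 : (2 : F) = 0) (hc : 8 < Fintype.card F) (θ : F → F)
    (hθ : ∀ x y, θ (x + y) = θ x + θ y) (β : F → F → A)
    (hl : ∀ x x' y, β (x + x') y = β x y + β x' y) (hr : ∀ x y y', β x (y + y') = β x y + β x y')
    (hinv : ∀ d x y, d ≠ 0 → β (d * x) (d * θ d * y) = β x y) (x y : F) : β x y = 0 := by
  obtain ⟨c1, c2, c3, c4, n1, n2, n3, n4, n12, n13, n14, n23, n24, n34, n123, n124, n134, n234, n1234⟩ := exists_indep4 h2 hc
  have e : β ((c1) * x) ((c1) * θ (c1) * y) + β ((c2) * x) ((c2) * θ (c2) * y) + β ((c3) * x) ((c3) * θ (c3) * y) + β ((c4) * x) ((c4) * θ (c4) * y) + β ((c1 + c2 + c3) * x) ((c1 + c2 + c3) * θ (c1 + c2 + c3) * y) + β ((c1 + c2 + c4) * x) ((c1 + c2 + c4) * θ (c1 + c2 + c4) * y) + β ((c1 + c3 + c4) * x) ((c1 + c3 + c4) * θ (c1 + c3 + c4) * y) + β ((c2 + c3 + c4) * x) ((c2 + c3 + c4) * θ (c2 + c3 + c4) * y) - (β ((c1 + c2) * x) ((c1 + c2) * θ (c1 + c2) * y) + β ((c1 + c3) *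 x) ((c1 + c3) * θ (c1 + c3) * y) + β ((c1 + c4) * x) ((c1 + c4) * θ (c1 + c4) * y) + β ((c2 + c3) * x) ((c2 + c3) * θ (c2 + c3) * y) + β ((c2 + c4) * x) ((c2 + c4) * θ (c2 + c4) * y) + β ((c3 + c4) * x) ((c3 + c4) * θ (c3 + c4) * y) + β ((c1 + c2 + c3 + c4) * x) ((c1 + c2 + c3 + c4) * θ (c1 + c2 + c3 + c4) * y)) = 0 := by
    simp only [add_mul, mul_add, hθ, hl, hr]
    abel
  rw [hinv _ x y n1, hinv _ x y n2, hinv _ x y n3, hinv _ x y n4, hinv _ x y n12, hinv _ x y n13, hinv _ x y n14, hinv _ x y n23, hinv _ x y n24, hinv _ x y n34, hinv _ x y n123, hinv _ x y n124, hinv _ x y n134, hinv _ x y n234, hinv _ x y n1234] at e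
  have e2 : β x y + β x y + β x y + β x y + β x y + β x y + β x y + β x y
      - (β x y + β x y + β x y + β x y + β x y + β x y + β x y) = β x y := by abel
  rw [← e2, e]

end claims

section comm

open scoped commutatorElement

variable {Γ : Type*} [Group Γ]

theorem comm_mul_left {x y z : Γ} (h : Commute x ⁅y, z⁆) : ⁅x * y, z⁆ = ⁅y, z⁆ * ⁅x, z⁆ := by
  have e : ⁅x * y, z⁆ = x * ⁅y, z⁆ * x⁻¹ * ⁅x, z⁆ := by
    simp only [commutatorElement_def]; group
  rw [e, h.eq, mul_inv_cancel_right]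

theorem comm_mul_right {x y z : Γ} (h : Commute y ⁅x, z⁆) : ⁅x, y * z⁆ = ⁅x, y⁆ * ⁅x, z⁆ := by
  have e : ⁅x, y * z⁆ = ⁅x, y⁆ * (y * ⁅x, z⁆ * y⁻¹) := by
    simp only [commutatorElement_def]; group
  rw [e, h.eq, mul_inv_cancel_right]

theorem comm_conj (g x y : Γ) : ⁅g * x * g⁻¹, g * y * g⁻¹⁆ = g * ⁅x, y⁆ * g⁻¹ := by
  simp only [commutatorElement_def]; group

theorem comm_eq_one_iff {x y : Γ} : ⁅x, y⁆ = 1 ↔ Commute x y := by
  rw [commutatorElement_eq_one_iff_mul_comm]; rfl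

variable {G : Type*} [Group G] (σ : Γ →* G) (hker : σ.ker ≤ Subgroup.center Γ)

include hker

theorem central_of_map_eq_one {x : Γ} (h : σ x = 1) (g : Γ) : Commute g x :=
  Subgroup.mem_center_iff.1 (hker (MonoidHom.mem_ker.2 h)) g

theorem comm_congr_left {x x' y : Γ} (hx : σ x = σ x') : ⁅x, y⁆ = ⁅x', y⁆ := by
  have ha : σ (x⁻¹ * x') = 1 := by rw [map_mul, map_inv, hx, inv_mul_cancel]
  have hc := central_of_map_eq_one σ hker ha
  have e : x' = x * (x⁻¹ * x') := by group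
  rw [e]
  generalize x⁻¹ * x' = a at hc
  have e2 : ⁅x * a, y⁆ = x * (a * y * a⁻¹) * x⁻¹ * y⁻¹ := by
    simp only [commutatorElement_def]; group
  rw [e2, ← (hc y).eq, mul_inv_cancel_right, commutatorElement_def]

theorem comm_congr_right {x y y' : Γ} (hy : σ y = σ y') : ⁅x, y⁆ = ⁅x, y'⁆ := by
  rw [← commutatorElement_inv y x, ← commutatorElement_inv y' x, comm_congr_left σ hker hy]

theorem comm_congr {x x' y y' : Γ} (hx : σ x = σ x') (hy : σ y = σ y') : ⁅x, y⁆ = ⁅x', y'⁆ := by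
  rw [comm_congr_left σ hker hx, comm_congr_right σ hker hy]

end comm

section main

open scoped commutatorElement IsMulCommutative

variable {F : Type*} [Field F] [Fintype F] {Γ G : Type*} [Group Γ] [Group G]
  (σ : Γ →* G) (hker : σ.ker ≤ Subgroup.center Γ)
  (h2 : (2 : F) = 0) (hc : 8 < Fintype.card F)

include hker

theorem conj_central {z : Γ} (hz : σ z = 1) (k : Γ) : k * z * k⁻¹ = z := by
  rw [(central_of_map_eq_one σ hker hz k).eq, mul_inv_cancel_right]

include h2 hc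

theorem claim1' (B : F → F → Γ) (hB : ∀ x y, σ (B x y) = 1)
    (hl : ∀ x x' y, B (x + x') y = B x y * B x' y) (hr : ∀ x y y', B x (y + y') = B x y * B x y')
    (hinv : ∀ c x y, c ≠ 0 → B (c * x) (c * y) = B x y) (x y : F) : B x y = 1 := by
  let β : F → F → Additive (Subgroup.center Γ) := fun x y =>
    Additive.ofMul ⟨B x y, hker (MonoidHom.mem_ker.2 (hB x y))⟩
  have := claim1 h2 hc β ?_ ?_ ?_ x y
  · exact congrArg (fun z => ((Additive.toMul z : Subgroup.center Γ) : Γ)) this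
  · intro x x' y
    show Additive.ofMul _ = Additive.ofMul (_ * _)
    congr 1
    exact Subtype.ext (hl x x' y)
  · intro x y y'
    show Additive.ofMul _ = Additive.ofMul (_ * _)
    congr 1
    exact Subtype.ext (hr x y y')
  · intro c x y hc0
    show Additive.ofMul _ = Additive.ofMul _
    congr 1
    exact Subtype.ext (hinv c x y hc0)

theorem claim2' (θ : F → F) (hθ : ∀ x y, θ (x + y) = θ x + θ y)
    (B : F → F → Γ) (hB : ∀ x y, σ (B x y) = 1)
    (hl : ∀ x x' y, B (x + x') y = B x y * B x' y) (hr : ∀ x y y', B x (y + y') = B x y * B x y')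
    (hinv : ∀ d x y, d ≠ 0 → B (d * x) (d * θ d * y) = B x y) (x y : F) : B x y = 1 := by
  let β : F → F → Additive (Subgroup.center Γ) := fun x y =>
    Additive.ofMul ⟨B x y, hker (MonoidHom.mem_ker.2 (hB x y))⟩
  have := claim2 h2 hc θ hθ β ?_ ?_ ?_ x y
  · exact congrArg (fun z => ((Additive.toMul z : Subgroup.center Γ) : Γ)) this
  · intro x x' y
    show Additive.ofMul _ = Additive.ofMul (_ * _)
    congr 1
    exact Subtype.ext (hl x x' y)
  · intro x y y'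
    show Additive.ofMul _ = Additive.ofMul (_ * _)
    congr 1
    exact Subtype.ext (hr x y y')
  · intro c x y hc0
    show Additive.ofMul _ = Additive.ofMul _
    congr 1
    exact Subtype.ext (hinv c x y hc0)

variable (s : G → Γ) (hs : ∀ g, σ (s g) = g)
  (θ : F → F) (hθ : ∀ x y, θ (x + y) = θ x + θ y) (hθm : ∀ x y, θ (x * y) = θ x * θ y)
  (T : F → F → G) (Hh : F → G)
  (hT : ∀ a b a' b', T a b * T a' b' = T (a + a') (b + b' + θ a * a'))
  (hTinj : ∀ b, T 0 b = 1 → b = 0)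
  (hH : ∀ d, d ≠ 0 → ∃ c : F, ∀ a b, Hh c * T a b * (Hh c)⁻¹ = T (d * a) (d * θ d * b))
  (hHc : ∀ c c', Hh c * Hh c' = Hh c' * Hh c)
  (hnorm : ∀ μ : F, μ ≠ 0 → ∃ d, d ≠ 0 ∧ d * θ d = μ)

include hs hθ hT hH hnorm

theorem theta_zero : θ 0 = 0 := by
  have := hθ 0 0
  rw [add_zero] at this
  exact left_eq_add.1 this

/-- lifts of central elements of `Q` commute -/
theorem step1 (b b' : F) : ⁅s (T 0 b), s (T 0 b')⁆ = 1 := by
  have hcen : ∀ b b', σ ⁅s (T 0 b), s (T 0 b')⁆ = 1 := by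
    intro b b'
    rw [map_commutatorElement, hs, hs, commutatorElement_eq_one_iff_mul_comm, hT, hT]
    congr 1; ring
  refine claim1' σ hker h2 hc (fun b b' => ⁅s (T 0 b), s (T 0 b')⁆) hcen ?_ ?_ ?_ b b'
  · intro x x' y
    show ⁅s (T 0 (x + x')), s (T 0 y)⁆ = ⁅s (T 0 x), s (T 0 y)⁆ * ⁅s (T 0 x'), s (T 0 y)⁆
    rw [comm_congr_left σ hker (x' := s (T 0 x') * s (T 0 x))
      (by rw [map_mul, hs, hs, hs, hT]; congr 1 <;> simp [add_comm]),
      comm_mul_left (central_of_map_eq_one σ hker (hcen _ _) _)]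
  · intro x y y'
    show ⁅s (T 0 x), s (T 0 (y + y'))⁆ = ⁅s (T 0 x), s (T 0 y)⁆ * ⁅s (T 0 x), s (T 0 y')⁆
    rw [comm_congr_right σ hker (y' := s (T 0 y) * s (T 0 y'))
      (by rw [map_mul, hs, hs, hs, hT]; congr 1 <;> simp),
      comm_mul_right (central_of_map_eq_one σ hker (hcen _ _) _)]
  · intro μ x y hμ
    obtain ⟨d, hd, rfl⟩ := hnorm μ hμ
    obtain ⟨c, hcc⟩ := hH d hd
    show ⁅s (T 0 (d * θ d * x)), s (T 0 (d * θ d * y))⁆ = ⁅s (T 0 x), s (T 0 y)⁆
    rw [comm_congr σ hker (x' := s (Hh c) * s (T 0 x) * (s (Hh c))⁻¹)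
      (y' := s (Hh c) * s (T 0 y) * (s (Hh c))⁻¹)
      (by rw [map_mul, map_mul, map_inv, hs, hs, hs, hcc, mul_zero])
      (by rw [map_mul, map_mul, map_inv, hs, hs, hs, hcc, mul_zero]),
      comm_conj, conj_central σ hker (hcen _ _)]

/-- lifts of central elements of `Q` commute with lifts of `T a 0` -/
theorem step2 (a b' : F) : ⁅s (T a 0), s (T 0 b')⁆ = 1 := by
  have h0 : θ 0 = 0 := theta_zero σ hker h2 hc s hs θ hθ T Hh hT hH hnorm
  have hcen : ∀ a b', σ ⁅s (T a 0), s (T 0 b')⁆ = 1 := by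
    intro a b'
    rw [map_commutatorElement, hs, hs, commutatorElement_eq_one_iff_mul_comm, hT, hT, h0]
    congr 1 <;> ring
  refine claim2' σ hker h2 hc θ hθ (fun a b' => ⁅s (T a 0), s (T 0 b')⁆) hcen ?_ ?_ ?_ a b'
  · intro x x' y
    show ⁅s (T (x + x') 0), s (T 0 y)⁆ = ⁅s (T x 0), s (T 0 y)⁆ * ⁅s (T x' 0), s (T 0 y)⁆
    rw [comm_congr_left σ hker (x' := s (T 0 (θ x' * x)) * (s (T x' 0) * s (T x 0)))
      (by
        rw [map_mul, map_mul, hs, hs, hs, hs, hT, hT, h0]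
        congr 1
        · ring
        · linear_combination (-(θ x' * x)) * h2),
      comm_mul_left (central_of_map_eq_one σ hker (by
        rw [comm_mul_left (central_of_map_eq_one σ hker (hcen _ _) _), map_mul, hcen, hcen,
          one_mul]) _),
      step1 σ hker h2 hc s hs θ hθ T Hh hT hH hnorm, mul_one,
      comm_mul_left (central_of_map_eq_one σ hker (hcen _ _) _)]
  · intro x y y'
    show ⁅s (T x 0), s (T 0 (y + y'))⁆ = ⁅s (T x 0), s (T 0 y)⁆ * ⁅s (T x 0), s (T 0 y')⁆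
    rw [comm_congr_right σ hker (y' := s (T 0 y) * s (T 0 y'))
      (by rw [map_mul, hs, hs, hs, hT]; congr 1 <;> simp),
      comm_mul_right (central_of_map_eq_one σ hker (hcen _ _) _)]
  · intro d x y hd
    obtain ⟨c, hcc⟩ := hH d hd
    show ⁅s (T (d * x) 0), s (T 0 (d * θ d * y))⁆ = ⁅s (T x 0), s (T 0 y)⁆
    rw [comm_congr σ hker (x' := s (Hh c) * s (T x 0) * (s (Hh c))⁻¹)
      (y' := s (Hh c) * s (T 0 y) * (s (Hh c))⁻¹)
      (by rw [map_mul, map_mul, map_inv, hs, hs, hs, hcc, mul_zero])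
      (by rw [map_mul, map_mul, map_inv, hs, hs, hs, hcc, mul_zero]),
      comm_conj, conj_central σ hker (hcen _ _)]

/-- lifts of central elements of `Q` commute with all lifts of elements of `Q` -/
theorem zc {x y : Γ} {a b b' : F} (hx : σ x = T a b) (hy : σ y = T 0 b') : Commute x y := by
  have h0 : θ 0 = 0 := theta_zero σ hker h2 hc s hs θ hθ T Hh hT hH hnorm
  rw [← comm_eq_one_iff,
    comm_congr σ hker (x' := s (T 0 b) * s (T a 0)) (y' := s (T 0 b'))
      (by rw [hx, map_mul, hs, hs, hT, h0]; congr 1 <;> ring) (by rw [hy, hs]),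
    comm_mul_left (by
      rw [step2 σ hker h2 hc s hs θ hθ T Hh hT hH hnorm]; exact Commute.one_right _),
    step2 σ hker h2 hc s hs θ hθ T Hh hT hH hnorm,
    step1 σ hker h2 hc s hs θ hθ T Hh hT hH hnorm, one_mul]

include hθm hHc

/-- an equivariant homomorphic section of the centre containing all commutators -/
theorem step3 : ∃ ψ : F → Γ, (∀ b, σ (ψ b) = T 0 b) ∧ (∀ b b', ψ (b + b') = ψ b * ψ b') ∧
    ∀ x y : Γ, (∃ a b, σ x = T a b) → (∃ a b, σ y = T a b) → ∃ b, ⁅x, y⁆ = ψ b := by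
  classical
  have h0 : θ 0 = 0 := theta_zero σ hker h2 hc s hs θ hθ T Hh hT hH hnorm
  have hzc : ∀ {x y : Γ} {a b b' : F}, σ x = T a b → σ y = T 0 b' → Commute x y :=
    fun hx hy => zc σ hker h2 hc s hs θ hθ T Hh hT hH hnorm hx hy
  have hT00 : T 0 0 = 1 := by
    have := hT 0 0 0 0
    rw [h0] at this
    simp only [add_zero, mul_zero] at this
    exact mul_eq_left.1 this
  have hTinv : ∀ v, (T 0 v)⁻¹ = T 0 v := by
    intro v
    apply inv_eq_of_mul_eq_one_right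
    rw [hT, h0, ← hT00]
    congr 1
    · ring
    · linear_combination v * h2
  obtain ⟨μ, hμ⟩ := exists_notMem ({0, 1} : Finset F) (lt_of_le_of_lt Finset.card_le_two (by omega))
  have hμ0 : μ ≠ 0 := fun h => hμ (by rw [h]; simp)
  have hμ1 : μ ≠ 1 := fun h => hμ (by rw [h]; simp)
  obtain ⟨d₀, hd₀, hdμ⟩ := hnorm μ hμ0
  obtain ⟨c₀, hc₀⟩ := hH d₀ hd₀
  have hu : μ + 1 ≠ 0 := by
    intro h
    apply hμ1
    linear_combination h - h2
  let ψ : F → Γ := fun b => ⁅s (Hh c₀), s (T 0 ((μ + 1)⁻¹ * b))⁆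
  have hψ1 : ∀ b, σ (ψ b) = T 0 b := by
    intro b
    show σ ⁅s (Hh c₀), s (T 0 ((μ + 1)⁻¹ * b))⁆ = _
    rw [map_commutatorElement, hs, hs, commutatorElement_def, hc₀, hTinv, hT, hdμ, mul_zero, h0]
    congr 1
    · ring
    · field_simp
      ring
  have hψ2 : ∀ b b', ψ (b + b') = ψ b * ψ b' := by
    intro b b'
    show ⁅s (Hh c₀), s (T 0 ((μ + 1)⁻¹ * (b + b')))⁆ = ψ b * ψ b'
    rw [comm_congr_right σ hker
      (y' := s (T 0 ((μ + 1)⁻¹ * b)) * s (T 0 ((μ + 1)⁻¹ * b')))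
      (by rw [map_mul, hs, hs, hs, hT, h0]; congr 1 <;> ring),
      comm_mul_right (hzc (hs _) (hψ1 b'))]
  have hψ3 : ∀ (c d b : F), (∀ a b, Hh c * T a b * (Hh c)⁻¹ = T (d * a) (d * θ d * b)) →
      s (Hh c) * ψ b * (s (Hh c))⁻¹ = ψ (d * θ d * b) := by
    intro c d b hcd
    show s (Hh c) * ⁅s (Hh c₀), s (T 0 ((μ + 1)⁻¹ * b))⁆ * (s (Hh c))⁻¹ =
      ⁅s (Hh c₀), s (T 0 ((μ + 1)⁻¹ * (d * θ d * b)))⁆
    rw [← comm_conj]
    apply comm_congr σ hker
    · rw [map_mul, map_mul, map_inv, hs, hs, hHc, mul_inv_cancel_right]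
    · rw [map_mul, map_mul, map_inv, hs, hs, hs, hcd, mul_zero]
      congr 1
      ring
  have hK : ∀ a a', σ ⁅s (T a 0), s (T a' 0)⁆ = T 0 (θ a * a' + θ a' * a) := by
    intro a a'
    rw [map_commutatorElement, hs, hs, commutatorElement_def, mul_inv_eq_iff_eq_mul,
      mul_inv_eq_iff_eq_mul, hT, hT, hT, h0]
    simp only [zero_add]
    congr 1
    · ring
    · linear_combination (-(θ a' * a)) * h2
  have hKl : ∀ x x' y, ⁅s (T (x + x') 0), s (T y 0)⁆ =
      ⁅s (T x 0), s (T y 0)⁆ * ⁅s (T x' 0), s (T y 0)⁆ := by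
    intro x x' y
    have h1 : ⁅s (T 0 (θ x' * x)), s (T y 0)⁆ = 1 :=
      comm_eq_one_iff.2 (hzc (hs _) (hs _)).symm
    rw [comm_congr_left σ hker (x' := (s (T x' 0) * s (T x 0)) * s (T 0 (θ x' * x)))
      (by
        rw [map_mul, map_mul, hs, hs, hs, hs, hT, hT]
        congr 1
        · ring
        · linear_combination (-(θ x' * x)) * h2),
      comm_mul_left (by rw [h1]; exact Commute.one_right _), h1, one_mul,
      comm_mul_left (hzc (hs _) (hK _ _))]
  have hKr : ∀ x y y', ⁅s (T x 0), s (T (y + y') 0)⁆ =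
      ⁅s (T x 0), s (T y 0)⁆ * ⁅s (T x 0), s (T y' 0)⁆ := by
    intro x y y'
    have h1 : ⁅s (T x 0), s (T 0 (θ y * y'))⁆ = 1 :=
      comm_eq_one_iff.2 (hzc (hs _) (hs _))
    rw [comm_congr_right σ hker (y' := (s (T y 0) * s (T y' 0)) * s (T 0 (θ y * y')))
      (by
        rw [map_mul, map_mul, hs, hs, hs, hs, hT, hT]
        congr 1
        · ring
        · linear_combination (-(θ y * y')) * h2),
      comm_mul_right (by rw [h1]; exact Commute.one_right _), h1, mul_one,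
      comm_mul_right (hzc (hs _) (hK _ _))]
  have hB : ∀ a a', σ (⁅s (T a 0), s (T a' 0)⁆ * (ψ (θ a * a' + θ a' * a))⁻¹) = 1 := by
    intro a a'
    rw [map_mul, map_inv, hK, hψ1, mul_inv_cancel]
  have key : ∀ a a', ⁅s (T a 0), s (T a' 0)⁆ * (ψ (θ a * a' + θ a' * a))⁻¹ = 1 := by
    refine claim1' σ hker h2 hc
      (fun a a' => ⁅s (T a 0), s (T a' 0)⁆ * (ψ (θ a * a' + θ a' * a))⁻¹) hB ?_ ?_ ?_
    · intro x x' y
      show ⁅s (T (x + x') 0), s (T y 0)⁆ * (ψ (θ (x + x') * y + θ y * (x + x')))⁻¹ =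
        ⁅s (T x 0), s (T y 0)⁆ * (ψ (θ x * y + θ y * x))⁻¹ *
          (⁅s (T x' 0), s (T y 0)⁆ * (ψ (θ x' * y + θ y * x'))⁻¹)
      have e : θ (x + x') * y + θ y * (x + x') = (θ x * y + θ y * x) + (θ x' * y + θ y * x') := by
        rw [hθ]; ring
      rw [e, hψ2, hKl, mul_inv_rev, mul_assoc _ ((ψ (θ x * y + θ y * x))⁻¹) (_ * _),
        (central_of_map_eq_one σ hker (hB x' y) ((ψ (θ x * y + θ y * x))⁻¹)).eq]
      simp only [mul_assoc]
    · intro x y y'
      show ⁅s (T x 0), s (T (y + y') 0)⁆ * (ψ (θ x * (y + y') + θ (y + y') * x))⁻¹ =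
        ⁅s (T x 0), s (T y 0)⁆ * (ψ (θ x * y + θ y * x))⁻¹ *
          (⁅s (T x 0), s (T y' 0)⁆ * (ψ (θ x * y' + θ y' * x))⁻¹)
      have e : θ x * (y + y') + θ (y + y') * x = (θ x * y + θ y * x) + (θ x * y' + θ y' * x) := by
        rw [hθ]; ring
      rw [e, hψ2, hKr, mul_inv_rev, mul_assoc _ ((ψ (θ x * y + θ y * x))⁻¹) (_ * _),
        (central_of_map_eq_one σ hker (hB x y') ((ψ (θ x * y + θ y * x))⁻¹)).eq]
      simp only [mul_assoc]
    · intro d x y hd
      obtain ⟨c, hcc⟩ := hH d hd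
      show ⁅s (T (d * x) 0), s (T (d * y) 0)⁆ * (ψ (θ (d * x) * (d * y) + θ (d * y) * (d * x)))⁻¹ =
        ⁅s (T x 0), s (T y 0)⁆ * (ψ (θ x * y + θ y * x))⁻¹
      have e : θ (d * x) * (d * y) + θ (d * y) * (d * x) = d * θ d * (θ x * y + θ y * x) := by
        rw [hθm, hθm]; ring
      rw [e, ← hψ3 c d _ hcc,
        comm_congr σ hker (x' := s (Hh c) * s (T x 0) * (s (Hh c))⁻¹)
          (y' := s (Hh c) * s (T y 0) * (s (Hh c))⁻¹)
          (by rw [map_mul, map_mul, map_inv, hs, hs, hs, hcc, mul_zero])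
          (by rw [map_mul, map_mul, map_inv, hs, hs, hs, hcc, mul_zero]),
        comm_conj]
      have e2 : s (Hh c) * ⁅s (T x 0), s (T y 0)⁆ * (s (Hh c))⁻¹ *
          (s (Hh c) * ψ (θ x * y + θ y * x) * (s (Hh c))⁻¹)⁻¹ =
          s (Hh c) * (⁅s (T x 0), s (T y 0)⁆ * (ψ (θ x * y + θ y * x))⁻¹) * (s (Hh c))⁻¹ := by
        group
      rw [e2, conj_central σ hker (hB x y)]
  refine ⟨ψ, hψ1, hψ2, ?_⟩
  rintro x y ⟨a, b, hx⟩ ⟨a', b', hy⟩
  refine ⟨θ a * a' + θ a' * a, ?_⟩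
  have h1 : ⁅s (T 0 b), s (T a' 0) * s (T 0 b')⁆ = 1 :=
    comm_eq_one_iff.2 (hzc (a := a') (b := b') (by
      rw [map_mul, hs, hs, hT]; congr 1 <;> ring) (hs _)).symm
  have h3 : ⁅s (T a 0), s (T 0 b')⁆ = 1 := comm_eq_one_iff.2 (hzc (hs _) (hs _))
  rw [comm_congr σ hker (x' := s (T a 0) * s (T 0 b)) (y' := s (T a' 0) * s (T 0 b'))
      (by rw [hx, map_mul, hs, hs, hT]; congr 1 <;> ring)
      (by rw [hy, map_mul, hs, hs, hT]; congr 1 <;> ring),
    comm_mul_left (by rw [h1]; exact Commute.one_right _), h1, one_mul,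
    comm_mul_right (by rw [h3]; exact Commute.one_right _), h3, mul_one]
  exact mul_inv_eq_one.1 (key a a')

include hTinj

theorem inter_trivial (Qs : Subgroup G) (hQ : ∀ g, g ∈ Qs → ∃ a b, g = T a b)
    (z : ↥(Qs.comap σ)) (hz : z ∈ commutator ↥(Qs.comap σ)) (hz1 : σ (z : Γ) = 1) :
    (z : Γ) = 1 := by
  obtain ⟨ψ, hψ1, hψ2, hψ3⟩ := step3 σ hker h2 hc s hs θ hθ hθm T Hh hT hH hHc hnorm
  have hψ0 : ψ 0 = 1 := by
    have := hψ2 0 0
    rw [add_zero] at this
    exact (mul_eq_left.1 this.symm)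
  have hψi : ∀ b, (ψ b)⁻¹ = ψ b := by
    intro b
    apply inv_eq_of_mul_eq_one_right
    rw [← hψ2, ← hψ0]
    congr 1
    linear_combination b * h2
  let Ψ : Subgroup Γ :=
    { carrier := Set.range ψ
      mul_mem' := by
        rintro _ _ ⟨b, rfl⟩ ⟨b', rfl⟩
        exact ⟨b + b', hψ2 b b'⟩
      one_mem' := ⟨0, hψ0⟩
      inv_mem' := by
        rintro _ ⟨b, rfl⟩
        exact ⟨b, (hψi b).symm⟩ }
  have hle : commutator ↥(Qs.comap σ) ≤ Ψ.comap (Qs.comap σ).subtype := by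
    rw [commutator_def, Subgroup.commutator_le]
    intro x _ y _
    obtain ⟨b, hb⟩ := hψ3 x y (hQ _ x.2) (hQ _ y.2)
    exact ⟨b, hb.symm⟩
  obtain ⟨b, hb⟩ := hle hz
  have hb' : ψ b = (z : Γ) := hb
  have : b = 0 := hTinj b (by rw [← hψ1, hb', hz1])
  rw [← hb', this, hψ0]

end main

section stem

variable {Γ G : Type*} [Group Γ] [Group G] (σ : Γ →* G)

/-- powers of central commutator elements are commutators in a subgroup (transfer) -/
theorem pow_index_mem (H : Subgroup Γ) [H.FiniteIndex] (k : Γ)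
    (hk : k ∈ Subgroup.center Γ) (hk' : k ∈ commutator Γ) :
    ∃ h : k ^ H.index ∈ H, (⟨k ^ H.index, h⟩ : H) ∈ commutator H := by
  have key : ∀ (j : ℕ) (g₀ : Γ), g₀⁻¹ * k ^ j * g₀ ∈ H → g₀⁻¹ * k ^ j * g₀ = k ^ j := by
    intro j g₀ _
    have := Subgroup.mem_center_iff.1 (Subgroup.pow_mem _ hk j) g₀
    rw [mul_assoc, ← this]; group
  have h1 := MonoidHom.transfer_eq_pow (Abelianization.of : H →* Abelianization H) k key
  have h2 : MonoidHom.transfer (Abelianization.of : H →* Abelianization H) k = 1 :=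
    Abelianization.commutator_subset_ker _ hk'
  rw [h2] at h1
  refine ⟨MonoidHom.transfer_eq_pow_aux k key, ?_⟩
  rw [← Abelianization.ker_of, MonoidHom.mem_ker]
  exact h1.symm

theorem ker_eq_bot_of_local [Finite Γ] (hsurj : Function.Surjective σ)
    (hker : σ.ker ≤ Subgroup.center Γ) (hker' : σ.ker ≤ commutator Γ)
    (hyp : ∀ p : ℕ, p.Prime → ∃ U : Subgroup G, ¬ p ∣ U.index ∧
      ∀ z : ↥(U.comap σ), z ∈ commutator ↥(U.comap σ) → σ (z : Γ) = 1 → (z : Γ) = 1) :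
    σ.ker = ⊥ := by
  rw [eq_bot_iff]
  intro z hz
  rw [Subgroup.mem_bot]
  by_contra hz1
  have hord : orderOf z ≠ 1 := fun h => hz1 (orderOf_eq_one_iff.1 h)
  obtain ⟨p, hp, hdvd⟩ := Nat.exists_prime_and_dvd hord
  obtain ⟨U, hU, hUz⟩ := hyp p hp
  obtain ⟨h, h'⟩ := pow_index_mem (U.comap σ) z (hker hz) (hker' hz)
  have h1 := hUz _ h' (by
    show σ (z ^ (U.comap σ).index) = 1
    rw [map_pow, MonoidHom.mem_ker.1 hz, one_pow])
  have h2 : z ^ (U.comap σ).index = 1 := h1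
  rw [Subgroup.index_comap_of_surjective U hsurj] at h2
  exact hU (hdvd.trans (orderOf_dvd_of_pow_eq_one h2))

theorem cyclic_local (hker : σ.ker ≤ Subgroup.center Γ) (U : Subgroup G) (hU : IsCyclic U)
    (z : ↥(U.comap σ)) (hz : z ∈ commutator ↥(U.comap σ)) : (z : Γ) = 1 := by
  have hcomm : ∀ a b : ↥(U.comap σ), a * b = b * a := by
    apply commutative_of_cyclic_center_quotient (σ.subgroupComap U)
    intro a ha
    rw [Subgroup.mem_center_iff]
    intro g
    apply Subtype.ext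
    have ha' : (a : Γ) ∈ σ.ker := by
      rw [MonoidHom.mem_ker] at ha ⊢
      exact congrArg Subtype.val ha
    exact Subgroup.mem_center_iff.1 (hker ha') g
  have hle : commutator ↥(U.comap σ) ≤ ⊥ := by
    rw [commutator_def, Subgroup.commutator_le]
    intro x _ y _
    rw [Subgroup.mem_bot, commutatorElement_eq_one_iff_mul_comm]
    exact hcomm x y
  have := hle hz
  rw [Subgroup.mem_bot] at this
  rw [this]; rfl

end stem

end Cfsg.Agent.Lib.Helper8Schur
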