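import Mathlib
import Cfsg.Agent.Lib.Helper8Fus
import Cfsg.Agent.Lib.Helper8Schur

set_option autoImplicit false
set_option linter.unusedSectionVars false

/-! Groups of Janko-Ree type: abstract core (covers and 2-automorphisms). -/

namespace Cfsg.Agent.Lib.Helper8JR1

open Cfsg.Agent.Lib.Helper8Fus Cfsg.Agent.Lib.Helper8Schur
open scoped commutatorElement

theorem comm_of_exp {G : Type*} [Group G] (S : Subgroup G) (hexp : ∀ x ∈ S, x * x = 1) :
    ∀ x ∈ S, ∀ y ∈ S, x * y = y * x := by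
  intro x hx y hy
  have h1 := hexp (x * y) (S.mul_mem hx hy)
  have h2 := hexp x hx
  have h3 := hexp y hy
  calc x * y = x * (x * y * (x * y)) * y := by rw [h1, mul_one]
    _ = (x * x) * (y * x) * (y * y) := by group
    _ = y * x := by rw [h2, h3, one_mul, mul_one]

theorem cocycle_cob {G : Type*} [Group G] (S : Subgroup G) (h8 : Nat.card S = 8)
    (hexp : ∀ x ∈ S, x * x = 1)
    (Nn : Subgroup G) (hN : ∀ n ∈ Nn, ∀ s ∈ S, n * s * n⁻¹ ∈ S) (t : G)
    (htr : ∀ s ∈ S, s ≠ 1 → ∃ n ∈ Nn, n * t * n⁻¹ = s)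
    (α : G → G) (hα : ∀ n ∈ Nn, α n ∈ S)
    (hmul : ∀ n ∈ Nn, ∀ m ∈ Nn, α (n * m) = α n * (n * α m * n⁻¹))
    (hH : ∀ h ∈ Nn, h * t = t * h → α h = 1) :
    ∃ σ ∈ S, ∀ n ∈ Nn, α n = σ * (n * σ * n⁻¹) := by
  classical
  have hcomm := comm_of_exp S hexp
  let _ : CommGroup S :=
    { (inferInstance : Group S) with mul_comm := fun x y => Subtype.ext (hcomm x x.2 y y.2) }
  have : Finite S := Nat.finite_of_card_ne_zero (by rw [h8]; norm_num)
  let _ : Fintype S := Fintype.ofFinite S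
  choose! rep hrepN hrep using htr
  have hwd : ∀ n ∈ Nn, ∀ m ∈ Nn, n * t * n⁻¹ = m * t * m⁻¹ → α n = α m := by
    intro n hn m hm h
    have h0 : (m⁻¹ * n) * t = t * (m⁻¹ * n) := by
      calc (m⁻¹ * n) * t = m⁻¹ * (n * t * n⁻¹) * n := by group
        _ = t * (m⁻¹ * n) := by rw [h]; group
    have h1 := hmul m hm (m⁻¹ * n) (Nn.mul_mem (Nn.inv_mem hm) hn)
    rw [mul_inv_cancel_left, hH _ (Nn.mul_mem (Nn.inv_mem hm) hn) h0] at h1
    simpa using h1
  let a : S → S := fun x => if h : (x : G) ≠ 1 then ⟨α (rep x), hα _ (hrepN x x.2 h)⟩ else 1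
  let σ : S := ∏ x, a x
  refine ⟨σ, σ.2, fun n hn => ?_⟩
  let c : S ≃* S :=
    { toFun := fun x => ⟨n * x * n⁻¹, hN n hn x x.2⟩
      invFun := fun x => ⟨n⁻¹ * x * n, by simpa using hN n⁻¹ (Nn.inv_mem hn) x x.2⟩
      left_inv := fun x => Subtype.ext (by simp only []; group)
      right_inv := fun x => Subtype.ext (by simp only []; group)
      map_mul' := fun x y => Subtype.ext (by simp only [Subgroup.coe_mul]; group) }
  let an : S := ⟨α n, hα n hn⟩
  have key : ∀ x : S, a (c x) = (if x = 1 then 1 else an) * c (a x) := by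
    intro x
    by_cases hx : x = 1
    · subst hx
      simp [a]
    · have hx' : (x : G) ≠ 1 := fun h => hx (Subtype.ext h)
      have hcx : ((c x : S) : G) ≠ 1 := fun h => hx (by
        have : c x = 1 := Subtype.ext h
        simpa using this)
      simp only [a, dif_pos hx', dif_pos hcx, if_neg hx]
      apply Subtype.ext
      show α (rep (n * x * n⁻¹)) = α n * (n * α (rep x) * n⁻¹)
      rw [← hmul n hn _ (hrepN x x.2 hx')]
      apply hwd _ (hrepN _ (c x).2 hcx) _ (Nn.mul_mem hn (hrepN x x.2 hx'))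
      rw [hrep _ (c x).2 hcx]
      calc n * x * n⁻¹ = n * (rep x * t * (rep x)⁻¹) * n⁻¹ := by rw [hrep x x.2 hx']
        _ = _ := by group
  have h1 : ∏ x, a (c x) = σ := Equiv.prod_comp c.toEquiv a
  have hcard : (Finset.univ.filter (fun x : S => ¬ x = 1)).card = 7 := by
    rw [Finset.filter_not, Finset.card_sdiff_of_subset (Finset.filter_subset _ _),
      Finset.filter_eq' , if_pos (Finset.mem_univ _), Finset.card_singleton, Finset.card_univ,
      ← Nat.card_eq_fintype_card, h8]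
  have h2 : ∏ x, a (c x) = an ^ 7 * c σ := by
    simp_rw [key]
    rw [Finset.prod_mul_distrib, ← map_prod]
    congr 1
    rw [Finset.prod_ite, Finset.prod_const_one, one_mul, Finset.prod_const, hcard]
  have h3 : an ^ 7 = an := by
    have : an * an = 1 := Subtype.ext (hexp _ an.2)
    calc an ^ 7 = (an * an) ^ 3 * an := by rw [← pow_two, ← pow_mul, ← pow_succ]
      _ = an := by rw [this, one_pow, one_mul]
  have h4 : σ * σ = 1 := Subtype.ext (hexp _ σ.2)
  have h5 : c σ * c σ = 1 := Subtype.ext (hexp _ (c σ).2)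
  have h6 : an = σ * c σ := by
    rw [h2, h3] at h1
    calc an = an * (c σ * c σ) := by rw [h5, mul_one]
      _ = (an * c σ) * c σ := by group
      _ = σ * c σ := by rw [h1]
  exact congrArg Subtype.val h6

section A

variable {G : Type*} [Group G] [Finite G]
  (hperf : commutator G = ⊤) (S : Sylow 2 G) (h8 : Nat.card S = 8) (hexp : ∀ x ∈ S, x * x = 1)
  (t : G) (htS : t ∈ S) (ht1 : t ≠ 1)
  {M₀ : Type*} [Group M₀] (ι : M₀ →* G)
  (hMC : ∀ m, ι m * t = t * ι m)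
  (hMp : commutator M₀ = ⊤)
  (hSd : ∀ s ∈ S, (∃ m, ι m = s) ∨ (∃ m, ι m = t * s))
  {L : Type*} [Group L] (σ : L →* G) (hsurj : Function.Surjective σ)
  (hker : σ.ker ≤ Subgroup.center L)

include hMC hMp hsurj hker in
theorem a1 (a y : L) (ha : σ a = t) (hy : ∃ m, ι m = σ y) : Commute a y := by
  obtain ⟨H, hH⟩ : ∃ H : Subgroup L, H = ι.range.comap σ := ⟨_, rfl⟩
  have hcen : ∀ g ∈ H, ∀ w ∈ Subgroup.zpowers a, ⁅g, w⁆ ∈ Subgroup.center L := by
    intro g hg w hw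
    apply hker
    rw [MonoidHom.mem_ker, map_commutatorElement, commutatorElement_eq_one_iff_mul_comm]
    rw [hH] at hg
    obtain ⟨m, hm⟩ := hg
    obtain ⟨j, rfl⟩ := hw
    rw [← hm, map_zpow, ha]
    exact ((show Commute (ι m) t from hMC m).zpow_right j).eq
  have h1 : ⁅H, Subgroup.zpowers a⁆ ≤ Subgroup.center L := by
    rw [Subgroup.commutator_le]; exact hcen
  have h2 : ⁅⁅H, Subgroup.zpowers a⁆, H⁆ = ⊥ := by
    rw [Subgroup.commutator_eq_bot_iff_le_centralizer]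
    exact h1.trans (Subgroup.center_le_centralizer _)
  have h3 : ⁅⁅Subgroup.zpowers a, H⁆, H⁆ = ⊥ := by
    rw [Subgroup.commutator_comm (Subgroup.zpowers a) H]; exact h2
  have h4 : ⁅⁅H, H⁆, Subgroup.zpowers a⁆ = ⊥ :=
    Subgroup.commutator_commutator_eq_bot_of_rotate h2 h3
  rw [Subgroup.commutator_eq_bot_iff_le_centralizer] at h4
  have h5 : (⁅H, H⁆).map σ = ι.range := by
    rw [Subgroup.map_commutator, hH, Subgroup.map_comap_eq_self_of_surjective hsurj,
      MonoidHom.range_eq_map, ← Subgroup.map_commutator, ← commutator_def, hMp]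
  obtain ⟨w, hw, hwy⟩ : σ y ∈ (⁅H, H⁆).map σ := by
    rw [h5]; exact hy
  have h6 : Commute a w := by
    have := Subgroup.mem_centralizer_iff.1 (h4 hw) a (Subgroup.mem_zpowers a)
    exact this
  have h7 : Commute a (w⁻¹ * y) :=
    central_of_map_eq_one σ hker (by rw [map_mul, map_inv, hwy, inv_mul_cancel]) a
  have := h6.mul_right h7
  rwa [mul_inv_cancel_left] at this

include hMC hMp hsurj hker hSd in
theorem a2 (a y : L) (ha : σ a = t) (hy : σ y ∈ S) : Commute a y := by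
  rcases hSd _ hy with h | ⟨m, hm⟩
  · exact a1 t ι hMC hMp σ hsurj hker a y ha h
  · have := a1 t ι hMC hMp σ hsurj hker a (a * y) ha ⟨m, by rw [hm, map_mul, ha]⟩
    have h2 := (Commute.refl a).inv_right.mul_right this
    rwa [inv_mul_cancel_left] at h2

include hperf h8 hexp htS ht1 hMC hMp hsurj hker hSd in
theorem a3 (x y : L) (hx : σ x ∈ S) (hy : σ y ∈ S) : Commute x y := by
  by_cases hx1 : σ x = 1
  · exact (central_of_map_eq_one σ hker hx1 y).symm
  obtain ⟨n, hn, hnx⟩ := (trans8 hperf S h8 hexp t htS ht1).1 _ hx hx1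
  obtain ⟨n', rfl⟩ := hsurj n
  obtain ⟨a, ha⟩ := hsurj t
  have h1 : σ (n'⁻¹ * y * n') ∈ S := by
    have := (Subgroup.mem_normalizer_iff.1 (Subgroup.inv_mem _ hn) (σ y)).1 hy
    rw [inv_inv] at this
    rw [map_mul, map_mul, map_inv]
    exact this
  have h2 := a2 S t ι hMC hMp hSd σ hsurj hker a _ ha h1
  have h3 : Commute (n' * a * n'⁻¹) y := by
    have e1 : n' * a * n'⁻¹ * y = n' * (a * (n'⁻¹ * y * n')) * n'⁻¹ := by group
    have e2 : y * (n' * a * n'⁻¹) = n' * ((n'⁻¹ * y * n') * a) * n'⁻¹ := by group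
    show n' * a * n'⁻¹ * y = y * (n' * a * n'⁻¹)
    rw [e1, e2, h2.eq]
  rw [← comm_eq_one_iff] at h3 ⊢
  rw [comm_congr_left σ hker (x' := n' * a * n'⁻¹) (by rw [← hnx]; simp [ha])]
  exact h3

include hperf h8 hexp htS ht1 hMC hMp hsurj hker hSd in
theorem coreA [Finite L] (hLp : commutator L = ⊤) (h2 : IsPGroup 2 σ.ker) : σ.ker = ⊥ := by
  rw [eq_bot_iff]
  intro z hz
  rw [Subgroup.mem_bot]
  obtain ⟨h, h'⟩ := pow_index_mem ((S : Subgroup G).comap σ) z (hker hz) (by rw [hLp]; trivial)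
  have hle : commutator ↥((S : Subgroup G).comap σ) ≤ ⊥ := by
    rw [commutator_def, Subgroup.commutator_le]
    intro x _ y _
    rw [Subgroup.mem_bot, commutatorElement_eq_one_iff_mul_comm]
    exact Subtype.ext (a3 hperf S h8 hexp t htS ht1 ι hMC hMp hSd σ hsurj hker x y x.2 y.2).eq
  have h3 := hle h'
  rw [Subgroup.mem_bot] at h3
  have h4 : z ^ ((S : Subgroup G).comap σ).index = 1 := congrArg Subtype.val h3
  rw [Subgroup.index_comap_of_surjective _ hsurj] at h4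
  obtain ⟨k, hk⟩ := h2 ⟨z, hz⟩
  have h5 : z ^ 2 ^ k = 1 := congrArg Subtype.val hk
  have h6 : ¬ 2 ∣ (S : Subgroup G).index := S.not_dvd_index
  have h7 : Nat.Coprime (2 ^ k) (S : Subgroup G).index :=
    Nat.Coprime.pow_left k ((Nat.Prime.coprime_iff_not_dvd Nat.prime_two).2 h6)
  have h8' := orderOf_dvd_of_pow_eq_one h4
  have h9 := orderOf_dvd_of_pow_eq_one h5
  have := Nat.Coprime.eq_one_of_dvd (Nat.Coprime.coprime_dvd_left h9 h7) h8'
  exact orderOf_eq_one_iff.1 this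

end A

section B

variable {G : Type*} [Group G] [Finite G]
  (hperf : commutator G = ⊤) (S : Sylow 2 G) (h8 : Nat.card S = 8) (hexp : ∀ x ∈ S, x * x = 1)
  (t : G) (htS : t ∈ S) (ht1 : t ≠ 1)
  {M₀ : Type*} [Group M₀] (ι : M₀ →* G) (hι : Function.Injective ι)
  (hMC : ∀ m, ι m * t = t * ι m)
  (hMn : ∀ c, c * t = t * c → ∀ m, ∃ m', c * ι m * c⁻¹ = ι m')
  (hCM : ∀ c, c * t = t * c → (∀ m, c * ι m = ι m * c) → c = 1 ∨ c = t)
  (hSd : ∀ s ∈ S, (∃ m, ι m = s) ∨ (∃ m, ι m = t * s))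
  (hK : ∀ (β : MulAut M₀) (k : ℕ), β ^ (2 ^ k) = 1 → (∀ x, ι x ∈ S → β x = x) →
    ∃ v, ι v ∈ S ∧ ∀ x, β x = v * x * v⁻¹)
  (hsimple : IsSimpleGroup M₀) (v₀ : M₀) (hv₀ : ι v₀ ∈ S) (hv₀1 : v₀ ≠ 1)
  (hmove : ∀ v, ι v ∈ S → v ≠ 1 → ∃ n, (∀ s ∈ S, ι n * s * (ι n)⁻¹ ∈ S) ∧
    (∀ s ∈ S, (ι n)⁻¹ * s * ι n ∈ S) ∧ n * v ≠ v * n)
  (hmax : IsCoatom (Subgroup.centralizer {t}))

include htS hMC hMn hsimple hv₀ hv₀1 in
theorem b1 (ψ : MulAut G) (hfix : ∀ s ∈ S, ψ s = s) (m : M₀) : ∃ m', ι m = ψ (ι m') := by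
  let D : Subgroup M₀ := (ι.range.map ψ.toMonoidHom).comap ι
  have hD : D.Normal := by
    constructor
    intro d hd x
    obtain ⟨_, ⟨d', rfl⟩, hd'⟩ := hd
    have hd'' : ψ (ι d') = ι d := hd'
    have hc : ψ⁻¹ (ι x) * t = t * ψ⁻¹ (ι x) := by
      apply ψ.injective
      rw [map_mul, map_mul, MulAut.apply_inv_self, hfix t htS, hMC]
    obtain ⟨m', hm'⟩ := hMn _ hc d'
    refine ⟨ι m', ⟨m', rfl⟩, ?_⟩
    show ψ (ι m') = ι (x * d * x⁻¹)
    rw [← hm', map_mul, map_mul, map_inv, MulAut.apply_inv_self, hd'', map_mul, map_mul, map_inv]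
  rcases hsimple.eq_bot_or_eq_top_of_normal D hD with h | h
  · exfalso
    apply hv₀1
    have : v₀ ∈ D := ⟨ι v₀, ⟨v₀, rfl⟩, hfix _ hv₀⟩
    rw [h] at this
    exact this
  · have : m ∈ D := h ▸ Subgroup.mem_top m
    obtain ⟨_, ⟨m', rfl⟩, h⟩ := this
    exact ⟨m', h.symm⟩

include hι in
theorem restr (φ : MulAut G) (h1 : ∀ m, ∃ m', φ (ι m) = ι m') (h2 : ∀ m, ∃ m', φ⁻¹ (ι m) = ι m') :
    ∃ β : MulAut M₀, ∀ m, ι (β m) = φ (ι m) := by
  choose f hf using h1
  choose g hg using h2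
  exact ⟨{ toFun := f
           invFun := g
           left_inv := fun m => hι (by rw [← hg, ← hf, MulAut.inv_apply_self])
           right_inv := fun m => hι (by rw [← hf, ← hg, MulAut.apply_inv_self])
           map_mul' := fun a b => hι (by rw [← hf, map_mul, map_mul, map_mul, hf, hf]) },
    fun m => (hf m).symm⟩

theorem restr_pow (φ : MulAut G) (β : MulAut M₀) (h : ∀ m, ι (β m) = φ (ι m)) (j : ℕ) (m : M₀) :
    ι ((β ^ j) m) = (φ ^ j) (ι m) := by
  induction j generalizing m with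
  | zero => simp
  | succ j ih => rw [pow_succ, pow_succ, MulAut.mul_apply, MulAut.mul_apply, ih, h]

theorem mem_sylow (x : G) (k : ℕ) (hx : x ^ 2 ^ k = 1) (hc : ∀ s ∈ S, x * s = s * x) : x ∈ S := by
  have h1 : IsPGroup 2 (Subgroup.zpowers x) := by
    rintro ⟨_, j, rfl⟩
    refine ⟨k, Subtype.ext ?_⟩
    show (x ^ j) ^ 2 ^ k = 1
    rw [← zpow_natCast, ← zpow_mul, mul_comm, zpow_mul, zpow_natCast, hx, one_zpow]
  have h2 : Subgroup.zpowers x ≤ Subgroup.normalizer ((S : Subgroup G) : Set G) := by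
    rw [Subgroup.zpowers_le, Subgroup.mem_normalizer_iff]
    intro s
    constructor
    · intro hs
      rw [hc s hs, mul_inv_cancel_right]; exact hs
    · intro hs
      have := hc _ hs
      have e : s = x * s * x⁻¹ := by
        have e2 : x * (x * s * x⁻¹) = x * x * s * x⁻¹ := by group
        have e3 : x * s * x⁻¹ * x = x * s := by group
        rw [e2, e3] at this
        exact (mul_left_cancel (e2.trans this)).symm
      rw [e]; exact hs
  have h3 := IsPGroup.to_sup_of_normal_right' h1 S.2 h2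
  have h4 := S.is_maximal' h3 le_sup_right
  have : x ∈ Subgroup.zpowers x ⊔ (S : Subgroup G) := Subgroup.mem_sup_left (Subgroup.mem_zpowers x)
  rw [h4] at this
  exact this

include hperf h8 hexp htS ht1 hι hMC hMn hCM hSd hmove hmax in
theorem b2 (φ : MulAut G) (k : ℕ) (hφ : φ ^ (2 ^ k) = 1) (hfix : ∀ s ∈ S, φ s = s)
    (hfM : ∀ m, φ (ι m) = ι m) : ∃ g, ∀ x, φ x = g * x * g⁻¹ := by
  have hcomm := comm_of_exp (S : Subgroup G) hexp
  have htt : t * t = 1 := hexp t htS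
  have htinv : t⁻¹ = t := inv_eq_of_mul_eq_one_left htt
  -- step (i)
  have hφC : ∀ c, c * t = t * c → φ c * t = t * φ c := by
    intro c hc
    have := congrArg φ hc
    rwa [map_mul, map_mul, hfix t htS] at this
  have hd : ∀ c, c * t = t * c → c⁻¹ * φ c = 1 ∨ c⁻¹ * φ c = t := by
    intro c hc
    apply hCM
    · have h1 := hφC c hc
      have h2 : c⁻¹ * t = t * c⁻¹ := by
        calc c⁻¹ * t = c⁻¹ * (t * c) * c⁻¹ := by group
          _ = t * c⁻¹ := by rw [← hc]; group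
      rw [mul_assoc, h1, ← mul_assoc, h2, mul_assoc]
    · intro m
      obtain ⟨m', hm'⟩ := hMn c hc m
      have h1 := congrArg φ hm'
      rw [map_mul, map_mul, map_inv, hfM, hfM, ← hm'] at h1
      calc c⁻¹ * φ c * ι m = c⁻¹ * (φ c * ι m * (φ c)⁻¹) * φ c := by group
        _ = ι m * (c⁻¹ * φ c) := by rw [h1]; group
  obtain ⟨C, hCdef⟩ : ∃ C : Subgroup G, C = Subgroup.centralizer {t} := ⟨_, rfl⟩
  have hCmem : ∀ c, c ∈ C ↔ c * t = t * c := by
    intro c
    rw [hCdef, Subgroup.mem_centralizer_singleton_iff]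
  have hC : ∀ c, c * t = t * c → φ c = c := by
    let ε : ↥C →* G :=
      { toFun := fun c => (c : G)⁻¹ * φ c
        map_one' := by simp
        map_mul' := fun c c' => by
          have h1 : (c : G)⁻¹ * φ c * (c' : G)⁻¹ = (c' : G)⁻¹ * ((c : G)⁻¹ * φ c) := by
            rcases hd c ((hCmem c).1 c.2) with h | h
            · rw [h]; simp
            · rw [h]
              have hc := (hCmem c').1 c'.2
              calc t * (c' : G)⁻¹ = (c' : G)⁻¹ * (c' * t) * (c' : G)⁻¹ := by group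
                _ = (c' : G)⁻¹ * t := by rw [hc]; group
          show ((c : G) * c')⁻¹ * φ ((c : G) * c') = (c : G)⁻¹ * φ c * ((c' : G)⁻¹ * φ c')
          rw [← mul_assoc, h1, map_mul]
          group }
    have hr : ε.range ≤ Subgroup.zpowers t := by
      rintro _ ⟨c, rfl⟩
      rcases hd c ((hCmem c).1 c.2) with h | h
      · show (c : G)⁻¹ * φ c ∈ _
        rw [h]; exact Subgroup.one_mem _
      · show (c : G)⁻¹ * φ c ∈ _
        rw [h]; exact Subgroup.mem_zpowers t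
    have ho : orderOf t = 2 := orderOf_eq_prime (by rw [pow_two]; exact htt) ht1
    have h1 : ε.ker.index ∣ 2 := by
      rw [Subgroup.index_ker]
      have := Subgroup.card_dvd_of_le hr
      rwa [Nat.card_zpowers, ho] at this
    have hSC : (S : Subgroup G) ≤ C := fun s hs => (hCmem s).2 (hcomm s hs t htS)
    have h2 : (S : Subgroup G).subgroupOf C ≤ ε.ker := by
      intro c hc
      rw [MonoidHom.mem_ker]
      show (c : G)⁻¹ * φ c = 1
      rw [hfix _ (Subgroup.mem_subgroupOf.1 hc), inv_mul_cancel]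
    have h3 : ε.ker.index ∣ (S : Subgroup G).index :=
      (Subgroup.index_dvd_of_le h2).trans (Subgroup.relIndex_dvd_index_of_le hSC)
    have h4 : ¬ 2 ∣ (S : Subgroup G).index := S.not_dvd_index
    have h5 : ε.ker.index = 1 := by
      rcases (Nat.dvd_prime Nat.prime_two).1 h1 with h | h
      · exact h
      · rw [h] at h3; exact absurd h3 h4
    rw [Subgroup.index_eq_one] at h5
    intro c hc
    have : (⟨c, (hCmem c).2 hc⟩ : ↥C) ∈ ε.ker := h5 ▸ Subgroup.mem_top _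
    rw [MonoidHom.mem_ker] at this
    have h6 : c⁻¹ * φ c = 1 := this
    exact (inv_mul_eq_one.1 h6).symm
  -- step (ii)
  obtain ⟨Nn, hNdef⟩ : ∃ Nn : Subgroup G, Nn = Subgroup.normalizer ((S : Subgroup G) : Set G) :=
    ⟨_, rfl⟩
  have hN : ∀ n ∈ Nn, ∀ s ∈ S, n * s * n⁻¹ ∈ S := by
    intro n hn s hs
    rw [hNdef] at hn
    exact (Subgroup.mem_normalizer_iff.1 hn s).1 hs
  have hαc : ∀ n ∈ Nn, ∀ s ∈ S, φ n * n⁻¹ * s = s * (φ n * n⁻¹) := by
    intro n hn s hs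
    have h1 : n⁻¹ * s * n ∈ S := by
      have := hN n⁻¹ (Nn.inv_mem hn) s hs
      rwa [inv_inv] at this
    have h2 := hfix _ h1
    rw [map_mul, map_mul, map_inv, hfix s hs] at h2
    calc φ n * n⁻¹ * s = φ n * (n⁻¹ * s * n) * n⁻¹ := by group
      _ = s * (φ n * n⁻¹) := by rw [← h2]; group
  have hαS : ∀ n ∈ Nn, φ n * n⁻¹ ∈ S := by
    intro n hn
    have h1 : φ (φ n * n⁻¹) = φ n * n⁻¹ := hC _ (hαc n hn t htS)
    have h2 : ∀ j : ℕ, (φ ^ j) n = (φ n * n⁻¹) ^ j * n := by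
      intro j
      induction j with
      | zero => simp
      | succ j ih =>
        rw [pow_succ', MulAut.mul_apply, ih, map_mul, map_pow, h1, pow_succ]
        group
    have h3 := h2 (2 ^ k)
    rw [hφ, MulAut.one_apply] at h3
    exact mem_sylow S _ k (by
      have := mul_right_cancel (h3.symm.trans (one_mul n).symm)
      exact this) (hαc n hn)
  obtain ⟨σ₀, hσS, hσ⟩ := cocycle_cob (S : Subgroup G) h8 hexp Nn hN t
    (by
      intro s hs hs1
      obtain ⟨n, hn, h⟩ := (trans8 hperf S h8 hexp t htS ht1).1 s hs hs1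
      exact ⟨n, hNdef ▸ hn, h⟩)
    (fun n => φ n * n⁻¹) hαS
    (by
      intro n _ m _
      show φ (n * m) * (n * m)⁻¹ = φ n * n⁻¹ * (n * (φ m * m⁻¹) * n⁻¹)
      rw [map_mul]; group)
    (by
      intro h _ hh
      show φ h * h⁻¹ = 1
      rw [hC h hh, mul_inv_cancel])
  have hσσ : σ₀ * σ₀ = 1 := hexp σ₀ hσS
  have hσinv : σ₀⁻¹ = σ₀ := inv_eq_of_mul_eq_one_left hσσ
  have hσ' : ∀ n ∈ Nn, φ n = σ₀ * n * σ₀⁻¹ := by
    intro n hn
    have h1 : φ n * n⁻¹ = σ₀ * (n * σ₀ * n⁻¹) := hσ n hn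
    calc φ n = φ n * n⁻¹ * n := by group
      _ = σ₀ * n * σ₀⁻¹ := by rw [h1, hσinv]; group
  -- step (iv)
  have hmN : ∀ n : M₀, (∀ s ∈ S, ι n * s * (ι n)⁻¹ ∈ S) → (∀ s ∈ S, (ι n)⁻¹ * s * ι n ∈ S) →
      σ₀ * ι n = ι n * σ₀ := by
    intro n h1 h2
    have hn : ι n ∈ Nn := by
      rw [hNdef, Subgroup.mem_normalizer_iff]
      intro s
      refine ⟨h1 s, fun hs => ?_⟩
      have := h2 _ hs
      have e : (ι n)⁻¹ * (ι n * s * (ι n)⁻¹) * ι n = s := by group
      rwa [e] at this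
    have h3 := hσ' _ hn
    rw [hfM] at h3
    calc σ₀ * ι n = σ₀ * ι n * σ₀⁻¹ * σ₀ := by group
      _ = ι n * σ₀ := by rw [← h3]
  have hσt : σ₀ = 1 ∨ σ₀ = t := by
    rcases hSd σ₀ hσS with ⟨v, hv⟩ | ⟨v, hv⟩
    · left
      by_contra hne
      have hv1 : v ≠ 1 := fun h => hne (by rw [← hv, h, map_one])
      obtain ⟨n, h1, h2, h3⟩ := hmove v (hv ▸ hσS) hv1
      apply h3
      apply hι
      rw [map_mul, map_mul, hv]
      exact (hmN n h1 h2).symm
    · right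
      by_contra hne
      have hv1 : v ≠ 1 := fun h => hne (by
        rw [h, map_one] at hv
        calc σ₀ = (t * t) * σ₀ := by rw [htt, one_mul]
          _ = t * (t * σ₀) := by group
          _ = t := by rw [← hv, mul_one])
      obtain ⟨n, h1, h2, h3⟩ := hmove v (hv ▸ S.mul_mem htS hσS) hv1
      apply h3
      apply hι
      rw [map_mul, map_mul, hv, ← mul_assoc, hMC, mul_assoc, ← hmN n h1 h2, mul_assoc]
  -- step (v)
  let Fx : Subgroup G := MonoidHom.eqLocus φ.toMonoidHom (MulAut.conj σ₀).toMonoidHom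
  have hFx : ∀ x, x ∈ Fx ↔ φ x = σ₀ * x * σ₀⁻¹ := fun x => Iff.rfl
  have hCF : C ≤ Fx := by
    intro c hc
    rw [hFx, hC c ((hCmem c).1 hc)]
    rcases hσt with h | h
    · rw [h]; simp
    · rw [h, ← (hCmem c).1 hc, mul_inv_cancel_right]
  have hc : IsMulCommutative (S : Subgroup G) := ⟨⟨fun x y => Subtype.ext (hcomm x x.2 y y.2)⟩⟩
  obtain ⟨n, hn, hnt⟩ := exists_moving hperf S t htS ht1
  have hnF : n ∈ Fx := (hFx n).2 (hσ' n (hNdef ▸ hn))
  have hnC : n ∉ C := by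
    intro h
    apply hnt
    rw [mul_assoc, ← (hCmem n).1 h, inv_mul_cancel_left]
  have hlt : C < Fx := lt_of_le_of_ne hCF (fun h => hnC (h ▸ hnF))
  have htop : Fx = ⊤ := by
    rw [hCdef] at hlt
    exact hmax.2 _ hlt
  exact ⟨σ₀, fun x => (hFx x).1 (htop ▸ Subgroup.mem_top x)⟩

include hperf h8 hexp htS ht1 hι hMC hMn hCM hSd hK hsimple hv₀ hv₀1 hmove hmax in
theorem coreB (φ : MulAut G) (k : ℕ) (hφ : φ ^ (2 ^ k) = 1) (hfix : ∀ s ∈ S, φ s = s) :
    ∃ g, ∀ x, φ x = g * x * g⁻¹ := by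
  have hcomm := comm_of_exp (S : Subgroup G) hexp
  have hfix' : ∀ s ∈ S, φ⁻¹ s = s := by
    intro s hs
    have := MulAut.inv_apply_self G φ s
    rwa [hfix s hs] at this
  have h1 : ∀ m, ∃ m', φ (ι m) = ι m' := by
    intro m
    obtain ⟨m', hm'⟩ := b1 S t htS ι hMC hMn hsimple v₀ hv₀ hv₀1 φ⁻¹ hfix' m
    exact ⟨m', by rw [hm', MulAut.apply_inv_self]⟩
  have h2 : ∀ m, ∃ m', φ⁻¹ (ι m) = ι m' := by
    intro m
    obtain ⟨m', hm'⟩ := b1 S t htS ι hMC hMn hsimple v₀ hv₀ hv₀1 φ hfix m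
    exact ⟨m', by rw [hm', MulAut.inv_apply_self]⟩
  obtain ⟨β, hβ⟩ := restr ι hι φ h1 h2
  have hβk : β ^ (2 ^ k) = 1 := by
    ext m
    apply hι
    rw [restr_pow ι φ β hβ, hφ]
    rfl
  obtain ⟨v, hvS, hv⟩ := hK β k hβk (by
    intro x hx
    apply hι
    rw [hβ, hfix _ hx])
  obtain ⟨w, hw⟩ : ∃ w, w = ι v := ⟨_, rfl⟩
  rw [← hw] at hvS
  have hww : w * w = 1 := hexp w hvS
  have hcw : Commute (MulAut.conj w)⁻¹ φ := by
    apply Commute.inv_left
    ext x
    show w * φ x * w⁻¹ = φ (w * x * w⁻¹)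
    rw [map_mul, map_mul, map_inv, hfix w hvS]
  have hc2 : (MulAut.conj w)⁻¹ ^ 2 = 1 := by
    rw [inv_pow, pow_two, ← map_mul, hww, map_one, inv_one]
  obtain ⟨g, hg⟩ := b2 hperf S h8 hexp t htS ht1 ι hι hMC hMn hCM hSd hmove hmax
    ((MulAut.conj w)⁻¹ * φ) (k + 1)
    (by rw [hcw.mul_pow, pow_succ, pow_mul φ, hφ, one_pow, mul_comm (2 ^ k) 2, pow_mul, hc2, one_pow,
      one_mul])
    (by
      intro s hs
      show w⁻¹ * φ s * w = s
      rw [hfix s hs, mul_assoc, hcomm s hs w hvS, inv_mul_cancel_left])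
    (by
      intro m
      show w⁻¹ * φ (ι m) * w = ι m
      rw [← hβ, hv, map_mul, map_mul, map_inv, ← hw]
      group)
  refine ⟨w * g, fun x => ?_⟩
  have h3 : w⁻¹ * φ x * w = g * x * g⁻¹ := hg x
  calc φ x = w * (w⁻¹ * φ x * w) * w⁻¹ := by group
    _ = w * g * x * (w * g)⁻¹ := by rw [h3]; group

end B

end Cfsg.Agent.Lib.Helper8JR1
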