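import Cfsg.Agent.Lib.Helper8PSL3

set_option autoImplicit false
set_option linter.unusedSectionVars false
set_option linter.unusedVariables false

namespace Cfsg.Agent.Lib.Helper8PSL4

open Matrix Cfsg.Agent.Lib.Helper41SL2 Cfsg.Agent.Lib.Helper41Dk Cfsg.Agent.Lib.Helper46SL2 Cfsg.Agent.Lib.Helper8PSL2

variable {F : Type*} [Field F] [Fintype F]

local notation "SL2" => Matrix.SpecialLinearGroup (Fin 2)
local notation "PSL2" => Matrix.ProjectiveSpecialLinearGroup (Fin 2)

theorem lift_nonsplit [CharP F 3] {p : ℕ} (hp : p.Prime) (hp2 : p ≠ 2) (hp3 : p ≠ 3)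
    (hpq : ¬ p ∣ Fintype.card F - 1) (y : PSL2 F) (hy : orderOf y = p) :
    ∃ Y : SL2 F, proj F Y = y ∧ tr Y ^ 2 ≠ 4 ∧ pre (Subgroup.centralizer {y}) = Subgroup.centralizer {Y} := by
  obtain ⟨Y, rfl⟩ := QuotientGroup.mk'_surjective _ y
  have h3 : (3 : F) = 0 := by exact_mod_cast CharP.cast_eq_zero F 3
  have h2 : (2 : F) ≠ 0 := by
    intro h
    apply one_ne_zero (α := F)
    linear_combination h3 - h
  have hodd : Odd (Fintype.card F) := by
    rw [Nat.odd_iff]
    apply FiniteField.odd_card_of_char_ne_two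
    intro hc
    have : CharP F 2 := ringChar.of_eq hc
    exact h2 CharTwo.two_eq_zero
  have ht0 : tr Y ≠ 0 := by
    intro h
    have h1 : Y * Y = -1 := sq_eq_neg_one_iff.2 h
    have h4 : (proj F Y) ^ 2 = 1 := by
      rw [← map_pow, pow_two, h1]
      exact (mk_eq_one_iff _).2 (mem_center_iff_eq.2 (Or.inr rfl))
    have := orderOf_dvd_of_pow_eq_one h4
    rw [hy] at this
    exact hp2 ((Nat.prime_dvd_prime_iff_eq hp Nat.prime_two).1 this)
  have ht4 : tr Y ^ 2 ≠ 4 := by
    intro h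
    have h4 : (proj F Y) ^ 3 = 1 := by
      rw [← map_pow]
      exact (mk_eq_one_iff _).2 (cube_mem_center h)
    have := orderOf_dvd_of_pow_eq_one h4
    rw [hy] at this
    exact hp3 ((Nat.prime_dvd_prime_iff_eq hp Nat.prime_three).1 this)
  have hns : NonSplit (tr Y) := by
    rcases split_or_nonSplit ht4 with ⟨a, ha0, ha, htr⟩ | h
    · exfalso
      have h1 := card_centralizer_split ha0 ha htr
      have h4 : orderOf Y ∣ Fintype.card F - 1 := by
        rw [← h1]
        have : orderOf (⟨Y, Subgroup.mem_centralizer_singleton_iff.2 rfl⟩ : (Subgroup.centralizer {Y} : Subgroup (SL2 F))) = orderOf Y :=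
          Subgroup.orderOf_mk _ _
        rw [← this]
        exact orderOf_dvd_natCard _
      apply hpq
      rw [← hy]
      exact (orderOf_map_dvd (proj F) Y).trans h4
    · exact h
  have hpre : pre (Subgroup.centralizer {proj F Y}) = Subgroup.centralizer {Y} := by
    ext g
    rw [mem_pre, Subgroup.mem_centralizer_singleton_iff, Subgroup.mem_centralizer_singleton_iff, ← map_mul, ← map_mul]
    constructor
    · intro h
      rcases (mk_eq_mk_iff _ _).1 h with h | h
      · exact h.symm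
      · exfalso
        apply ht0
        have e : Y = -(g * Y * g⁻¹) := by
          calc Y = (Y * g) * g⁻¹ := by group
            _ = -(g * Y) * g⁻¹ := by rw [h]
            _ = -(g * Y * g⁻¹) := by simp
        have e2 := congrArg tr e
        rw [tr_neg, tr_conj] at e2
        have : (2 : F) * tr Y = 0 := by linear_combination e2
        exact (mul_eq_zero.1 this).resolve_left h2
    · intro h
      rw [h]
  exact ⟨Y, rfl, ht4, hpre⟩

theorem not_center_of_tr {Y : SL2 F} (h : tr Y ^ 2 ≠ 4) : Y ∉ Subgroup.center (SL2 F) := by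
  intro hc
  apply h
  rcases mem_center_iff_eq.1 hc with rfl | rfl
  · rw [tr_one]; norm_num
  · rw [tr_neg, tr_one]; norm_num

theorem cent_unique [CharP F 3] {p₁ p₂ : ℕ} (hp₁ : p₁.Prime) (h12 : p₁ ≠ 2) (h13 : p₁ ≠ 3)
    (hq₁ : ¬ p₁ ∣ Fintype.card F - 1) (hp₂ : p₂.Prime) (h22 : p₂ ≠ 2) (h23 : p₂ ≠ 3)
    (hq₂ : ¬ p₂ ∣ Fintype.card F - 1) (y₁ y₂ i : PSL2 F) (hy₁ : orderOf y₁ = p₁) (hy₂ : orderOf y₂ = p₂)
    (hi : i ≠ 1) (h1 : i * y₁ = y₁ * i) (h2 : i * y₂ = y₂ * i) :
    (Subgroup.centralizer {y₁} : Subgroup (PSL2 F)) = Subgroup.centralizer {y₂} := by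
  obtain ⟨Y₁, e₁, t₁, c₁⟩ := lift_nonsplit hp₁ h12 h13 hq₁ y₁ hy₁
  obtain ⟨Y₂, e₂, t₂, c₂⟩ := lift_nonsplit hp₂ h22 h23 hq₂ y₂ hy₂
  obtain ⟨I, rfl⟩ := QuotientGroup.mk'_surjective _ i
  have hI : I ∉ Subgroup.center (SL2 F) := fun h => hi ((mk_eq_one_iff I).2 h)
  have a₁ : I ∈ (Subgroup.centralizer {Y₁} : Subgroup (SL2 F)) := by
    rw [← c₁, mem_pre, Subgroup.mem_centralizer_singleton_iff]; exact h1
  have a₂ : I ∈ (Subgroup.centralizer {Y₂} : Subgroup (SL2 F)) := by
    rw [← c₂, mem_pre, Subgroup.mem_centralizer_singleton_iff]; exact h2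
  have b₁ := centralizer_eq_of_commute (not_center_of_tr t₁) hI (Subgroup.mem_centralizer_singleton_iff.1 a₁)
  have b₂ := centralizer_eq_of_commute (not_center_of_tr t₂) hI (Subgroup.mem_centralizer_singleton_iff.1 a₂)
  have h3 : pre (Subgroup.centralizer {y₁}) = pre (Subgroup.centralizer {y₂}) := by rw [c₁, c₂, ← b₁, ← b₂]
  exact Subgroup.comap_injective (QuotientGroup.mk'_surjective _) h3

theorem exists_comm_odd [CharP F 3] (hq : Fintype.card F % 8 = 3) {p : ℕ} (hp : p.Prime) (hp2 : p ≠ 2)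
    (hpq : p ∣ Fintype.card F + 1) (i : PSL2 F) (hi1 : i ≠ 1) (hi2 : i * i = 1) :
    ∃ y : PSL2 F, orderOf y = p ∧ i * y = y * i := by
  classical
  have : Fact p.Prime := ⟨hp⟩
  have : Fact (Nat.Prime 2) := ⟨Nat.prime_two⟩
  obtain ⟨I, rfl⟩ := QuotientGroup.mk'_surjective _ i
  have h3 : (3 : F) = 0 := by exact_mod_cast CharP.cast_eq_zero F 3
  have h2 : (2 : F) ≠ 0 := by
    intro h
    apply one_ne_zero (α := F)
    linear_combination h3 - h
  have hI : I ∉ Subgroup.center (SL2 F) := fun h => hi1 ((mk_eq_one_iff I).2 h)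
  have hII : I * I ∈ Subgroup.center (SL2 F) := by
    rw [← mk_eq_one_iff]; exact hi2
  have hneg : I * I = -1 := by
    rcases mem_center_iff_eq.1 hII with h | h
    · exact absurd (mem_center_iff_eq.2 ((sq_eq_one_iff' h2).1 h)) hI
    · exact h
  have ht0 : tr I = 0 := sq_eq_neg_one_iff.1 hneg
  have ht4 : tr I ^ 2 ≠ 4 := by
    rw [ht0]; exact zero_sq_ne_four h2
  have hns : NonSplit (tr I) := by
    rcases split_or_nonSplit ht4 with ⟨a, ha0, ha, htr⟩ | h
    · exfalso
      rw [ht0] at htr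
      have ha2 : a ^ 2 = -1 := by
        field_simp at htr
        linear_combination -htr
      have hu1 : ¬ (Units.mk0 a ha0) ^ 2 ^ 1 = 1 := by
        intro h
        apply ha
        have := congrArg Units.val h
        simpa using this
      have hu2 : (Units.mk0 a ha0) ^ 2 ^ (1 + 1) = 1 := by
        apply Units.ext
        show a ^ 2 ^ (1 + 1) = 1
        have : a ^ 2 ^ (1 + 1) = (a ^ 2) ^ 2 := by ring
        rw [this, ha2]; ring
      have ho := orderOf_eq_prime_pow hu1 hu2
      have hd := orderOf_dvd_card (x := Units.mk0 a ha0)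
      rw [ho, Fintype.card_units] at hd
      norm_num at hd
      omega
    · exact h
  have hc := card_centralizer_nonSplit hns
  obtain ⟨Y, hY⟩ := exists_prime_orderOf_dvd_card' (G := (Subgroup.centralizer {I} : Subgroup (SL2 F))) p
    (by rw [hc]; exact hpq)
  rw [← Subgroup.orderOf_coe] at hY
  refine ⟨proj F Y, ?_, ?_⟩
  · apply orderOf_eq_prime
    · rw [← map_pow, ← hY, pow_orderOf_eq_one, map_one]
    · intro h
      have hcen : (Y : SL2 F) ∈ Subgroup.center (SL2 F) := (mk_eq_one_iff _).1 h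
      have h4 : (Y : SL2 F) ^ 2 = 1 := by
        rcases mem_center_iff_eq.1 hcen with h | h
        · rw [h, one_pow]
        · rw [h]; simp
      have := orderOf_dvd_of_pow_eq_one h4
      rw [hY] at this
      exact hp2 ((Nat.prime_dvd_prime_iff_eq hp Nat.prime_two).1 this)
  · have := Subgroup.mem_centralizer_singleton_iff.1 Y.2
    show proj F I * proj F Y = proj F Y * proj F I
    rw [← map_mul, ← map_mul, this]

end Cfsg.Agent.Lib.Helper8PSL4
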