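import Mathlib
import Cfsg.Agent.Lib.Helper98Part
import Cfsg.Agent.Lib.Helper6Simple

set_option autoImplicit false

namespace Cfsg.Agent.Lib.Helper90PartAlt

open Equiv Equiv.Perm Cfsg.Agent.Lib.Helper98Part

variable {Ω : Type*} [Fintype Ω] [DecidableEq Ω]

theorem isThreeCycle_conj {c : Perm Ω} (hc : IsThreeCycle c) (σ : Perm Ω) :
    IsThreeCycle (σ * c * σ⁻¹) := by
  unfold IsThreeCycle at *
  rw [cycleType_conj, hc]

/-- permutations whose conjugation preserves the set of three-cycles of `G` -/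
def stabThree (G : Subgroup (Perm Ω)) : Subgroup (Perm Ω) where
  carrier := {σ | ∀ c, IsThreeCycle c → (c ∈ G ↔ σ * c * σ⁻¹ ∈ G)}
  one_mem' := by intro c _; simp
  mul_mem' := by
    intro σ τ hσ hτ c hc
    rw [hτ c hc, hσ _ (isThreeCycle_conj hc τ)]
    simp [mul_assoc]
  inv_mem' := by
    intro σ hσ c hc
    rw [hσ _ (isThreeCycle_conj hc σ⁻¹)]
    simp [mul_assoc]

theorem le_stabThree (G : Subgroup (Perm Ω)) : G ≤ stabThree G := by
  intro g hg c _
  exact ((G.mul_mem_cancel_right (G.inv_mem hg)).trans (G.mul_mem_cancel_left hg)).symm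

omit [DecidableEq Ω] in
theorem card_eq {a b : ℕ} (f : Ω → Fin b)
    (hf : ∀ i : Fin b, Nat.card {x : Ω // f x = i} = a) : Fintype.card Ω = b * a := by
  obtain ⟨e, -⟩ := exists_equiv_prod f hf
  rw [Fintype.card_congr e]
  simp

/-- every three-cycle commutes with a transposition inside a block -/
theorem exists_swap_commute {a b : ℕ} (f : Ω → Fin b)
    (hf : ∀ i : Fin b, Nat.card {x : Ω // f x = i} = a) (hab : b + 4 ≤ b * a)
    {c : Perm Ω} (hc : IsThreeCycle c) :
    ∃ p q, p ≠ q ∧ f p = f q ∧ Commute (swap p q) c := by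
  have h1 : (Finset.univ : Finset (Fin b)).card < (c.supportᶜ).card := by
    rw [Finset.card_compl, hc.card_support, card_eq f hf, Finset.card_univ, Fintype.card_fin]
    omega
  obtain ⟨p, hp, q, hq, hpq, hfpq⟩ := Finset.exists_ne_map_eq_of_card_lt_of_maps_to h1
    (f := f) (fun _ _ => Finset.mem_coe.2 (Finset.mem_univ _))
  refine ⟨p, q, hpq, hfpq, ?_⟩
  apply Disjoint.commute
  rw [disjoint_iff_disjoint_support, support_swap hpq]
  rw [Finset.mem_compl] at hp hq
  simp [hp, hq]

theorem alt_le_of_threeCycle {a b : ℕ} (f : Ω → Fin b)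
    (hf : ∀ i : Fin b, Nat.card {x : Ω // f x = i} = a) (hab : b + 4 ≤ b * a)
    (G : Subgroup (Perm Ω)) (hH : partStab f ⊓ alternatingGroup Ω ≤ G)
    (hnot : ¬ G ≤ partStab f) {c : Perm Ω} (hc : IsThreeCycle c) (hcG : c ∈ G) :
    alternatingGroup Ω ≤ G := by
  have hW : partStab f ≤ stabThree G := by
    intro w hw d hd
    rcases Int.units_eq_one_or (sign w) with hs | hs
    · exact le_stabThree G (hH ⟨hw, hs⟩) d hd
    · obtain ⟨p, q, hpq, hfpq, hcomm⟩ := exists_swap_commute f hf hab hd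
      have hw' : w * swap p q ∈ G := by
        apply hH
        refine ⟨(partStab f).mul_mem hw (swap_mem_partStab hfpq), mem_alternatingGroup.2 ?_⟩
        rw [Perm.sign_mul, hs, sign_swap hpq]
        simp
      have := le_stabThree G hw' d hd
      rw [this]
      have e : w * swap p q * d * (w * swap p q)⁻¹ = w * d * w⁻¹ := by
        rw [mul_inv_rev, swap_inv, mul_assoc w, hcomm.eq]
        simp [mul_assoc]
      rw [e]
  have hlt : partStab f < stabThree G := by
    refine lt_of_le_of_ne hW ?_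
    intro h
    exact hnot (h ▸ le_stabThree G)
  have htop := eq_top_of_partStab_lt f hf hlt
  rw [← closure_three_cycles_eq_alternating, Subgroup.closure_le]
  intro d hd
  have hconj : IsConj c d := by
    rw [isConj_iff_cycleType_eq]
    exact hc.trans (Eq.symm hd)
  obtain ⟨σ, hσ⟩ := isConj_iff.1 hconj
  have hσK : σ ∈ stabThree G := htop ▸ Subgroup.mem_top σ
  rw [← hσ]
  exact (hσK c hc).1 hcG

/-- two in-block transpositions give an element of `H` -/
theorem swap_mul_swap_mem {ι : Type*} (f : Ω → ι) {p p' q q' : Ω} (hp : p ≠ p') (hq : q ≠ q')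
    (hfp : f p = f p') (hfq : f q = f q') :
    swap p p' * swap q q' ∈ partStab f ⊓ alternatingGroup Ω := by
  refine ⟨(partStab f).mul_mem (swap_mem_partStab hfp) (swap_mem_partStab hfq),
    mem_alternatingGroup.2 ?_⟩
  rw [Perm.sign_mul, sign_swap hp, sign_swap hq]
  simp

/-- a three-cycle inside a block -/
theorem exists_threeCycle_of_three_le {a b : ℕ} (ha : 3 ≤ a) (hb : 1 ≤ b) (f : Ω → Fin b)
    (hf : ∀ i : Fin b, Nat.card {x : Ω // f x = i} = a) :
    ∃ c : Perm Ω, IsThreeCycle c ∧ c ∈ partStab f ⊓ alternatingGroup Ω := by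
  obtain ⟨e, he⟩ := exists_equiv_prod f hf
  set x := e.symm (⟨0, by omega⟩, ⟨0, by omega⟩) with hx
  set y := e.symm (⟨0, by omega⟩, ⟨1, by omega⟩) with hy
  set z := e.symm (⟨0, by omega⟩, ⟨2, by omega⟩) with hz
  have hxy : x ≠ y := by
    intro h
    have := e.symm.injective h
    simp at this
  have hxz : x ≠ z := by
    intro h
    have := e.symm.injective h
    simp at this
  have hyz : y ≠ z := by
    intro h
    have := e.symm.injective h
    simp at this
  have fx : f x = ⟨0, by omega⟩ := by rw [← he, hx]; simp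
  have fy : f y = ⟨0, by omega⟩ := by rw [← he, hy]; simp
  have fz : f z = ⟨0, by omega⟩ := by rw [← he, hz]; simp
  exact ⟨swap x y * swap x z, isThreeCycle_swap_mul_swap_same hxy hxz hyz,
    swap_mul_swap_mem f hxy hxz (fx.trans fy.symm) (fx.trans fz.symm)⟩

omit [Fintype Ω] [DecidableEq Ω] in
theorem exists_pair {a b : ℕ} (ha : 2 ≤ a) (f : Ω → Fin b)
    (hf : ∀ i : Fin b, Nat.card {x : Ω // f x = i} = a) (i : Fin b) :
    ∃ x y, x ≠ y ∧ f x = i ∧ f y = i := by
  obtain ⟨x, hx⟩ := exists_fibre (by omega) f hf i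
  obtain ⟨y, hy, hyx⟩ := exists_fibre_ne ha f hf x
  exact ⟨x, y, hyx.symm, hx, hy.trans hx⟩

theorem exists_notMem_fin {b : ℕ} (s : Finset (Fin b)) (hs : s.card < b) : ∃ i, i ∉ s := by
  by_contra h
  push Not at h
  have : s = Finset.univ := Finset.eq_univ_iff_forall.2 h
  rw [this, Finset.card_univ, Fintype.card_fin] at hs
  omega

/-- the commutator construction of a three-cycle when there are at least five blocks -/
theorem exists_threeCycle_of_five_le {a b : ℕ} (ha : 2 ≤ a) (hb : 5 ≤ b) (f : Ω → Fin b)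
    (hf : ∀ i : Fin b, Nat.card {x : Ω // f x = i} = a)
    (G : Subgroup (Perm Ω)) (hH : partStab f ⊓ alternatingGroup Ω ≤ G)
    (hnot : ¬ G ≤ partStab f) : ∃ c : Perm Ω, IsThreeCycle c ∧ c ∈ G := by
  -- an element of `G` splitting a block
  have hsplit : ∃ g ∈ G, ∃ x y, f x = f y ∧ f (g x) ≠ f (g y) := by
    obtain ⟨g, hgG, hgW⟩ := Set.not_subset.mp hnot
    have : ¬ ∀ x y, f x = f y ↔ f (g x) = f (g y) := hgW
    push Not at this
    obtain ⟨x, y, hxy⟩ := this
    rcases hxy with ⟨h1, h2⟩ | ⟨h1, h2⟩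
    · exact ⟨g, hgG, x, y, h1, h2⟩
    · exact ⟨g⁻¹, G.inv_mem hgG, g x, g y, h2, by simpa using h1⟩
  obtain ⟨g, hgG, x, y, hxy, huv⟩ := hsplit
  have hxy' : x ≠ y := by rintro rfl; exact huv rfl
  obtain ⟨u', hu', hu'u⟩ := exists_fibre_ne ha f hf (g x)
  obtain ⟨i, hi⟩ := exists_notMem_fin ({f x, f (g⁻¹ u')} : Finset (Fin b))
    (lt_of_le_of_lt (Finset.card_le_two) (by omega))
  obtain ⟨c, c', hcc', hc, hc'⟩ := exists_pair ha f hf i
  obtain ⟨j, hj⟩ := exists_notMem_fin ({f (g x), f (g y), f (g c), f (g c')} : Finset (Fin b))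
    (lt_of_le_of_lt (Finset.card_le_four) (by omega))
  obtain ⟨w, w', hww', hw, hw'⟩ := exists_pair ha f hf j
  simp only [Finset.mem_insert, Finset.mem_singleton, not_or] at hi hj
  set s : Perm Ω := swap (g x) (g y) * swap (g c) (g c') with hs
  have hsG : s ∈ G := by
    have : s = g * (swap x y * swap c c') * g⁻¹ := by
      rw [hs, Equiv.swap_apply_apply, Equiv.swap_apply_apply]
      simp [mul_assoc]
    rw [this]
    exact G.mul_mem (G.mul_mem hgG (hH (swap_mul_swap_mem f hxy' hcc' hxy (hc.trans hc'.symm))))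
      (G.inv_mem hgG)
  set h : Perm Ω := swap (g x) u' * swap w w' with hh
  have hhG : h ∈ G := hH (swap_mul_swap_mem f hu'u.symm hww' hu'.symm (hw.trans hw'.symm))
  -- values of `s`
  have ne_of_f : ∀ {p q : Ω}, f p ≠ f q → p ≠ q := fun h e => h (e ▸ rfl)
  have hcx : c ≠ x := ne_of_f (by rw [hc]; exact hi.1)
  have hcy : c ≠ y := ne_of_f (by rw [hc, ← hxy]; exact hi.1)
  have hc'x : c' ≠ x := ne_of_f (by rw [hc']; exact hi.1)
  have hc'y : c' ≠ y := ne_of_f (by rw [hc', ← hxy]; exact hi.1)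
  have s1 : s (g x) = g y := by
    rw [hs, Perm.mul_apply, swap_apply_of_ne_of_ne (g.injective.ne hcx.symm)
      (g.injective.ne hc'x.symm), swap_apply_left]
  have hu'c : u' ≠ g c := by
    intro e
    apply hi.2
    rw [e]; simp [hc]
  have hu'c' : u' ≠ g c' := by
    intro e
    apply hi.2
    rw [e]; simp [hc']
  have hu'y : u' ≠ g y := ne_of_f (by rw [hu']; exact huv)
  have s2 : s u' = u' := by
    rw [hs, Perm.mul_apply, swap_apply_of_ne_of_ne hu'c hu'c', swap_apply_of_ne_of_ne hu'u hu'y]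
  have sfix : ∀ t, f t = j → s t = t := by
    intro t ht
    have t1 : t ≠ g c := ne_of_f (by rw [ht]; exact hj.2.2.1)
    have t2 : t ≠ g c' := ne_of_f (by rw [ht]; exact hj.2.2.2)
    have t3 : t ≠ g x := ne_of_f (by rw [ht]; exact hj.1)
    have t4 : t ≠ g y := ne_of_f (by rw [ht]; exact hj.2.1)
    rw [hs, Perm.mul_apply, swap_apply_of_ne_of_ne t1 t2, swap_apply_of_ne_of_ne t3 t4]
  have s3 : s w = w := sfix w hw
  have s4 : s w' = w' := sfix w' hw'
  refine ⟨s * h * s⁻¹ * h⁻¹, ?_, G.mul_mem (G.mul_mem (G.mul_mem hsG hhG) (G.inv_mem hsG))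
    (G.inv_mem hhG)⟩
  have e1 : s * h * s⁻¹ = swap (g y) u' * swap w w' := by
    have : s * h * s⁻¹ = (s * swap (g x) u' * s⁻¹) * (s * swap w w' * s⁻¹) := by
      rw [hh]; simp [mul_assoc]
    rw [this, ← Equiv.swap_apply_apply, ← Equiv.swap_apply_apply, s1, s2, s3, s4]
  have e2 : s * h * s⁻¹ * h⁻¹ = swap u' (g y) * swap u' (g x) := by
    rw [e1, hh, mul_inv_rev, swap_inv, swap_inv, mul_assoc, ← mul_assoc (swap w w'),
      swap_mul_self, one_mul, swap_comm (g y) u', swap_comm (g x) u']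
  rw [e2]
  exact isThreeCycle_swap_mul_swap_same hu'y hu'u (ne_of_f huv).symm

set_option maxRecDepth 1000000 in
theorem cnt3 : Fintype.card {g : Perm (Fin 3 × Fin 2) //
    ∀ x y, x.1 = y.1 ↔ (g x).1 = (g y).1} = 48 := by
  decide +kernel

set_option maxRecDepth 1000000 in
theorem cnt2 : Fintype.card {g : Perm (Fin 2 × Fin 2) //
    ∀ x y, x.1 = y.1 ↔ (g x).1 = (g y).1} = 8 := by
  decide +kernel

omit [DecidableEq Ω] in
theorem card_partStab_eq {a b : ℕ} (f : Ω → Fin b)
    (hf : ∀ i : Fin b, Nat.card {x : Ω // f x = i} = a) :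
    Nat.card (partStab f) = Nat.card {g : Perm (Fin b × Fin a) //
      ∀ x y, x.1 = y.1 ↔ (g x).1 = (g y).1} := by
  obtain ⟨e, he⟩ := exists_equiv_prod f hf
  refine Nat.card_congr (Equiv.subtypeEquiv e.permCongr ?_)
  intro g
  rw [mem_partStab]
  constructor
  · intro h x y
    have := h (e.symm x) (e.symm y)
    rw [← he, ← he, ← he, ← he] at this
    simpa [Equiv.permCongr_apply] using this
  · intro h x y
    have := h (e x) (e y)
    rw [← he, ← he, ← he, ← he]
    simpa [Equiv.permCongr_apply] using this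

theorem two_mul_card_inf {a b : ℕ} (ha : 2 ≤ a) (hb : 1 ≤ b) (f : Ω → Fin b)
    (hf : ∀ i : Fin b, Nat.card {x : Ω // f x = i} = a) :
    2 * Nat.card ↥(partStab f ⊓ alternatingGroup Ω) = Nat.card (partStab f) := by
  obtain ⟨x, y, hxy, hx, hy⟩ := exists_pair ha f hf ⟨0, by omega⟩
  have : Nontrivial Ω := ⟨x, y, hxy⟩
  have h1 : (alternatingGroup Ω).relIndex (partStab f) ∣ 2 := by
    rw [← alternatingGroup.index_eq_two (α := Ω)]
    exact Subgroup.relIndex_dvd_index_of_normal _ _
  have h2 : (alternatingGroup Ω).relIndex (partStab f) ≠ 1 := by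
    rw [Ne, Subgroup.relIndex_eq_one]
    intro hle
    have := hle (swap_mem_partStab (hx.trans hy.symm))
    rw [mem_alternatingGroup, sign_swap hxy] at this
    exact absurd this (by decide)
  have h3 : (alternatingGroup Ω).relIndex (partStab f) = 2 := by
    rcases (Nat.dvd_prime Nat.prime_two).1 h1 with h | h
    · exact absurd h h2
    · exact h
  have h4 := Subgroup.relIndex_mul_relIndex ⊥ (partStab f ⊓ alternatingGroup Ω) (partStab f)
    bot_le inf_le_left
  rw [Subgroup.relIndex_bot_left, Subgroup.relIndex_bot_left, Subgroup.inf_relIndex_left, h3] at h4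
  omega

theorem card_subgroupOf_inf {ι : Type*} (f : Ω → ι) :
    Nat.card ((partStab f ⊓ alternatingGroup Ω).subgroupOf (alternatingGroup Ω)) =
      Nat.card ↥(partStab f ⊓ alternatingGroup Ω) :=
  Nat.card_congr (Subgroup.subgroupOfEquivOfLe inf_le_right).toEquiv

/-- the case of two blocks of size two -/
theorem eq_top_four (f : Ω → Fin 2) (hf : ∀ i : Fin 2, Nat.card {x : Ω // f x = i} = 2)
    (G : Subgroup (alternatingGroup Ω))
    (hlt : (partStab f ⊓ alternatingGroup Ω).subgroupOf (alternatingGroup Ω) < G) : G = ⊤ := by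
  obtain ⟨x, y, hxy, -, -⟩ := exists_pair le_rfl f hf 0
  have : Nontrivial Ω := ⟨x, y, hxy⟩
  have hA : 2 * Nat.card (alternatingGroup Ω) = 24 := by
    rw [two_mul_nat_card_alternatingGroup, Nat.card_perm, Nat.card_eq_fintype_card, card_eq f hf]
    rfl
  have hH : Nat.card ((partStab f ⊓ alternatingGroup Ω).subgroupOf (alternatingGroup Ω)) = 4 := by
    have h1 := two_mul_card_inf le_rfl (by norm_num) f hf
    rw [card_partStab_eq f hf, Nat.card_eq_fintype_card (α := {g : Perm (Fin 2 × Fin 2) //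
      ∀ x y, x.1 = y.1 ↔ (g x).1 = (g y).1}), cnt2] at h1
    rw [card_subgroupOf_inf]
    omega
  have h1 := Subgroup.card_mul_index
    ((partStab f ⊓ alternatingGroup Ω).subgroupOf (alternatingGroup Ω))
  have hidx : ((partStab f ⊓ alternatingGroup Ω).subgroupOf (alternatingGroup Ω)).index = 3 := by
    rw [hH] at h1
    omega
  have h2 := Subgroup.relIndex_mul_index hlt.le
  rw [hidx] at h2
  have h3 : ((partStab f ⊓ alternatingGroup Ω).subgroupOf (alternatingGroup Ω)).relIndex G ≠ 1 := by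
    rw [Ne, Subgroup.relIndex_eq_one]
    exact hlt.not_ge
  rw [← Subgroup.index_eq_one]
  have h4 : G.index ∣ 3 := Dvd.intro_left _ h2
  rcases (Nat.dvd_prime Nat.prime_three).1 h4 with h | h
  · exact h
  · rw [h] at h2
    exact absurd (by omega) h3

/-- the case of three blocks of size two -/
theorem eq_top_six (f : Ω → Fin 3) (hf : ∀ i : Fin 3, Nat.card {x : Ω // f x = i} = 2)
    (G : Subgroup (alternatingGroup Ω))
    (hlt : (partStab f ⊓ alternatingGroup Ω).subgroupOf (alternatingGroup Ω) < G) : G = ⊤ := by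
  obtain ⟨x, y, hxy, -, -⟩ := exists_pair le_rfl f hf 0
  have : Nontrivial Ω := ⟨x, y, hxy⟩
  have hcard : Nat.card Ω = 6 := by rw [Nat.card_eq_fintype_card, card_eq f hf]
  have hA : 2 * Nat.card (alternatingGroup Ω) = 720 := by
    rw [two_mul_nat_card_alternatingGroup, Nat.card_perm, hcard]
    rfl
  have hH : Nat.card ((partStab f ⊓ alternatingGroup Ω).subgroupOf (alternatingGroup Ω)) = 24 := by
    have h1 := two_mul_card_inf le_rfl (by norm_num) f hf
    rw [card_partStab_eq f hf, Nat.card_eq_fintype_card (α := {g : Perm (Fin 3 × Fin 2) //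
      ∀ x y, x.1 = y.1 ↔ (g x).1 = (g y).1}), cnt3] at h1
    rw [card_subgroupOf_inf]
    omega
  have h1 := Subgroup.card_mul_index
    ((partStab f ⊓ alternatingGroup Ω).subgroupOf (alternatingGroup Ω))
  have hidx : ((partStab f ⊓ alternatingGroup Ω).subgroupOf (alternatingGroup Ω)).index = 15 := by
    rw [hH] at h1
    omega
  have h2 := Subgroup.relIndex_mul_index hlt.le
  rw [hidx] at h2
  have h3 : ((partStab f ⊓ alternatingGroup Ω).subgroupOf (alternatingGroup Ω)).relIndex G ≠ 1 := by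
    rw [Ne, Subgroup.relIndex_eq_one]
    exact hlt.not_ge
  by_contra hne
  have : IsSimpleGroup (alternatingGroup Ω) := alternatingGroup.isSimpleGroup (by omega)
  have h5 := Cfsg.Agent.Lib.Helper6Simple.two_mul_card_dvd_factorial (by omega) G hne
  rw [hA] at h5
  have h4 : G.index ∣ 15 := Dvd.intro_left _ h2
  have h6 : G.index ≤ 15 := Nat.le_of_dvd (by norm_num) h4
  have h7 : G.index ≠ 15 := by
    intro h
    rw [h] at h2
    exact h3 (by omega)
  generalize G.index = k at *
  interval_cases k <;> revert h5 h4 h7 <;> decide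

end Cfsg.Agent.Lib.Helper90PartAlt
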