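import Mathlib
import Cfsg.Agent.Lib.Helper90Abelian

set_option autoImplicit false

namespace Cfsg.Agent.Lib.Helper90Trace

open Cfsg Cfsg.FusionSystem Cfsg.Agent.Lib.Helper87Fusion Cfsg.Agent.Lib.Helper90Fusion
  Cfsg.Agent.Lib.Helper90Abelian

theorem fixedSub_anti {A : Type*} [Group A] {G T : Subgroup (MulAut A)} (h : T ≤ G) :
    fixedSub G ≤ fixedSub T := fun _ ha α hα => ha α (h hα)

/-- The relative trace argument: for an abelian `p`-group `A`, a group `G` of automorphisms and a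
subgroup `T` of index prime to `p`, the fixed points of `G` are a direct factor of those of `T`. -/
theorem trace_split_comm {A : Type*} [CommGroup A] [Finite A] (p : ℕ) [Fact p.Prime]
    (hA : IsPGroup p A) (G T : Subgroup (MulAut A)) (hTG : T ≤ G)
    (hidx : ¬ p ∣ (T.subgroupOf G).index) :
    ∃ K : Subgroup A, K ≤ fixedSub T ∧ fixedSub G ⊓ K = ⊥ ∧ fixedSub G ⊔ K = fixedSub T := by
  classical
  have : Fintype (G ⧸ T.subgroupOf G) := Fintype.ofFinite _
  let N : A →* A := ∏ q : G ⧸ T.subgroupOf G, ((q.out : G) : MulAut A).toMonoidHom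
  have hN : ∀ a, N a = ∏ q : G ⧸ T.subgroupOf G, ((q.out : G) : MulAut A) a := by
    intro a
    simp only [N, MonoidHom.finsetProd_apply]
    rfl
  have hβN : ∀ β ∈ G, ∀ a ∈ fixedSub T, β (N a) = N a := by
    intro β hβ a ha
    rw [hN, map_prod]
    refine Fintype.prod_equiv (MulAction.toPerm (⟨β, hβ⟩ : G)) _ _ (fun q => ?_)
    have h1 : (((⟨β, hβ⟩ : G) • q).out)⁻¹ * ((⟨β, hβ⟩ : G) * q.out) ∈ T.subgroupOf G := by
      rw [← QuotientGroup.eq, QuotientGroup.out_eq']
      conv_lhs => rw [← QuotientGroup.out_eq' q]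
      rfl
    have h2 := ha _ (Subgroup.mem_subgroupOf.1 h1)
    have h3 : ((((⟨β, hβ⟩ : G) • q).out : G) : MulAut A)
        ((((((⟨β, hβ⟩ : G) • q).out)⁻¹ * ((⟨β, hβ⟩ : G) * q.out) : G) : MulAut A) a) =
        β (((q.out : G) : MulAut A) a) := by
      simp
    rw [h2] at h3
    exact h3.symm
  have hNfix : ∀ c ∈ fixedSub G, N c = c ^ (T.subgroupOf G).index := by
    intro c hc
    rw [hN, Finset.prod_congr rfl (fun (q : G ⧸ T.subgroupOf G) _ => hc (q.out : MulAut A) q.out.2),
      Finset.prod_const, Finset.card_univ, Subgroup.index, Nat.card_eq_fintype_card]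
  have hcop : (Nat.card A).Coprime (T.subgroupOf G).index := by
    obtain ⟨n, hn⟩ := IsPGroup.iff_card.1 hA
    rw [hn]
    exact Nat.Coprime.pow_left n ((Nat.Prime.coprime_iff_not_dvd Fact.out).2 hidx)
  refine ⟨fixedSub T ⊓ N.ker, inf_le_left, ?_, ?_⟩
  · rw [eq_bot_iff]
    rintro c ⟨hc, -, hb⟩
    have h1 : c ^ (T.subgroupOf G).index = 1 := by
      rw [← hNfix c hc]; exact hb
    have h2 : c ^ Nat.card A = 1 := pow_card_eq_one'
    have := pow_gcd_eq_one.2 ⟨h2, h1⟩
    rw [hcop, pow_one] at this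
    exact this
  · apply le_antisymm (sup_le (fixedSub_anti hTG) inf_le_left)
    intro a ha
    have hw : N a ∈ fixedSub G := fun β hβ => hβN β hβ a ha
    set u := (powCoprime hcop).symm (N a) with hu
    have hun : u ^ (T.subgroupOf G).index = N a := (powCoprime hcop).apply_symm_apply (N a)
    have huG : u ∈ fixedSub G := by
      intro β hβ
      apply (powCoprime hcop).injective
      show (β u) ^ _ = u ^ _
      rw [← map_pow, hun, hw β hβ]
    have e : a = u * (u⁻¹ * a) := by group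
    rw [e]
    refine Subgroup.mul_mem_sup huG ⟨Subgroup.mul_mem _ (Subgroup.inv_mem _ (fixedSub_anti hTG huG)) ha, ?_⟩
    show N (u⁻¹ * a) = 1
    rw [map_mul, map_inv, hNfix u huG, hun, inv_mul_cancel]

theorem trace_split {A : Type*} [Group A] [Finite A] (hcomm : ∀ a b : A, a * b = b * a)
    (p : ℕ) [Fact p.Prime]
    (hA : IsPGroup p A) (G T : Subgroup (MulAut A)) (hTG : T ≤ G)
    (hidx : ¬ p ∣ (T.subgroupOf G).index) :
    ∃ K : Subgroup A, K ≤ fixedSub T ∧ fixedSub G ⊓ K = ⊥ ∧ fixedSub G ⊔ K = fixedSub T := by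
  let _ : CommGroup A := { (inferInstance : Group A) with mul_comm := hcomm }
  exact trace_split_comm p hA G T hTG hidx

end Cfsg.Agent.Lib.Helper90Trace
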