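import Mathlib
import Cfsg.Prelude.Def_Classical
import Cfsg.Prelude.Def_KGroupFacts
import Cfsg.Agent.Lib.Helper91ES2
import Cfsg.Agent.Lib.Helper3ExtraInner
import Cfsg.Agent.Lib.Helper49Orth

set_option autoImplicit false

/-! Outer automorphisms of extraspecial 2-groups. -/

namespace Cfsg.Agent.Lib.Helper91ES4

open Cfsg.Agent.Lib.Helper91ES Cfsg.Agent.Lib.Helper91ES2

/-- two central extensions of an exponent-two group by a group of order two with the same
squaring map are isomorphic, compatibly with the projections. -/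
theorem iso_of_fibre_compat {E E' W : Type*} [Group E] [Group E'] [Group W] [Finite E] [Finite E']
    (π : E →* W) (π' : E' →* W) (hπ : Function.Surjective π) (hπ' : Function.Surjective π')
    (z : E) (z' : E') (hz : z ≠ 1) (hz' : z' ≠ 1)
    (hker : ∀ x, π x = 1 ↔ x = 1 ∨ x = z) (hker' : ∀ x, π' x = 1 ↔ x = 1 ∨ x = z')
    (hsq : ∀ x x', π x = π' x' → (x * x = 1 ∧ x' * x' = 1) ∨ (x * x = z ∧ x' * x' = z')) :
    ∃ e : E ≃* E', ∀ x, π' (e x) = π x := by
  have hπz : π z = 1 := (hker z).2 (Or.inr rfl)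
  have hπz' : π' z' = 1 := (hker' z').2 (Or.inr rfl)
  have hzz : z * z = 1 := by
    rcases hsq z 1 (by rw [hπz, map_one]) with h | h
    · exact h.1
    · exact absurd h.2.symm (by simpa using hz')
  have hzz' : z' * z' = 1 := by
    rcases hsq 1 z' (by rw [hπz', map_one]) with h | h
    · exact h.2
    · exact absurd h.1.symm (by simpa using hz)
  have hcen : ∀ g : E, g * z * g⁻¹ = z := by
    intro g
    have h1 : π (g * z * g⁻¹) = 1 := by simp [hπz]
    rcases (hker _).1 h1 with h | h
    · exfalso; apply hz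
      have : g * z = g := by rwa [mul_inv_eq_one] at h
      simpa using this
    · exact h
  have hcen' : ∀ g : E', g * z' * g⁻¹ = z' := by
    intro g
    have h1 : π' (g * z' * g⁻¹) = 1 := by simp [hπz']
    rcases (hker' _).1 h1 with h | h
    · exfalso; apply hz'
      have : g * z' = g := by rwa [mul_inv_eq_one] at h
      simpa using this
    · exact h
  -- the fibre product
  let P : Subgroup (E × E') := MonoidHom.eqLocus (π.comp (MonoidHom.fst E E'))
    (π'.comp (MonoidHom.snd E E'))
  have hP : ∀ p : E × E', p ∈ P ↔ π p.1 = π' p.2 := fun p => Iff.rfl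
  let δ : P := ⟨(z, z'), by rw [hP, hπz, hπz']⟩
  let ζ : P := ⟨(z, 1), by rw [hP, hπz, map_one]⟩
  let N : Subgroup P := Subgroup.zpowers δ
  have hδδ : δ * δ = 1 := Subtype.ext (Prod.ext hzz hzz')
  have hN : ∀ p : P, p ∈ N ↔ p = 1 ∨ p = δ := by
    intro p
    constructor
    · rintro ⟨i, rfl⟩
      rcases Int.even_or_odd' i with ⟨j, rfl | rfl⟩
      · left
        show δ ^ (2 * j) = 1
        rw [zpow_mul, zpow_two, hδδ, one_zpow]
      · right
        show δ ^ (2 * j + 1) = δ
        rw [zpow_add, zpow_mul, zpow_two, hδδ, one_zpow, one_mul, zpow_one]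
    · rintro (rfl | rfl)
      · exact Subgroup.one_mem _
      · exact Subgroup.mem_zpowers _
  have hNn : N.Normal := by
    constructor
    intro n hn g
    rcases (hN n).1 hn with rfl | rfl
    · simp
    · have : g * δ * g⁻¹ = δ := Subtype.ext (Prod.ext (hcen g.1.1) (hcen' g.1.2))
      rw [this]; exact hn
  have hsqN : ∀ p : P, p * p ∈ N := by
    intro p
    rw [hN]
    rcases hsq p.1.1 p.1.2 p.2 with h | h
    · left; exact Subtype.ext (Prod.ext h.1 h.2)
    · right; exact Subtype.ext (Prod.ext h.1 h.2)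
  have hζN : ζ ∉ N := by
    rw [hN]
    rintro (h | h)
    · exact hz (congrArg (fun p : P => p.1.1) h)
    · exact hz' (congrArg (fun p : P => p.1.2) h).symm
  obtain ⟨χ, hχN, hχζ⟩ := exists_char N hsqN hζN
  have hχδ : χ δ = 1 := hχN δ ((hN δ).2 (Or.inr rfl))
  let ζ' : P := ⟨(1, z'), by rw [hP, hπz', map_one]⟩
  have hζ' : ζ' = ζ * δ := Subtype.ext (Prod.ext hzz.symm (one_mul _).symm)
  have hχζ' : χ ζ' ≠ 1 := by rw [hζ', map_mul, hχδ, mul_one]; exact hχζ
  let C : Subgroup P := χ.ker
  let p1 : C →* E := ((MonoidHom.fst E E').comp P.subtype).comp C.subtype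
  let p2 : C →* E' := ((MonoidHom.snd E E').comp P.subtype).comp C.subtype
  have b1 : Function.Bijective p1 := by
    constructor
    · rw [injective_iff_map_eq_one]
      intro c hc
      have hc1 : c.1.1.1 = 1 := hc
      have h2 : π' c.1.1.2 = 1 := by
        have := c.1.2
        rw [hP, hc1, map_one] at this
        exact this.symm
      rcases (hker' _).1 h2 with h | h
      · exact Subtype.ext (Subtype.ext (Prod.ext hc1 h))
      · exfalso
        have : c.1 = ζ' := Subtype.ext (Prod.ext hc1 h)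
        apply hχζ'
        rw [← this]
        exact c.2
    · intro x
      obtain ⟨x', hx'⟩ := hπ' (π x)
      let p : P := ⟨(x, x'), by rw [hP]; exact hx'.symm⟩
      by_cases hp : χ p = 1
      · exact ⟨⟨p, hp⟩, rfl⟩
      · refine ⟨⟨p * ζ', ?_⟩, ?_⟩
        · show χ (p * ζ') = 1
          rw [map_mul]; exact mz2_mul hp hχζ'
        · show x * 1 = x
          exact mul_one x
  have b2 : Function.Bijective p2 := by
    constructor
    · rw [injective_iff_map_eq_one]
      intro c hc
      have hc1 : c.1.1.2 = 1 := hc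
      have h2 : π c.1.1.1 = 1 := by
        have := c.1.2
        rw [hP, hc1, map_one] at this
        exact this
      rcases (hker _).1 h2 with h | h
      · exact Subtype.ext (Subtype.ext (Prod.ext h hc1))
      · exfalso
        have : c.1 = ζ := Subtype.ext (Prod.ext h hc1)
        apply hχζ
        rw [← this]
        exact c.2
    · intro x'
      obtain ⟨x, hx⟩ := hπ (π' x')
      let p : P := ⟨(x, x'), by rw [hP]; exact hx⟩
      by_cases hp : χ p = 1
      · exact ⟨⟨p, hp⟩, rfl⟩
      · refine ⟨⟨p * ζ, ?_⟩, ?_⟩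
        · show χ (p * ζ) = 1
          rw [map_mul]; exact mz2_mul hp hχζ
        · show x' * 1 = x'
          exact mul_one x'
  refine ⟨(MulEquiv.ofBijective p1 b1).symm.trans (MulEquiv.ofBijective p2 b2), fun x => ?_⟩
  obtain ⟨c, rfl⟩ := b1.2 x
  have e1 : (MulEquiv.ofBijective p1 b1).symm (p1 c) = c :=
    (MulEquiv.ofBijective p1 b1).symm_apply_apply c
  show π' (p2 ((MulEquiv.ofBijective p1 b1).symm (p1 c))) = π (p1 c)
  rw [e1]
  exact (c.1.2 : π c.1.1.1 = π' c.1.1.2).symm

section out

open Cfsg.Agent.Lib.Helper49Orth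
open scoped Matrix

variable {E : Type*} [Group E] [Finite E] {ι : Type} [Fintype ι] [DecidableEq ι]

/-- The outer automorphism group of an extraspecial 2-group is the isometry group of its
squaring form. -/
theorem out_equiv (hE : Cfsg.IsExtraspecial 2 E) (Q : (ι → ZMod 2) → ZMod 2) {z : E} (h : Pkg E z)
    (π : E →* Multiplicative (ι → ZMod 2)) (hπ : Function.Surjective π)
    (hker : ∀ x, π x = 1 ↔ x = 1 ∨ x = z)
    (hQ : ∀ x, Q (Multiplicative.toAdd (π x)) = eps (x * x)) :
    Nonempty (Cfsg.Out E ≃* ↥(Cfsg.isometryGroup (ZMod 2) Q)) := by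
  classical
  have hαz : ∀ α : MulAut E, α z = z := by
    intro α
    have h1 : α z ∈ Subgroup.center E := by
      rw [Subgroup.mem_center_iff]
      intro g
      have h2 := congrArg α (h.z_comm (α⁻¹ g))
      rw [map_mul, map_mul, MulAut.apply_inv_self] at h2
      exact h2
    rcases (h.cen _).1 h1 with h2 | h2
    · exfalso
      apply h.ne
      exact (map_eq_one_iff α α.injective).1 h2
    · exact h2
  have hfib : ∀ (α : MulAut E) (x y : E), π x = π y → π (α x) = π (α y) := by
    intro α x y hxy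
    have h1 : π (x⁻¹ * y) = 1 := by rw [map_mul, map_inv, hxy, inv_mul_cancel]
    have h2 : π (α (x⁻¹ * y)) = 1 := by
      rcases (hker _).1 h1 with e | e
      · rw [e, map_one, map_one]
      · rw [e, hαz]; exact (hker z).2 (Or.inr rfl)
    rw [map_mul, map_inv, map_mul, map_inv, inv_mul_eq_one] at h2
    exact h2
  let s : (ι → ZMod 2) → E := fun v => Function.surjInv hπ (Multiplicative.ofAdd v)
  have hs : ∀ v, π (s v) = Multiplicative.ofAdd v := fun v => Function.surjInv_eq hπ _
  have hs' : ∀ v, Multiplicative.toAdd (π (s v)) = v := fun v => by rw [hs]; rfl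
  let Lf : MulAut E → (ι → ZMod 2) → (ι → ZMod 2) :=
    fun α v => Multiplicative.toAdd (π (α (s v)))
  have hL : ∀ (α : MulAut E) (x : E),
      Lf α (Multiplicative.toAdd (π x)) = Multiplicative.toAdd (π (α x)) := by
    intro α x
    show Multiplicative.toAdd (π (α (s _))) = _
    rw [hfib α (s (Multiplicative.toAdd (π x))) x (by rw [hs]; rfl)]
  have hLadd : ∀ (α : MulAut E) (v w : ι → ZMod 2), Lf α (v + w) = Lf α v + Lf α w := by
    intro α v w
    have e1 : v + w = Multiplicative.toAdd (π (s v * s w)) := by rw [map_mul, hs, hs]; rfl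
    rw [e1, hL, map_mul, map_mul]
    rfl
  let Ll : MulAut E → ((ι → ZMod 2) →ₗ[ZMod 2] (ι → ZMod 2)) := fun α =>
    (AddMonoidHom.mk' (Lf α) (hLadd α)).toZModLinearMap 2
  have hLmul : ∀ α β : MulAut E, Ll (α * β) = Ll α ∘ₗ Ll β := by
    intro α β
    apply LinearMap.ext
    intro v
    show Lf (α * β) v = Lf α (Lf β v)
    show _ = Lf α (Multiplicative.toAdd (π (β (s v))))
    rw [hL]
    rfl
  have hLone : Ll 1 = LinearMap.id := by
    apply LinearMap.ext
    intro v
    show Multiplicative.toAdd (π ((1 : MulAut E) (s v))) = v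
    rw [MulAut.one_apply, hs']
  let M : MulAut E → Matrix ι ι (ZMod 2) := fun α => LinearMap.toMatrix' (Ll α)
  have hMmul : ∀ α β : MulAut E, M (α * β) = M α * M β := fun α β => by
    show LinearMap.toMatrix' (Ll (α * β)) = _
    rw [hLmul, LinearMap.toMatrix'_comp]
  have hMone : M 1 = 1 := by
    show LinearMap.toMatrix' (Ll 1) = 1
    rw [hLone, LinearMap.toMatrix'_id]
  have hMv : ∀ (α : MulAut E) (v : ι → ZMod 2), M α *ᵥ v = Lf α v := fun α v => by
    show LinearMap.toMatrix' (Ll α) *ᵥ v = _
    rw [LinearMap.toMatrix'_mulVec]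
    rfl
  let U : MulAut E → Matrix.GeneralLinearGroup ι (ZMod 2) := fun α =>
    ⟨M α, M α⁻¹, by rw [← hMmul, mul_inv_cancel, hMone], by rw [← hMmul, inv_mul_cancel, hMone]⟩
  have hUmem : ∀ α : MulAut E, U α ∈ Cfsg.isometryGroup (ZMod 2) Q := by
    intro α
    rw [mem_iso]
    intro v
    show Q (M α *ᵥ v) = Q v
    rw [hMv]
    conv_rhs => rw [← hs' v]
    show Q (Multiplicative.toAdd (π (α (s v)))) = _
    rw [hQ, hQ, ← map_mul]
    unfold eps
    simp only [map_eq_one_iff α α.injective]
  let Φ : MulAut E →* ↥(Cfsg.isometryGroup (ZMod 2) Q) :=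
    { toFun := fun α => ⟨U α, hUmem α⟩
      map_one' := iso_ext hMone
      map_mul' := fun α β => iso_ext (hMmul α β) }
  have hΦ : ∀ α : MulAut E, (((Φ α : ↥(Cfsg.isometryGroup (ZMod 2) Q)) :
      Matrix.GeneralLinearGroup ι (ZMod 2)) : Matrix ι ι (ZMod 2)) = M α := fun _ => rfl
  have hkerΦ : Cfsg.Inn E = Φ.ker := by
    ext α
    rw [MonoidHom.mem_ker]
    constructor
    · rintro ⟨g, rfl⟩
      apply iso_ext
      rw [hΦ]
      have h1 : Ll (MulAut.conj g) = LinearMap.id := by
        apply LinearMap.ext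
        intro v
        show Multiplicative.toAdd (π (MulAut.conj g (s v))) = v
        have h2 : π (MulAut.conj g (s v)) = π (s v) := by
          rw [MulAut.conj_apply, map_mul π, map_mul π, map_inv π, mul_comm (π g),
            mul_inv_cancel_right]
        rw [h2, hs']
      show LinearMap.toMatrix' (Ll (MulAut.conj g)) = _
      rw [h1, LinearMap.toMatrix'_id]
      rfl
    · intro hα
      have hM1 : M α = 1 := by
        rw [← hΦ, hα]
        rfl
      have h1 : ∀ x, π (α x) = π x := by
        intro x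
        have h2 := hMv α (Multiplicative.toAdd (π x))
        rw [hM1, Matrix.one_mulVec, hL] at h2
        exact (Multiplicative.toAdd.injective h2).symm
      have : Fact (Nat.Prime 2) := ⟨Nat.prime_two⟩
      obtain ⟨e₀, he₀⟩ := Cfsg.Agent.Lib.Helper3ExtraInner.inner_of_trivial_mod_center (p := 2)
        (Nat.card E) E le_rfl hE α.toMonoidHom (by
          intro e
          rw [h.cen]
          apply (hker _).1
          rw [map_mul, map_inv]
          show (π e)⁻¹ * π (α e) = 1
          rw [h1, inv_mul_cancel])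
      refine ⟨e₀, ?_⟩
      ext x
      rw [MulAut.conj_apply]
      exact (he₀ x).symm
  have hsurj : Function.Surjective Φ := by
    intro g
    obtain ⟨A, hA⟩ : ∃ A : Matrix ι ι (ZMod 2),
      A = ((g : Matrix.GeneralLinearGroup ι (ZMod 2)) : Matrix ι ι (ZMod 2)) := ⟨_, rfl⟩
    obtain ⟨B, hB⟩ : ∃ B : Matrix ι ι (ZMod 2),
      B = ((g⁻¹ : ↥(Cfsg.isometryGroup (ZMod 2) Q)) : Matrix.GeneralLinearGroup ι (ZMod 2)).1 :=
      ⟨_, rfl⟩
    have hBA : B * A = 1 := by
      rw [hA, hB, ← Units.val_mul, ← Subgroup.coe_mul, inv_mul_cancel]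
      rfl
    have hAB : A * B = 1 := by
      rw [hA, hB, ← Units.val_mul, ← Subgroup.coe_mul, mul_inv_cancel]
      rfl
    have hQA : ∀ v, Q (A *ᵥ v) = Q v := by
      intro v
      rw [hA]
      exact iso_apply g v
    let π' : E →* Multiplicative (ι → ZMod 2) :=
      (AddMonoidHom.toMultiplicative (Matrix.mulVecLin A).toAddMonoidHom).comp π
    have hπ'a : ∀ x, Multiplicative.toAdd (π' x) = A *ᵥ Multiplicative.toAdd (π x) := fun x => rfl
    have hπ' : Function.Surjective π' := by
      intro w
      obtain ⟨x, hx⟩ := hπ (Multiplicative.ofAdd (B *ᵥ Multiplicative.toAdd w))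
      refine ⟨x, ?_⟩
      apply Multiplicative.toAdd.injective
      rw [hπ'a, hx]
      show A *ᵥ (B *ᵥ Multiplicative.toAdd w) = _
      rw [Matrix.mulVec_mulVec, hAB, Matrix.one_mulVec]
    have hker' : ∀ x, π' x = 1 ↔ x = 1 ∨ x = z := by
      intro x
      rw [← hker]
      constructor
      · intro hx
        have h1 : A *ᵥ Multiplicative.toAdd (π x) = 0 := by
          rw [← hπ'a, hx]; rfl
        have h2 : B *ᵥ (A *ᵥ Multiplicative.toAdd (π x)) = 0 := by rw [h1, Matrix.mulVec_zero]
        rw [Matrix.mulVec_mulVec, hBA, Matrix.one_mulVec] at h2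
        exact Multiplicative.toAdd.injective h2
      · intro hx
        show (AddMonoidHom.toMultiplicative (Matrix.mulVecLin A).toAddMonoidHom) (π x) = 1
        rw [hx, map_one]
    obtain ⟨e, he⟩ := iso_of_fibre_compat π' π hπ' hπ z z h.ne h.ne hker' hker (by
      intro x x' hxx
      have h1 : eps (x * x) = eps (x' * x') := by
        rw [← hQ, ← hQ, ← hxx, hπ'a, hQA]
      rcases h.sqm x with e1 | e1 <;> rcases h.sqm x' with e2 | e2
      · left; exact ⟨e1, e2⟩
      · exfalso
        rw [e1, e2, eps_one, eps_of_ne h.ne] at h1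
        exact absurd h1 (by decide)
      · exfalso
        rw [e1, e2, eps_one, eps_of_ne h.ne] at h1
        exact absurd h1 (by decide)
      · right; exact ⟨e1, e2⟩)
    refine ⟨e, iso_ext ?_⟩
    rw [hΦ, ← hA]
    have h1 : Ll e = Matrix.toLin' A := by
      apply LinearMap.ext
      intro v
      rw [Matrix.toLin'_apply]
      show Multiplicative.toAdd (π (e (s v))) = _
      rw [he, hπ'a, hs']
    show LinearMap.toMatrix' (Ll e) = A
    rw [h1, LinearMap.toMatrix'_toLin']
  exact ⟨(QuotientGroup.quotientMulEquivOfEq hkerΦ).trans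
    (QuotientGroup.quotientKerEquivOfSurjective Φ hsurj)⟩

/-- version for the model groups. -/
theorem out_equiv_of_model (hE : Cfsg.IsExtraspecial 2 E)
    (β : (ι → ZMod 2) →ₗ[ZMod 2] (ι → ZMod 2) →ₗ[ZMod 2] ZMod 2)
    (hnd : ∀ u : ι → ZMod 2, (∀ v, β u v + β v u = 0) → u = 0) (e : E ≃* Ext β) :
    Nonempty (Cfsg.Out E ≃* ↥(Cfsg.isometryGroup (ZMod 2) (fun u => β u u))) := by
  obtain ⟨z, h⟩ := exists_pkg hE
  let π : E →* Multiplicative (ι → ZMod 2) := (proj β).comp e.toMonoidHom
  have hπu : ∀ x, Multiplicative.toAdd (π x) = (e x).u := fun _ => rfl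
  refine out_equiv hE _ h π ?_ ?_ ?_
  · intro w
    obtain ⟨x, hx⟩ := e.surjective ⟨0, Multiplicative.toAdd w⟩
    refine ⟨x, ?_⟩
    show proj β (e x) = w
    rw [hx]
    rfl
  · intro x
    rw [← h.cen]
    have h1 : π x = 1 ↔ e x ∈ (proj β).ker := Iff.rfl
    rw [h1, ← center_eq hnd, Subgroup.mem_center_iff, Subgroup.mem_center_iff]
    constructor
    · intro hx g
      apply e.injective
      rw [map_mul, map_mul]
      exact hx (e g)
    · intro hx g
      obtain ⟨g', rfl⟩ := e.surjective g
      rw [← map_mul, ← map_mul, hx g']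
  · intro x
    rw [hπu]
    have h1 : e (x * x) = ⟨β (e x).u (e x).u, 0⟩ := by
      rw [map_mul, ← pow_two, sq_eq]
    rcases h.sqm x with e1 | e1
    · rw [e1, map_one] at h1
      rw [e1, eps_one]
      exact (congrArg Ext.s h1).symm
    · rw [e1, eps_of_ne h.ne]
      have key : ∀ t : ZMod 2, t ≠ 0 → t = 1 := by decide
      apply key
      intro h0
      rw [h0, e1] at h1
      apply h.ne
      apply e.injective
      rw [h1, map_one]
      rfl

end out

end Cfsg.Agent.Lib.Helper91ES4
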