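import Mathlib
import Cfsg.Agent.Lib.Helper29DihF

set_option autoImplicit false

/-! helper29's project 8 (S3261/S3035), piece `centA6`. -/

namespace Cfsg.Agent.Lib.Helper91P8centA6

open MulAction Subgroup Equiv

/-- the standard double transposition -/
def a0 : Perm (Fin 6) := swap 0 1 * swap 2 3
/-- element of order 4 -/
def r0 : Perm (Fin 6) := swap 0 2 * swap 2 1 * swap 1 3 * swap 4 5
/-- the reflection -/
def s0 : Perm (Fin 6) := swap 0 2 * swap 1 3

theorem a0_mem : a0 ∈ alternatingGroup (Fin 6) := Perm.mem_alternatingGroup.2 (by decide)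
theorem r0_mem : r0 ∈ alternatingGroup (Fin 6) := Perm.mem_alternatingGroup.2 (by decide)
theorem s0_mem : s0 ∈ alternatingGroup (Fin 6) := Perm.mem_alternatingGroup.2 (by decide)

theorem cycleType_of {a : Perm (Fin 6)} (ha : orderOf a = 2) (hs : a.support.card = 4) :
    a.cycleType = Multiset.replicate 2 2 := by
  obtain ⟨n, hn⟩ := Perm.cycleType_prime_order (σ := a) (by rw [ha]; exact Nat.prime_two)
  have h1 := Perm.sum_cycleType a
  rw [hn, ha, Multiset.sum_replicate, hs] at h1
  have : n = 1 := by
    simp at h1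
    omega
  rw [hn, ha, this]

theorem orderOf_a0 : orderOf a0 = 2 :=
  orderOf_eq_prime (by decide) (by decide)

theorem card_cent : (Finset.univ.filter
    (fun x : Perm (Fin 6) => Perm.sign x = 1 ∧ x * a0 = a0 * x)).card = 8 := by
  decide +kernel

theorem card_centralizer_le :
    Nat.card (centralizer ({⟨a0, a0_mem⟩} : Set (alternatingGroup (Fin 6)))) ≤ 8 := by
  rw [← card_cent, ← Fintype.card_coe, ← Nat.card_eq_fintype_card]
  refine Nat.card_le_card_of_injective (fun x => ⟨(x : alternatingGroup (Fin 6)).1, ?_⟩) ?_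
  · rw [Finset.mem_filter]
    refine ⟨Finset.mem_univ _, Perm.mem_alternatingGroup.1 x.1.2, ?_⟩
    have := mem_centralizer_singleton_iff.1 x.2
    exact congrArg Subtype.val this
  · intro x y hxy
    apply Subtype.ext
    apply Subtype.ext
    exact congrArg (fun z => z.1) hxy

theorem std : Nonempty (centralizer ({⟨a0, a0_mem⟩} : Set (alternatingGroup (Fin 6))) ≃*
    DihedralGroup 4) := by
  set σ : alternatingGroup (Fin 6) := ⟨r0, r0_mem⟩ with hσ
  set τ : alternatingGroup (Fin 6) := ⟨s0, s0_mem⟩ with hτ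
  have hσo : orderOf σ = 4 := by
    have := orderOf_eq_prime_pow (x := σ) (p := 2) (n := 1) (by decide) (by decide)
    simpa using this
  have hτ2 : τ * τ = 1 := by decide
  have hrel : τ * σ * τ⁻¹ = σ⁻¹ := by decide
  have hle : closure ({σ, τ} : Set (alternatingGroup (Fin 6))) ≤
      centralizer ({⟨a0, a0_mem⟩} : Set (alternatingGroup (Fin 6))) := by
    rw [closure_le]
    rintro x (rfl | rfl)
    · exact mem_centralizer_singleton_iff.2 (by decide)
    · exact mem_centralizer_singleton_iff.2 (by decide)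
  have hgen : closure ({σ, τ} : Set (alternatingGroup (Fin 6))) =
      centralizer ({⟨a0, a0_mem⟩} : Set (alternatingGroup (Fin 6))) := by
    apply Subgroup.eq_of_le_of_card_ge hle
    refine card_centralizer_le.trans ?_
    rw [← Cfsg.Agent.Lib.Helper29DihF.dihHom_range σ τ
      (Cfsg.Agent.Lib.Helper25Exp.pow_of_order hσo) hτ2 hrel]
    have hinj := Cfsg.Agent.Lib.Helper29DihF.dihHom_injective (by norm_num) σ τ hσo hτ2 hrel
    rw [← Nat.card_congr (MonoidHom.ofInjective hinj).toEquiv, DihedralGroup.nat_card]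
  obtain ⟨e, -⟩ := Cfsg.Agent.Lib.Helper29DihF.exists_equiv (by norm_num) _ σ τ hσo hτ2 hrel hgen
  exact ⟨e⟩

/-- piece `centA6` -/
theorem cent_a6 (a : alternatingGroup (Fin 6)) (ha : orderOf a = 2)
    (hsupp : (a : Equiv.Perm (Fin 6)).support.card = 4) :
    Nonempty (centralizer ({a} : Set (alternatingGroup (Fin 6))) ≃* DihedralGroup 4) := by
  have h1 : (a : Perm (Fin 6)).cycleType = a0.cycleType := by
    rw [cycleType_of (by rw [Subgroup.orderOf_coe, ha]) hsupp,
      cycleType_of orderOf_a0 (by decide)]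
  obtain ⟨g, hg⟩ := isConj_iff.1 ((Perm.isConj_iff_cycleType_eq).2 h1.symm)
  set φ : alternatingGroup (Fin 6) ≃* alternatingGroup (Fin 6) := MulAut.conjNormal g with hφ
  have hφa : φ ⟨a0, a0_mem⟩ = a := by
    apply Subtype.ext
    rw [hφ, MulAut.conjNormal_apply]
    exact hg
  have hmap : (centralizer ({⟨a0, a0_mem⟩} : Set (alternatingGroup (Fin 6)))).map φ.toMonoidHom =
      centralizer ({a} : Set (alternatingGroup (Fin 6))) := by
    ext x
    constructor
    · rintro ⟨y, hy, rfl⟩
      have := mem_centralizer_singleton_iff.1 hy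
      apply mem_centralizer_singleton_iff.2
      rw [← hφa]
      show φ y * φ _ = φ _ * φ y
      rw [← map_mul, ← map_mul, this]
    · intro hx
      have := mem_centralizer_singleton_iff.1 hx
      refine ⟨φ.symm x, mem_centralizer_singleton_iff.2 ?_, by simp⟩
      apply φ.injective
      rw [map_mul, map_mul, hφa, MulEquiv.apply_symm_apply, this]
  obtain ⟨e⟩ := std
  exact ⟨((φ.subgroupMap _).trans (MulEquiv.subgroupCongr hmap)).symm.trans e⟩

end Cfsg.Agent.Lib.Helper91P8centA6
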