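import Mathlib
import Cfsg.Agent.Lib.Helper71ZaDefs
import Cfsg.Agent.Lib.Helper70ZaG4a
import Cfsg.Agent.Lib.Helper70ZaG4b
import Cfsg.Agent.Lib.Helper76ZaSCA
import Cfsg.Agent.Lib.Helper75ZaG3

set_option autoImplicit false

/-! Zassenhaus project (71), piece G4c. -/

namespace Cfsg.Agent.Lib.Helper91ZaG4c

open Cfsg.Agent.Lib.Helper71ZaDefs Subgroup
open Cfsg.Agent.Lib.Helper70ZaG4a (a4_lemma a5_lemma)
open Cfsg.Agent.Lib.Helper70ZaG4b (closure_Iset_eq_top)

variable {H : Type*} [Group H] [Finite H]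

/-- two non-commuting elements of order 3 generate a double cover of `A4` or `A5`. -/
theorem exists_quot (hZ : ZG H) {x y : H} (hx : orderOf x = 3) (hy : orderOf y = 3)
    (hxy : x * y ≠ y * x) :
    (∃ f : closure ({x, y} : Set H) →* alternatingGroup (Fin 4),
      Function.Surjective f ∧ Nat.card f.ker = 2) ∨
    (∃ f : closure ({x, y} : Set H) →* alternatingGroup (Fin 5),
      Function.Surjective f ∧ Nat.card f.ker = 2) := by
  have hxm : x ∈ closure ({x, y} : Set H) := subset_closure (by simp)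
  have hym : y ∈ closure ({x, y} : Set H) := subset_closure (by simp)
  apply Cfsg.Agent.Lib.Helper75ZaG3.bin_gen3 (hZ.two x y (Or.inl hx) (Or.inl hy))
    (((↑) : closure ({x, y} : Set H) → H) ⁻¹' {x, y}) (closure_closure_coe_preimage)
  · intro s hs
    rw [← Subgroup.orderOf_coe]
    rcases hs with hs | hs
    · rw [hs, hx]
    · rw [Set.mem_singleton_iff] at hs
      rw [hs, hy]
  · exact ⟨⟨x, hxm⟩, ⟨y, hym⟩, fun h => hxy (congrArg Subtype.val h)⟩

/-- the image of an element of order 3 under a map with kernel of order 2 has order 3 -/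
theorem orderOf_map {D A : Type*} [Group D] [Finite D] [Group A] (f : D →* A)
    (hk : Nat.card f.ker = 2) {x : D} (hx : orderOf x = 3) : orderOf (f x) = 3 := by
  apply orderOf_eq_prime
  · rw [← map_pow, ← hx, pow_orderOf_eq_one, map_one]
  · intro h
    have h1 : x ∈ f.ker := h
    have h2 := orderOf_dvd_natCard (⟨x, h1⟩ : f.ker)
    rw [Subgroup.orderOf_mk, hx, hk] at h2
    exact absurd h2 (by decide)

theorem mem_Lx (hZ : ZG H) {x y : H} (hx : orderOf x = 3) (hy : orderOf y = 3) :
    y ∈ closure (Iset x ∪ {x}) := by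
  by_cases hxy : x * y = y * x
  · have h1 : y ∈ zpowers x := Cfsg.Agent.Lib.Helper76ZaSCA.mem_zpowers_of_commute hZ.cyc hxy.symm
      (by rw [hx, ← hy, pow_orderOf_eq_one])
    have h2 : zpowers x ≤ closure (Iset x ∪ {x}) := by
      rw [zpowers_le]
      exact subset_closure (by simp)
    exact h2 h1
  · have hxm : x ∈ closure ({x, y} : Set H) := subset_closure (by simp)
    have hym : y ∈ closure ({x, y} : Set H) := subset_closure (by simp)
    set D := closure ({x, y} : Set H) with hD
    have hx' : orderOf (⟨x, hxm⟩ : D) = 3 := by rw [Subgroup.orderOf_mk, hx]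
    have hinv : ∀ a b : D, orderOf a = 2 → orderOf b = 2 → a = b := by
      intro a b ha hb
      apply Subtype.ext
      exact hZ.invol a b (by rw [Subgroup.orderOf_coe, ha]) (by rw [Subgroup.orderOf_coe, hb])
    have htop : closure (Iset (⟨x, hxm⟩ : D) ∪ {⟨x, hxm⟩}) = ⊤ := by
      rcases exists_quot hZ hx hy hxy with ⟨f, hf, hk⟩ | ⟨f, hf, hk⟩
      · obtain ⟨i, hi2, hi3, hgen⟩ := a4_lemma (f ⟨x, hxm⟩) (orderOf_map f hk hx')
        apply closure_Iset_eq_top hinv f hf hk ⟨x, hxm⟩ hx' {i}
        · intro s hs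
          rw [Set.mem_singleton_iff] at hs
          rw [hs]
          exact ⟨hi2, hi3⟩
        · exact ⟨i, rfl⟩
        · rw [Set.singleton_union]
          exact hgen
      · obtain ⟨i, i', hi2, hi2', hi3, hi3', hgen⟩ := a5_lemma (f ⟨x, hxm⟩) (orderOf_map f hk hx')
        apply closure_Iset_eq_top hinv f hf hk ⟨x, hxm⟩ hx' {i, i'}
        · intro s hs
          rcases hs with hs | hs
          · rw [hs]; exact ⟨hi2, hi3⟩
          · rw [Set.mem_singleton_iff] at hs
            rw [hs]; exact ⟨hi2', hi3'⟩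
        · exact ⟨i, by simp⟩
        · rw [Set.insert_union, Set.singleton_union]
          exact hgen
    have h1 : (⟨y, hym⟩ : D) ∈ closure (Iset (⟨x, hxm⟩ : D) ∪ {⟨x, hxm⟩}) := by
      rw [htop]; exact mem_top _
    have h2 : y ∈ (closure (Iset (⟨x, hxm⟩ : D) ∪ {⟨x, hxm⟩})).map D.subtype := ⟨_, h1, rfl⟩
    rw [MonoidHom.map_closure] at h2
    refine closure_mono ?_ h2
    rintro _ ⟨i, hi, rfl⟩
    rcases hi with hi | hi
    · left
      refine ⟨?_, ?_⟩
      · show orderOf ((i : D) : H) = 4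
        rw [Subgroup.orderOf_coe, hi.1]
      · have := hi.2
        rw [← Subgroup.orderOf_coe] at this
        exact this
    · right
      rw [Set.mem_singleton_iff] at hi
      rw [hi]
      rfl

end Cfsg.Agent.Lib.Helper91ZaG4c
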