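import Mathlib
import Cfsg.Agent.Lib.Helper91ZaG4c

set_option autoImplicit false

/-! Zassenhaus project (71), piece G5. -/

namespace Cfsg.Agent.Lib.Helper91ZaG5

open Cfsg.Agent.Lib.Helper71ZaDefs Subgroup
open Cfsg.Agent.Lib.Helper91ZaG4c

variable {H : Type*} [Group H] [Finite H]

theorem exists_Lx_eq (hZ : ZG H) {x : H} (hx : orderOf x = 3) (hne : (Iset x).Nonempty) :
    ∃ i₁ ∈ Iset x, ∃ i₂ ∈ Iset x, closure (Iset x ∪ {x}) = closure {i₁, i₂, x} := by
  obtain ⟨i₁, hi₁⟩ := hne
  by_cases hsub : Iset x ⊆ closure ({i₁, x} : Set H)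
  · refine ⟨i₁, hi₁, i₁, hi₁, le_antisymm ?_ ?_⟩
    · rw [closure_le]
      rintro i (hi | hi)
      · have : closure ({i₁, x} : Set H) ≤ closure ({i₁, i₁, x} : Set H) :=
          Subgroup.closure_mono (by intro a ha; exact Or.inr ha)
        exact this (hsub hi)
      · rw [Set.mem_singleton_iff] at hi
        rw [hi]
        exact subset_closure (by simp)
    · apply Subgroup.closure_mono
      rintro a (rfl | rfl | ha)
      · exact Or.inl hi₁
      · exact Or.inl hi₁
      · exact Or.inr ha
  · rw [Set.not_subset] at hsub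
    obtain ⟨i₂, hi₂, hi₂n⟩ := hsub
    refine ⟨i₁, hi₁, i₂, hi₂, le_antisymm ?_ ?_⟩
    · rw [closure_le]
      rintro i (hi | hi)
      · exact hZ.four x i₁ i₂ i hx hi₁ hi₂ hi hi₂n
      · rw [Set.mem_singleton_iff] at hi
        rw [hi]
        exact subset_closure (by simp)
    · apply Subgroup.closure_mono
      rintro a (rfl | rfl | ha)
      · exact Or.inl hi₁
      · exact Or.inl hi₂
      · exact Or.inr ha

theorem Lx_eq_closure (hZ : ZG H) {x : H} (hx : orderOf x = 3) :
    closure (Iset x ∪ {x}) = closure {y : H | orderOf y = 3} := by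
  apply le_antisymm
  · rw [closure_le]
    rintro i (hi | hi)
    swap
    · rw [Set.mem_singleton_iff] at hi
      rw [hi]
      exact subset_closure hx
    obtain ⟨hi4, hi6⟩ := hi
    set a := i * x with ha
    set y := (a ^ 2)⁻¹ with hy
    set z := a ^ 3 with hz
    have ha6 : a ^ 6 = 1 := by rw [← hi6]; exact pow_orderOf_eq_one a
    have hy3 : orderOf y = 3 := by
      rw [hy, orderOf_inv, orderOf_pow, hi6]
      rfl
    have hz2 : orderOf z = 2 := by
      rw [hz, orderOf_pow, hi6]
      rfl
    have hazy : a = z * y := by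
      rw [hz, hy]
      group
    have hixy : i = z * y * x⁻¹ := by
      rw [← hazy, ha]; group
    -- `z` is central
    have hzc : ∀ g : H, g * z = z * g := by
      intro g
      have h1 : orderOf (g * z * g⁻¹) = 2 := by
        rw [← hz2]
        exact (MulAut.conj g).orderOf_eq z
      have h2 := hZ.invol _ _ h1 hz2
      calc g * z = (g * z * g⁻¹) * g := by group
        _ = z * g := by rw [h2]
    have hxy : x * y ≠ y * x := by
      intro hc
      -- then `i` commutes with `x`
      have h1 : x * i = i * x := by
        rw [hixy]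
        calc x * (z * y * x⁻¹) = (x * z) * y * x⁻¹ := by group
          _ = z * (x * y) * x⁻¹ := by rw [hzc x]; group
          _ = z * (y * x) * x⁻¹ := by rw [hc]
          _ = z * y * x⁻¹ * x := by group
      have h2 : orderOf (i * x) = 12 := by
        have := (show Commute i x from h1.symm).orderOf_mul_eq_mul_orderOf_of_coprime
          (by rw [hi4, hx]; decide)
        rw [this, hi4, hx]
      rw [h2] at hi6
      exact absurd hi6 (by decide)
    have hD : closure ({x, y} : Set H) ≤ closure {y : H | orderOf y = 3} := by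
      apply Subgroup.closure_mono
      rintro w (rfl | hw)
      · exact hx
      · rw [Set.mem_singleton_iff] at hw
        rw [hw]; exact hy3
    have hzD : z ∈ closure ({x, y} : Set H) := by
      have key : ∀ {A : Type} [Group A] (f : closure ({x, y} : Set H) →* A),
          Nat.card f.ker = 2 → z ∈ closure ({x, y} : Set H) := by
        intro A _ f hk
        have : Fact (Nat.Prime 2) := ⟨Nat.prime_two⟩
        obtain ⟨w, hw⟩ := exists_prime_orderOf_dvd_card' (G := f.ker) 2 (by rw [hk])
        have h1 : orderOf (((w : f.ker) : closure ({x, y} : Set H)) : H) = 2 := by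
          rw [Subgroup.orderOf_coe, Subgroup.orderOf_coe, hw]
        rw [← hZ.invol _ _ h1 hz2]
        exact (w : closure ({x, y} : Set H)).2
      rcases exists_quot hZ hx hy3 hxy with ⟨f, -, hk⟩ | ⟨f, -, hk⟩
      · exact key f hk
      · exact key f hk
    rw [hixy]
    exact mul_mem (mul_mem (hD hzD) (subset_closure hy3)) (inv_mem (subset_closure hx))
  · rw [closure_le]
    intro y hy
    exact mem_Lx hZ hx hy

end Cfsg.Agent.Lib.Helper91ZaG5
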