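import Mathlib
import Cfsg.Agent.Lib.Helper71ZaDefs
import Cfsg.Agent.Lib.Helper76ZaTR
import Cfsg.Agent.S0144

set_option autoImplicit false

/-! Zassenhaus project (71), piece G6. -/

namespace Cfsg.Agent.Lib.Helper91ZaG6

open Cfsg.Agent.Lib.Helper71ZaDefs Subgroup
open Cfsg.Agent.Lib.Helper76ZaTR

theorem solvable_perm {α : Type*} [Finite α] (h : Nat.card α = 1 ∨ Nat.card α = 4) :
    Group.IsSolvable (Equiv.Perm α) := by
  classical
  have : Fintype α := Fintype.ofFinite α
  have hc : Nat.card (Equiv.Perm α) = (Nat.card α).factorial := by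
    rw [Nat.card_eq_fintype_card, Fintype.card_perm, Nat.card_eq_fintype_card]
  rcases h with h | h
  · exact Cfsg.Agent.S0144.result 2 3 0 0 Nat.prime_two Nat.prime_three (by rw [hc, h]; rfl)
  · exact Cfsg.Agent.S0144.result 2 3 3 1 Nat.prime_two Nat.prime_three (by rw [hc, h]; rfl)

variable {H : Type*} [Group H] [Finite H]

theorem not_A4 (hperf : commutator H = ⊤) (L : Subgroup H) [L.Normal]
    (hcard : Nat.card L = 24) (x y : H) (hxL : x ∈ L) (hyL : y ∈ L) (hx : orderOf x = 3)
    (hy : orderOf y = 3) (hxy : x * y ≠ y * x) : False := by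
  have : Fact (Nat.Prime 3) := ⟨Nat.prime_three⟩
  obtain ⟨P⟩ : Nonempty (Sylow 3 L) := inferInstance
  have hPcard : Nat.card P = 3 := by
    rw [P.card_eq_multiplicity, hcard]
    have : (24 : ℕ) = 3 ^ 1 * 8 := by norm_num
    rw [this, Nat.factorization_mul (by norm_num) (by norm_num), Finsupp.add_apply,
      Nat.prime_three.factorization_pow, Finsupp.single_eq_same,
      Nat.factorization_eq_zero_of_not_dvd (by norm_num : ¬ 3 ∣ 8)]
    norm_num
  have hidx : (P : Subgroup L).index = 8 := by
    have := (P : Subgroup L).card_mul_index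
    rw [hPcard, hcard] at this
    omega
  have hn : Nat.card (Sylow 3 L) = 1 ∨ Nat.card (Sylow 3 L) = 4 := by
    have h1 := card_sylow_modEq_one 3 L
    have h2 := P.card_dvd_index
    rw [hidx] at h2
    have h3 : Nat.card (Sylow 3 L) ≤ 8 := Nat.le_of_dvd (by norm_num) h2
    unfold Nat.ModEq at h1
    revert h1 h2
    generalize Nat.card (Sylow 3 L) = n at h3 ⊢
    interval_cases n <;> decide
  have hsol := solvable_perm hn
  let f : H →* Equiv.Perm (Sylow 3 L) :=
    (MulAction.toPermHom (ConjAct H) (Sylow 3 L)).comp (ConjAct.toConjAct (G := H)).toMonoidHom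
  have hf : ∀ g : H, ConjAct.toConjAct g • P = P := by
    intro g
    have := hom_eq_one_of_perfect hperf hsol f g
    have h2 := congrArg (fun σ : Equiv.Perm (Sylow 3 L) => σ P) this
    exact h2
  have hPn : (P : Subgroup L).Normal := by
    constructor
    intro n hn l
    have h1 : ConjAct.toConjAct (l : H) • n ∈
        ((ConjAct.toConjAct (l : H) • P : Sylow 3 L) : Subgroup L) := by
      rw [Sylow.pointwise_smul_def]
      exact Subgroup.smul_mem_pointwise_smul _ _ _ hn
    rw [hf] at h1
    have h2 : ConjAct.toConjAct (l : H) • n = l * n * l⁻¹ := by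
      apply Subtype.ext
      rw [ConjAct.Subgroup.val_conj_smul, ConjAct.smul_def]
      simp
    rwa [h2] at h1
  have huniq := Sylow.unique_of_normal P hPn
  have hmem : ∀ w : L, orderOf w = 3 → w ∈ (P : Subgroup L) := by
    intro w hw
    have hp : IsPGroup 3 (zpowers w) := by
      apply IsPGroup.of_card (n := 1)
      rw [Nat.card_zpowers, hw, pow_one]
    obtain ⟨Q, hQ⟩ := hp.exists_le_sylow
    have : Q = P := Subsingleton.elim _ _
    rw [← this]
    exact hQ (mem_zpowers w)
  have hcyc : IsCyclic P := isCyclic_of_prime_card hPcard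
  have hc := hcyc.isMulCommutative
  have h1 := hmem ⟨x, hxL⟩ (by rw [← hx]; exact Subgroup.orderOf_mk x hxL)
  have h2 := hmem ⟨y, hyL⟩ (by rw [← hy]; exact Subgroup.orderOf_mk y hyL)
  have h3 := hc.is_comm.comm (⟨_, h1⟩ : P) ⟨_, h2⟩
  exact hxy (congrArg (fun w : P => ((w : L) : H)) h3)

end Cfsg.Agent.Lib.Helper91ZaG6
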