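import Cfsg.Agent.Lib.Helper92Basic

set_option autoImplicit false

namespace Cfsg.Agent.Lib.Helper92ES

open Cfsg Cfsg.Agent.Lib.Helper92Basic

variable {G : Type*} [Group G]

/-- Squares in a finite 2-group lie in the Frattini subgroup. -/
theorem sq_mem_frattini {P : Type*} [Group P] [Finite P] (hP : IsPGroup 2 P) (x : P) :
    x ^ 2 ∈ frattini P := by
  have : Fact (Nat.Prime 2) := ⟨Nat.prime_two⟩
  unfold frattini Order.radical
  simp only [Subgroup.mem_iInf]
  intro M hM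
  apply Subgroup.sq_mem_of_index_two
  obtain ⟨m, hm⟩ := IsPGroup.iff_card.mp hP
  obtain ⟨n, hn⟩ := IsPGroup.iff_card.mp (hP.to_subgroup M)
  have hlt : n < m := by
    by_contra hcon
    push Not at hcon
    apply hM.1
    apply Subgroup.eq_top_of_card_eq
    apply le_antisymm (Subgroup.card_le_card_group M)
    rw [hm, hn]
    exact Nat.pow_le_pow_right (by norm_num) hcon
  obtain ⟨K, hK, hMK⟩ := Sylow.exists_subgroup_card_pow_succ (p := 2) (n := n) (G := P)
    (by rw [hm]; exact pow_dvd_pow 2 hlt) hn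
  have hKM : M < K := by
    refine lt_of_le_of_ne hMK ?_
    rintro rfl
    rw [hn] at hK
    have := Nat.pow_right_injective (le_refl 2) hK
    omega
  have hKtop : K = ⊤ := hM.2 K hKM
  have h1 : Nat.card P = 2 ^ (n + 1) := by rw [← hK, hKtop, Subgroup.card_top]
  have h2 := M.card_mul_index
  rw [hn, h1, pow_succ] at h2
  exact Nat.eq_of_mul_eq_mul_left (by positivity) h2

/-- Elementwise package of the conditions (L1)-(L3) on an extraspecial 2-subgroup `Q` with centre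
generated by `z`. -/
structure ES (Q : Subgroup G) (z : G) : Prop where
  zQ : z ∈ Q
  z1 : z ≠ 1
  zz : z * z = 1
  zc : ∀ q ∈ Q, q * z = z * q
  comm : ∀ x ∈ Q, ∀ y ∈ Q, x * y * x⁻¹ * y⁻¹ = 1 ∨ x * y * x⁻¹ * y⁻¹ = z
  sq : ∀ x ∈ Q, x * x = 1 ∨ x * x = z
  cent : ∀ c, (∀ q ∈ Q, q * c = c * q) → c = 1 ∨ c = z
  norm : ∀ c, c * z = z * c → ∀ q ∈ Q, c * q * c⁻¹ ∈ Q

theorem exists_ES [Finite G] {Q : Subgroup G} (hL1 : Cfsg.IsExtraspecial 2 ↥Q)
    (hL2 : Subgroup.centralizer (Q : Set G) = cen Q)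
    (hL3 : Subgroup.centralizer ((cen Q : Subgroup G) : Set G) ≤ Subgroup.normalizer (Q : Set G)) :
    ∃ z, ES Q z ∧ ∀ c, c ∈ cen Q ↔ (c = 1 ∨ c = z) := by
  obtain ⟨z, hzZ, hz1, hzz, hzall⟩ := exists_gen hL1
  have hiff : ∀ c, c ∈ cen Q ↔ (c = 1 ∨ c = z) := by
    intro c
    refine ⟨hzall c, ?_⟩
    rintro (rfl | rfl)
    · exact Subgroup.one_mem _
    · exact hzZ
  refine ⟨z, ⟨cen_le Q hzZ, hz1, hzz, (mem_cen_iff.mp hzZ).2, ?_, ?_, ?_, ?_⟩, hiff⟩
  · intro x hx y hy
    exact hzall _ (comm_mem_cen hL1 hx hy)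
  · intro x hx
    apply hzall
    have h := sq_mem_frattini hL1.1.1 (⟨x, hx⟩ : Q)
    rw [hL1.1.2.1] at h
    exact ⟨_, h, by simp [pow_two]⟩
  · intro c hc
    apply hzall
    change c ∈ cen Q
    rw [← hL2, Subgroup.mem_centralizer_iff]
    exact hc
  · intro c hc
    have : c ∈ Subgroup.normalizer (Q : Set G) := by
      apply hL3
      rw [Subgroup.mem_centralizer_iff]
      intro d hd
      rcases hzall d hd with rfl | rfl
      · simp
      · exact hc.symm
    intro q hq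
    exact (Subgroup.mem_normalizer_iff.mp this q).mp hq

theorem mem_map_conj_iff (H : Subgroup G) (g x : G) :
    x ∈ H.map (MulAut.conj g).toMonoidHom ↔ g⁻¹ * x * g ∈ H := by
  constructor
  · rintro ⟨y, hy, rfl⟩
    have : g⁻¹ * ((MulAut.conj g).toMonoidHom y) * g = y := by
      simp [MulAut.conj_apply, mul_assoc]
    rw [this]; exact hy
  · intro h
    refine ⟨g⁻¹ * x * g, h, ?_⟩
    simp [MulAut.conj_apply, mul_assoc]

theorem conj_mem_map_conj {H : Subgroup G} (g : G) {x : G} (hx : x ∈ H) :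
    g * x * g⁻¹ ∈ H.map (MulAut.conj g).toMonoidHom :=
  ⟨x, hx, by simp [MulAut.conj_apply]⟩

namespace ES

variable {Q : Subgroup G} {z : G}

theorem zinv (h : ES Q z) : z⁻¹ = z := inv_eq_of_mul_eq_one_left h.zz

/-- Transport along conjugation. -/
theorem conj (h : ES Q z) (g : G) : ES (Q.map (MulAut.conj g).toMonoidHom) (g * z * g⁻¹) := by
  have key : ∀ {a b : G}, g⁻¹ * a * g = b → a = g * b * g⁻¹ := by
    intro a b hab; rw [← hab]; group
  refine ⟨conj_mem_map_conj g h.zQ, ?_, ?_, ?_, ?_, ?_, ?_, ?_⟩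
  · intro h1
    apply h.z1
    have : z = g⁻¹ * (g * z * g⁻¹) * g := by group
    rw [this, h1]; group
  · calc g * z * g⁻¹ * (g * z * g⁻¹) = g * (z * z) * g⁻¹ := by group
      _ = 1 := by rw [h.zz]; group
  · intro q hq
    rw [mem_map_conj_iff] at hq
    have := h.zc _ hq
    calc q * (g * z * g⁻¹) = g * ((g⁻¹ * q * g) * z) * g⁻¹ := by group
      _ = g * (z * (g⁻¹ * q * g)) * g⁻¹ := by rw [this]
      _ = g * z * g⁻¹ * q := by group
  · intro x hx y hy
    rw [mem_map_conj_iff] at hx hy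
    have e : g⁻¹ * (x * y * x⁻¹ * y⁻¹) * g
        = (g⁻¹ * x * g) * (g⁻¹ * y * g) * (g⁻¹ * x * g)⁻¹ * (g⁻¹ * y * g)⁻¹ := by group
    rcases h.comm _ hx _ hy with h1 | h1
    · left
      rw [key (e.trans h1)]; group
    · right
      rw [key (e.trans h1)]
  · intro x hx
    rw [mem_map_conj_iff] at hx
    have e : g⁻¹ * (x * x) * g = (g⁻¹ * x * g) * (g⁻¹ * x * g) := by group
    rcases h.sq _ hx with h1 | h1
    · left
      rw [key (e.trans h1)]; group
    · right
      rw [key (e.trans h1)]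
  · intro c hc
    have h1 : ∀ q ∈ Q, q * (g⁻¹ * c * g) = (g⁻¹ * c * g) * q := by
      intro q hq
      have := hc _ (conj_mem_map_conj g hq)
      calc q * (g⁻¹ * c * g) = g⁻¹ * ((g * q * g⁻¹) * c) * g := by group
        _ = g⁻¹ * (c * (g * q * g⁻¹)) * g := by rw [this]
        _ = (g⁻¹ * c * g) * q := by group
    rcases h.cent _ h1 with h2 | h2
    · left
      rw [key h2]; group
    · right
      rw [key h2]
  · intro c hc q hq
    rw [mem_map_conj_iff] at hq ⊢
    have h1 : (g⁻¹ * c * g) * z = z * (g⁻¹ * c * g) := by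
      calc (g⁻¹ * c * g) * z = g⁻¹ * (c * (g * z * g⁻¹)) * g := by group
        _ = g⁻¹ * ((g * z * g⁻¹) * c) * g := by rw [hc]
        _ = z * (g⁻¹ * c * g) := by group
    have := h.norm _ h1 _ hq
    have e : g⁻¹ * (c * q * c⁻¹) * g = (g⁻¹ * c * g) * (g⁻¹ * q * g) * (g⁻¹ * c * g)⁻¹ := by group
    rw [e]; exact this

theorem conj_cases (h : ES Q z) {x y : G} (hx : x ∈ Q) (hy : y ∈ Q) :
    x * y * x⁻¹ = y ∨ x * y * x⁻¹ = y * z := by
  rcases h.comm x hx y hy with h1 | h1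
  · left
    calc x * y * x⁻¹ = (x * y * x⁻¹ * y⁻¹) * y := by group
      _ = y := by rw [h1, one_mul]
  · right
    calc x * y * x⁻¹ = (x * y * x⁻¹ * y⁻¹) * y := by group
      _ = y * z := by rw [h1, h.zc y hy]

theorem conj_eq_of_not_comm (h : ES Q z) {x y : G} (hx : x ∈ Q) (hy : y ∈ Q)
    (hxy : x * y ≠ y * x) : x * y * x⁻¹ = y * z := by
  rcases h.conj_cases hx hy with h1 | h1
  · exfalso
    apply hxy
    calc x * y = (x * y * x⁻¹) * x := by group
      _ = y * x := by rw [h1]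
  · exact h1

/-- The double centralizer of an element of `Q`. -/
theorem double_cent (h : ES Q z) {b n : G} (hb : b ∈ Q) (hn : n ∈ Q)
    (H : ∀ p ∈ Q, p * b = b * p → p * n = n * p) : n = 1 ∨ n = z ∨ n = b ∨ n = b * z := by
  by_cases hall : ∀ q ∈ Q, q * n = n * q
  · rcases h.cent n hall with h1 | h1
    · exact Or.inl h1
    · exact Or.inr (Or.inl h1)
  · push Not at hall
    obtain ⟨q₀, hq₀, hq₀n⟩ := hall
    have hq₀b : q₀ * b ≠ b * q₀ := fun hc => hq₀n (H q₀ hq₀ hc)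
    have e1 : q₀ * n * q₀⁻¹ = n * z := h.conj_eq_of_not_comm hq₀ hn hq₀n
    have e2 : q₀ * b * q₀⁻¹ = b * z := h.conj_eq_of_not_comm hq₀ hb hq₀b
    have hcen : ∀ q ∈ Q, q * (n * b⁻¹) = (n * b⁻¹) * q := by
      intro q hq
      by_cases hqb : q * b = b * q
      · have hqn := H q hq hqb
        have hqb' : q * b⁻¹ = b⁻¹ * q := by
          calc q * b⁻¹ = b⁻¹ * (b * q) * b⁻¹ := by group
            _ = b⁻¹ * (q * b) * b⁻¹ := by rw [hqb]
            _ = b⁻¹ * q := by group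
        calc q * (n * b⁻¹) = (q * n) * b⁻¹ := by group
          _ = n * (q * b⁻¹) := by rw [hqn]; group
          _ = (n * b⁻¹) * q := by rw [hqb']; group
      · have e3 : q * b * q⁻¹ = b * z := h.conj_eq_of_not_comm hq hb hqb
        have e4 : (q₀⁻¹ * q) * b = b * (q₀⁻¹ * q) := by
          have : b = q₀⁻¹ * (b * z) * q₀ := by rw [← e2]; group
          calc (q₀⁻¹ * q) * b = q₀⁻¹ * (q * b * q⁻¹) * q := by group
            _ = (q₀⁻¹ * (b * z) * q₀) * (q₀⁻¹ * q) := by rw [e3]; group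
            _ = b * (q₀⁻¹ * q) := by rw [← this]
        have e5 := H _ (Q.mul_mem (Q.inv_mem hq₀) hq) e4
        have e6 : q * n * q⁻¹ = n * z := by
          calc q * n * q⁻¹ = q₀ * ((q₀⁻¹ * q) * n) * q⁻¹ := by group
            _ = q₀ * (n * (q₀⁻¹ * q)) * q⁻¹ := by rw [e5]
            _ = q₀ * n * q₀⁻¹ := by group
            _ = n * z := e1
        calc q * (n * b⁻¹) = (q * n * q⁻¹) * (q * b * q⁻¹)⁻¹ * q := by group
          _ = (n * z) * (b * z)⁻¹ * q := by rw [e6, e3]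
          _ = (n * b⁻¹) * q := by group
    rcases h.cent _ hcen with h1 | h1
    · right; right; left
      exact mul_inv_eq_one.mp h1
    · right; right; right
      calc n = (n * b⁻¹) * b := by group
        _ = z * b := by rw [h1]
        _ = b * z := (h.zc b hb).symm

/-- If `Q` has more than 8 elements, the centralizer in `Q` of an element of `Q` is not abelian. -/
theorem exists_comm_eq [Finite G] (h : ES Q z) {b : G} (hb : b ∈ Q) (hcard : 8 < Nat.card Q) :
    ∃ p ∈ Q, ∃ p' ∈ Q, p * b = b * p ∧ p' * b = b * p' ∧ p * p' * p⁻¹ * p'⁻¹ = z := by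
  classical
  by_contra hcon
  push Not at hcon
  have hab : ∀ n ∈ Q, n * b = b * n → n = 1 ∨ n = z ∨ n = b ∨ n = b * z := by
    intro n hn hnb
    apply h.double_cent hb hn
    intro p hp hpb
    rcases h.comm p hp n hn with h1 | h1
    · calc p * n = (p * n * p⁻¹ * n⁻¹) * (n * p) := by group
        _ = n * p := by rw [h1, one_mul]
    · exact absurd h1 (hcon p hp n hn hpb hnb)
  obtain ⟨q₀, hq₀, hQ⟩ : ∃ q₀ ∈ Q, ∀ q ∈ Q, q * b = b * q ∨ (q₀⁻¹ * q) * b = b * (q₀⁻¹ * q) := by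
    by_cases hall : ∀ q ∈ Q, q * b = b * q
    · exact ⟨1, Q.one_mem, fun q hq => Or.inl (hall q hq)⟩
    · push Not at hall
      obtain ⟨q₀, hq₀, hq₀b⟩ := hall
      refine ⟨q₀, hq₀, fun q hq => ?_⟩
      by_cases hqb : q * b = b * q
      · exact Or.inl hqb
      · right
        have e2 : q₀ * b * q₀⁻¹ = b * z := h.conj_eq_of_not_comm hq₀ hb hq₀b
        have e3 : q * b * q⁻¹ = b * z := h.conj_eq_of_not_comm hq hb hqb
        have : b = q₀⁻¹ * (b * z) * q₀ := by rw [← e2]; group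
        calc (q₀⁻¹ * q) * b = q₀⁻¹ * (q * b * q⁻¹) * q := by group
          _ = (q₀⁻¹ * (b * z) * q₀) * (q₀⁻¹ * q) := by rw [e3]; group
          _ = b * (q₀⁻¹ * q) := by rw [← this]
  let l : List G := [1, z, b, b * z, q₀, q₀ * z, q₀ * b, q₀ * (b * z)]
  have hsub : (Q : Set G) ⊆ (l.toFinset : Set G) := by
    intro q hq
    have hq' : q ∈ Q := hq
    simp only [Finset.mem_coe, List.mem_toFinset, l, List.mem_cons, List.not_mem_nil, or_false]
    rcases hQ q hq' with h1 | h1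
    · rcases hab q hq' h1 with h2 | h2 | h2 | h2 <;> simp [h2]
    · have hq'' : q = q₀ * (q₀⁻¹ * q) := by group
      rcases hab _ (Q.mul_mem (Q.inv_mem hq₀) hq') h1 with h2 | h2 | h2 | h2 <;>
        (rw [hq'', h2]; simp)
  have h1 : Nat.card Q ≤ 8 := by
    calc Nat.card Q = (Q : Set G).ncard := rfl
      _ ≤ (l.toFinset : Set G).ncard := Set.ncard_le_ncard hsub (Finset.finite_toSet _)
      _ = l.toFinset.card := Set.ncard_coe_finset _
      _ ≤ l.length := List.toFinset_card_le l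
      _ = 8 := rfl
  omega

end ES

/-- An abstract lemma on a group acting on an elementary abelian normal 2-subgroup. -/
theorem abelian_action_lemma {D : Type*} [Group D] (A : Subgroup D) (hA : A.Normal)
    (hcomm : ∀ x ∈ A, ∀ y ∈ A, x * y = y * x) (hsq : ∀ x ∈ A, x * x = 1)
    (z p p' : D) (hzz : z * z = 1) (hzp : z * p = p * z) (hzp' : z * p' = p' * z)
    (hz : p * p' * p⁻¹ * p'⁻¹ = z)
    (H : ∀ y ∈ A, z * y * z⁻¹ = y → p * y * p⁻¹ = y ∧ p' * y * p'⁻¹ = y) :
    ∀ x ∈ A, z * x * z⁻¹ = x := by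
  have hzinv : z⁻¹ = z := inv_eq_of_mul_eq_one_left hzz
  have hinv : ∀ x ∈ A, x⁻¹ = x := fun x hx => inv_eq_of_mul_eq_one_left (hsq x hx)
  have fixa : ∀ x ∈ A, z * (z * x * z⁻¹ * x⁻¹) * z⁻¹ = z * x * z⁻¹ * x⁻¹ := by
    intro x hx
    have hu : z * x * z⁻¹ ∈ A := hA.conj_mem x hx z
    calc z * (z * x * z⁻¹ * x⁻¹) * z⁻¹ = (z * z) * x * (z⁻¹ * x⁻¹ * z⁻¹) := by group
      _ = x * (z * x⁻¹ * z⁻¹) := by rw [hzz, one_mul]; nth_rewrite 1 [hzinv]; rfl
      _ = x * (z * x * z⁻¹) := by rw [hinv x hx]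
      _ = (z * x * z⁻¹) * x := hcomm _ hx _ hu
      _ = z * x * z⁻¹ * x⁻¹ := by rw [hinv x hx]
  have fixe : ∀ r : D, z * r = r * z → (∀ y ∈ A, z * y * z⁻¹ = y → r * y * r⁻¹ = y) →
      ∀ x ∈ A, z * (r * x * r⁻¹ * x⁻¹) * z⁻¹ = r * x * r⁻¹ * x⁻¹ := by
    intro r hr Hr x hx
    have ha : z * x * z⁻¹ * x⁻¹ ∈ A := A.mul_mem (hA.conj_mem x hx z) (A.inv_mem hx)
    have hra := Hr _ ha (fixa x hx)
    have he : r * x * r⁻¹ * x⁻¹ ∈ A := A.mul_mem (hA.conj_mem x hx r) (A.inv_mem hx)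
    have hr' : z * r * z⁻¹ = r := by rw [hr]; group
    calc z * (r * x * r⁻¹ * x⁻¹) * z⁻¹
        = (z * r * z⁻¹) * (z * x * z⁻¹) * (z * r * z⁻¹)⁻¹ * (z * x * z⁻¹)⁻¹ := by group
      _ = r * (z * x * z⁻¹) * r⁻¹ * (z * x * z⁻¹)⁻¹ := by rw [hr']
      _ = (r * (z * x * z⁻¹ * x⁻¹) * r⁻¹) * (r * x * r⁻¹ * x⁻¹) * (z * x * z⁻¹ * x⁻¹)⁻¹ := by group
      _ = (z * x * z⁻¹ * x⁻¹) * (r * x * r⁻¹ * x⁻¹) * (z * x * z⁻¹ * x⁻¹)⁻¹ := by rw [hra]
      _ = (r * x * r⁻¹ * x⁻¹) * (z * x * z⁻¹ * x⁻¹) * (z * x * z⁻¹ * x⁻¹)⁻¹ := by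
          rw [hcomm _ ha _ he]
      _ = r * x * r⁻¹ * x⁻¹ := by group
  have key : ∀ x ∈ A, (p' * p) * x * (p' * p)⁻¹ = (p * p') * x * (p * p')⁻¹ := by
    intro x hx
    have he : p * x * p⁻¹ * x⁻¹ ∈ A := A.mul_mem (hA.conj_mem x hx p) (A.inv_mem hx)
    have he' : p' * x * p'⁻¹ * x⁻¹ ∈ A := A.mul_mem (hA.conj_mem x hx p') (A.inv_mem hx)
    have h1 := (H _ he (fixe p hzp (fun y hy hzy => (H y hy hzy).1) x hx)).2
    have h2 := (H _ he' (fixe p' hzp' (fun y hy hzy => (H y hy hzy).2) x hx)).1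
    calc (p' * p) * x * (p' * p)⁻¹
        = (p' * (p * x * p⁻¹ * x⁻¹) * p'⁻¹) * (p' * x * p'⁻¹ * x⁻¹) * x := by group
      _ = (p * x * p⁻¹ * x⁻¹) * (p' * x * p'⁻¹ * x⁻¹) * x := by rw [h1]
      _ = (p' * x * p'⁻¹ * x⁻¹) * (p * x * p⁻¹ * x⁻¹) * x := by rw [hcomm _ he _ he']
      _ = (p * (p' * x * p'⁻¹ * x⁻¹) * p⁻¹) * (p * x * p⁻¹ * x⁻¹) * x := by rw [h2]
      _ = (p * p') * x * (p * p')⁻¹ := by group
  intro x hx
  have hx' : (p' * p)⁻¹ * x * (p' * p)⁻¹⁻¹ ∈ A := hA.conj_mem x hx _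
  have := key _ hx'
  calc z * x * z⁻¹ = (p * p') * ((p' * p)⁻¹ * x * (p' * p)⁻¹⁻¹) * (p * p')⁻¹ := by
        rw [← hz]; group
    _ = (p' * p) * ((p' * p)⁻¹ * x * (p' * p)⁻¹⁻¹) * (p' * p)⁻¹ := this.symm
    _ = x := by group

/-- The subgroup `{1, b}` for an element `b` with `b * b = 1`. -/
def pairSub (b : G) (hb : b * b = 1) : Subgroup G where
  carrier := {x | x = 1 ∨ x = b}
  one_mem' := Or.inl rfl
  mul_mem' := by
    rintro x y (rfl | rfl) (rfl | rfl)
    · left; simp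
    · right; simp
    · right; simp
    · left; exact hb
  inv_mem' := by
    rintro x (rfl | rfl)
    · left; simp
    · right; exact inv_eq_of_mul_eq_one_left hb

theorem mem_pairSub {b : G} {hb : b * b = 1} {x : G} : x ∈ pairSub b hb ↔ x = 1 ∨ x = b := Iff.rfl

/-- In the setting of two extraspecial subgroups `Q`, `Qb` with `b ∈ Q`: if `z ∉ Qb` then some element
of `Qb` conjugates `z` to `z * b`. -/
theorem caseB_false [Finite G] {Q Qb : Subgroup G} {z b : G} (h : ES Q z) (hb : ES Qb b)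
    (hbQ : b ∈ Q) (hbz : b ≠ z) (hzQb : z ∉ Qb) (hB : ∀ x ∈ Qb, z * x * z⁻¹ ≠ x * b)
    (hcard : 8 < Nat.card Q) : False := by
  obtain ⟨p, hp, p', hp', hpb, hp'b, hpp'⟩ := h.exists_comm_eq hbQ hcard
  have hzb : z * b = b * z := (h.zc b hbQ).symm
  have hbinv : b⁻¹ = b := hb.zinv
  have hN : ∀ n ∈ Q, n * b = b * n → n ∈ Qb → n = 1 ∨ n = b := by
    intro n hn hnb hnQb
    have h1 := h.double_cent hbQ hn (fun r hr hrb => by
      rcases h.comm r hr n hn with h1 | h1
      · calc r * n = (r * n * r⁻¹ * n⁻¹) * (n * r) := by group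
          _ = n * r := by rw [h1, one_mul]
      · exfalso
        apply hzQb
        rw [← h1]
        exact Qb.mul_mem (hb.norm r hrb n hnQb) (Qb.inv_mem hnQb))
    rcases h1 with h1 | h1 | h1 | h1
    · exact Or.inl h1
    · exact absurd (h1 ▸ hnQb) hzQb
    · exact Or.inr h1
    · exfalso
      apply hzQb
      have : z = b⁻¹ * n := by rw [h1]; group
      rw [this]
      exact Qb.mul_mem (Qb.inv_mem hb.zQ) hnQb
  have hYP : ∀ y ∈ Qb, z * y * z⁻¹ = y → ∀ r ∈ Q, r * b = b * r →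
      r * y * r⁻¹ * y⁻¹ = 1 ∨ r * y * r⁻¹ * y⁻¹ = b := by
    intro y hy hzy r hr hrb
    have hyz : y * z = z * y := by
      calc y * z = (z * y * z⁻¹) * z := by rw [hzy]
        _ = z * y := by group
    have hyb : y * b = b * y := hb.zc y hy
    apply hN
    · have : r * y * r⁻¹ * y⁻¹ = r * (y * r⁻¹ * y⁻¹) := by group
      rw [this]
      exact Q.mul_mem hr (h.norm y hyz _ (Q.inv_mem hr))
    · have e1 : r⁻¹ * b = b * r⁻¹ := by
        calc r⁻¹ * b = r⁻¹ * (b * r) * r⁻¹ := by group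
          _ = r⁻¹ * (r * b) * r⁻¹ := by rw [hrb]
          _ = b * r⁻¹ := by group
      have e2 : y⁻¹ * b = b * y⁻¹ := by
        calc y⁻¹ * b = y⁻¹ * (b * y) * y⁻¹ := by group
          _ = y⁻¹ * (y * b) * y⁻¹ := by rw [hyb]
          _ = b * y⁻¹ := by group
      calc r * y * r⁻¹ * y⁻¹ * b = r * y * r⁻¹ * (y⁻¹ * b) := by group
        _ = r * y * (r⁻¹ * b) * y⁻¹ := by rw [e2]; group
        _ = r * (y * b) * r⁻¹ * y⁻¹ := by rw [e1]; group
        _ = (r * b) * y * r⁻¹ * y⁻¹ := by rw [hyb]; group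
        _ = b * (r * y * r⁻¹ * y⁻¹) := by rw [hrb]; group
    · exact Qb.mul_mem (hb.norm r hrb y hy) (Qb.inv_mem hy)
  -- pass to the quotient of the centralizer of `b` by `{1, b}`
  let C := Subgroup.centralizer ({b} : Set G)
  have memC : ∀ x : G, x ∈ C ↔ x * b = b * x := fun x => Subgroup.mem_centralizer_singleton_iff
  let bC : C := ⟨b, (memC b).mpr rfl⟩
  have hbbC : bC * bC = 1 := Subtype.ext hb.zz
  let B : Subgroup C := pairSub bC hbbC
  have hBn : B.Normal := by
    refine ⟨fun n hn g => ?_⟩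
    rcases hn with rfl | rfl
    · left; simp
    · right
      apply Subtype.ext
      have := (memC g).mp g.2
      change (g : G) * b * (g : G)⁻¹ = b
      rw [this]; group
  let π : C →* C ⧸ B := QuotientGroup.mk' B
  have πeq : ∀ u v : C, π u = π v ↔ ((u : G) = v ∨ (u : G) = v * b) := by
    intro u v
    change (QuotientGroup.mk u : C ⧸ B) = QuotientGroup.mk v ↔ _
    rw [QuotientGroup.eq]
    change (u⁻¹ * v = 1 ∨ u⁻¹ * v = bC) ↔ _
    constructor
    · rintro (h1 | h1)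
      · left
        have := congrArg Subtype.val (inv_mul_eq_one.mp h1)
        exact this
      · right
        have h2 : (u : G)⁻¹ * v = b := congrArg Subtype.val h1
        calc (u : G) = v * ((u : G)⁻¹ * v)⁻¹ := by group
          _ = v * b := by rw [h2, hbinv]
    · rintro (h1 | h1)
      · left
        rw [inv_mul_eq_one]
        exact Subtype.ext h1
      · right
        apply Subtype.ext
        change (u : G)⁻¹ * v = b
        rw [h1]
        calc ((v : G) * b)⁻¹ * v = b⁻¹ := by group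
          _ = b := hbinv
  let A : Subgroup (C ⧸ B) := (Qb.subgroupOf C).map π
  have hQbn : (Qb.subgroupOf C).Normal := by
    refine ⟨fun n hn g => ?_⟩
    rw [Subgroup.mem_subgroupOf] at hn ⊢
    exact hb.norm g ((memC g).mp g.2) n hn
  have hA : A.Normal := hQbn.map π (QuotientGroup.mk'_surjective B)
  let zC : C := ⟨z, (memC z).mpr hzb⟩
  let pC : C := ⟨p, (memC p).mpr hpb⟩
  let p'C : C := ⟨p', (memC p').mpr hp'b⟩
  have main := abelian_action_lemma A hA ?_ ?_ (π zC) (π pC) (π p'C) ?_ ?_ ?_ ?_ ?_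
  · have hcen : ∀ x ∈ Qb, x * z = z * x := by
      intro x hx
      let xC : C := ⟨x, (memC x).mpr (hb.zc x hx)⟩
      have h1 := main (π xC) ⟨xC, Subgroup.mem_subgroupOf.mpr hx, rfl⟩
      rw [← map_inv, ← map_mul, ← map_mul, πeq] at h1
      rcases h1 with h1 | h1
      · have h2 : z * x * z⁻¹ = x := h1
        calc x * z = (z * x * z⁻¹) * z := by rw [h2]
          _ = z * x := by group
      · exact absurd h1 (hB x hx)
    rcases hb.cent z hcen with h1 | h1
    · exact h.z1 h1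
    · exact hbz h1.symm
  · rintro _ ⟨x, hx, rfl⟩ _ ⟨y, hy, rfl⟩
    rw [← map_mul, ← map_mul, πeq]
    rw [SetLike.mem_coe, Subgroup.mem_subgroupOf] at hx hy
    rcases hb.comm _ hx _ hy with h1 | h1
    · left
      change (x : G) * y = y * x
      calc (x : G) * y = ((x : G) * y * (x : G)⁻¹ * (y : G)⁻¹) * (y * x) := by group
        _ = y * x := by rw [h1, one_mul]
    · right
      change (x : G) * y = y * x * b
      calc (x : G) * y = ((x : G) * y * (x : G)⁻¹ * (y : G)⁻¹) * (y * x) := by group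
        _ = b * (y * x) := by rw [h1]
        _ = y * x * b := (hb.zc _ (Qb.mul_mem hy hx)).symm
  · rintro _ ⟨x, hx, rfl⟩
    rw [← map_mul, ← map_one π, πeq]
    rw [SetLike.mem_coe, Subgroup.mem_subgroupOf] at hx
    rcases hb.sq _ hx with h1 | h1
    · left; exact h1
    · right
      change (x : G) * x = 1 * b
      rw [h1, one_mul]
  · rw [← map_mul, ← map_one π]
    congr 1
    exact Subtype.ext h.zz
  · rw [← map_mul, ← map_mul]
    congr 1
    exact Subtype.ext (h.zc p hp).symm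
  · rw [← map_mul, ← map_mul]
    congr 1
    exact Subtype.ext (h.zc p' hp').symm
  · rw [← map_inv, ← map_inv, ← map_mul, ← map_mul, ← map_mul]
    congr 1
    exact Subtype.ext hpp'
  · rintro _ ⟨y, hy, rfl⟩ hzy
    rw [SetLike.mem_coe, Subgroup.mem_subgroupOf] at hy
    rw [← map_inv, ← map_mul, ← map_mul, πeq] at hzy
    have hzy' : z * (y : G) * z⁻¹ = y := by
      rcases hzy with h1 | h1
      · exact h1
      · exact absurd h1 (hB _ hy)
    constructor
    · rw [← map_inv, ← map_mul, ← map_mul, πeq]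
      rcases hYP _ hy hzy' p hp hpb with h1 | h1
      · left
        change p * (y : G) * p⁻¹ = y
        calc p * (y : G) * p⁻¹ = (p * (y : G) * p⁻¹ * (y : G)⁻¹) * y := by group
          _ = y := by rw [h1, one_mul]
      · right
        change p * (y : G) * p⁻¹ = y * b
        calc p * (y : G) * p⁻¹ = (p * (y : G) * p⁻¹ * (y : G)⁻¹) * y := by group
          _ = b * y := by rw [h1]
          _ = y * b := (hb.zc _ hy).symm
    · rw [← map_inv, ← map_mul, ← map_mul, πeq]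
      rcases hYP _ hy hzy' p' hp' hp'b with h1 | h1
      · left
        change p' * (y : G) * p'⁻¹ = y
        calc p' * (y : G) * p'⁻¹ = (p' * (y : G) * p'⁻¹ * (y : G)⁻¹) * y := by group
          _ = y := by rw [h1, one_mul]
      · right
        change p' * (y : G) * p'⁻¹ = y * b
        calc p' * (y : G) * p'⁻¹ = (p' * (y : G) * p'⁻¹ * (y : G)⁻¹) * y := by group
          _ = b * y := by rw [h1]
          _ = y * b := (hb.zc _ hy).symm


/-- Pairs of group elements, as a type carrying no instances. -/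
structure ConjPair (G : Type*) where
  fst : G
  snd : G

/-- Conjugation action of a subgroup on pairs. -/
@[reducible] def conjPairAction (N : Subgroup G) : MulAction N (ConjPair G) where
  smul := fun n p => ⟨(n : G) * p.1 * (n : G)⁻¹, (n : G) * p.2 * (n : G)⁻¹⟩
  one_smul := by
    intro p
    change ConjPair.mk _ _ = p
    cases p
    simp
  mul_smul := by
    intro m n p
    change ConjPair.mk _ _ = ConjPair.mk ((m : G) * ((n : G) * p.1 * (n : G)⁻¹) * (m : G)⁻¹)
      ((m : G) * ((n : G) * p.2 * (n : G)⁻¹) * (m : G)⁻¹)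
    simp [mul_assoc]

theorem relIndex_four_group [Finite G] (V : Subgroup G) (z b q u : G)
    (hV : ∀ v, v ∈ V ↔ v = 1 ∨ v = z ∨ v = b ∨ v = b * z)
    (hz1 : z ≠ 1) (hb1 : b ≠ 1) (hbz : b ≠ z) (hzz : z * z = 1) (hbb : b * b = 1)
    (hzb : z * b = b * z)
    (hq1 : q * z * q⁻¹ = z) (hq2 : q * b * q⁻¹ = b * z) (hu1 : u * z * u⁻¹ = b * z)
    (hu2 : u * b * u⁻¹ = b) :
    (Subgroup.centralizer (V : Set G)).relIndex (Subgroup.normalizer (V : Set G)) = 6 := by
  classical
  have hzV : z ∈ V := (hV z).mpr (Or.inr (Or.inl rfl))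
  have hbV : b ∈ V := (hV b).mpr (Or.inr (Or.inr (Or.inl rfl)))
  have hbzV : b * z ∈ V := V.mul_mem hbV hzV
  have hmemN : ∀ n : G, n * z * n⁻¹ ∈ V → n * b * n⁻¹ ∈ V → n ∈ Subgroup.normalizer (V : Set G) := by
    intro n h1 h2
    apply Subgroup.mem_normalizer_fintype
    intro v hv
    rcases (hV v).mp hv with rfl | rfl | rfl | rfl
    · simp
    · exact h1
    · exact h2
    · have : n * (b * z) * n⁻¹ = (n * b * n⁻¹) * (n * z * n⁻¹) := by group
      rw [this]
      exact V.mul_mem h2 h1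
  set N := Subgroup.normalizer (V : Set G) with hN
  let act : MulAction N (ConjPair G) := conjPairAction N
  have hsmul : ∀ (n : N) (p : ConjPair G),
      n • p = ⟨(n : G) * p.1 * (n : G)⁻¹, (n : G) * p.2 * (n : G)⁻¹⟩ := fun _ _ => rfl
  have hstab : MulAction.stabilizer N (⟨z, b⟩ : ConjPair G)
      = (Subgroup.centralizer (V : Set G)).subgroupOf N := by
    ext n
    rw [MulAction.mem_stabilizer_iff, hsmul, Subgroup.mem_subgroupOf, Subgroup.mem_centralizer_iff,
      ConjPair.mk.injEq]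
    constructor
    · rintro ⟨h1, h2⟩ v hv
      have e1 : (n : G) * z = z * n := by
        calc (n : G) * z = ((n : G) * z * (n : G)⁻¹) * n := by group
          _ = z * n := by rw [h1]
      have e2 : (n : G) * b = b * n := by
        calc (n : G) * b = ((n : G) * b * (n : G)⁻¹) * n := by group
          _ = b * n := by rw [h2]
      rcases (hV v).mp hv with rfl | rfl | rfl | rfl
      · simp
      · exact e1.symm
      · exact e2.symm
      · calc b * z * (n : G) = b * (z * n) := by group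
          _ = (b * n) * z := by rw [← e1]; group
          _ = n * (b * z) := by rw [← e2]; group
    · intro h
      constructor
      · rw [← h z hzV]; group
      · rw [← h b hbV]; group
  have hqN : q ∈ N := hmemN q (by rw [hq1]; exact hzV) (by rw [hq2]; exact hbzV)
  have huN : u ∈ N := hmemN u (by rw [hu1]; exact hbzV) (by rw [hu2]; exact hbV)
  have hq3 : q * (b * z) * q⁻¹ = b := by
    calc q * (b * z) * q⁻¹ = (q * b * q⁻¹) * (q * z * q⁻¹) := by group
      _ = b * (z * z) := by rw [hq1, hq2]; group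
      _ = b := by rw [hzz, mul_one]
  have hu3 : u * (b * z) * u⁻¹ = z := by
    calc u * (b * z) * u⁻¹ = (u * b * u⁻¹) * (u * z * u⁻¹) := by group
      _ = (b * b) * z := by rw [hu1, hu2]; group
      _ = z := by rw [hbb, one_mul]
  have horb : MulAction.orbit N (⟨z, b⟩ : ConjPair G)
      = {⟨z, b⟩, ⟨z, b * z⟩, ⟨b, z⟩, ⟨b, b * z⟩, ⟨b * z, z⟩, ⟨b * z, b⟩} := by
    apply Set.Subset.antisymm
    · rintro _ ⟨n, rfl⟩
      change n • (⟨z, b⟩ : ConjPair G) ∈ _
      rw [hsmul]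
      have h1 : (n : G) * z * (n : G)⁻¹ ∈ V := (Subgroup.mem_normalizer_iff.mp n.2 z).mp hzV
      have h2 : (n : G) * b * (n : G)⁻¹ ∈ V := (Subgroup.mem_normalizer_iff.mp n.2 b).mp hbV
      have h3 : (n : G) * z * (n : G)⁻¹ ≠ 1 := by
        intro h; apply hz1
        have : z = (n : G)⁻¹ * ((n : G) * z * (n : G)⁻¹) * n := by group
        rw [this, h]; group
      have h4 : (n : G) * b * (n : G)⁻¹ ≠ 1 := by
        intro h; apply hb1
        have : b = (n : G)⁻¹ * ((n : G) * b * (n : G)⁻¹) * n := by group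
        rw [this, h]; group
      have h5 : (n : G) * b * (n : G)⁻¹ ≠ (n : G) * z * (n : G)⁻¹ := by
        intro h; apply hbz
        have : b = (n : G)⁻¹ * ((n : G) * b * (n : G)⁻¹) * n := by group
        rw [this, h]; group
      rcases (hV _).mp h1 with e1 | e1 | e1 | e1 <;> rcases (hV _).mp h2 with e2 | e2 | e2 | e2 <;>
        first
        | exact absurd e1 h3
        | exact absurd e2 h4
        | exact absurd (e2.trans e1.symm) h5
        | (rw [e1, e2]; simp)
    · intro p hp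
      simp only [Set.mem_insert_iff, Set.mem_singleton_iff] at hp
      rcases hp with rfl | rfl | rfl | rfl | rfl | rfl
      · exact ⟨1, by change (1 : N) • _ = _; rw [one_smul]⟩
      · refine ⟨⟨q, hqN⟩, ?_⟩
        change (⟨q, hqN⟩ : N) • (⟨z, b⟩ : ConjPair G) = _
        rw [hsmul]; simp only [hq1, hq2]
      · refine ⟨⟨q * u * q, N.mul_mem (N.mul_mem hqN huN) hqN⟩, ?_⟩
        change (⟨q * u * q, _⟩ : N) • (⟨z, b⟩ : ConjPair G) = _
        rw [hsmul, ConjPair.mk.injEq]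
        constructor
        · calc q * u * q * z * (q * u * q)⁻¹ = q * (u * (q * z * q⁻¹) * u⁻¹) * q⁻¹ := by group
            _ = b := by rw [hq1, hu1, hq3]
        · calc q * u * q * b * (q * u * q)⁻¹ = q * (u * (q * b * q⁻¹) * u⁻¹) * q⁻¹ := by group
            _ = z := by rw [hq2, hu3, hq1]
      · refine ⟨⟨q * u, N.mul_mem hqN huN⟩, ?_⟩
        change (⟨q * u, _⟩ : N) • (⟨z, b⟩ : ConjPair G) = _
        rw [hsmul, ConjPair.mk.injEq]
        constructor
        · calc q * u * z * (q * u)⁻¹ = q * (u * z * u⁻¹) * q⁻¹ := by group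
            _ = b := by rw [hu1, hq3]
        · calc q * u * b * (q * u)⁻¹ = q * (u * b * u⁻¹) * q⁻¹ := by group
            _ = b * z := by rw [hu2, hq2]
      · refine ⟨⟨u * q, N.mul_mem huN hqN⟩, ?_⟩
        change (⟨u * q, _⟩ : N) • (⟨z, b⟩ : ConjPair G) = _
        rw [hsmul, ConjPair.mk.injEq]
        constructor
        · calc u * q * z * (u * q)⁻¹ = u * (q * z * q⁻¹) * u⁻¹ := by group
            _ = b * z := by rw [hq1, hu1]
        · calc u * q * b * (u * q)⁻¹ = u * (q * b * q⁻¹) * u⁻¹ := by group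
            _ = z := by rw [hq2, hu3]
      · refine ⟨⟨u, huN⟩, ?_⟩
        change (⟨u, huN⟩ : N) • (⟨z, b⟩ : ConjPair G) = _
        rw [hsmul]; simp only [hu1, hu2]
  rw [Subgroup.relIndex, ← hstab, MulAction.index_stabilizer, horb]
  have n1 : z ≠ b := hbz.symm
  rw [Set.ncard_insert_of_notMem, Set.ncard_insert_of_notMem, Set.ncard_insert_of_notMem,
    Set.ncard_insert_of_notMem, Set.ncard_insert_of_notMem, Set.ncard_singleton] <;>
  simp [hz1, hb1, hbz, n1]


/-- Non-central elements of `Q` are conjugate in `Q` to their product with `z`. -/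
theorem ES.exists_conj {Q : Subgroup G} {z : G} (h : ES Q z) {b : G} (hb : b ∈ Q) (hb1 : b ≠ 1)
    (hbz : b ≠ z) : ∃ q ∈ Q, q * b * q⁻¹ = b * z := by
  by_contra hcon
  push Not at hcon
  have : ∀ q ∈ Q, q * b = b * q := by
    intro q hq
    by_contra hne
    exact hcon q hq (h.conj_eq_of_not_comm hq hb hne)
  rcases h.cent b this with h1 | h1
  · exact hb1 h1
  · exact hbz h1

/-- If a conjugate `b = g z g⁻¹ ≠ z` of `z` lies in `Q` (of order more than 8), then `z` lies in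
`g Q g⁻¹`. -/
theorem z_mem_conj [Finite G] {Q : Subgroup G} {z : G} (h : ES Q z) (g : G)
    (hbQ : g * z * g⁻¹ ∈ Q) (hbz : g * z * g⁻¹ ≠ z) (hcard : 8 < Nat.card Q) :
    z ∈ Q.map (MulAut.conj g).toMonoidHom := by
  have hb := h.conj g
  set b := g * z * g⁻¹ with hbdef
  set Qb := Q.map (MulAut.conj g).toMonoidHom with hQb
  by_contra hz
  obtain ⟨x, hx, hxz⟩ : ∃ x ∈ Qb, z * x * z⁻¹ = x * b := by
    by_contra hcon
    push Not at hcon
    exact caseB_false h hb hbQ hbz hz hcon hcard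
  obtain ⟨q, hq, hqb⟩ := h.exists_conj hbQ hb.z1 hbz
  have hq1 : q * z * q⁻¹ = z := by rw [h.zc q hq]; group
  have hq3 : q * (b * z) * q⁻¹ = b := by
    calc q * (b * z) * q⁻¹ = (q * b * q⁻¹) * (q * z * q⁻¹) := by group
      _ = b * (z * z) := by rw [hq1, hqb]; group
      _ = b := by rw [h.zz, mul_one]
  have hu1 : x⁻¹ * z * x = b * z := by
    calc x⁻¹ * z * x = x⁻¹ * (z * x * z⁻¹) * z := by group
      _ = b * z := by rw [hxz]; group
  have hu2 : x⁻¹ * b * x = b := by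
    calc x⁻¹ * b * x = x⁻¹ * (b * x) := by group
      _ = b := by rw [← hb.zc x hx]; group
  have hu3 : x⁻¹ * (b * z) * x = z := by
    calc x⁻¹ * (b * z) * x = (x⁻¹ * b * x) * (x⁻¹ * z * x) := by group
      _ = (b * b) * z := by rw [hu1, hu2]; group
      _ = z := by rw [hb.zz, one_mul]
  set k := q * x⁻¹ * q with hk
  have hk1 : k * z * k⁻¹ = b := by
    calc k * z * k⁻¹ = q * (x⁻¹ * (q * z * q⁻¹) * x) * q⁻¹ := by rw [hk]; group
      _ = b := by rw [hq1, hu1, hq3]
  have hk2 : k * b * k⁻¹ = z := by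
    calc k * b * k⁻¹ = q * (x⁻¹ * (q * b * q⁻¹) * x) * q⁻¹ := by rw [hk]; group
      _ = z := by rw [hqb, hu3, hq1]
  have hc : (g⁻¹ * k) * z = z * (g⁻¹ * k) := by
    calc (g⁻¹ * k) * z = g⁻¹ * (k * z * k⁻¹) * k := by group
      _ = g⁻¹ * (g * z * g⁻¹) * k := by rw [hk1]
      _ = z * (g⁻¹ * k) := by group
  have := h.norm _ hc b hbQ
  apply hz
  rw [hQb, mem_map_conj_iff]
  have e : g⁻¹ * k * b * (g⁻¹ * k)⁻¹ = g⁻¹ * (k * b * k⁻¹) * g := by group
  rw [e, hk2] at this
  exact this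

/-- The four-group `{1, z, b, b z}`. -/
def fourSub (z b : G) (hzz : z * z = 1) (hbb : b * b = 1) (hzb : z * b = b * z) : Subgroup G where
  carrier := {x | x = 1 ∨ x = z ∨ x = b ∨ x = b * z}
  one_mem' := Or.inl rfl
  mul_mem' := by
    have e1 : ∀ t, z * (z * t) = t := fun t => by rw [← mul_assoc, hzz, one_mul]
    have e2 : ∀ t, b * (b * t) = t := fun t => by rw [← mul_assoc, hbb, one_mul]
    have e3 : ∀ t, z * (b * t) = b * (z * t) := fun t => by rw [← mul_assoc, hzb, mul_assoc]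
    rintro x y (rfl | rfl | rfl | rfl) (rfl | rfl | rfl | rfl) <;>
      simp [mul_assoc, hzz, hbb, hzb, e1, e2, e3]
  inv_mem' := by
    have i1 : z⁻¹ = z := inv_eq_of_mul_eq_one_left hzz
    have i2 : b⁻¹ = b := inv_eq_of_mul_eq_one_left hbb
    rintro x (rfl | rfl | rfl | rfl) <;> simp [i1, i2, hzb]

theorem mem_sup_pair (A B : Subgroup G) (z b : G) (hA : ∀ c, c ∈ A ↔ c = 1 ∨ c = z)
    (hB : ∀ c, c ∈ B ↔ c = 1 ∨ c = b) (hzz : z * z = 1) (hbb : b * b = 1) (hzb : z * b = b * z) :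
    ∀ v, v ∈ A ⊔ B ↔ v = 1 ∨ v = z ∨ v = b ∨ v = b * z := by
  intro v
  constructor
  · intro hv
    have hle : A ⊔ B ≤ fourSub z b hzz hbb hzb := by
      apply sup_le
      · intro c hc
        rcases (hA c).mp hc with h | h
        · exact Or.inl h
        · exact Or.inr (Or.inl h)
      · intro c hc
        rcases (hB c).mp hc with h | h
        · exact Or.inl h
        · exact Or.inr (Or.inr (Or.inl h))
    exact hle hv
  · have hz : z ∈ A ⊔ B := (le_sup_left : A ≤ A ⊔ B) ((hA z).mpr (Or.inr rfl))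
    have hb : b ∈ A ⊔ B := (le_sup_right : B ≤ A ⊔ B) ((hB b).mpr (Or.inr rfl))
    rintro (rfl | rfl | rfl | rfl)
    · exact Subgroup.one_mem _
    · exact hz
    · exact hb
    · exact Subgroup.mul_mem _ hb hz

end Cfsg.Agent.Lib.Helper92ES
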