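import Mathlib
import Cfsg.Agent.S2904
import Cfsg.Agent.Lib.Helper94HupPrim
import Cfsg.Agent.Lib.Helper94HupNtfinal

/-!
PROJECT 92 (Huppert), piece `nt` : number theory assembly.
-/

set_option autoImplicit false

namespace Cfsg.Agent.Lib.Helper94HupNt

open Cfsg.Agent.Lib.Helper94HupPrim Cfsg.Agent.Lib.Helper94HupNtfinal

theorem bound {q n m d : ℕ} (hq : q.Prime) (hn : 3 ≤ n)
    (key : ∀ r b : ℕ, r.Prime → r ∣ q ^ n - 1 → (∀ i : ℕ, 0 < i → i < n → ¬ r ∣ q ^ i - 1) →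
      r ^ b ∣ q ^ n - 1 → ∃ s k k' : ℕ, s.Prime ∧ s ∣ q ^ m - 1 ∧ s ^ k ≤ d ∧ 1 ≤ k' ∧ k' ≤ k ∧
        r ^ b ∣ s ^ (2 * k') - 1)
    {r b : ℕ} (hr : r.Prime) (hrd : r ∣ q ^ n - 1)
    (hprim : ∀ i : ℕ, 0 < i → i < n → ¬ r ∣ q ^ i - 1) (hb : r ^ b ∣ q ^ n - 1) :
    ∃ s k' : ℕ, s.Prime ∧ s ∣ q ^ m - 1 ∧ 1 ≤ k' ∧ s ^ k' ≤ d ∧ r ^ b ≤ s ^ k' + 1 := by
  have hlt : n < r := lt_of_primitive hq.one_lt (by omega) hr hrd hprim
  obtain ⟨s, k, k', hs, hsd, hsk, hk1, hkk, hdv⟩ := key r b hr hrd hprim hb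
  refine ⟨s, k', hs, hsd, hk1, (Nat.pow_le_pow_right hs.pos hkk).trans hsk, ?_⟩
  have h2 : 2 ≤ s ^ k' := by
    calc 2 ≤ s := hs.two_le
      _ = s ^ 1 := (pow_one s).symm
      _ ≤ s ^ k' := Nat.pow_le_pow_right hs.pos hk1
  rcases dvd_or_dvd_of_dvd_sq hr (by omega) hdv with h | h
  · have := Nat.le_of_dvd (by omega) h
    omega
  · exact Nat.le_of_dvd (by omega) h

theorem nt {q n m d : ℕ} (hq : q.Prime) (hn : 3 ≤ n) (h26 : ¬ (q = 2 ∧ n = 6)) (hnm : n = m * d)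
    (hm : 1 ≤ m) (hd : 2 ≤ d)
    (key : ∀ r b : ℕ, r.Prime → r ∣ q ^ n - 1 → (∀ i : ℕ, 0 < i → i < n → ¬ r ∣ q ^ i - 1) →
      r ^ b ∣ q ^ n - 1 → ∃ s k k' : ℕ, s.Prime ∧ s ∣ q ^ m - 1 ∧ s ^ k ≤ d ∧ 1 ≤ k' ∧ k' ≤ k ∧
        r ^ b ∣ s ^ (2 * k') - 1) :
    q = 3 ∧ n = 4 := by
  have hdn : d ≤ n := by
    rw [hnm]; exact Nat.le_mul_of_pos_left _ (by omega)
  -- every primitive prime is n + 1 and divides only once
  have stepA : ∀ r : ℕ, r.Prime → r ∣ q ^ n - 1 → (∀ i : ℕ, 0 < i → i < n → ¬ r ∣ q ^ i - 1) →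
      r = n + 1 ∧ ¬ r ^ 2 ∣ q ^ n - 1 := by
    intro r hr hrd hprim
    have hlt : n < r := lt_of_primitive hq.one_lt (by omega) hr hrd hprim
    constructor
    · obtain ⟨s, k', _, _, _, h1, h2⟩ := bound hq hn key hr hrd hprim (b := 1) (by rwa [pow_one])
      rw [pow_one] at h2
      omega
    · intro hsq
      obtain ⟨s, k', _, _, _, h1, h2⟩ := bound hq hn key hr hrd hprim (b := 2) hsq
      have : r * 2 ≤ r ^ 2 := by
        rw [sq]; exact Nat.mul_le_mul_left _ hr.two_le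
      omega
  obtain ⟨r₀, hr₀, hrd₀, hprim₀⟩ := Cfsg.Agent.S2904.result q n hq.one_lt (by omega) h26
    (by rintro ⟨h, _⟩; omega)
  have hlt₀ : n < r₀ := lt_of_primitive hq.one_lt (by omega) hr₀ hrd₀ hprim₀
  obtain ⟨s, k', hs, hsd, hk1, h1, h2⟩ := bound hq hn key hr₀ hrd₀ hprim₀ (b := 1)
    (by rwa [pow_one])
  rw [pow_one] at h2
  have hr₀n : r₀ = n + 1 := (stepA r₀ hr₀ hrd₀ hprim₀).1
  have hsn : s ^ k' = n := by omega
  have hdn' : d = n := by omega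
  have hm1 : m = 1 := by
    rw [hdn'] at hnm
    have : m * n = 1 * n := by omega
    exact Nat.eq_of_mul_eq_mul_right (by omega) this
  -- n is even
  have hneven : Even n := by
    have hodd : Odd r₀ := hr₀.odd_of_ne_two (by omega)
    rw [hr₀n] at hodd
    rcases Nat.even_or_odd n with h | h
    · exact h
    · exact absurd (h.add_odd odd_one) (by simpa using hodd)
  have hs2 : s = 2 := by
    rw [← hsn] at hneven
    have : Even s := (Nat.even_pow.1 hneven).1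
    exact ((Nat.Prime.even_iff hs).1 this)
  subst hs2
  subst hm1
  rw [pow_one] at hsd
  have hq2 : q ≠ 2 := by
    rintro rfl
    norm_num at hsd
  have hk2 : 2 ≤ k' := by
    by_contra hlt
    have : k' = 1 := by omega
    rw [this] at hsn
    omega
  have := nt_final hq hq2 hk2 (by rw [hsn]; exact stepA)
  refine ⟨this.1, ?_⟩
  rw [← hsn, this.2]; norm_num

end Cfsg.Agent.Lib.Helper94HupNt
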