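import Mathlib
import Cfsg.Agent.Lib.Helper92HupDefs
import Cfsg.Agent.Lib.Helper92HupN2
import Cfsg.Agent.Lib.Helper12HupAct
import Cfsg.Agent.Lib.Helper12HupSq
import Cfsg.Agent.Lib.Helper17HupAut
import Cfsg.Agent.Lib.Helper17HupScal
import Cfsg.Agent.Lib.Helper17HupSemi
import Cfsg.Agent.Lib.Helper57HupField
import Cfsg.Agent.Lib.Helper57HupSpan
import Cfsg.Agent.Lib.Helper66HupChief
import Cfsg.Agent.Lib.Helper66HupKey
import Cfsg.Agent.Lib.Helper66HupN26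
import Cfsg.Agent.Lib.Helper66HupSmall
import Cfsg.Agent.Lib.Helper94HupIrr
import Cfsg.Agent.Lib.Helper94HupNt

/-!
PROJECT 92 : hub; the piece `key` from `key_of`, `irr`, `act`.
-/

set_option autoImplicit false

namespace Cfsg.Agent.Lib.Helper92HupHub

open Subgroup
open scoped commutatorElement
open Cfsg.Agent.Lib.Helper92HupDefs

universe u v w

theorem key {q n : ℕ} (hq : q.Prime) {G : Type u} {V : Type v} [Group G] [Finite G]
    [AddCommGroup V] [Finite V] [DistribMulAction G V] [FaithfulSMul G V]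
    (hV : ∀ v : V, q • v = 0) (hcard : Nat.card V = q ^ n) (hG : q ^ n - 1 ∣ Nat.card G)
    {A B C : Subgroup G} [B.Normal] [C.Normal] {s k r b : ℕ} (hs : s.Prime) (hr : r.Prime)
    (hrd : r ∣ q ^ n - 1) (hprim : ∀ i : ℕ, 0 < i → i < n → ¬ r ∣ q ^ i - 1)
    (hb : r ^ b ∣ q ^ n - 1) (hCr : C.index < r) (hCA : C ≤ centralizer (A : Set G))
    (hAcyc : IsCyclic A) (hAB : A < B) (hBC : B ≤ C) (hcomm : ∀ x ∈ B, ∀ y ∈ B, ⁅x, y⁆ ∈ A)
    (hpow : ∀ x ∈ B, x ^ s ∈ A) (hZ : ∀ x ∈ B, (∀ y ∈ B, x * y = y * x) → x ∈ A)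
    (hidx : A.relIndex B = s ^ (2 * k)) (hrs : r ≠ s) (hrA : ¬ r ∣ Nat.card A) :
    ∃ k' : ℕ, 1 ≤ k' ∧ k' ≤ k ∧ r ^ b ∣ s ^ (2 * k') - 1 :=
  Cfsg.Agent.Lib.Helper66HupKey.key_of hG hr hrd hb hCr hCA hAB hZ
    (fun _ hz => Cfsg.Agent.Lib.Helper94HupIrr.cyclic_centralizer hq hV hcard hr hrd hprim hz)
    (fun _ h1 h2 h3 h4 h5 h6 => Cfsg.Agent.Lib.Helper12HupAct.act hs hr hrs hAcyc hAB.le
      (fun a ha _ hx => (mem_centralizer_iff.mp (hCA (hBC hx))) a ha) hcomm hpow hZ hidx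
      h1 h2 h3 h4 h5 hrA h6)

end Cfsg.Agent.Lib.Helper92HupHub
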