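import Mathlib
import Cfsg.Agent.Lib.Helper92HupDefs
import Cfsg.Agent.Lib.Helper92HupHub

/-!
PROJECT 92 : Huppert's theorem, assembly.
-/

set_option autoImplicit false

namespace Cfsg.Agent.Lib.Helper92HupMain

open Subgroup
open scoped commutatorElement
open Cfsg.Agent.Lib.Helper92HupDefs
open Cfsg.Agent.Lib.Helper92HupHub Cfsg.Agent.Lib.Helper92HupN2 Cfsg.Agent.Lib.Helper12HupSq
open Cfsg.Agent.Lib.Helper17HupAut Cfsg.Agent.Lib.Helper17HupScal Cfsg.Agent.Lib.Helper17HupSemi
open Cfsg.Agent.Lib.Helper57HupField Cfsg.Agent.Lib.Helper57HupSpan Cfsg.Agent.Lib.Helper66HupChief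
open Cfsg.Agent.Lib.Helper66HupN26 Cfsg.Agent.Lib.Helper66HupSmall Cfsg.Agent.Lib.Helper94HupNt
open Cfsg.Agent.Lib.Helper94HupPrim

universe u v w

theorem main2 {q : ℕ} (hq : q.Prime) {G : Type u} {V : Type v} {L : Type w} [Group G] [Finite G]
    [AddCommGroup V] [Finite V] [Nontrivial V] [DistribMulAction G V] [FaithfulSMul G V]
    [Field L] [Finite L] [Module L V]
    (hV : ∀ v : V, q • v = 0) (hsol : Group.IsSolvable G)
    (htrans : ∀ v w : V, v ≠ 0 → w ≠ 0 → ∃ g : G, g • v = w)
    (σ : G →* (L ≃+* L)) (hsemi : ∀ (g : G) (l : L) (v : V), g • (l • v) = σ g l • g • v)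
    {A : Subgroup G} (hAn : A.Normal) (hAc : ∀ a ∈ A, ∀ b ∈ A, a * b = b * a)
    (hAmax : ∀ A' : Subgroup G, A'.Normal → (∀ a ∈ A', ∀ b ∈ A', a * b = b * a) → A ≤ A' → A' = A)
    (hAs : A ≤ scal G V L) (hker : centralizer (A : Set G) ≤ σ.ker) :
    (∃ (F : Type) (_ : Field F) (_ : Fintype F) (e : V ≃+ F),
      ∀ g : G, ∃ (a : F) (τ : F ≃+* F), ∀ v : V, e (g • v) = a * τ (e v)) ∨
    Nat.card V ∈ ({9, 25, 49, 121, 529, 81} : Set ℕ) := by
  have hscn : (scal G V L).Normal := scal_normal σ hsemi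
  have hscyc : IsCyclic (scal G V L) := scal_cyclic
  have hA : scal G V L = A := by
    refine hAmax _ hscn ?_ hAs
    intro a ha b hb
    have := hscyc.isMulCommutative.is_comm.comm ⟨a, ha⟩ ⟨b, hb⟩
    exact congrArg Subtype.val this
  have hAcyc : IsCyclic A := hA ▸ hscyc
  obtain ⟨m, hm1, hLm⟩ := card_field hq (L := L) hV
  have hVd : Nat.card V = Nat.card L ^ (Module.finrank L V) := Module.natCard_eq_pow_finrank
  obtain ⟨d, hd⟩ : ∃ d, d = Module.finrank L V := ⟨_, rfl⟩
  rw [← hd] at hVd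
  by_cases hd1 : d = 1
  · left
    exact semilinear_of_card σ hsemi (by rw [hVd, hd1, pow_one])
  right
  have hd0 : d ≠ 0 := by
    rw [hd]; exact Module.finrank_pos.ne'
  have hd2 : 2 ≤ d := by omega
  obtain ⟨n, hn⟩ : ∃ n, n = m * d := ⟨_, rfl⟩
  have hVn : Nat.card V = q ^ n := by rw [hVd, hLm, ← pow_mul, hn]
  have hClin : σ.ker = lin G V L := ker_eq_lin σ hsemi
  have hCA : σ.ker ≤ centralizer (A : Set G) := by
    rw [hClin, ← hA]; exact lin_le_centralizer_scal
  have hCidx : σ.ker.index ≤ m := by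
    rw [index_ker]
    have : Finite (L ≃+* L) := Finite.of_injective (fun e : L ≃+* L => (e : L → L))
      DFunLike.coe_injective
    calc Nat.card σ.range ≤ Nat.card (L ≃+* L) :=
          Nat.card_le_card_of_injective _ Subtype.val_injective
      _ ≤ m := card_ringAut_le hq hLm
  have hAcard : Nat.card A ∣ q ^ m - 1 := by
    rw [← hA, ← hLm]; exact card_scal_dvd
  have hG : q ^ n - 1 ∣ Nat.card G := by
    rw [← hVn]; exact card_sub_one_dvd htrans
  have hq2 : 2 ≤ q := hq.two_le
  have hqm : 1 < q ^ m := Nat.one_lt_pow (by omega) hq.one_lt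
  have hAC : A ≤ σ.ker := by
    refine le_trans ?_ hker
    intro a ha
    rw [mem_centralizer_iff]
    intro b hb
    exact hAc b hb a ha
  have hmlt : m < q ^ m := Nat.lt_pow_self hq.one_lt
  have hAltC : A < σ.ker := by
    refine lt_of_le_of_ne hAC ?_
    intro he
    have h1 : Nat.card G = Nat.card A * σ.ker.index := by
      rw [he]; exact (card_mul_index _).symm
    have h2 : Nat.card A ≤ q ^ m - 1 := Nat.le_of_dvd (by omega) hAcard
    have h3 : q ^ n - 1 ≤ Nat.card G := Nat.le_of_dvd Nat.card_pos hG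
    have h4 : q ^ (m * 2) ≤ q ^ n := by
      rw [hn]; exact Nat.pow_le_pow_right (by omega) (Nat.mul_le_mul_left _ hd2)
    have h5 : q ^ (m * 2) = q ^ m * q ^ m := by rw [pow_mul, pow_two]
    have h6 : Nat.card G ≤ (q ^ m - 1) * m := by
      rw [h1]; exact Nat.mul_le_mul h2 hCidx
    have h7 : (q ^ m - 1) * m < q ^ m * q ^ m - 1 := by
      obtain ⟨t, ht⟩ : ∃ t, q ^ m = t + 1 := ⟨q ^ m - 1, by omega⟩
      rw [ht] at hmlt ⊢
      have : (t + 1 - 1) * m ≤ t * t := by
        simp only [Nat.add_sub_cancel]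
        exact Nat.mul_le_mul_left _ (by omega)
      have h8 : (t + 1) * (t + 1) - 1 = t * t + 2 * t := by
        have : (t + 1) * (t + 1) = t * t + 2 * t + 1 := by ring
        omega
      rw [h8]
      have : 0 < t := by omega
      omega
    omega
  obtain ⟨B, s, hBn, hs, hAB, hBC, hcomm, hpow⟩ := exists_chief hsol hAltC
  have hAZ : ∀ a ∈ A, ∀ x ∈ B, a * x = x * a := by
    intro a ha x hx
    exact (mem_centralizer_iff.mp (hCA (hBC hx))) a ha
  have hZ : ∀ x ∈ B, (∀ y ∈ B, x * y = y * x) → x ∈ A := by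
    have hZn : (B ⊓ centralizer (B : Set G)).Normal := inferInstance
    have hZA : B ⊓ centralizer (B : Set G) = A := by
      refine hAmax _ hZn ?_ ?_
      · intro a ha b hb
        exact ((mem_centralizer_iff.mp (mem_inf.mp ha).2) b (mem_inf.mp hb).1).symm
      · intro a ha
        refine mem_inf.mpr ⟨hAB.le ha, ?_⟩
        rw [mem_centralizer_iff]
        intro x hx
        exact (hAZ a ha x hx).symm
    intro x hx hxy
    rw [← hZA]
    refine mem_inf.mpr ⟨hx, ?_⟩
    rw [mem_centralizer_iff]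
    intro y hy
    exact (hxy y hy).symm
  have hBlin : B ≤ lin G V L := hBC.trans hClin.le
  have hle : A.relIndex B ≤ d ^ 2 := by
    rw [hd]; exact relIndex_le_sq hAB.le hAs hBlin hcomm hZ
  obtain ⟨k, hk⟩ := relIndex_eq_sq hs hAcyc B hAB.le hAZ hcomm hpow hZ
  have hk1 : 1 ≤ k := by
    by_contra hk0
    have : k = 0 := by omega
    rw [this, mul_zero, pow_zero, relIndex_eq_one] at hk
    exact absurd hk (not_le_of_gt hAB)
  have hsk : s ^ k ≤ d := by
    rw [hk, mul_comm, pow_mul] at hle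
    exact (Nat.pow_le_pow_iff_left (by norm_num)).mp hle
  have hsA : s ∣ q ^ m - 1 := (dvd_card_of_lt hs hAB hAZ hcomm hpow hZ).trans hAcard
  have hs_le : s ≤ s ^ k := by
    calc s = s ^ 1 := (pow_one s).symm
      _ ≤ s ^ k := Nat.pow_le_pow_right hs.pos hk1
  by_cases hn2 : n = 2
  · -- the case `n = 2`
    have hm : m = 1 := by
      rw [hn2] at hn
      by_contra hne
      have : 2 ≤ m := by omega
      nlinarith
    have hdd : d = 2 := by
      rw [hn2, hm, one_mul] at hn; exact hn.symm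
    have hs2 : s = 2 := by
      have := hs.two_le
      omega
    have hk' : k = 1 := by
      by_contra hne
      have h2 : 2 ≤ k := by omega
      have : s ^ 2 ≤ s ^ k := Nat.pow_le_pow_right hs.pos h2
      rw [hs2] at this hsk
      omega
    have hCtop : σ.ker = ⊤ := by
      rw [← index_eq_one]
      have : σ.ker.index ≠ 0 := index_ne_zero_of_finite
      omega
    have hAcen : A ≤ center G := by
      intro a ha
      rw [mem_center_iff]
      intro g
      have hg : g ∈ σ.ker := by rw [hCtop]; exact mem_top g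
      exact ((mem_centralizer_iff.mp (hCA hg)) a ha).symm
    have hidx4 : A.relIndex B = 4 := by rw [hk, hs2, hk']; norm_num
    have hCB : ∀ g : G, (∀ b ∈ B, g * b = b * g) → g ∈ A := by
      intro g hg
      rw [← hA]
      refine scalar_of_commute hAB.le hAs hBlin hcomm hZ ?_ ?_ hg
      · rw [hidx4, ← hd, hdd]; norm_num
      · rw [← hClin, hCtop]; exact mem_top g
    have h24 : A.index ∣ 24 := index_dvd_24 hAcyc hAcen hAB.le hcomm (hs2 ▸ hpow) hidx4 hCB
    have h1 : q ^ 2 - 1 ∣ (q - 1) * 24 := by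
      rw [hn2] at hG
      refine hG.trans ?_
      rw [← card_mul_index A]
      rw [hm, pow_one] at hAcard
      exact Nat.mul_dvd_mul hAcard h24
    have h2 : q ^ 2 - 1 = (q - 1) * (q + 1) := by
      obtain ⟨t, rfl⟩ : ∃ t, q = t + 1 := ⟨q - 1, by omega⟩
      have : (t + 1) ^ 2 = t * (t + 1 + 1) + 1 := by ring
      simp only [Nat.add_sub_cancel]
      omega
    rw [h2] at h1
    have h3 : q + 1 ∣ 24 := Nat.dvd_of_mul_dvd_mul_left (by omega) h1
    have h4 : q + 1 ≤ 24 := Nat.le_of_dvd (by norm_num) h3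
    have h5 : 2 ∣ q - 1 := by
      rw [hm, pow_one, hs2] at hsA; exact hsA
    rw [hVn, hn2]
    have h6 : q ≤ 23 := by omega
    clear h1 h2 hG hVn hLm hAcard hsA hmlt hqm
    interval_cases q <;> first | (exfalso; revert h3; decide) | (exfalso; revert h5; decide) | simp
  by_cases h26 : q = 2 ∧ n = 6
  · exfalso
    obtain ⟨hq2', hn6⟩ := h26
    subst hq2'
    have hmd : m * d = 6 := by rw [← hn, hn6]
    have hm3 : m ≤ 3 := by nlinarith
    have hcase : m = 2 ∧ d = 3 ∧ s = 3 ∧ k = 1 := by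
      interval_cases m
      · exfalso
        simp at hsA
        exact hs.one_lt.ne' hsA
      · have hd3 : d = 3 := by omega
        have hs3 : s = 3 := by
          have : s ∣ 3 := by simpa using hsA
          exact (Nat.prime_dvd_prime_iff_eq hs Nat.prime_three).mp this
        refine ⟨rfl, hd3, hs3, ?_⟩
        by_contra hne
        have h2 : 2 ≤ k := by omega
        have : s ^ 2 ≤ s ^ k := Nat.pow_le_pow_right hs.pos h2
        rw [hs3] at this hsk
        omega
      · exfalso
        have hd2' : d = 2 := by omega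
        have hs7 : s = 7 := by
          have : s ∣ 7 := by simpa using hsA
          exact (Nat.prime_dvd_prime_iff_eq hs (by norm_num)).mp this
        omega
    obtain ⟨hm2, hd3, hs3, hk1'⟩ := hcase
    have h7G : 7 ∣ Nat.card G := by
      refine Dvd.dvd.trans ?_ hG
      rw [hn6]; norm_num
    have : Fact (Nat.Prime 7) := ⟨by norm_num⟩
    obtain ⟨w, hw⟩ := exists_prime_orderOf_dvd_card' 7 h7G
    have hwC : w ∈ σ.ker :=
      mem_of_index_lt (r := 7) (by norm_num) (by omega) ⟨1, by rw [hw, pow_one]⟩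
    have hA3 : Nat.card A ∣ 3 := by
      rw [hm2] at hAcard; simpa using hAcard
    have h7A : ¬ 7 ∣ Nat.card A := by
      intro h
      have := Nat.le_of_dvd (by norm_num) (h.trans hA3)
      omega
    have hidx9 : A.relIndex B = 9 := by rw [hk, hs3, hk1']; norm_num
    have hwB := commute_of_order_seven hAB.le hidx9 hw (by
      rw [normalizer_eq_top_iff.mpr hBn]; exact mem_top w) (hCA hwC) h7A
    have hwA : w ∈ A := by
      rw [← hA]
      refine scalar_of_commute hAB.le hAs hBlin hcomm hZ ?_ (hClin ▸ hwC) hwB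
      rw [hidx9, ← hd, hd3]; norm_num
    apply h7A
    rw [← hw]
    have := orderOf_dvd_natCard (⟨w, hwA⟩ : A)
    rwa [Subgroup.orderOf_mk] at this
  · have hn3 : 3 ≤ n := by
      have : 2 ≤ n := by
        rw [hn]; nlinarith
      omega
    have hmn : m < n := by
      rw [hn]; nlinarith
    have hdn : d ≤ n := by
      rw [hn]; nlinarith
    have hfin := nt hq hn3 h26 hn hm1 hd2 (by
      intro r b hr hrd hprim hb
      have hnr : n < r := lt_of_primitive hq.one_lt (by omega) hr hrd hprim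
      have hrs : r ≠ s := by omega
      have hrA : ¬ r ∣ Nat.card A := fun h => hprim m (by omega) hmn (h.trans hAcard)
      obtain ⟨k', h1, h2, h3⟩ := key hq hV hVn hG hs hr hrd hprim hb (C := σ.ker) (by omega) hCA
        hAcyc hAB hBC hcomm hpow hZ hk hrs hrA
      exact ⟨s, k, k', hs, hsA, hsk, h1, h2, h3⟩)
    rw [hVn, hfin.1, hfin.2]
    simp

theorem main {q : ℕ} (hq : q.Prime) {G : Type u} {V : Type v} [Group G] [Finite G]
    [AddCommGroup V] [Finite V] [Nontrivial V] [DistribMulAction G V] [FaithfulSMul G V]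
    (hV : ∀ v : V, q • v = 0) (hsol : Group.IsSolvable G)
    (htrans : ∀ v w : V, v ≠ 0 → w ≠ 0 → ∃ g : G, g • v = w) :
    (∃ (F : Type) (_ : Field F) (_ : Fintype F) (e : V ≃+ F),
      ∀ g : G, ∃ (a : F) (τ : F ≃+* F), ∀ v : V, e (g • v) = a * τ (e v)) ∨
    Nat.card V ∈ ({9, 25, 49, 121, 529, 81} : Set ℕ) := by
  obtain ⟨A, hAn, hAc, hAmax⟩ := exists_max_abelian_normal G
  obtain ⟨L, _, _, _, σ, hsemi, hAs, hker⟩ := exists_field htrans A hAc
  exact main2 hq hV hsol htrans σ hsemi hAn hAc hAmax hAs hker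

end Cfsg.Agent.Lib.Helper92HupMain
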