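import Cfsg.Agent.Lib.Helper92Transfer2

set_option autoImplicit false

namespace Cfsg.Agent.Lib.Helper92Transfer3

open MulAction Subgroup Cfsg.Agent.Lib.Helper92Transfer Cfsg.Agent.Lib.Helper92Transfer2

variable {G A : Type*} [Group G] [CommGroup A]

/-- Extremal form of the Thompson transfer lemma: `H` a 2-subgroup of odd index, `d ∈ H` an involution
with `φ d ≠ 1`, `φ` two-valued, and the transfer of `d` trivial.  Then some conjugate `g⁻¹ d g` lies in
the kernel of `φ` and `g⁻¹ C_H(d) g ≤ H`. -/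
theorem thompson_extremal [Finite G] (H : Subgroup G) (hH : IsPGroup 2 H)
    (hodd : Odd H.index) (φ : H →* A)
    (d : G) (hd : d ∈ H) (hd2 : d * d = 1)
    (hφ : ∀ h : H, φ h = 1 ∨ φ h = φ ⟨d, hd⟩) (hσ : φ ⟨d, hd⟩ ≠ 1)
    (hV : MonoidHom.transfer φ d = 1) :
    ∃ g : G, (∃ h : g⁻¹ * d * g ∈ H, φ ⟨_, h⟩ = 1) ∧ ∀ x ∈ H, x * d = d * x → g⁻¹ * x * g ∈ H := by
  classical
  have : Fact (Nat.Prime 2) := ⟨Nat.prime_two⟩
  rw [transfer_involution H φ d hd hd2 hφ] at hV
  set σ := φ ⟨d, hd⟩ with hσdef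
  have hσ2 : σ ^ 2 = 1 := by
    rw [hσdef, ← map_pow]
    have : (⟨d, hd⟩ : H) ^ 2 = 1 := Subtype.ext (by simp [pow_two, hd2])
    rw [this, map_one]
  have heven : Nat.card {c : G ⧸ H // Bad H φ d σ c} % 2 = 0 := by
    by_contra hne
    have h4 : Nat.card {c : G ⧸ H // Bad H φ d σ c}
        = 2 * (Nat.card {c : G ⧸ H // Bad H φ d σ c} / 2) + 1 := by omega
    rw [h4, pow_succ, pow_mul, hσ2, one_pow, one_mul] at hV
    exact hσ hV
  set C : Subgroup G := H ⊓ Subgroup.centralizer ({d} : Set G) with hCdef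
  have hC : ∀ x ∈ C, x * d = d * x := by
    intro x hx
    exact Subgroup.mem_centralizer_singleton_iff.mp (Subgroup.mem_inf.mp hx).2
  have hC2 : IsPGroup 2 C := hH.to_le inf_le_left
  have h1 := hC2.card_modEq_card_fixedPoints (goodSub H φ d σ C hC)
  have h5 : Nat.card {c : G ⧸ H // Bad H φ d σ c} + Nat.card {c : G ⧸ H // ¬ Bad H φ d σ c}
      = H.index := by
    rw [← Nat.card_sum]
    exact Nat.card_congr (Equiv.sumCompl _)
  obtain ⟨k, hk⟩ := hodd
  have h6 : Nat.card {c : G ⧸ H // ¬ Bad H φ d σ c} % 2 = 1 := by omega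
  have h7 : Nat.card (fixedPoints C (goodSub H φ d σ C hC)) % 2 = 1 := by
    have h8 : Nat.card (goodSub H φ d σ C hC) % 2
        = Nat.card (fixedPoints C (goodSub H φ d σ C hC)) % 2 := h1
    rw [← h8]
    exact h6
  have h9 : Nonempty (fixedPoints C (goodSub H φ d σ C hC)) := by
    by_contra hne
    rw [not_nonempty_iff] at hne
    rw [Nat.card_of_isEmpty] at h7
    omega
  obtain ⟨⟨⟨c, hc⟩, hfix⟩⟩ := h9
  induction c using QuotientGroup.induction_on with
  | H g =>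
    have hfix' : ∀ x ∈ C, g⁻¹ * x * g ∈ H := by
      intro x hx
      have h3 := hfix ⟨x, hx⟩
      have h4 : x • (QuotientGroup.mk g : G ⧸ H) = QuotientGroup.mk g :=
        congrArg Subtype.val h3
      exact (smul_mk_eq_iff H x g).mp h4
    have hdC : d ∈ C := Subgroup.mem_inf.mpr ⟨hd, Subgroup.mem_centralizer_singleton_iff.mpr rfl⟩
    refine ⟨g, ⟨hfix' d hdC, ?_⟩, ?_⟩
    · rcases hφ ⟨_, hfix' d hdC⟩ with h | h
      · exact h
      · exfalso
        apply hc
        rw [bad_mk_iff]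
        exact ⟨hfix' d hdC, h⟩
    · intro x hx hxd
      exact hfix' x (Subgroup.mem_inf.mpr ⟨hx, Subgroup.mem_centralizer_singleton_iff.mpr hxd⟩)

end Cfsg.Agent.Lib.Helper92Transfer3
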