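import Cfsg.Agent.Lib.Helper43BPDefs

set_option autoImplicit false

/-! Project 243, piece `alt3`: `A_3 = < x | x ^ 3 >`. -/

namespace Cfsg.Agent.Lib.Helper93SpAlt3

open Cfsg.Agent.Lib.Helper43BP

theorem exists_c : ∃ c : ↥(alternatingGroup (Fin 3)), c ^ 3 = 1 ∧ c ≠ 1 ∧
      ∀ g : ↥(alternatingGroup (Fin 3)), g = 1 ∨ g = c ∨ g = c ^ 2 :=
  ⟨⟨c3 0 1 2, Equiv.Perm.mem_alternatingGroup.2 (by decide)⟩, by decide, by decide, by decide⟩

theorem BP_alt3 : BP ↥(alternatingGroup (Fin 3)) 20 := by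
  obtain ⟨c, hc3', hc1, hall⟩ := exists_c
  have hc3 : orderOf c = 3 := orderOf_eq_prime hc3' hc1
  classical
  let rels : Finset (FreeGroup Unit) := {FreeGroup.of () ^ 3}
  have hrel : ∀ r ∈ (↑rels : Set (FreeGroup Unit)), FreeGroup.lift (fun _ => c) r = 1 := by
    intro r hr
    have : r = FreeGroup.of () ^ 3 := by simpa [rels] using hr
    subst this
    simp [hc3']
  let f := PresentedGroup.toGroup hrel
  let x : PresentedGroup (↑rels : Set (FreeGroup Unit)) := PresentedGroup.of ()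
  have hfx : f x = c := PresentedGroup.toGroup.of hrel
  have hx3 : x ^ 3 = 1 := by
    have h1 : (FreeGroup.of () ^ 3 : FreeGroup Unit) ∈ (↑rels : Set (FreeGroup Unit)) := by
      simp [rels]
    have h2 := PresentedGroup.one_of_mem h1
    rw [map_pow] at h2
    exact h2
  have htop : Subgroup.zpowers x = ⊤ := by
    rw [← PresentedGroup.closure_range_of (↑rels : Set (FreeGroup Unit)),
      Subgroup.zpowers_eq_closure]
    congr 1
    ext y
    constructor
    · rintro rfl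
      exact ⟨(), rfl⟩
    · rintro ⟨u, rfl⟩
      rfl
  refine ⟨Unit, rels, by simp [rels], ⟨MulEquiv.ofBijective f ⟨?_, ?_⟩⟩⟩
  · rw [injective_iff_map_eq_one]
    intro g hg
    obtain ⟨k, hk⟩ : g ∈ Subgroup.zpowers x := by rw [htop]; trivial
    simp only at hk
    subst hk
    rw [map_zpow, hfx] at hg
    have h3 := (orderOf_dvd_iff_zpow_eq_one).2 hg
    rw [hc3] at h3
    obtain ⟨l, rfl⟩ := h3
    rw [zpow_mul]
    have : x ^ ((3 : ℕ) : ℤ) = 1 := by rw [zpow_natCast, hx3]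
    rw [this, one_zpow]
  · intro g
    rcases hall g with rfl | rfl | rfl
    · exact ⟨1, map_one f⟩
    · exact ⟨x, hfx⟩
    · exact ⟨x ^ 2, by rw [map_pow, hfx]⟩

end Cfsg.Agent.Lib.Helper93SpAlt3
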