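import Cfsg.Agent.Lib.Helper96ExtDefs

set_option autoImplicit false

/-! PROJECT 96 (S5886), piece `A`. -/

namespace Cfsg.Agent.Lib.Helper94ExtA

open Module Cfsg.Agent.Lib.Helper96ExtDefs

variable {F K V : Type*} [Field F] [Field K] [Algebra F K] [AddCommGroup V] [Module F V] [Module K V]
  [IsScalarTower F K V] [Finite F] [Finite K] [Finite V]
variable {G : Subgroup (Module.End F V)ˣ}

omit [Finite F] [Finite K] [Finite V] in
theorem nrm_of_points (hm : 2 ≤ finrank K V) (g : (Module.End F V)ˣ)
    (H : ∀ a : V, a ≠ 0 → (pt F K a).map (g : Module.End F V) = pt F K ((g : Module.End F V) a)) :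
    Nrm K (g : Module.End F V) := by
  classical
  have hinj := unit_injective g
  have hne : ∀ a : V, a ≠ 0 → (g : Module.End F V) a ≠ 0 := by
    intro a ha h0
    exact ha (hinj (by rw [h0, map_zero]))
  -- existence of the multiplier
  have hex : ∀ (k : K) (a : V), a ≠ 0 → ∃ l : K, (g : Module.End F V) (k • a) = l • (g : Module.End F V) a := by
    intro k a ha
    have h1 : (g : Module.End F V) (k • a) ∈ (pt F K a).map (g : Module.End F V) :=
      Submodule.mem_map_of_mem (smul_mem_pt k a)
    rw [H a ha] at h1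
    obtain ⟨l, hl⟩ := mem_pt.1 h1
    exact ⟨l, hl.symm⟩
  -- preimage
  have hpre : ∀ a b : V, a ≠ 0 → (g : Module.End F V) b ∈ pt F K ((g : Module.End F V) a) →
      b ∈ pt F K a := by
    intro a b ha hb
    rw [← H a ha] at hb
    obtain ⟨x, hx, hxb⟩ := Submodule.mem_map.1 hb
    rwa [← hinj hxb]
  have L1 : ∀ (k : K) (a b : V) (l l' : K), a ≠ 0 → b ∉ pt F K a →
      (g : Module.End F V) (k • a) = l • (g : Module.End F V) a →
      (g : Module.End F V) (k • b) = l' • (g : Module.End F V) b → l = l' := by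
    intro k a b l l' ha hb h1 h2
    have hab : a + b ≠ 0 := by
      intro h0
      apply hb
      have : b = (-1 : K) • a := by
        rw [neg_smul, one_smul]; exact (neg_eq_of_add_eq_zero_right h0).symm ▸ rfl
      rw [this]; exact smul_mem_pt _ _
    obtain ⟨l'', h3⟩ := hex k (a + b) hab
    rw [smul_add, map_add, map_add, smul_add, h1, h2] at h3
    have h4 : (l'' - l) • (g : Module.End F V) a = (l' - l'') • (g : Module.End F V) b := by
      rw [sub_smul, sub_smul, sub_eq_sub_iff_add_eq_add]
      rw [add_comm (l' • _), ← h3, add_comm]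
    have h5 : l' = l'' := by
      by_contra hne'
      have hne2 : l' - l'' ≠ 0 := sub_ne_zero.2 hne'
      apply hb
      apply hpre a b ha
      have : (g : Module.End F V) b = ((l' - l'')⁻¹ * (l'' - l)) • (g : Module.End F V) a := by
        rw [mul_smul, h4, smul_smul, inv_mul_cancel₀ hne2, one_smul]
      rw [this]; exact smul_mem_pt _ _
    rw [h5, sub_self, zero_smul] at h4
    have h6 : l'' - l = 0 := by
      rcases smul_eq_zero.1 h4 with h | h
      · exact h
      · exact absurd h (hne a ha)
    rw [h5]; exact (sub_eq_zero.1 h6).symm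
  have hout : ∀ a : V, a ≠ 0 → ∃ c : V, c ∉ pt F K a := by
    intro a ha
    by_contra hall
    push Not at hall
    have htop : Submodule.span K {a} = ⊤ := by
      rw [eq_top_iff]
      intro c _
      exact hall c
    have h1 : finrank K (Submodule.span K {a}) = 1 := finrank_span_singleton ha
    rw [htop, finrank_top] at h1
    omega
  have L2 : ∀ (k : K) (a b : V) (l l' : K), a ≠ 0 → b ≠ 0 →
      (g : Module.End F V) (k • a) = l • (g : Module.End F V) a →
      (g : Module.End F V) (k • b) = l' • (g : Module.End F V) b → l = l' := by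
    intro k a b l l' ha hb h1 h2
    by_cases hba : b ∈ pt F K a
    · obtain ⟨c, hc⟩ := hout a ha
      have hc0 : c ≠ 0 := by
        rintro rfl
        exact hc (Submodule.zero_mem _)
      obtain ⟨μ, rfl⟩ := mem_pt.1 hba
      have hcb : c ∉ pt F K (μ • a) := by
        intro h
        obtain ⟨ν, rfl⟩ := mem_pt.1 h
        apply hc
        rw [smul_smul]; exact smul_mem_pt _ _
      obtain ⟨lc, h3⟩ := hex k c hc0
      rw [L1 k a c l lc ha hc h1 h3, L1 k (μ • a) c l' lc hb hcb h2 h3]
    · exact L1 k a b l l' ha hba h1 h2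
  intro k
  have hnt : Nontrivial V := by
    by_contra hnt
    rw [not_nontrivial_iff_subsingleton] at hnt
    have : finrank K V = 0 := finrank_zero_of_subsingleton
    omega
  obtain ⟨a₀, ha₀⟩ := exists_ne (0 : V)
  obtain ⟨k', hk'⟩ := hex k a₀ ha₀
  refine ⟨k', fun v => ?_⟩
  by_cases hv : v = 0
  · subst hv; simp
  · obtain ⟨l, hl⟩ := hex k v hv
    rw [hl, L2 k v a₀ l k' hv ha₀ hl hk']

/-- piece `A` -/
theorem exists_pair (hm : 2 ≤ finrank K V) {g : (Module.End F V)ˣ} (hg : g ∈ G)
    (hn : ¬ Nrm K (g : Module.End F V)) :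
    ∃ (a : V) (P : Submodule F V), a ≠ 0 ∧ Sig K G P ∧ P ≠ pt F K a ∧ pt F K a ⊓ P ≠ ⊥ := by
  by_contra hcon
  apply hn
  apply nrm_of_points hm g
  intro a ha
  by_contra hne
  apply hcon
  have hga : (g : Module.End F V) a ≠ 0 := by
    intro h0
    exact ha (unit_injective g (by rw [h0, map_zero]))
  refine ⟨(g : Module.End F V) a, (pt F K a).map (g : Module.End F V), hga, ⟨g, hg, a, ha, rfl⟩, hne, ?_⟩
  intro hbot
  have : (g : Module.End F V) a ∈ pt F K ((g : Module.End F V) a) ⊓ (pt F K a).map (g : Module.End F V) :=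
    ⟨self_mem_pt _, Submodule.mem_map_of_mem (self_mem_pt a)⟩
  rw [hbot] at this
  exact hga this

end Cfsg.Agent.Lib.Helper94ExtA
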