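import Cfsg.Agent.Lib.Helper96ExtDefs

set_option autoImplicit false

/-! PROJECT 96 (S5886), piece `d1f`. -/

namespace Cfsg.Agent.Lib.Helper94Extd1f

open Module Cfsg.Agent.Lib.Helper96ExtDefs

variable {F K V : Type*} [Field F] [Field K] [Algebra F K] [AddCommGroup V] [Module F V] [Module K V]
  [IsScalarTower F K V] [Finite F] [Finite K] [Finite V]
variable {G : Subgroup (Module.End F V)ˣ}

omit [Finite F] [Finite K] [Finite V] [Field F] [Algebra F K] [Module F V] [IsScalarTower F K V] in
theorem exists_dual {p : Submodule K V} {v : V} (hv : v ∉ p) (c : K) :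
    ∃ φ : Module.Dual K V, (∀ x ∈ p, φ x = 0) ∧ φ v = c := by
  obtain ⟨g, hg, hgv⟩ := LinearMap.exists_extend_of_notMem (0 : p →ₗ[K] K) hv c
  refine ⟨g, fun x hx => ?_, hgv⟩
  have := congrArg (fun f => f ⟨x, hx⟩) hg
  simpa using this

/-- piece `d1f` -/
theorem d1f (hN1 : AddSubgroup.closure {c : K | Algebra.norm F c = 1} = ⊤) (hbig : Big K G)
    {ψ₀ : Module.Dual F V} {w : V} (hw : w ≠ 0) (hψ₀ : ψ₀ ≠ 0) (hψ₀w : ∀ k : K, ψ₀ (k • w) = 0)
    (h : ∀ k : K, InG G (1 + ψ₀.smulRight (k • w))) :
    ∀ ψ : Module.Dual F V, (∀ k : K, ψ (k • w) = 0) → InG G (1 + ψ.smulRight w) := by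
  classical
  let Ψ : Submodule F (Module.Dual F V) :=
    { carrier := {ψ | (∀ k : K, ψ (k • w) = 0) ∧ ∀ k : K, InG G (1 + ψ.smulRight (k • w))}
      add_mem' := by
        rintro a b ⟨ha1, ha2⟩ ⟨hb1, hb2⟩
        refine ⟨fun k => by simp [ha1, hb1], fun k => ?_⟩
        have := (ha2 k).mul (hb2 k)
        have e : (1 + a.smulRight (k • w)) * (1 + b.smulRight (k • w)) =
            (1 + (a + b).smulRight (k • w) : Module.End F V) := by
          ext v
          simp only [Module.End.mul_apply, LinearMap.add_apply, Module.End.one_apply,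
            LinearMap.smulRight_apply, map_add, map_smul, ha1, zero_smul, add_zero,
            add_smul]
          abel
        rwa [e] at this
      zero_mem' := by
        refine ⟨fun k => by simp, fun k => ?_⟩
        have e : (1 + (0 : Module.Dual F V).smulRight (k • w) : Module.End F V) = 1 := by
          ext v; simp
        rw [e]; exact InG.one
      smul_mem' := by
        rintro c a ⟨ha1, ha2⟩
        refine ⟨fun k => by simp [ha1], fun k => ?_⟩
        have e : (c • a).smulRight (k • w) = a.smulRight ((algebraMap F K c * k) • w) := by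
          ext v
          simp only [LinearMap.smulRight_apply, LinearMap.smul_apply, smul_eq_mul]
          rw [mul_smul ((algebraMap F K) c) k w, algebraMap_smul, mul_comm, mul_smul]
        rw [e]; exact ha2 _ }
  have hΨ : ∀ ψ, ψ ∈ Ψ ↔ (∀ k : K, ψ (k • w) = 0) ∧ ∀ k : K, InG G (1 + ψ.smulRight (k • w)) :=
    fun ψ => Iff.rfl
  -- stability
  have hstab : ∀ (φ : Module.Dual K V) (y : V), φ w = 0 → Algebra.norm F (1 + φ y) = 1 →
      ∀ ψ ∈ Ψ, ψ ∘ₗ (1 + rk F φ y) ∈ Ψ := by
    intro φ y hφw hn ψ hψ
    obtain ⟨hψ1, hψ2⟩ := (hΨ ψ).1 hψ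
    obtain ⟨g, hg, hgeq⟩ := hbig φ y hn
    have hfix : ∀ k : K, (1 + rk F φ y) (k • w) = k • w := by
      intro k
      simp [hφw]
    rw [hΨ]
    refine ⟨fun k => by rw [LinearMap.comp_apply, hfix, hψ1], fun k => ?_⟩
    have := (hψ2 k).conj' hg
    have e : ((g⁻¹ : (Module.End F V)ˣ) : Module.End F V) * (1 + ψ.smulRight (k • w)) *
        (g : Module.End F V) = 1 + (ψ ∘ₗ (1 + rk F φ y)).smulRight (k • w) := by
      ext v
      have h1 : ((g⁻¹ : (Module.End F V)ˣ) : Module.End F V) (k • w) = k • w := by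
        conv_lhs => rw [← hfix k, ← hgeq]
        exact unit_inv_apply g _
      simp only [Module.End.mul_apply, LinearMap.add_apply, Module.End.one_apply,
        LinearMap.smulRight_apply, map_add, map_smul, h1, unit_inv_apply, LinearMap.comp_apply]
      rw [hgeq]
      simp
    rwa [e] at this
  have hZ : ∀ x, x ∈ Ψ.dualCoannihilator ↔ ∀ ψ ∈ Ψ, ψ x = 0 := fun x =>
    Submodule.mem_dualCoannihilator x
  have hZstab : ∀ (φ : Module.Dual K V) (y : V), φ w = 0 → Algebra.norm F (1 + φ y) = 1 →
      ∀ v ∈ Ψ.dualCoannihilator, v + φ v • y ∈ Ψ.dualCoannihilator := by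
    intro φ y hφw hn v hv
    rw [hZ] at hv ⊢
    intro ψ hψ
    have := hv _ (hstab φ y hφw hn ψ hψ)
    simpa using this
  have hle : Ψ.dualCoannihilator ≤ pt F K w := by
    intro z hz
    by_contra hzw
    have hzw' : z ∉ Submodule.span K {w} := hzw
    obtain ⟨φ, hφ0, hφz⟩ := exists_dual hzw' 1
    have hφw : φ w = 0 := hφ0 w (Submodule.mem_span_singleton_self w)
    have hker : ∀ y, φ y = 0 → y ∈ Ψ.dualCoannihilator := by
      intro y hy
      have := hZstab φ y hφw (by rw [hy, add_zero, map_one]) z hz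
      rw [hφz, one_smul] at this
      have h2 := Submodule.sub_mem _ this hz
      rwa [add_sub_cancel_left] at h2
    have hKz : ∀ k : K, k • z ∈ Ψ.dualCoannihilator := by
      let A : AddSubgroup K :=
        { carrier := {k | k • z ∈ Ψ.dualCoannihilator}
          add_mem' := by
            intro a b ha hb
            simp only [Set.mem_ofPred_eq] at *
            rw [add_smul]; exact Submodule.add_mem _ ha hb
          zero_mem' := by
            simp only [Set.mem_ofPred_eq]
            rw [zero_smul]; exact Submodule.zero_mem _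
          neg_mem' := by
            intro a ha
            simp only [Set.mem_ofPred_eq] at *
            rw [neg_smul]; exact Submodule.neg_mem _ ha }
      have hA : AddSubgroup.closure {c : K | Algebra.norm F c = 1} ≤ A := by
        rw [AddSubgroup.closure_le]
        intro c hc
        have hc' : Algebra.norm F c = 1 := hc
        have := hZstab φ ((c - 1) • z) hφw (by
          rw [map_smul, hφz, smul_eq_mul, mul_one, add_sub_cancel, hc']) z hz
        rw [hφz, one_smul, sub_smul, one_smul, add_sub_cancel] at this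
        exact this
      intro k
      have : k ∈ A := hA (hN1 ▸ AddSubgroup.mem_top k)
      exact this
    apply hψ₀
    ext v
    have hv : v ∈ Ψ.dualCoannihilator := by
      have e : v = (v - φ v • z) + φ v • z := by abel
      rw [e]
      refine Submodule.add_mem _ (hker _ ?_) (hKz _)
      rw [map_sub, map_smul, hφz, smul_eq_mul, mul_one, sub_self]
    exact (hZ v).1 hv ψ₀ ((hΨ ψ₀).2 ⟨hψ₀w, h⟩)
  intro ψ hψ
  have h1 : ψ ∈ Ψ.dualCoannihilator.dualAnnihilator := by
    rw [Submodule.mem_dualAnnihilator]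
    intro v hv
    obtain ⟨k, rfl⟩ := mem_pt.1 (hle hv)
    exact hψ k
  rw [Subspace.dualCoannihilator_dualAnnihilator_eq] at h1
  have := ((hΨ ψ).1 h1).2 1
  rwa [one_smul] at this

end Cfsg.Agent.Lib.Helper94Extd1f
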