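import Cfsg.Agent.Lib.Helper96ExtDefs

set_option autoImplicit false

/-! PROJECT 96 (S5886), piece `mover`. -/

namespace Cfsg.Agent.Lib.Helper94Extmover

open Module Cfsg.Agent.Lib.Helper96ExtDefs

variable {F K V : Type*} [Field F] [Field K] [Algebra F K] [AddCommGroup V] [Module F V] [Module K V]
  [IsScalarTower F K V] [Finite F] [Finite K] [Finite V]
variable {G : Subgroup (Module.End F V)ˣ}

omit [Finite F] [Finite K] [Finite V] [Field F] [Algebra F K] [Module F V] [IsScalarTower F K V] in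
theorem exists_dual {p : Submodule K V} {v : V} (hv : v ∉ p) (c : K) :
    ∃ φ : Module.Dual K V, (∀ x ∈ p, φ x = 0) ∧ φ v = c := by
  obtain ⟨g, hg, hgv⟩ := LinearMap.exists_extend_of_notMem (0 : p →ₗ[K] K) hv c
  refine ⟨g, fun x hx => ?_, hgv⟩
  have := congrArg (fun f => f ⟨x, hx⟩) hg
  simpa using this

omit [Finite F] [Finite K] [Finite V] in
theorem finrank_pt' {a : V} (ha : a ≠ 0) : finrank F (pt F K a) = finrank F K := by
  let f : K →ₗ[F] V := (LinearMap.toSpanSingleton K V a).restrictScalars F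
  have hf : Function.Injective f := by
    intro x y hxy
    have : x • a = y • a := hxy
    exact smul_left_injective K ha this
  have hr : LinearMap.range f = pt F K a := by
    ext v
    rw [LinearMap.mem_range, mem_pt]
    rfl
  rw [← hr]
  exact LinearMap.finrank_range_of_inj hf

/-- piece `mover` -/
theorem exists_mover
    (hw0 : ∀ {a : V} {W : Submodule F V}, W ≤ pt F K a → W ≠ ⊥ → W ≠ pt F K a → ∀ {κ : K},
      κ ∉ (algebraMap F K).range → ∃ w₀ ∈ W, κ • w₀ ∉ W)
    (hbig : Big K G) {a : V} (ha : a ≠ 0) {P : Submodule F V}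
    (hPr : finrank F P = finrank F K) (hW : pt F K a ⊓ P ≠ ⊥)
    (hd : finrank F ↥(pt F K a ⊓ P) + 1 < finrank F K) :
    ∃ h ∈ G, (∀ w ∈ pt F K a ⊓ P, (h : Module.End F V) w = w) ∧
      (∃ p₁ ∈ P, p₁ ∉ pt F K a ∧ (h : Module.End F V) p₁ ∈ P) ∧
      ∃ p₂ ∈ P, (h : Module.End F V) p₂ ∉ P := by
  classical
  have hWU : pt F K a ⊓ P ≠ pt F K a := by
    intro h
    rw [h, finrank_pt' ha] at hd
    omega
  have hWP : pt F K a ⊓ P ≠ P := by
    intro h
    rw [h, hPr] at hd
    omega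
  -- p₁
  obtain ⟨p₁, hp₁P, hp₁W⟩ := SetLike.exists_of_lt (lt_of_le_of_ne inf_le_right hWP)
  have hp₁U : p₁ ∉ pt F K a := fun h => hp₁W ⟨h, hp₁P⟩
  -- p₂
  have hnle : ¬ P ≤ (pt F K a ⊓ P) ⊔ Submodule.span F {p₁} := by
    intro hle
    have h1 := Submodule.finrank_mono hle
    have h2 := Submodule.finrank_add_le_finrank_add_finrank (pt F K a ⊓ P) (Submodule.span F {p₁})
    have h3 : finrank F (Submodule.span F {p₁}) ≤ 1 := by
      have := finrank_span_le_card (R := F) ({p₁} : Set V)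
      simpa using this
    omega
  obtain ⟨p₂, hp₂P, hp₂⟩ := SetLike.not_le_iff_exists.1 hnle
  have hφU : ∀ φ : Module.Dual K V, φ a = 0 → ∀ u ∈ pt F K a, φ u = 0 := by
    intro φ hφ u hu
    obtain ⟨k, rfl⟩ := mem_pt.1 hu
    rw [map_smul, hφ, smul_zero]
  by_cases hcase : p₂ ∈ Submodule.span K {a, p₁}
  · -- case 2
    obtain ⟨x, κ, hxκ⟩ := Submodule.mem_span_pair.1 hcase
    have hκ : κ ∉ (algebraMap F K).range := by
      rintro ⟨f, rfl⟩
      apply hp₂
      rw [← hxκ, algebraMap_smul]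
      refine Submodule.add_mem _ (Submodule.mem_sup_left ⟨smul_mem_pt _ _, ?_⟩)
        (Submodule.mem_sup_right (Submodule.smul_mem _ _ (Submodule.mem_span_singleton_self _)))
      have : x • a = p₂ - f • p₁ := by
        rw [← hxκ, algebraMap_smul, add_sub_cancel_right]
      rw [this]
      exact Submodule.sub_mem _ hp₂P (Submodule.smul_mem _ _ hp₁P)
    obtain ⟨w₀, hw₀, hκw₀⟩ := hw0 (a := a) (W := pt F K a ⊓ P) inf_le_left hW hWU hκ
    have hκP : κ • w₀ ∉ P := by
      intro h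
      apply hκw₀
      refine ⟨?_, h⟩
      obtain ⟨k, hk⟩ := mem_pt.1 hw₀.1
      rw [← hk, smul_smul]; exact smul_mem_pt _ _
    have hp₁' : p₁ ∉ Submodule.span K {a} := hp₁U
    obtain ⟨φ, hφ0, hφ1⟩ := exists_dual hp₁' 1
    have hφa : φ a = 0 := hφ0 a (Submodule.mem_span_singleton_self a)
    obtain ⟨h, hh, hheq⟩ := hbig φ w₀ (by rw [hφU φ hφa w₀ hw₀.1, add_zero, map_one])
    refine ⟨h, hh, ?_, ⟨p₁, hp₁P, hp₁U, ?_⟩, ⟨p₂, hp₂P, ?_⟩⟩
    · intro w hw
      rw [hheq]
      simp [hφU φ hφa w hw.1]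
    · rw [hheq]
      simp only [LinearMap.add_apply, Module.End.one_apply, rk_apply, hφ1, one_smul]
      exact Submodule.add_mem _ hp₁P hw₀.2
    · rw [hheq]
      have hφp₂ : φ p₂ = κ := by
        rw [← hxκ, map_add, map_smul, map_smul, hφa, hφ1]; simp
      simp only [LinearMap.add_apply, Module.End.one_apply, rk_apply, hφp₂]
      intro hmem
      apply hκP
      have := Submodule.sub_mem _ hmem hp₂P
      rwa [add_sub_cancel_left] at this
  · -- case 1
    obtain ⟨φ, hφ0, hφ1⟩ := exists_dual hcase 1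
    have hφa : φ a = 0 := hφ0 a (Submodule.subset_span (by simp))
    have hφp₁ : φ p₁ = 0 := hφ0 p₁ (Submodule.subset_span (by simp))
    obtain ⟨y, hyU, hyW⟩ := SetLike.exists_of_lt (lt_of_le_of_ne inf_le_left hWU)
    have hyP : y ∉ P := fun h => hyW ⟨hyU, h⟩
    obtain ⟨h, hh, hheq⟩ := hbig φ y (by rw [hφU φ hφa y hyU, add_zero, map_one])
    refine ⟨h, hh, ?_, ⟨p₁, hp₁P, hp₁U, ?_⟩, ⟨p₂, hp₂P, ?_⟩⟩
    · intro w hw
      rw [hheq]
      simp [hφU φ hφa w hw.1]
    · rw [hheq]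
      simpa [hφp₁] using hp₁P
    · rw [hheq]
      simp only [LinearMap.add_apply, Module.End.one_apply, rk_apply, hφ1, one_smul]
      intro hmem
      apply hyP
      have := Submodule.sub_mem _ hmem hp₂P
      rwa [add_sub_cancel_left] at this

end Cfsg.Agent.Lib.Helper94Extmover
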