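import Cfsg.Agent.Lib.Helper96ExtDefs

set_option autoImplicit false

/-! PROJECT 96 (S5886), piece `n1`. -/

namespace Cfsg.Agent.Lib.Helper94Extn1

open Module Cfsg.Agent.Lib.Helper96ExtDefs

theorem arith {Q r s l : ℕ} (hQ : 2 ≤ Q) (hr : 2 ≤ r) (h1 : Q ^ r - 1 ≤ s * (Q - 1)) (h2 : s + 1 ≤ l)
    (h3 : l ^ 2 ≤ Q ^ r) : False := by
  obtain ⟨t, rfl⟩ : ∃ t, Q = t + 1 := ⟨Q - 1, by omega⟩
  have ht : 1 ≤ t := by omega
  have hK : (t + 1) ^ 2 ≤ (t + 1) ^ r := Nat.pow_le_pow_right (by omega) hr
  obtain ⟨K, hKdef⟩ : ∃ K, K = (t + 1) ^ r := ⟨_, rfl⟩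
  rw [← hKdef] at h1 h3 hK
  have h1' : K ≤ s * t + 1 := by
    have : t + 1 - 1 = t := by omega
    rw [this] at h1
    omega
  have h4 : (s + 1) ^ 2 ≤ K := (Nat.pow_le_pow_left h2 2).trans h3
  have h5 : s * s + 2 * s ≤ s * t := by nlinarith
  rcases Nat.eq_zero_or_pos s with h0 | h0
  · subst h0
    nlinarith
  · have h6 : s + 2 ≤ t := by
      by_contra hlt
      have : t + 1 ≤ s + 2 := by omega
      nlinarith
    nlinarith

variable {F K : Type*} [Field F] [Field K] [Algebra F K] [Finite F] [Finite K]

/-- piece `n1` -/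
theorem closure_norm_one (hr : 2 ≤ finrank F K) :
    AddSubgroup.closure {c : K | Algebra.norm F c = 1} = ⊤ := by
  classical
  have : Fintype K := Fintype.ofFinite K
  -- the subring generated
  let S : Submonoid K := MonoidHom.mker (Algebra.norm F : K →* F)
  have hS : (S : Set K) = {c : K | Algebra.norm F c = 1} := by
    ext c
    simp [S, MonoidHom.mem_mker]
  let L : Subring K := Subring.closure (S : Set K)
  have hL : ∀ x, x ∈ L ↔ x ∈ AddSubgroup.closure {c : K | Algebra.norm F c = 1} := by
    intro x
    rw [Subring.mem_closure_iff, Submonoid.closure_eq, hS]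
  let L' : Subfield K :=
    { L with
      inv_mem' := by
        intro x hx
        by_cases h0 : x = 0
        · rw [h0, inv_zero]; exact L.zero_mem
        · have h1 : x ^ (Fintype.card K - 1) = 1 := FiniteField.pow_card_sub_one_eq_one x h0
          have h2 : 2 ≤ Fintype.card K := Fintype.one_lt_card
          have h3 : x⁻¹ = x ^ (Fintype.card K - 2) := by
            apply inv_eq_of_mul_eq_one_right
            rw [← pow_succ']
            have : Fintype.card K - 2 + 1 = Fintype.card K - 1 := by omega
            rw [this, h1]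
          rw [h3]
          exact L.pow_mem hx _ }
  have hL' : ∀ x, x ∈ L' ↔ x ∈ L := fun x => Iff.rfl
  suffices htop : L' = ⊤ by
    rw [eq_top_iff]
    intro x _
    rw [← hL, ← hL', htop]
    exact Subfield.mem_top x
  -- counting
  let φ : Kˣ →* Fˣ := Units.map (Algebra.norm F : K →* F)
  have hc1 : Nat.card φ.ker * Nat.card φ.range = Nat.card Kˣ := by
    rw [← Subgroup.index_ker]; exact Subgroup.card_mul_index _
  have hc2 : Nat.card φ.range ≤ Nat.card Fˣ := Subgroup.card_le_card_group _
  have hc3 : Nat.card K - 1 ≤ Nat.card φ.ker * (Nat.card F - 1) := by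
    rw [← Nat.card_units, ← Nat.card_units, ← hc1]
    exact Nat.mul_le_mul_left _ hc2
  have hc4 : Nat.card φ.ker + 1 ≤ Nat.card L' := by
    have hinj : Function.Injective (fun o : Option φ.ker =>
        (o.elim (0 : L') (fun u => ⟨((u : Kˣ) : K), by
          rw [hL']
          apply Subring.subset_closure
          have hu : φ (u : Kˣ) = 1 := u.2
          have : Algebra.norm F ((u : Kˣ) : K) = 1 := by
            have := congrArg Units.val hu
            simpa [φ] using this
          exact this⟩) : L')) := by
      intro a b hab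
      rcases a with _ | a <;> rcases b with _ | b
      · rfl
      · exfalso
        have := congrArg Subtype.val hab
        simp at this
        exact (b : Kˣ).ne_zero this.symm
      · exfalso
        have := congrArg Subtype.val hab
        simp at this
      · have := congrArg Subtype.val hab
        simp only [Option.elim] at this
        congr 1
        exact Subtype.ext (Units.ext this)
    have := Nat.card_le_card_of_injective _ hinj
    rwa [Finite.card_option] at this
  have hK : Nat.card K = Nat.card F ^ finrank F K := Module.natCard_eq_pow_finrank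
  have hKL : Nat.card K = Nat.card L' ^ finrank L' K := Module.natCard_eq_pow_finrank
  have hF2 : 2 ≤ Nat.card F := Finite.one_lt_card
  have hK2 : 2 ≤ Nat.card K := Finite.one_lt_card
  have hL2 : 2 ≤ Nat.card L' := Finite.one_lt_card
  by_cases hd : 2 ≤ finrank L' K
  · exfalso
    have h3 : Nat.card L' ^ 2 ≤ Nat.card F ^ finrank F K := by
      rw [← hK, hKL]
      exact Nat.pow_le_pow_right (by omega) hd
    rw [hK] at hc3
    exact arith hF2 hr hc3 hc4 h3
  · have hd1 : finrank L' K = 1 := by
      have : finrank L' K ≠ 0 := by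
        intro h0
        rw [h0, pow_zero] at hKL
        omega
      omega
    rw [hd1, pow_one] at hKL
    have h : L.toAddSubgroup = ⊤ := AddSubgroup.eq_top_of_card_eq _ hKL.symm
    rw [eq_top_iff]
    intro x _
    have : x ∈ L.toAddSubgroup := h ▸ AddSubgroup.mem_top x
    exact this

end Cfsg.Agent.Lib.Helper94Extn1
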