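import Mathlib
import Cfsg.Prelude.Def_Transfer
import Cfsg.Prelude.Def_Solvable

set_option autoImplicit false

namespace Cfsg.Agent.Lib.Helper94Extra

open scoped commutatorElement

variable {G : Type*} [Group G]

/-- The 2-core of the centralizer of `x`, viewed in `G`. -/
def QQ (x : G) : Subgroup G :=
  (Cfsg.pCore 2 ↥(Subgroup.centralizer ({x} : Set G))).map (Subgroup.centralizer ({x} : Set G)).subtype

theorem pCore_map_equiv {H H' : Type*} [Group H] [Group H'] (p : ℕ) (e : H ≃* H') :
    (Cfsg.pCore p H).map e.toMonoidHom = Cfsg.pCore p H' := by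
  unfold Cfsg.pCore
  apply le_antisymm
  · rw [Subgroup.map_le_iff_le_comap]
    apply sSup_le
    rintro N ⟨hN, hp⟩
    rw [← Subgroup.map_le_iff_le_comap]
    apply le_sSup
    exact ⟨Subgroup.Normal.map hN e.toMonoidHom e.surjective, hp.map _⟩
  · apply sSup_le
    rintro N ⟨hN, hp⟩
    have h : N = (N.comap e.toMonoidHom).map e.toMonoidHom :=
      (Subgroup.map_comap_eq_self_of_surjective e.surjective N).symm
    rw [h]
    apply Subgroup.map_mono
    apply le_sSup
    exact ⟨hN.comap _, hp.comap_of_injective _ e.injective⟩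

theorem core_conj_aux (H H' : Subgroup G) (g : G) (h : H' = H.map (MulAut.conj g).toMonoidHom) :
    (Cfsg.pCore 2 ↥H').map H'.subtype =
      ((Cfsg.pCore 2 ↥H).map H.subtype).map (MulAut.conj g).toMonoidHom := by
  subst h
  rw [← pCore_map_equiv 2 (Subgroup.equivMapOfInjective H (MulAut.conj g).toMonoidHom
    (MulAut.conj g).injective)]
  rw [Subgroup.map_map, Subgroup.map_map]
  rfl

theorem centralizer_conj (x g : G) :
    Subgroup.centralizer ({g * x * g⁻¹} : Set G) =
      (Subgroup.centralizer ({x} : Set G)).map (MulAut.conj g).toMonoidHom := by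
  ext a
  simp only [Subgroup.mem_centralizer_singleton_iff, Subgroup.mem_map, MulEquiv.coe_toMonoidHom,
    MulAut.conj_apply]
  constructor
  · intro h
    refine ⟨g⁻¹ * a * g, ?_, by group⟩
    have : g⁻¹ * (a * (g * x * g⁻¹)) * g = g⁻¹ * ((g * x * g⁻¹) * a) * g := by rw [h]
    calc g⁻¹ * a * g * x = g⁻¹ * (a * (g * x * g⁻¹)) * g := by group
      _ = g⁻¹ * ((g * x * g⁻¹) * a) * g := this
      _ = x * (g⁻¹ * a * g) := by group
  · rintro ⟨b, hb, rfl⟩
    calc g * b * g⁻¹ * (g * x * g⁻¹) = g * (b * x) * g⁻¹ := by group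
      _ = g * (x * b) * g⁻¹ := by rw [hb]
      _ = g * x * g⁻¹ * (g * b * g⁻¹) := by group

theorem QQ_conj (x g : G) : QQ (g * x * g⁻¹) = (QQ x).map (MulAut.conj g).toMonoidHom :=
  core_conj_aux _ _ g (centralizer_conj x g)

theorem mem_QQ_conj {x g a : G} : g * a * g⁻¹ ∈ QQ (g * x * g⁻¹) ↔ a ∈ QQ x := by
  rw [QQ_conj]
  constructor
  · rintro ⟨b, hb, h⟩
    have : b = a := by
      simpa [MulAut.conj_apply] using h
    exact this ▸ hb
  · intro h
    exact ⟨a, h, rfl⟩

theorem QQ_le_centralizer (x : G) : QQ x ≤ Subgroup.centralizer ({x} : Set G) :=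
  Subgroup.map_subtype_le _

theorem comm_of_mem_QQ {x a : G} (h : a ∈ QQ x) : a * x = x * a :=
  Subgroup.mem_centralizer_singleton_iff.mp (QQ_le_centralizer x h)

theorem conj_mem_QQ {x c a : G} (hc : c * x = x * c) (h : a ∈ QQ x) : c * a * c⁻¹ ∈ QQ x := by
  have h1 : c * x * c⁻¹ = x := by rw [hc]; group
  have := (mem_QQ_conj (x := x) (g := c) (a := a)).mpr h
  rwa [h1] at this

theorem self_mem_QQ {x : G} (hx : x * x = 1) : x ∈ QQ x := by
  have hxc : x ∈ Subgroup.centralizer ({x} : Set G) := Subgroup.mem_centralizer_singleton_iff.mpr rfl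
  refine ⟨⟨x, hxc⟩, ?_, rfl⟩
  have hle : Subgroup.zpowers (⟨x, hxc⟩ : Subgroup.centralizer ({x} : Set G)) ≤
      Cfsg.pCore 2 ↥(Subgroup.centralizer ({x} : Set G)) := by
    apply le_sSup
    constructor
    · constructor
      intro n hn c
      obtain ⟨k, rfl⟩ := Subgroup.mem_zpowers_iff.mp hn
      have hcomm : c * (⟨x, hxc⟩ : Subgroup.centralizer ({x} : Set G)) = ⟨x, hxc⟩ * c := by
        apply Subtype.ext
        exact Subgroup.mem_centralizer_singleton_iff.mp c.2
      have : c * (⟨x, hxc⟩ : Subgroup.centralizer ({x} : Set G)) ^ k * c⁻¹ = ⟨x, hxc⟩ ^ k := by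
        have hc : Commute c ((⟨x, hxc⟩ : Subgroup.centralizer ({x} : Set G)) ^ k) :=
          Commute.zpow_right hcomm k
        rw [hc.eq]; group
      rw [this]
      exact Subgroup.zpow_mem_zpowers _ k
    · rw [IsPGroup]
      intro y
      refine ⟨1, ?_⟩
      obtain ⟨y, hy⟩ := y
      obtain ⟨k, rfl⟩ := Subgroup.mem_zpowers_iff.mp hy
      apply Subtype.ext
      apply Subtype.ext
      simp only [pow_one, Subgroup.coe_pow, Subgroup.coe_zpow, Subgroup.coe_one]
      rw [← zpow_natCast, ← zpow_mul, mul_comm, zpow_mul]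
      have : x ^ ((2 : ℕ) : ℤ) = 1 := by
        rw [zpow_natCast, pow_two, hx]
      rw [this, one_zpow]
  exact hle (Subgroup.mem_zpowers _)

/-- Elementwise package of "E is extraspecial with centre generated by the involution z, contains its
centralizer, and is normalized by the centralizer of z". -/
structure Large (E : Subgroup G) (z : G) : Prop where
  mem : z ∈ E
  ne_one : z ≠ 1
  sq : z * z = 1
  cen : ∀ a ∈ E, a * z = z * a
  comm : ∀ a ∈ E, ∀ b ∈ E, a * b = b * a ∨ a * b = b * a * z
  center : ∀ a ∈ E, (∀ b ∈ E, a * b = b * a) → a = 1 ∨ a = z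
  self_cen : ∀ c : G, (∀ b ∈ E, c * b = b * c) → c ∈ E
  norm : ∀ c : G, c * z = z * c → ∀ a ∈ E, c * a * c⁻¹ ∈ E
  nonab : ∃ a ∈ E, ∃ b ∈ E, a * b = b * a * z

theorem large_QQ {z : G} (hz : orderOf z = 2) (hE : Cfsg.IsExtraspecial 2 ↥(QQ z))
    (hC : Subgroup.centralizer ((QQ z : Subgroup G) : Set G) ≤ QQ z) : Large (QQ z) z := by
  have hsq : z * z = 1 := by rw [← pow_two, ← hz]; exact pow_orderOf_eq_one z
  have hne : z ≠ 1 := by
    intro h; rw [h, orderOf_one] at hz; omega
  have hmem : z ∈ QQ z := self_mem_QQ hsq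
  obtain ⟨⟨_, _, hcomm⟩, hcard⟩ := hE
  have hzc : (⟨z, hmem⟩ : QQ z) ∈ Subgroup.center (QQ z) := by
    rw [Subgroup.mem_center_iff]
    intro a
    apply Subtype.ext
    exact comm_of_mem_QQ a.2
  have hcen : ∀ a : QQ z, a ∈ Subgroup.center (QQ z) → a = 1 ∨ a = ⟨z, hmem⟩ := by
    intro a ha
    obtain ⟨y, _, hy⟩ := (Nat.card_eq_two_iff' (1 : Subgroup.center (QQ z))).mp hcard
    by_cases h1 : a = 1
    · exact Or.inl h1
    · right
      have e1 : (⟨a, ha⟩ : Subgroup.center (QQ z)) = y := hy _ (by
        intro h; apply h1; exact congrArg Subtype.val h)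
      have e2 : (⟨⟨z, hmem⟩, hzc⟩ : Subgroup.center (QQ z)) = y := hy _ (by
        intro h; apply hne
        exact congrArg (fun t : Subgroup.center (QQ z) => ((t : QQ z) : G)) h)
      exact congrArg Subtype.val (e1.trans e2.symm)
  have hcm : ∀ a ∈ QQ z, ∀ b ∈ QQ z, a * b = b * a ∨ a * b = b * a * z := by
    intro a ha b hb
    have h1 : ⁅(⟨a, ha⟩ : QQ z), ⟨b, hb⟩⁆ ∈ Subgroup.center (QQ z) := by
      rw [← hcomm, commutator_def]
      exact Subgroup.commutator_mem_commutator (Subgroup.mem_top _) (Subgroup.mem_top _)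
    rcases hcen _ h1 with h2 | h2
    · left
      have := congrArg Subtype.val h2
      simp only [commutatorElement_def, Subgroup.coe_mul, Subgroup.coe_inv, Subgroup.coe_one] at this
      calc a * b = (a * b * a⁻¹ * b⁻¹) * (b * a) := by group
        _ = b * a := by rw [this, one_mul]
    · right
      have := congrArg Subtype.val h2
      simp only [commutatorElement_def, Subgroup.coe_mul, Subgroup.coe_inv] at this
      have hz1 : z * (b * a) = b * a * z := (comm_of_mem_QQ ((QQ z).mul_mem hb ha)).symm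
      calc a * b = (a * b * a⁻¹ * b⁻¹) * (b * a) := by group
        _ = b * a * z := by rw [this, hz1]
  refine ⟨hmem, hne, hsq, fun a ha => comm_of_mem_QQ ha, hcm, ?_, ?_, ?_, ?_⟩
  · intro a ha h
    have : (⟨a, ha⟩ : QQ z) ∈ Subgroup.center (QQ z) := by
      rw [Subgroup.mem_center_iff]
      intro b
      apply Subtype.ext
      exact (h b b.2).symm
    rcases hcen _ this with h2 | h2
    · left; exact congrArg Subtype.val h2
    · right; exact congrArg Subtype.val h2
  · intro c hc
    apply hC
    rw [Subgroup.mem_centralizer_iff]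
    intro b hb
    exact (hc b hb).symm
  · intro c hc a ha
    exact conj_mem_QQ hc ha
  · by_contra hcon
    push Not at hcon
    have hbot : commutator (QQ z) = ⊥ := by
      rw [commutator_def, Subgroup.commutator_eq_bot_iff_le_centralizer]
      intro a _
      rw [Subgroup.mem_centralizer_iff]
      intro b _
      apply Subtype.ext
      rcases hcm b b.2 a a.2 with h | h
      · exact h
      · exact absurd h (hcon b b.2 a a.2)
    rw [← hcomm, hbot] at hcard
    simp at hcard

theorem Large.map {E : Subgroup G} {z : G} (h : Large E z) (e : G ≃* G) :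
    Large (E.map e.toMonoidHom) (e z) := by
  have hm : ∀ a, a ∈ E.map e.toMonoidHom ↔ e.symm a ∈ E := by
    intro a
    constructor
    · rintro ⟨b, hb, rfl⟩
      simpa using hb
    · intro ha
      exact ⟨e.symm a, ha, by simp⟩
  refine ⟨⟨z, h.mem, rfl⟩, ?_, ?_, ?_, ?_, ?_, ?_, ?_, ?_⟩
  · intro h1
    exact h.ne_one (e.injective (by rw [h1, map_one]))
  · rw [← map_mul, h.sq, map_one]
  · rintro _ ⟨a, ha, rfl⟩
    show e a * e z = e z * e a
    rw [← map_mul, h.cen a ha, map_mul]
  · rintro _ ⟨a, ha, rfl⟩ _ ⟨b, hb, rfl⟩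
    show e a * e b = e b * e a ∨ e a * e b = e b * e a * e z
    rcases h.comm a ha b hb with h1 | h1
    · left; rw [← map_mul, h1, map_mul]
    · right; rw [← map_mul, h1, map_mul, map_mul]
  · rintro _ ⟨a, ha, rfl⟩ hc
    show e a = 1 ∨ e a = e z
    have := h.center a ha (fun b hb => e.injective (by
      rw [map_mul, map_mul]; exact hc (e b) ⟨b, hb, rfl⟩))
    rcases this with h1 | h1
    · left; rw [h1, map_one]
    · right; rw [h1]
  · intro c hc
    rw [hm]
    apply h.self_cen
    intro b hb
    apply e.injective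
    rw [map_mul, map_mul, e.apply_symm_apply]
    exact hc (e b) ⟨b, hb, rfl⟩
  · rintro c hc _ ⟨a, ha, rfl⟩
    rw [hm]
    have h1 : e.symm c * z = z * e.symm c := by
      apply e.injective
      rw [map_mul, map_mul, e.apply_symm_apply]
      exact hc
    have := h.norm _ h1 a ha
    show e.symm (c * e a * c⁻¹) ∈ E
    simpa using this
  · obtain ⟨a, ha, b, hb, hab⟩ := h.nonab
    refine ⟨e a, ⟨a, ha, rfl⟩, e b, ⟨b, hb, rfl⟩, ?_⟩
    rw [← map_mul, hab, map_mul, map_mul]

theorem large_QQ_conj {z : G} (h : Large (QQ z) z) (g : G) : Large (QQ (g * z * g⁻¹)) (g * z * g⁻¹) := by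
  rw [QQ_conj]
  exact h.map (MulAut.conj g)

/-- An abstract commutation lemma: operators commuting with an involution `z` and centralizing its
fixed points on an elementary abelian normal 2-subgroup commute on that subgroup. -/
theorem abs_lemma {Γ : Type*} [Group Γ] (V : Subgroup Γ) (z r s : Γ)
    (hab : ∀ a ∈ V, ∀ b ∈ V, a * b = b * a) (hexp : ∀ a ∈ V, a * a = 1)
    (hV : ∀ g : Γ, ∀ a ∈ V, g * a * g⁻¹ ∈ V)
    (hz2 : z * z = 1) (hrz : r * z = z * r) (hsz : s * z = z * s)
    (hr : ∀ a ∈ V, z * a = a * z → r * a = a * r) (hs : ∀ a ∈ V, z * a = a * z → s * a = a * s) :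
    ∀ a ∈ V, (r * s) * a * (r * s)⁻¹ = (s * r) * a * (s * r)⁻¹ := by
  have hzi : z⁻¹ = z := inv_eq_of_mul_eq_one_left hz2
  have key : ∀ t : Γ, t * z = z * t → (∀ a ∈ V, z * a = a * z → t * a = a * t) →
      ∀ v ∈ V, z * ((t * v * t⁻¹) * v) = ((t * v * t⁻¹) * v) * z := by
    intro t htz ht v hv
    have hw : z * v * z⁻¹ ∈ V := hV z v hv
    set w := z * v * z⁻¹ with hwdef
    have hzw : z * w * z⁻¹ = v := by
      rw [hwdef, hzi]
      calc z * (z * v * z) * z = (z * z) * v * (z * z) := by group
        _ = v := by rw [hz2]; group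
    have hn : v * w ∈ V := V.mul_mem hv hw
    have hzn : z * (v * w) = (v * w) * z := by
      calc z * (v * w) = (z * v * z⁻¹) * (z * w * z⁻¹) * z := by group
        _ = w * v * z := by rw [hzw]
        _ = (v * w) * z := by rw [hab w hw v hv]
    have htn : t * (v * w) = (v * w) * t := ht _ hn hzn
    have htv : t * v * t⁻¹ ∈ V := hV t v hv
    have htw : t * w * t⁻¹ ∈ V := hV t w hw
    have hc : (t * v * t⁻¹) * v ∈ V := V.mul_mem htv hv
    have hzt : z * t = t * z := htz.symm
    have hzc : z * ((t * v * t⁻¹) * v) * z⁻¹ = (t * w * t⁻¹) * w := by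
      calc z * ((t * v * t⁻¹) * v) * z⁻¹ = (z * t) * v * (z * t)⁻¹ * (z * v * z⁻¹) := by group
        _ = (t * z) * v * (t * z)⁻¹ * (z * v * z⁻¹) := by rw [hzt]
        _ = (t * w * t⁻¹) * w := by rw [hwdef]; group
    have h1 : ((t * v * t⁻¹) * v) * ((t * w * t⁻¹) * w) = 1 := by
      calc ((t * v * t⁻¹) * v) * ((t * w * t⁻¹) * w)
          = (t * v * t⁻¹) * (v * (t * w * t⁻¹)) * w := by group
        _ = (t * v * t⁻¹) * ((t * w * t⁻¹) * v) * w := by rw [hab v hv _ htw]
        _ = (t * (v * w)) * t⁻¹ * (v * w) := by group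
        _ = ((v * w) * t) * t⁻¹ * (v * w) := by rw [htn]
        _ = (v * w) * (v * w) := by group
        _ = 1 := hexp _ hn
    have h2 : (t * w * t⁻¹) * w = (t * v * t⁻¹) * v :=
      mul_left_cancel (h1.trans (hexp _ hc).symm)
    rw [h2] at hzc
    calc z * ((t * v * t⁻¹) * v) = (z * ((t * v * t⁻¹) * v) * z⁻¹) * z := by group
      _ = ((t * v * t⁻¹) * v) * z := by rw [hzc]
  intro a ha
  have hA : r * a * r⁻¹ ∈ V := hV r a ha
  have hB : s * a * s⁻¹ ∈ V := hV s a ha
  have hinv : ∀ u ∈ V, u⁻¹ = u := fun u hu => inv_eq_of_mul_eq_one_left (hexp u hu)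
  have e1 : s * ((r * a * r⁻¹) * a) = ((r * a * r⁻¹) * a) * s :=
    hs _ (V.mul_mem hA ha) (key r hrz hr a ha)
  have e2 : r * ((s * a * s⁻¹) * a) = ((s * a * s⁻¹) * a) * r :=
    hr _ (V.mul_mem hB ha) (key s hsz hs a ha)
  have f1 : (s * r) * a * (s * r)⁻¹ = (r * a * r⁻¹) * a * (s * a * s⁻¹) := by
    calc (s * r) * a * (s * r)⁻¹ = (s * ((r * a * r⁻¹) * a)) * s⁻¹ * (s * a * s⁻¹)⁻¹ := by group
      _ = (((r * a * r⁻¹) * a) * s) * s⁻¹ * (s * a * s⁻¹)⁻¹ := by rw [e1]
      _ = (r * a * r⁻¹) * a * (s * a * s⁻¹)⁻¹ := by group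
      _ = (r * a * r⁻¹) * a * (s * a * s⁻¹) := by rw [hinv _ hB]
  have f2 : (r * s) * a * (r * s)⁻¹ = (s * a * s⁻¹) * a * (r * a * r⁻¹) := by
    calc (r * s) * a * (r * s)⁻¹ = (r * ((s * a * s⁻¹) * a)) * r⁻¹ * (r * a * r⁻¹)⁻¹ := by group
      _ = (((s * a * s⁻¹) * a) * r) * r⁻¹ * (r * a * r⁻¹)⁻¹ := by rw [e2]
      _ = (s * a * s⁻¹) * a * (r * a * r⁻¹)⁻¹ := by group
      _ = (s * a * s⁻¹) * a * (r * a * r⁻¹) := by rw [hinv _ hA]
  rw [f1, f2]
  calc (s * a * s⁻¹) * a * (r * a * r⁻¹) = (s * a * s⁻¹) * (a * (r * a * r⁻¹)) := by group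
    _ = (a * (r * a * r⁻¹)) * (s * a * s⁻¹) := hab _ hB _ (V.mul_mem ha hA)
    _ = ((r * a * r⁻¹) * a) * (s * a * s⁻¹) := by rw [hab a ha _ hA]

/-- The subgroup `{1, x}` for an involution (or trivial element) `x`. -/
def pairSubgroup {M : Type*} [Group M] (x : M) (hx2 : x * x = 1) : Subgroup M where
  carrier := {a | a = 1 ∨ a = x}
  mul_mem' := by
    rintro a b (rfl | rfl) (rfl | rfl) <;> simp [hx2]
  one_mem' := Or.inl rfl
  inv_mem' := by
    rintro a (rfl | rfl)
    · simp
    · right; exact inv_eq_of_mul_eq_one_left hx2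

theorem pairSubgroup_normal {M : Type*} [Group M] (x : M) (hx2 : x * x = 1)
    (hc : ∀ g : M, g * x = x * g) : (pairSubgroup x hx2).Normal := by
  constructor
  rintro a (rfl | rfl) g
  · left; group
  · right; rw [hc g]; group

theorem lemmaC {M : Type*} [Group M] (x : M) (hx2 : x * x = 1) (hc : ∀ g : M, g * x = x * g)
    (F : Subgroup M) (hFn : ∀ g : M, ∀ a ∈ F, g * a * g⁻¹ ∈ F)
    (hFc : ∀ a ∈ F, ∀ b ∈ F, a * b = b * a ∨ a * b = b * a * x)
    (hFs : ∀ a ∈ F, a * a = 1 ∨ a * a = x)
    (z r s : M) (hz2 : z * z = 1) (hrz : r * z = z * r) (hsz : s * z = z * s)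
    (hno : ∀ q ∈ F, z * q * z⁻¹ ≠ q * x)
    (hr : ∀ d ∈ F, z * d = d * z → r * d * r⁻¹ = d ∨ r * d * r⁻¹ = d * x)
    (hs : ∀ d ∈ F, z * d = d * z → s * d * s⁻¹ = d ∨ s * d * s⁻¹ = d * x)
    (hrs : r * s = s * r * z) : ∀ q ∈ F, z * q = q * z := by
  have := pairSubgroup_normal x hx2 hc
  let π : M →* M ⧸ pairSubgroup x hx2 := QuotientGroup.mk' _
  have hπ : ∀ a b : M, π a = π b ↔ a = b ∨ a = b * x := by
    intro a b
    have : π a = π b ↔ a⁻¹ * b ∈ pairSubgroup x hx2 := QuotientGroup.eq
    rw [this]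
    constructor
    · rintro (h | h)
      · left
        exact inv_mul_eq_one.mp h
      · right
        have hb : b = a * x := inv_mul_eq_iff_eq_mul.mp h
        rw [hb, mul_assoc, hx2, mul_one]
    · rintro (h | h)
      · left; rw [h]; group
      · right
        rw [h]
        calc (b * x)⁻¹ * b = x⁻¹ := by group
          _ = x := inv_eq_of_mul_eq_one_left hx2
  have hfix : ∀ q ∈ F, π z * π q = π q * π z → z * q = q * z := by
    intro q hq h
    rw [← map_mul, ← map_mul, hπ] at h
    rcases h with h | h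
    · exact h
    · exfalso
      apply hno q hq
      rw [h]
      calc q * z * x * z⁻¹ = q * (z * x) * z⁻¹ := by group
        _ = q * (x * z) * z⁻¹ := by rw [hc z]
        _ = q * x := by group
  have hop : ∀ t : M, (∀ d ∈ F, z * d = d * z → t * d * t⁻¹ = d ∨ t * d * t⁻¹ = d * x) →
      ∀ a ∈ F.map π, π z * a = a * π z → π t * a = a * π t := by
    rintro t ht _ ⟨q, hq, rfl⟩ h
    have h1 := hfix q hq h
    rw [← map_mul, ← map_mul, hπ]
    rcases ht q hq h1 with h2 | h2
    · left
      calc t * q = (t * q * t⁻¹) * t := by group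
        _ = q * t := by rw [h2]
    · right
      calc t * q = (t * q * t⁻¹) * t := by group
        _ = q * x * t := by rw [h2]
        _ = q * (x * t) := by group
        _ = q * (t * x) := by rw [hc t]
        _ = q * t * x := by group
  have main := abs_lemma (F.map π) (π z) (π r) (π s) ?_ ?_ ?_ ?_ ?_ ?_ (hop r hr) (hop s hs)
  · intro q hq
    apply hfix q hq
    have hq' : (s * r)⁻¹ * q * ((s * r)⁻¹)⁻¹ ∈ F := hFn _ q hq
    have hrs' : r * s = z * (s * r) := by
      rw [hrs]
      calc s * r * z = s * (r * z) := by group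
        _ = s * (z * r) := by rw [hrz]
        _ = (s * z) * r := by group
        _ = (z * s) * r := by rw [hsz]
        _ = z * (s * r) := by group
    have := main (π ((s * r)⁻¹ * q * ((s * r)⁻¹)⁻¹)) ⟨_, hq', rfl⟩
    simp only [← map_mul, ← map_inv] at this
    rw [hrs'] at this
    have e1 : z * (s * r) * ((s * r)⁻¹ * q * ((s * r)⁻¹)⁻¹) * (z * (s * r))⁻¹ = z * q * z⁻¹ := by
      group
    have e2 : s * r * ((s * r)⁻¹ * q * ((s * r)⁻¹)⁻¹) * (s * r)⁻¹ = q := by group
    rw [e1, e2] at this
    calc π z * π q = π (z * q * z⁻¹) * π z := by rw [← map_mul, ← map_mul]; congr 1; group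
      _ = π q * π z := by rw [this]
  · rintro _ ⟨a, ha, rfl⟩ _ ⟨b, hb, rfl⟩
    rw [← map_mul, ← map_mul, hπ]
    exact hFc a ha b hb
  · rintro _ ⟨a, ha, rfl⟩
    rw [← map_mul, ← map_one π, hπ]
    rcases hFs a ha with h | h
    · left; exact h
    · right; rw [h, one_mul]
  · rintro g _ ⟨a, ha, rfl⟩
    obtain ⟨g, rfl⟩ := QuotientGroup.mk'_surjective _ g
    exact ⟨g * a * g⁻¹, hFn g a ha, by simp [π]⟩
  · rw [← map_mul, hz2, map_one]
  · rw [← map_mul, hrz, map_mul]
  · rw [← map_mul, hsz, map_mul]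

namespace Large

variable {E F : Subgroup G} {z x : G}

theorem inv_eq (h : Large E z) : z⁻¹ = z := inv_eq_of_mul_eq_one_left h.sq

theorem sq_mem (h : Large E z) {a : G} (ha : a ∈ E) : a * a = 1 ∨ a * a = z := by
  apply h.center _ (E.mul_mem ha ha)
  intro b hb
  rcases h.comm a ha b hb with h1 | h1
  · calc a * a * b = a * (a * b) := by group
      _ = a * (b * a) := by rw [h1]
      _ = (a * b) * a := by group
      _ = b * a * a := by rw [h1]
      _ = b * (a * a) := by group
  · calc a * a * b = a * (a * b) := by group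
      _ = a * (b * a * z) := by rw [h1]
      _ = (a * b) * (a * z) := by group
      _ = (b * a * z) * (z * a) := by rw [h1, h.cen a ha]
      _ = b * a * (z * z) * a := by group
      _ = b * (a * a) := by rw [h.sq]; group

/-- If `b x = x b z` then `x b = b x z`. -/
theorem comm_symm (h : Large E z) {a b : G} (hab : a * b = b * a * z) :
    b * a = a * b * z := by
  rw [hab, mul_assoc, h.sq, mul_one]

theorem cen_cen (h : Large E z) {n : G} (hx : x ∈ E) (hx2 : x * x = 1) (hn : n ∈ E)
    (hc : ∀ r ∈ E, r * x = x * r → n * r = r * n) : n = 1 ∨ n = x ∨ n = z ∨ n = z * x := by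
  by_cases hb : ∃ b ∈ E, b * x ≠ x * b ∧ n * b = b * n
  · obtain ⟨b, hbE, hbx, hnb⟩ := hb
    have hbx' : b * x = x * b * z := (h.comm b hbE x hx).resolve_left hbx
    have hcen : ∀ b' ∈ E, n * b' = b' * n := by
      intro b' hb'
      by_cases h1 : b' * x = x * b'
      · exact hc b' hb' h1
      · have h1' : b' * x = x * b' * z := (h.comm b' hb' x hx).resolve_left h1
        have h2 : (b' * b) * x = x * (b' * b) := by
          calc (b' * b) * x = b' * (b * x) := by group
            _ = b' * (x * b * z) := by rw [hbx']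
            _ = (b' * x) * (b * z) := by group
            _ = (x * b' * z) * (z * b) := by rw [h1', h.cen b hbE]
            _ = x * b' * (z * z) * b := by group
            _ = x * (b' * b) := by rw [h.sq]; group
        have h3 := hc _ (E.mul_mem hb' hbE) h2
        have h4 : (n * b') * b = (b' * n) * b := by
          calc (n * b') * b = n * (b' * b) := by group
            _ = (b' * b) * n := h3
            _ = b' * (b * n) := by group
            _ = b' * (n * b) := by rw [hnb]
            _ = (b' * n) * b := by group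
        exact mul_right_cancel h4
    rcases h.center n hn hcen with h1 | h1
    · exact Or.inl h1
    · exact Or.inr (Or.inr (Or.inl h1))
  · push Not at hb
    have hcen : ∀ b ∈ E, (n * x) * b = b * (n * x) := by
      intro b hbE
      by_cases h1 : b * x = x * b
      · calc (n * x) * b = n * (x * b) := by group
          _ = n * (b * x) := by rw [h1]
          _ = (n * b) * x := by group
          _ = (b * n) * x := by rw [hc b hbE h1]
          _ = b * (n * x) := by group
      · have h1' : b * x = x * b * z := (h.comm b hbE x hx).resolve_left h1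
        have h2 : n * b = b * n * z := (h.comm n hn b hbE).resolve_left (hb b hbE h1)
        have h3 : x * b = b * x * z := h.comm_symm h1'
        calc (n * x) * b = n * (x * b) := by group
          _ = n * (b * x * z) := by rw [h3]
          _ = (n * b) * (x * z) := by group
          _ = (b * n * z) * (z * x) := by rw [h2, h.cen x hx]
          _ = b * n * (z * z) * x := by group
          _ = b * (n * x) := by rw [h.sq]; group
    rcases h.center _ (E.mul_mem hn hx) hcen with h1 | h1
    · right; left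
      calc n = (n * x) * x := by rw [mul_assoc, hx2, mul_one]
        _ = x := by rw [h1, one_mul]
    · right; right; right
      calc n = (n * x) * x := by rw [mul_assoc, hx2, mul_one]
        _ = z * x := by rw [h1]

/-- A non-central element of `E` is moved by some element of `E`. -/
theorem exists_move (h : Large E z) (hx : x ∈ E) (h1 : x ≠ 1) (hz : x ≠ z) :
    ∃ p ∈ E, p * x = x * p * z := by
  by_contra hcon
  push Not at hcon
  rcases h.center x hx (fun b hb => ((h.comm b hb x hx).resolve_right (hcon b hb)).symm) with h2 | h2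
  · exact h1 h2
  · exact hz h2

theorem mul_comm_of (h : Large E z) {a b : G} (hb : b ∈ E)
    (hax : a * x = x * a * z) (hbx : b * x = x * b * z) : (a * b) * x = x * (a * b) := by
  calc (a * b) * x = a * (b * x) := by group
    _ = a * (x * b * z) := by rw [hbx]
    _ = (a * x) * (b * z) := by group
    _ = (x * a * z) * (z * b) := by rw [hax, h.cen b hb]
    _ = x * a * (z * z) * b := by group
    _ = x * (a * b) := by rw [h.sq]; group

end Large

theorem theoremA {E F : Subgroup G} {z x : G} (hE : Large E z) (hF : Large F x) (hxE : x ∈ E)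
    (hxz : x ≠ z) : z ∈ F ∨ ∃ q ∈ F, z * q * z⁻¹ = q * x := by
  by_contra hcon
  push Not at hcon
  obtain ⟨hzF, hno⟩ := hcon
  have hzx : z * x = x * z := (hE.cen x hxE).symm
  have hzi : z⁻¹ = z := hE.inv_eq
  have hznorm : ∀ q ∈ F, z * q * z⁻¹ ∈ F := hF.norm z hzx
  have L0 : ∀ q ∈ F, (z * q * z⁻¹ = q ∨ z * q * z⁻¹ = q * x) → z * q = q * z := by
    intro q hq h
    rcases h with h | h
    · calc z * q = (z * q * z⁻¹) * z := by group
        _ = q * z := by rw [h]
    · exact absurd h (hno q hq)
  have RF : ∀ n, n ∈ E → n ∈ F → n = 1 ∨ n = x := by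
    intro n hnE hnF
    have hc : ∀ r ∈ E, r * x = x * r → n * r = r * n := by
      intro r hr hrx
      rcases hE.comm n hnE r hr with h | h
      · exact h
      · exfalso
        apply hzF
        have hrx' : r⁻¹ * x = x * r⁻¹ := by
          calc r⁻¹ * x = r⁻¹ * (x * r) * r⁻¹ := by group
            _ = r⁻¹ * (r * x) * r⁻¹ := by rw [hrx]
            _ = x * r⁻¹ := by group
        have h1 : r⁻¹ * n * r⁻¹⁻¹ ∈ F := hF.norm _ hrx' n hnF
        have h2 : z = n⁻¹ * (r⁻¹ * n * r⁻¹⁻¹) := by
          calc z = (r * n)⁻¹ * (r * n * z) := by group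
            _ = (r * n)⁻¹ * (n * r) := by rw [h]
            _ = n⁻¹ * (r⁻¹ * n * r⁻¹⁻¹) := by group
        rw [h2]
        exact F.mul_mem (F.inv_mem hnF) h1
    rcases hE.cen_cen hxE hF.sq hnE hc with h | h | h | h
    · exact Or.inl h
    · exact Or.inr h
    · exact absurd (h ▸ hnF) hzF
    · exfalso
      apply hzF
      have : z = n * x := by rw [h, mul_assoc, hF.sq, mul_one]
      rw [this]
      exact F.mul_mem hnF hF.mem
  have DR : ∀ d ∈ F, z * d = d * z → ∀ r ∈ E, r * x = x * r →
      r * d * r⁻¹ = d ∨ r * d * r⁻¹ = d * x := by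
    intro d hd hzd r hr hrx
    have h1 : r * d * r⁻¹ * d⁻¹ ∈ F := F.mul_mem (hF.norm r hrx d hd) (F.inv_mem hd)
    have h2 : r * d * r⁻¹ * d⁻¹ ∈ E := by
      have : d * r⁻¹ * d⁻¹ ∈ E := hE.norm d hzd.symm _ (E.inv_mem hr)
      have h3 : r * d * r⁻¹ * d⁻¹ = r * (d * r⁻¹ * d⁻¹) := by group
      rw [h3]; exact E.mul_mem hr this
    rcases RF _ h2 h1 with h | h
    · left
      calc r * d * r⁻¹ = (r * d * r⁻¹ * d⁻¹) * d := by group
        _ = d := by rw [h, one_mul]
    · right
      calc r * d * r⁻¹ = (r * d * r⁻¹ * d⁻¹) * d := by group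
        _ = x * d := by rw [h]
        _ = d * x := (hF.cen d hd).symm
  have S1 : ∀ q ∈ F, q⁻¹ * (z * q * z⁻¹) ∈ F ∧
      z * (q⁻¹ * (z * q * z⁻¹)) = (q⁻¹ * (z * q * z⁻¹)) * z := by
    intro q hq
    have he : q⁻¹ * (z * q * z⁻¹) ∈ F := F.mul_mem (F.inv_mem hq) (hznorm q hq)
    refine ⟨he, L0 _ he ?_⟩
    have h1 : z * (q⁻¹ * (z * q * z⁻¹)) * z⁻¹ = (q⁻¹ * (z * q * z⁻¹))⁻¹ := by
      calc z * (q⁻¹ * (z * q * z⁻¹)) * z⁻¹ = z * q⁻¹ * (z * q * (z⁻¹ * z⁻¹)) := by group
        _ = z * q⁻¹ * (z⁻¹ * q * (z * z)) := by rw [hzi]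
        _ = (q⁻¹ * (z * q * z⁻¹))⁻¹ := by rw [hE.sq]; group
    rw [h1]
    rcases hF.sq_mem he with h | h
    · left; exact inv_eq_of_mul_eq_one_left h
    · right
      apply inv_eq_of_mul_eq_one_left
      rw [mul_assoc, ← hF.cen _ he, ← mul_assoc, h, hF.sq]
  by_cases hcase : ∃ r ∈ E, r * x = x * r ∧ ∃ s ∈ E, s * x = x * s ∧ r * s = s * r * z
  · obtain ⟨r, hr, hrx, s, hs, hsx, hrs⟩ := hcase
    have memM : ∀ a : G, a * x = x * a → a ∈ Subgroup.centralizer ({x} : Set G) :=
      fun a h => Subgroup.mem_centralizer_singleton_iff.mpr h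
    have key := lemmaC (M := Subgroup.centralizer ({x} : Set G)) ⟨x, memM x rfl⟩
      (Subtype.ext hF.sq)
      (fun g => Subtype.ext (Subgroup.mem_centralizer_singleton_iff.mp g.2))
      (F.subgroupOf (Subgroup.centralizer ({x} : Set G)))
      (fun g a ha => by
        rw [Subgroup.mem_subgroupOf] at ha ⊢
        exact hF.norm g (Subgroup.mem_centralizer_singleton_iff.mp g.2) a ha)
      (fun a ha b hb => by
        rw [Subgroup.mem_subgroupOf] at ha hb
        rcases hF.comm a ha b hb with h | h
        · left; exact Subtype.ext h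
        · right; exact Subtype.ext h)
      (fun a ha => by
        rw [Subgroup.mem_subgroupOf] at ha
        rcases hF.sq_mem ha with h | h
        · left; exact Subtype.ext h
        · right; exact Subtype.ext h)
      ⟨z, memM z hzx⟩ ⟨r, memM r hrx⟩ ⟨s, memM s hsx⟩
      (Subtype.ext hE.sq) (Subtype.ext (hE.cen r hr)) (Subtype.ext (hE.cen s hs))
      (fun q hq h => by
        rw [Subgroup.mem_subgroupOf] at hq
        exact hno q hq (congrArg Subtype.val h))
      (fun d hd h => by
        rw [Subgroup.mem_subgroupOf] at hd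
        rcases DR d hd (congrArg Subtype.val h) r hr hrx with h1 | h1
        · left; exact Subtype.ext h1
        · right; exact Subtype.ext h1)
      (fun d hd h => by
        rw [Subgroup.mem_subgroupOf] at hd
        rcases DR d hd (congrArg Subtype.val h) s hs hsx with h1 | h1
        · left; exact Subtype.ext h1
        · right; exact Subtype.ext h1)
      (Subtype.ext hrs)
    apply hzF
    apply hF.self_cen
    intro q hq
    have := key ⟨q, memM q (hF.cen q hq)⟩ (by rw [Subgroup.mem_subgroupOf]; exact hq)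
    exact congrArg Subtype.val this
  · push Not at hcase
    have R4 : ∀ r ∈ E, r * x = x * r → r = 1 ∨ r = x ∨ r = z ∨ r = z * x := by
      intro r hr hrx
      apply hE.cen_cen hxE hF.sq hr
      intro s hs hsx
      exact (hE.comm r hr s hs).resolve_right (hcase r hr hrx s hs hsx)
    obtain ⟨p, hp, hpx⟩ := hE.exists_move hxE hF.ne_one hxz
    have hxpne : x * p ≠ p * x := by
      intro h
      rw [← h] at hpx
      exact hE.ne_one (mul_left_cancel (hpx.symm.trans (mul_one _).symm))
    have D0 : ∀ d ∈ F, z * d = d * z → d * p = p * d → d = 1 ∨ d = x := by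
      intro d hd hzd hdp
      have hdA : ∀ r, (r = 1 ∨ r = x ∨ r = z ∨ r = z * x) → d * r = r * d := by
        rintro r (rfl | rfl | rfl | rfl)
        · simp
        · exact hF.cen d hd
        · exact hzd.symm
        · calc d * (z * x) = (d * z) * x := by group
            _ = (z * d) * x := by rw [hzd]
            _ = z * (d * x) := by group
            _ = z * (x * d) := by rw [hF.cen d hd]
            _ = z * x * d := by group
      apply RF d _ hd
      apply hE.self_cen
      intro b hb
      by_cases hbx : b * x = x * b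
      · exact hdA b (R4 b hb hbx)
      · have hbx' : b * x = x * b * z := (hE.comm b hb x hxE).resolve_left hbx
        have h1 := hdA _ (R4 _ (E.mul_mem hp hb) (hE.mul_comm_of hb hpx hbx'))
        have h2 : p * (d * b) = p * (b * d) := by
          calc p * (d * b) = (p * d) * b := by group
            _ = (d * p) * b := by rw [hdp]
            _ = d * (p * b) := by group
            _ = (p * b) * d := h1
            _ = p * (b * d) := by group
        exact mul_left_cancel h2
    have D1 : ∀ d ∈ F, z * d = d * z → d = 1 ∨ d = x := by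
      intro d hd hzd
      have hdx : d * x = x * d := hF.cen d hd
      have hp' : d * p * d⁻¹ ∈ E := hE.norm d hzd.symm p hp
      have hzdi : z * d⁻¹ = d⁻¹ * z := (Commute.inv_right (show Commute z d from hzd)).eq
      have hp'x : (d * p * d⁻¹) * x = x * (d * p * d⁻¹) * z := by
        calc (d * p * d⁻¹) * x = d * p * (d⁻¹ * (x * d)) * d⁻¹ := by group
          _ = d * p * (d⁻¹ * (d * x)) * d⁻¹ := by rw [hdx]
          _ = d * (p * x) * d⁻¹ := by group
          _ = d * (x * p * z) * d⁻¹ := by rw [hpx]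
          _ = (d * x) * p * (z * d⁻¹) := by group
          _ = (x * d) * p * (d⁻¹ * z) := by rw [hdx, hzdi]
          _ = x * (d * p * d⁻¹) * z := by group
      have hpi : p⁻¹ * x = x * p⁻¹ * z := by
        refine (hE.comm _ (E.inv_mem hp) x hxE).resolve_left ?_
        intro h
        apply hxpne
        calc x * p = p * (p⁻¹ * x) * p := by group
          _ = p * (x * p⁻¹) * p := by rw [h]
          _ = p * x := by group
      have hsq : (d * p * d⁻¹) * (d * p * d⁻¹) = p * p := by
        have : d * (p * p) = (p * p) * d := by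
          rcases hE.sq_mem hp with h | h
          · rw [h]; simp
          · rw [h]; exact hzd.symm
        calc (d * p * d⁻¹) * (d * p * d⁻¹) = (d * (p * p)) * d⁻¹ := by group
          _ = ((p * p) * d) * d⁻¹ := by rw [this]
          _ = p * p := by group
      have hbad : x * p * x = p → False := by
        intro h
        apply hxpne
        calc x * p = (x * p * x) * x := by rw [mul_assoc (x * p), hF.sq, mul_one]
          _ = p * x := by rw [h]
      rcases R4 _ (E.mul_mem hp' (E.inv_mem hp)) (hE.mul_comm_of (E.inv_mem hp) hp'x hpi)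
        with h | h | h | h
      · apply D0 d hd hzd
        calc d * p = (d * p * d⁻¹ * p⁻¹) * p * d := by group
          _ = p * d := by rw [h, one_mul]
      · exfalso
        apply hbad
        have e1 : d * p * d⁻¹ = x * p := by
          calc d * p * d⁻¹ = (d * p * d⁻¹ * p⁻¹) * p := by group
            _ = x * p := by rw [h]
        rw [e1] at hsq
        have : (x * p * x) * p = p * p := by rw [← hsq]; group
        exact mul_right_cancel this
      · have e1 : d * p * d⁻¹ = z * p := by
          calc d * p * d⁻¹ = (d * p * d⁻¹ * p⁻¹) * p := by group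
            _ = z * p := by rw [h]
        have hxd : x * d ∈ F := F.mul_mem hF.mem hd
        have h1 : z * (x * d) = (x * d) * z := by
          calc z * (x * d) = (z * x) * d := by group
            _ = (x * z) * d := by rw [hzx]
            _ = x * (z * d) := by group
            _ = x * (d * z) := by rw [hzd]
            _ = (x * d) * z := by group
        have h2 : (x * d) * p = p * (x * d) := by
          calc (x * d) * p = x * (d * p * d⁻¹) * d := by group
            _ = x * (z * p) * d := by rw [e1]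
            _ = x * (p * z) * d := by rw [hE.cen p hp]
            _ = (x * p * z) * d := by group
            _ = (p * x) * d := by rw [hpx]
            _ = p * (x * d) := by group
        rcases D0 _ hxd h1 h2 with h3 | h3
        · right
          calc d = (x * x) * d := by rw [hF.sq, one_mul]
            _ = x * (x * d) := by group
            _ = x := by rw [h3, mul_one]
        · left
          exact mul_left_cancel (h3.trans (mul_one x).symm)
      · exfalso
        apply hbad
        have e1 : d * p * d⁻¹ = z * x * p := by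
          calc d * p * d⁻¹ = (d * p * d⁻¹ * p⁻¹) * p := by group
            _ = z * x * p := by rw [h]
        rw [e1] at hsq
        have hxp : x * p ∈ E := E.mul_mem hxE hp
        have : (x * p * x) * p = p * p := by
          rw [← hsq]
          calc (x * p * x) * p = (x * p) * (x * p) := by group
            _ = (z * z) * ((x * p) * (x * p)) := by rw [hE.sq, one_mul]
            _ = z * (z * (x * p)) * (x * p) := by group
            _ = z * ((x * p) * z) * (x * p) := by rw [hE.cen _ hxp]
            _ = z * x * p * (z * x * p) := by group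
        exact mul_right_cancel this
    obtain ⟨a, ha, b, hb, hab⟩ := hF.nonab
    have ha1 : ¬ (a = 1 ∨ a = x) := by
      rintro (rfl | rfl)
      · apply hF.ne_one
        have : b * 1 = b * x := by simpa using hab
        exact (mul_left_cancel this).symm
      · apply hF.ne_one
        rw [hF.cen b hb] at hab
        exact (mul_left_cancel (hab.symm.trans (mul_one _).symm))
    obtain ⟨he, hze⟩ := S1 a ha
    rcases D1 _ he hze with h | h
    · apply ha1
      apply D1 a ha
      have : z * a * z⁻¹ = a := by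
        calc z * a * z⁻¹ = a * (a⁻¹ * (z * a * z⁻¹)) := by group
          _ = a := by rw [h, mul_one]
      exact L0 a ha (Or.inl this)
    · apply hno a ha
      calc z * a * z⁻¹ = a * (a⁻¹ * (z * a * z⁻¹)) := by group
        _ = a * x := by rw [h]

/-- Orthogonality of singular involutions is symmetric. -/
theorem orth_symm {z : G} (h : Large (QQ z) z) (g : G) (hx : g * z * g⁻¹ ∈ QQ z) :
    z ∈ QQ (g * z * g⁻¹) := by
  by_cases hxz : g * z * g⁻¹ = z
  · rw [hxz]; exact h.mem
  have hF := large_QQ_conj h g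
  set x := g * z * g⁻¹ with hxdef
  rcases theoremA h hF hx hxz with h1 | ⟨q, hq, hzq⟩
  · exact h1
  obtain ⟨p, hp, hpx⟩ := h.exists_move hx hF.ne_one hxz
  have hpz : p * z = z * p := h.cen p hp
  have hqx : q * x = x * q := hF.cen q hq
  have hzx : z * x = x * z := (h.cen x hx).symm
  -- conjugation formulas
  have c1 : p * x * p⁻¹ = x * z := by
    calc p * x * p⁻¹ = (x * p * z) * p⁻¹ := by rw [hpx]
      _ = x * (p * z) * p⁻¹ := by group
      _ = x * (z * p) * p⁻¹ := by rw [hpz]
      _ = x * z := by group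
  have c2 : p * z * p⁻¹ = z := by rw [hpz]; group
  have c3 : p⁻¹ * x * p = x * z := by
    have : p * (x * z) * p⁻¹ = x := by
      calc p * (x * z) * p⁻¹ = (p * x * p⁻¹) * (p * z * p⁻¹) := by group
        _ = x * z * z := by rw [c1, c2]
        _ = x := by rw [mul_assoc, h.sq, mul_one]
    calc p⁻¹ * x * p = p⁻¹ * (p * (x * z) * p⁻¹) * p := by rw [this]
      _ = x * z := by group
  have c4 : p⁻¹ * z * p = z := by
    calc p⁻¹ * z * p = p⁻¹ * (z * p) := by group
      _ = p⁻¹ * (p * z) := by rw [hpz]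
      _ = z := by group
  have c5 : q⁻¹ * z * q = x * z := by
    have : z * q = q * x * z := by
      calc z * q = (z * q * z⁻¹) * z := by group
        _ = q * x * z := by rw [hzq]
    calc q⁻¹ * z * q = q⁻¹ * (z * q) := by group
      _ = q⁻¹ * (q * x * z) := by rw [this]
      _ = x * z := by group
  have c6 : q⁻¹ * x * q = x := by
    calc q⁻¹ * x * q = q⁻¹ * (x * q) := by group
      _ = q⁻¹ * (q * x) := by rw [hqx]
      _ = x := by group
  have n1 : (p * q⁻¹ * p⁻¹) * z * (p * q⁻¹ * p⁻¹)⁻¹ = x := by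
    calc (p * q⁻¹ * p⁻¹) * z * (p * q⁻¹ * p⁻¹)⁻¹ = p * (q⁻¹ * (p⁻¹ * z * p) * q) * p⁻¹ := by group
      _ = p * (x * z) * p⁻¹ := by rw [c4, c5]
      _ = (p * x * p⁻¹) * (p * z * p⁻¹) := by group
      _ = x * z * z := by rw [c1, c2]
      _ = x := by rw [mul_assoc, h.sq, mul_one]
  have n2 : (p * q⁻¹ * p⁻¹) * x * (p * q⁻¹ * p⁻¹)⁻¹ = z := by
    calc (p * q⁻¹ * p⁻¹) * x * (p * q⁻¹ * p⁻¹)⁻¹ = p * (q⁻¹ * (p⁻¹ * x * p) * q) * p⁻¹ := by group
      _ = p * (q⁻¹ * (x * z) * q) * p⁻¹ := by rw [c3]
      _ = p * ((q⁻¹ * x * q) * (q⁻¹ * z * q)) * p⁻¹ := by group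
      _ = p * (x * (x * z)) * p⁻¹ := by rw [c5, c6]
      _ = p * ((x * x) * z) * p⁻¹ := by group
      _ = p * z * p⁻¹ := by rw [hF.sq, one_mul]
      _ = z := c2
  have := (mem_QQ_conj (x := z) (g := p * q⁻¹ * p⁻¹) (a := x)).mpr hx
  rwa [n1, n2] at this

/-- `Q u ∩ Q v ≤ Q (u v)` for orthogonal singular `u ≠ v`. -/
theorem inter_le_QQ_mul {u v a : G} (hv : Large (QQ v) v) (huv : u ∈ QQ v) (hu1 : u ≠ 1)
    (hne : u ≠ v) (hvm : v ∈ QQ (u * v)) (hau : a ∈ QQ u) (hav : a ∈ QQ v) : a ∈ QQ (u * v) := by
  obtain ⟨n, hn, hnu⟩ := hv.exists_move huv hu1 hne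
  have hnv : n * v = v * n := hv.cen n hn
  have c1 : n * u * n⁻¹ = u * v := by
    calc n * u * n⁻¹ = (u * n * v) * n⁻¹ := by rw [hnu]
      _ = u * (n * v) * n⁻¹ := by group
      _ = u * (v * n) * n⁻¹ := by rw [hnv]
      _ = u * v := by group
  have h1 := (mem_QQ_conj (x := u) (g := n) (a := a)).mpr hau
  rw [c1] at h1
  rcases hv.comm n hn a hav with h | h
  · have : n * a * n⁻¹ = a := by rw [h]; group
    rwa [this] at h1
  · have : n * a * n⁻¹ = a * v := by
      calc n * a * n⁻¹ = (a * n * v) * n⁻¹ := by rw [h]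
        _ = a * (n * v) * n⁻¹ := by group
        _ = a * (v * n) * n⁻¹ := by rw [hnv]
        _ = a * v := by group
    rw [this] at h1
    have h2 := (QQ (u * v)).mul_mem h1 ((QQ (u * v)).inv_mem hvm)
    simpa using h2

/-- The singular-subgroup setting. -/
structure Sing (z : G) (U : Subgroup G) : Prop where
  large : Large (QQ z) z
  sq : ∀ u ∈ U, u * u = 1
  conj : ∀ u ∈ U, u ≠ 1 → ∃ g : G, g * z * g⁻¹ = u
  orth : ∀ u ∈ U, ∀ v ∈ U, u ≠ 1 → v ≠ 1 → v ∈ QQ u

theorem Sing.large_of {z : G} {U : Subgroup G} (h : Sing z U) {u : G} (hu : u ∈ U) (hu1 : u ≠ 1) :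
    Large (QQ u) u := by
  obtain ⟨g, rfl⟩ := h.conj u hu hu1
  exact large_QQ_conj h.large g

theorem Sing.core_from_generators {z : G} {U : Subgroup G} (h : Sing z U) (T : Set G)
    (hT : Subgroup.closure T = U) (hT1 : (1 : G) ∉ T) :
    (⨅ u ∈ ((U : Set G) \ {1}), QQ u) = ⨅ t ∈ T, QQ t := by
  apply le_antisymm
  · apply le_iInf₂
    intro t ht
    apply iInf₂_le
    refine ⟨?_, ?_⟩
    · rw [← hT]; exact Subgroup.subset_closure ht
    · intro h1
      exact hT1 (h1 ▸ ht)
  · intro a ha
    have haT : ∀ t ∈ T, a ∈ QQ t := by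
      intro t ht
      have := (iInf₂_le (f := fun t (_ : t ∈ T) => QQ t) t ht) ha
      exact this
    have key : ∀ u ∈ Subgroup.closure T, u = 1 ∨ a ∈ QQ u := by
      intro u hu
      induction hu using Subgroup.closure_induction with
      | mem x hx => exact Or.inr (haT x hx)
      | one => exact Or.inl rfl
      | mul x y hx hy ihx ihy =>
        rw [hT] at hx hy
        rcases ihx with rfl | ihx
        · simpa using ihy
        rcases ihy with rfl | ihy
        · right; simpa using ihx
        by_cases hx1 : x = 1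
        · subst hx1; right; simpa using ihy
        by_cases hy1 : y = 1
        · subst hy1; right; simpa using ihx
        by_cases hxy : x * y = 1
        · exact Or.inl hxy
        right
        have hne : x ≠ y := by
          rintro rfl
          exact hxy (h.sq x hx)
        exact inter_le_QQ_mul (h.large_of hy hy1) (h.orth y hy x hx hy1 hx1) hx1 hne
          (h.orth _ (U.mul_mem hx hy) y hy hxy hy1) ihx ihy
      | inv x hx ih =>
        rw [hT] at hx
        have : x⁻¹ = x := inv_eq_of_mul_eq_one_left (h.sq x hx)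
        rw [this]; exact ih
    rw [Subgroup.mem_iInf]
    intro u
    rw [Subgroup.mem_iInf]
    rintro ⟨huU, hu1⟩
    rw [← hT] at huU
    exact (key u huU).resolve_left hu1

end Cfsg.Agent.Lib.Helper94Extra
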