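import Cfsg.Agent.Lib.Helper94Extra

set_option autoImplicit false

namespace Cfsg.Agent.Lib.Helper94Extra

variable {G : Type*} [Group G]

namespace Large

variable {E : Subgroup G} {z : G}

theorem commute_mul_of_not (h : Large E z) {a b x : G} (ha : a ∈ E) (hb : b ∈ E) (hx : x ∈ E)
    (hax : ¬ Commute a x) (hbx : ¬ Commute b x) : Commute (a * b) x :=
  h.mul_comm_of hb ((h.comm a ha x hx).resolve_left hax) ((h.comm b hb x hx).resolve_left hbx)

theorem commute_mul_of_not' (h : Large E z) {g x d : G} (hg : g ∈ E) (hx : x ∈ E) (hd : d ∈ E)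
    (hgx : ¬ Commute g x) (hgd : ¬ Commute g d) : Commute g (x * d) :=
  (h.commute_mul_of_not hx hd hg (fun c => hgx c.symm) (fun c => hgd c.symm)).symm

/-- Nondegeneracy of the commutator pairing: an element of `E` outside a subgroup generated by `z` and a
finite set is moved by an element of `E` centralizing that subgroup. -/
theorem exists_cen_aux (h : Large E z) (S : Finset G) : (∀ s ∈ S, s ∈ E) → ∀ x ∈ E,
    x ∉ Subgroup.closure (insert z (S : Set G)) →
    ∃ g ∈ E, (∀ d ∈ Subgroup.closure (insert z (S : Set G)), Commute g d) ∧ ¬ Commute g x := by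
  classical
  induction S using Finset.induction_on with
  | empty =>
    intro _ x hx hxD
    have hx1 : x ≠ 1 := by
      rintro rfl; exact hxD (Subgroup.one_mem _)
    have hxz : x ≠ z := by
      rintro rfl; exact hxD (Subgroup.subset_closure (by simp))
    obtain ⟨p, hp, hpx⟩ := h.exists_move hx hx1 hxz
    refine ⟨p, hp, ?_, ?_⟩
    · have hle : Subgroup.closure (insert z ((∅ : Finset G) : Set G)) ≤
          Subgroup.centralizer ({p} : Set G) := by
        rw [Subgroup.closure_le]
        intro d hd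
        simp only [Finset.coe_empty, insert_empty_eq, Set.mem_singleton_iff] at hd
        subst hd
        exact Subgroup.mem_centralizer_singleton_iff.mpr (h.cen p hp).symm
      intro d hd
      exact (Subgroup.mem_centralizer_singleton_iff.mp (hle hd)).symm
    · intro c
      have c' : p * x = x * p := c
      rw [c'] at hpx
      exact h.ne_one (mul_left_cancel (hpx.symm.trans (mul_one _).symm))
  | insert d S _ ih =>
    intro hS x hx hxD
    have hSE : ∀ s ∈ S, s ∈ E := fun s hs => hS s (Finset.mem_insert_of_mem hs)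
    have hdE : d ∈ E := hS d (Finset.mem_insert_self d S)
    have hset : insert z ((insert d S : Finset G) : Set G) = insert d (insert z (S : Set G)) := by
      rw [Finset.coe_insert, Set.insert_comm]
    rw [hset] at hxD ⊢
    have hle : Subgroup.closure (insert z (S : Set G)) ≤
        Subgroup.closure (insert d (insert z (S : Set G))) :=
      Subgroup.closure_mono (Set.subset_insert _ _)
    have hdm : d ∈ Subgroup.closure (insert d (insert z (S : Set G))) :=
      Subgroup.subset_closure (Set.mem_insert _ _)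
    have fin : ∀ g, (∀ e ∈ Subgroup.closure (insert z (S : Set G)), Commute g e) → Commute g d →
        ∀ e ∈ Subgroup.closure (insert d (insert z (S : Set G))), Commute g e := by
      intro g hg hgd
      have hle2 : Subgroup.closure (insert d (insert z (S : Set G))) ≤
          Subgroup.centralizer ({g} : Set G) := by
        rw [Subgroup.closure_le]
        intro e he
        rcases he with rfl | he
        · exact Subgroup.mem_centralizer_singleton_iff.mpr hgd.symm
        · exact Subgroup.mem_centralizer_singleton_iff.mpr (hg e (Subgroup.subset_closure he)).symm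
      intro e he
      exact (Subgroup.mem_centralizer_singleton_iff.mp (hle2 he)).symm
    obtain ⟨g1, hg1, hg1D, hg1x⟩ := ih hSE x hx (fun hc => hxD (hle hc))
    have hxd : x * d ∉ Subgroup.closure (insert z (S : Set G)) := by
      intro hc
      apply hxD
      have := Subgroup.mul_mem _ (hle hc) (Subgroup.inv_mem _ hdm)
      simpa using this
    obtain ⟨g3, hg3, hg3D, hg3x⟩ := ih hSE (x * d) (E.mul_mem hx hdE) hxd
    by_cases c1 : Commute g1 d
    · exact ⟨g1, hg1, fin g1 hg1D c1, hg1x⟩
    by_cases c2 : Commute g3 d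
    · refine ⟨g3, hg3, fin g3 hg3D c2, ?_⟩
      intro c
      exact hg3x (c.mul_right c2)
    have c3 : Commute g3 x := by
      by_contra c
      exact hg3x (h.commute_mul_of_not' hg3 hx hdE c c2)
    refine ⟨g1 * g3, E.mul_mem hg1 hg3, fin _ (fun e he => (hg1D e he).mul_left (hg3D e he))
      (h.commute_mul_of_not hg1 hg3 hdE c1 c2), ?_⟩
    intro c
    apply hg1x
    have := c.mul_left c3.inv_left
    simpa using this

theorem exists_cen [Finite G] (h : Large E z) (D : Subgroup G) (hzD : z ∈ D) (hDE : D ≤ E) {x : G}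
    (hx : x ∈ E) (hxD : x ∉ D) : ∃ g ∈ E, (∀ d ∈ D, g * d = d * g) ∧ g * x = x * g * z := by
  classical
  have : Fintype G := Fintype.ofFinite G
  have hcl : Subgroup.closure (insert z (((Finset.univ.filter (· ∈ D)) : Finset G) : Set G)) = D := by
    apply le_antisymm
    · rw [Subgroup.closure_le]
      intro e he
      rcases he with rfl | he
      · exact hzD
      · simpa using he
    · intro e he
      apply Subgroup.subset_closure
      right
      simpa using he
  obtain ⟨g, hg, hgD, hgx⟩ := h.exists_cen_aux (Finset.univ.filter (· ∈ D))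
    (fun s hs => hDE (by simpa using hs)) x hx (by rw [hcl]; exact hxD)
  rw [hcl] at hgD
  exact ⟨g, hg, fun d hd => hgD d hd, (h.comm g hg x hx).resolve_left hgx⟩

theorem conj_eq (h : Large E z) {g a : G} (hg : g ∈ E) (ha : a ∈ E) :
    g * a * g⁻¹ = a ∨ g * a * g⁻¹ = a * z := by
  rcases h.comm g hg a ha with h1 | h1
  · left; rw [h1]; group
  · right
    calc g * a * g⁻¹ = (a * g * z) * g⁻¹ := by rw [h1]
      _ = a * (g * z) * g⁻¹ := by group
      _ = a * (z * g) * g⁻¹ := by rw [h.cen g hg]
      _ = a * z := by group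

end Large

namespace Sing

variable {z : G} {U : Subgroup G}

theorem le_QQ (h : Sing z U) {u : G} (hu : u ∈ U) (hu1 : u ≠ 1) : U ≤ QQ u := by
  intro v hv
  by_cases hv1 : v = 1
  · subst hv1; exact one_mem _
  · exact h.orth u hu v hv hu1 hv1

theorem join_props (h : Sing z U) : ∀ g ∈ (⨆ u ∈ ((U : Set G) \ {1}), QQ u),
    (∀ v ∈ U, g * v * g⁻¹ ∈ U) ∧
    (∀ x ∈ (⨅ u ∈ ((U : Set G) \ {1}), QQ u), g * x * g⁻¹ * x⁻¹ ∈ U) := by
  intro g hg
  rw [← iSup_subtype''] at hg
  refine Subgroup.iSup_induction _ (C := fun g => (∀ v ∈ U, g * v * g⁻¹ ∈ U) ∧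
    (∀ x ∈ (⨅ u ∈ ((U : Set G) \ {1}), QQ u), g * x * g⁻¹ * x⁻¹ ∈ U)) hg ?_ ?_ ?_
  · intro i g hg
    obtain ⟨u, huU, hu1⟩ := i
    have hu1' : u ≠ 1 := hu1
    have hL := h.large_of huU hu1'
    refine ⟨fun v hv => ?_, fun x hx => ?_⟩
    · rcases hL.conj_eq hg (h.le_QQ huU hu1' hv) with h1 | h1
      · rw [h1]; exact hv
      · rw [h1]; exact U.mul_mem hv huU
    · have hxu : x ∈ QQ u :=
        (iInf₂_le (f := fun u (_ : u ∈ ((U : Set G) \ {1})) => QQ u) u ⟨huU, hu1⟩) hx
      rcases hL.conj_eq hg hxu with h1 | h1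
      · rw [h1]; simp
      · rw [h1]
        have : x * u * x⁻¹ = u := by rw [hL.cen x hxu]; group
        rw [this]; exact huU
  · simp
  · intro g k hg hk
    refine ⟨fun v hv => ?_, fun x hx => ?_⟩
    · have := hg.1 _ (hk.1 v hv)
      have e : g * k * v * (g * k)⁻¹ = g * (k * v * k⁻¹) * g⁻¹ := by group
      rw [e]; exact this
    · have e : g * k * x * (g * k)⁻¹ * x⁻¹ = (g * (k * x * k⁻¹ * x⁻¹) * g⁻¹) * (g * x * g⁻¹ * x⁻¹) := by
        group
      rw [e]
      exact U.mul_mem (hg.1 _ (hk.2 x hx)) (hg.2 x hx)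

theorem coset_transitive [Finite G] (h : Sing z U) :
    ∀ x ∈ (⨅ u ∈ ((U : Set G) \ {1}), QQ u), x ∉ U → ∀ u ∈ U,
      ∃ g ∈ (⨆ u ∈ ((U : Set G) \ {1}), QQ u) ⊓ Subgroup.centralizer (U : Set G),
        g * x * g⁻¹ = x * u := by
  intro x hx hxU u hu
  by_cases hu1 : u = 1
  · subst hu1
    exact ⟨1, one_mem _, by simp⟩
  have hL := h.large_of hu hu1
  have hxu : x ∈ QQ u :=
    (iInf₂_le (f := fun u (_ : u ∈ ((U : Set G) \ {1})) => QQ u) u ⟨hu, hu1⟩) hx
  obtain ⟨g, hg, hgU, hgx⟩ := hL.exists_cen U hu (h.le_QQ hu hu1) hxu hxU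
  refine ⟨g, ⟨?_, ?_⟩, ?_⟩
  · exact (le_iSup₂ (f := fun u (_ : u ∈ ((U : Set G) \ {1})) => QQ u) u ⟨hu, hu1⟩) hg
  · show g ∈ Subgroup.centralizer (U : Set G)
    rw [Subgroup.mem_centralizer_iff]
    intro v hv
    exact (hgU v hv).symm
  · calc g * x * g⁻¹ = (x * g * u) * g⁻¹ := by rw [hgx]
      _ = x * (g * u) * g⁻¹ := by group
      _ = x * (u * g) * g⁻¹ := by rw [hL.cen g hg]
      _ = x * u := by group

end Sing

end Cfsg.Agent.Lib.Helper94Extra
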