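import Cfsg.Agent.Lib.Helper94Extra2

set_option autoImplicit false

namespace Cfsg.Agent.Lib.Helper94Extra

variable {G : Type*} [Group G]

theorem comm_of_sq {A : Type*} [Group A] (hA : ∀ a : A, a * a = 1) (a b : A) : a * b = b * a := by
  have hi : ∀ c : A, c⁻¹ = c := fun c => inv_eq_of_mul_eq_one_left (hA c)
  calc a * b = (a * b)⁻¹ := (hi _).symm
    _ = b⁻¹ * a⁻¹ := mul_inv_rev a b
    _ = b * a := by rw [hi, hi]

/-- The subgroup `W ∪ W u` of a group of exponent two. -/
def adjoin {A : Type*} [Group A] (hA : ∀ a : A, a * a = 1) (W : Subgroup A) (u : A) : Subgroup A where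
  carrier := {a | a ∈ W ∨ a * u ∈ W}
  one_mem' := Or.inl W.one_mem
  mul_mem' := by
    rintro a b (ha | ha) (hb | hb)
    · exact Or.inl (W.mul_mem ha hb)
    · right
      rw [mul_assoc]; exact W.mul_mem ha hb
    · right
      have : a * b * u = (a * u) * b := by
        rw [mul_assoc, comm_of_sq hA b u, ← mul_assoc]
      rw [this]; exact W.mul_mem ha hb
    · left
      have : a * b = (a * u) * (b * u) := by
        calc a * b = a * (u * u) * b := by rw [hA u, mul_one]
          _ = a * u * (u * b) := by group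
          _ = (a * u) * (b * u) := by rw [comm_of_sq hA u b]
      rw [this]; exact W.mul_mem ha hb
  inv_mem' := by
    intro a ha
    have : a⁻¹ = a := inv_eq_of_mul_eq_one_left (hA a)
    rw [this]; exact ha

namespace Sing

variable {z : G} {U : Subgroup G}

theorem induces_all [Finite G] (h : Sing z U) (φ : U ≃* U) :
    ∃ g ∈ (⨆ u ∈ ((U : Set G) \ {1}), QQ u), ∀ u : U, g * (u : G) * g⁻¹ = ((φ u : U) : G) := by
  classical
  have : Fintype U := Fintype.ofFinite U
  have hA : ∀ a : U, a * a = 1 := fun a => Subtype.ext (h.sq a a.2)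
  have claim : ∀ S : Finset U, ∃ g ∈ (⨆ u ∈ ((U : Set G) \ {1}), QQ u),
      ∀ a ∈ S, g * (a : G) * g⁻¹ = ((φ a : U) : G) := by
    intro S
    induction S using Finset.induction_on with
    | empty => exact ⟨1, one_mem _, by simp⟩
    | insert w S _ ih =>
      obtain ⟨g, hg, hgS⟩ := ih
      have hcl : ∀ a ∈ Subgroup.closure (S : Set U), g * (a : G) * g⁻¹ = ((φ a : U) : G) := by
        intro a ha
        exact MonoidHom.eqOn_closure (f := (MulAut.conj g).toMonoidHom.comp U.subtype)
          (g := U.subtype.comp φ.toMonoidHom) (fun a ha => hgS a ha) ha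
      by_cases hw : w ∈ Subgroup.closure (S : Set U)
      · refine ⟨g, hg, fun a ha => ?_⟩
        rcases Finset.mem_insert.mp ha with rfl | ha
        · exact hcl _ hw
        · exact hgS a ha
      have hw'U : g⁻¹ * ((φ w : U) : G) * g⁻¹⁻¹ ∈ U := (h.join_props g⁻¹ (inv_mem hg)).1 _ (φ w).2
      obtain ⟨w', hw'def⟩ : ∃ w' : U, (w' : G) = g⁻¹ * ((φ w : U) : G) * g⁻¹⁻¹ := ⟨⟨_, hw'U⟩, rfl⟩
      have hgw' : g * (w' : G) * g⁻¹ = ((φ w : U) : G) := by rw [hw'def]; group
      have hw' : w' ∉ Subgroup.closure (S : Set U) := by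
        intro hc
        have h1 := hcl w' hc
        have h2 : φ w = φ w' := Subtype.ext (hgw'.symm.trans h1)
        exact hw (φ.injective h2 ▸ hc)
      by_cases hu : w * w' = 1
      · have hww : w' = w := mul_left_cancel (hu.trans (hA w).symm)
        refine ⟨g, hg, fun a ha => ?_⟩
        rcases Finset.mem_insert.mp ha with rfl | ha
        · rw [← hww]; rw [hww] at hgw' ⊢; exact hgw'
        · exact hgS a ha
      · have hu1 : ((w * w' : U) : G) ≠ 1 := fun hc => hu (Subtype.ext hc)
        have huU : ((w * w' : U) : G) ∈ U := (w * w').2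
        have hL := h.large_of huU hu1
        have hwu : w * (w * w') = w' := by rw [← mul_assoc, hA w, one_mul]
        obtain ⟨δ, hδ, hδD, hδw⟩ := hL.exists_cen
          ((adjoin hA (Subgroup.closure (S : Set U)) (w * w')).map U.subtype)
          ⟨w * w', Or.inr (by rw [hA]; exact one_mem _), rfl⟩
          (by
            rintro _ ⟨a, _, rfl⟩
            exact h.le_QQ huU hu1 a.2)
          (x := (w : G)) (h.le_QQ huU hu1 w.2)
          (by
            rintro ⟨a, ha, hav⟩
            have haw : a = w := Subtype.ext hav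
            subst haw
            rcases ha with ha | ha
            · exact hw ha
            · rw [hwu] at ha; exact hw' ha)
        refine ⟨g * δ, mul_mem hg
          ((le_iSup₂ (f := fun u (_ : u ∈ ((U : Set G) \ {1})) => QQ u) _ ⟨huU, hu1⟩) hδ), ?_⟩
        intro a ha
        rcases Finset.mem_insert.mp ha with rfl | ha
        · have e1 : δ * (a : G) * δ⁻¹ = (w' : G) := by
            calc δ * (a : G) * δ⁻¹ = ((a : G) * δ * ((a * w' : U) : G)) * δ⁻¹ := by rw [hδw]
              _ = (a : G) * (δ * ((a * w' : U) : G)) * δ⁻¹ := by group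
              _ = (a : G) * (((a * w' : U) : G) * δ) * δ⁻¹ := by rw [hL.cen δ hδ]
              _ = (a : G) * ((a * w' : U) : G) := by group
              _ = ((a * (a * w') : U) : G) := rfl
              _ = (w' : G) := by rw [hwu]
          calc g * δ * (a : G) * (g * δ)⁻¹ = g * (δ * (a : G) * δ⁻¹) * g⁻¹ := by group
            _ = ((φ a : U) : G) := by rw [e1, hgw']
        · have e1 : δ * (a : G) = (a : G) * δ :=
            hδD _ ⟨a, Or.inl (Subgroup.subset_closure ha), rfl⟩
          calc g * δ * (a : G) * (g * δ)⁻¹ = g * (δ * (a : G)) * δ⁻¹ * g⁻¹ := by group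
            _ = g * ((a : G) * δ) * δ⁻¹ * g⁻¹ := by rw [e1]
            _ = g * (a : G) * g⁻¹ := by group
            _ = ((φ a : U) : G) := hgS a ha
  obtain ⟨g, hg, hgS⟩ := claim Finset.univ
  exact ⟨g, hg, fun u => hgS u (Finset.mem_univ u)⟩

end Sing

end Cfsg.Agent.Lib.Helper94Extra
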