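import Cfsg.Agent.Lib.Helper96ExtDefs

set_option autoImplicit false
set_option linter.unusedSectionVars false

/-! PROJECT 96, piece `coord`, and the common set-up for the pieces `c1`, `c2`, `c3a`, `c3b`. -/

namespace Cfsg.Agent.Lib.Helper95Extcoord

open Module Cfsg.Agent.Lib.Helper96ExtDefs

variable {F V : Type*} [Field F] [AddCommGroup V] [Module F V] [Module.Finite F V]
variable {G : Subgroup (Module.End F V)ˣ}

/-- piece `coord` -/
theorem exists_coord {W P : Submodule F V} (hle : W ≤ P) (hd : finrank F W + 1 = finrank F P) {p : V}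
    (hp : p ∈ P) (hpW : p ∉ W) :
    ∃ π : Module.Dual F V, π p = 1 ∧ (∀ w ∈ W, π w = 0) ∧ ∀ y ∈ P, y - π y • p ∈ W := by
  obtain ⟨f, hfp, hfW⟩ := Submodule.exists_le_ker_of_notMem hpW
  have hsup : W ⊔ Submodule.span F {p} = P := by
    have h1 : W ⊔ Submodule.span F {p} ≤ P :=
      sup_le hle ((Submodule.span_singleton_le_iff_mem _ _).2 hp)
    have h2 : W < W ⊔ Submodule.span F {p} := by
      refine lt_of_le_of_ne le_sup_left ?_
      intro h
      apply hpW
      rw [h]
      exact Submodule.mem_sup_right (Submodule.mem_span_singleton_self p)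
    have h3 := Submodule.finrank_lt_finrank_of_lt h2
    exact Submodule.eq_of_le_of_finrank_le h1 (by omega)
  refine ⟨(f p)⁻¹ • f, ?_, ?_, ?_⟩
  · simp [inv_mul_cancel₀ hfp]
  · intro w hw
    have : f w = 0 := hfW hw
    simp [this]
  · intro y hy
    rw [← hsup] at hy
    obtain ⟨w, hw, z, hz, rfl⟩ := Submodule.mem_sup.1 hy
    obtain ⟨c, rfl⟩ := Submodule.mem_span_singleton.1 hz
    have hw0 : f w = 0 := hfW hw
    have : ((f p)⁻¹ • f) (w + c • p) = c := by
      simp only [LinearMap.smul_apply, map_add, hw0, map_smul, smul_eq_mul]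
      field_simp
      ring
    rw [this, add_sub_cancel_right]
    exact hw

/-- the common set-up -/
theorem setup {U P : Submodule F V} (hdU : finrank F ↥(U ⊓ P) + 1 = finrank F U)
    (hdP : finrank F ↥(U ⊓ P) + 1 = finrank F P) :
    ∃ (u p : V) (πU πP : Module.Dual F V), u ∈ U ∧ u ∉ P ∧ p ∈ P ∧ p ∉ U ∧ πU u = 1 ∧ πP p = 1 ∧
      (∀ w ∈ U ⊓ P, πU w = 0) ∧ (∀ w ∈ U ⊓ P, πP w = 0) ∧ (∀ y ∈ U, y - πU y • u ∈ U ⊓ P) ∧
      ∀ y ∈ P, y - πP y • p ∈ U ⊓ P := by
  obtain ⟨u, hu, huP⟩ : ∃ u ∈ U, u ∉ P := by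
    by_contra hcon
    push Not at hcon
    have : U ⊓ P = U := inf_eq_left.2 hcon
    rw [this] at hdU
    omega
  obtain ⟨p, hp, hpU⟩ : ∃ p ∈ P, p ∉ U := by
    by_contra hcon
    push Not at hcon
    have : U ⊓ P = P := inf_eq_right.2 hcon
    rw [this] at hdP
    omega
  obtain ⟨πU, a1, a2, a3⟩ := exists_coord (inf_le_left : U ⊓ P ≤ U) hdU hu (fun h => huP h.2)
  obtain ⟨πP, b1, b2, b3⟩ := exists_coord (inf_le_right : U ⊓ P ≤ P) hdP hp (fun h => hpU h.1)
  exact ⟨u, p, πU, πP, hu, huP, hp, hpU, a1, b1, a2, b2, a3, b3⟩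

/-- two elements of a root space multiply to zero -/
lemma Root_mul_eq_zero {P : Submodule F V} {T : Submodule F (Module.End F V)} (h : Root G P T)
    {ν ν' : Module.End F V} (hν : ν ∈ T) (hν' : ν' ∈ T) : ν * ν' = 0 := by
  ext v
  rw [Module.End.mul_apply]
  exact h.ker ν hν _ (h.range ν' hν' v)

/-- `ν` kills `W`, `y ∈ X = W ⊕ F x`: `ν y = π y • ν x` -/
lemma apply_of_coord {W X : Submodule F V} {x : V} {π : Module.Dual F V}
    (hπ : ∀ y ∈ X, y - π y • x ∈ W) {ν : Module.End F V} (hν : ∀ w ∈ W, ν w = 0) {y : V}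
    (hy : y ∈ X) : ν y = π y • ν x := by
  have := hν _ (hπ y hy)
  rw [map_sub, map_smul, sub_eq_zero] at this
  exact this

/-- the general commutator identity -/
lemma comm_id {R : Type*} [Ring R] {a b : R} (ha : a * a = 0) (hb : b * b = 0) :
    (1 + a) * (1 + b) * (1 - a) * (1 - b)
      = 1 + a * b - b * a + b * a * b - a * b * a + a * b * a * b := by
  have : (1 + a) * (1 + b) * (1 - a) * (1 - b)
      = 1 + a * b - b * a + b * a * b - a * b * a + a * b * a * b - a * a + (a * a) * b - b * b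
        - a * (b * b) := by noncomm_ring
  rw [this, ha, hb]
  simp

/-- the commutator of two elements of `G` of the form `1 + a`, `1 + b` with `a² = b² = 0` -/
lemma InG_comm {a b : Module.End F V} (hGa : InG G (1 + a)) (hGb : InG G (1 + b)) (ha : a * a = 0)
    (hb : b * b = 0) : InG G (1 + a * b - b * a + b * a * b - a * b * a + a * b * a * b) := by
  rw [← comm_id ha hb]
  exact ((hGa.mul hGb).mul (hGa.one_sub ha)).mul (hGb.one_sub hb)

end Cfsg.Agent.Lib.Helper95Extcoord
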