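import Cfsg.Agent.Lib.Helper96ExtDefs
import Cfsg.Agent.Lib.Helper95Extcoord

set_option autoImplicit false
set_option linter.unusedSectionVars false

/-! PROJECT 96, piece `c1`. -/

namespace Cfsg.Agent.Lib.Helper95Extc1

open Module Cfsg.Agent.Lib.Helper96ExtDefs Cfsg.Agent.Lib.Helper95Extcoord

variable {F V : Type*} [Field F] [AddCommGroup V] [Module F V] [Module.Finite F V]
variable {G : Subgroup (Module.End F V)ˣ}

section alg
variable {R : Type*} [Ring R] [Algebra F R] {ν μ : R}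

lemma X_eq (h3 : μ * ν * μ = 0) (a b : F) :
    1 + (a • ν) * (b • μ) - (b • μ) * (a • ν) + (b • μ) * (a • ν) * (b • μ)
      - (a • ν) * (b • μ) * (a • ν) + (a • ν) * (b • μ) * (a • ν) * (b • μ)
      = 1 + (a * b) • (ν * μ - μ * ν) - (a * a * b) • (ν * μ * ν) := by
  have h4 : ν * μ * ν * μ = 0 := by rw [mul_assoc, mul_assoc, ← mul_assoc μ, h3, mul_zero]
  simp only [smul_mul_assoc, mul_smul_comm, smul_smul, h3, h4, smul_zero]
  module

lemma Y_eq (h3 : μ * ν * μ = 0) (a b : F) :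
    1 + (b • μ) * (a • ν) - (a • ν) * (b • μ) + (a • ν) * (b • μ) * (a • ν)
      - (b • μ) * (a • ν) * (b • μ) + (b • μ) * (a • ν) * (b • μ) * (a • ν)
      = 1 - (a * b) • (ν * μ - μ * ν) + (a * a * b) • (ν * μ * ν) := by
  simp only [smul_mul_assoc, mul_smul_comm, smul_smul, h3, zero_mul, smul_zero]
  module

lemma prod_eq (h1 : ν * ν = 0) (h2 : μ * μ = 0) (h3 : μ * ν * μ = 0) (x y x' y' : F) :
    (1 + x • (ν * μ - μ * ν) - y • (ν * μ * ν)) * (1 - x' • (ν * μ - μ * ν) + y' • (ν * μ * ν))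
      = 1 + (x - x') • (ν * μ - μ * ν) + (y' - y) • (ν * μ * ν) := by
  have AA : (ν * μ - μ * ν) * (ν * μ - μ * ν) = 0 := by
    have : (ν * μ - μ * ν) * (ν * μ - μ * ν)
        = ν * (μ * ν * μ) - ν * (μ * μ) * ν - μ * (ν * ν) * μ + (μ * ν * μ) * ν := by noncomm_ring
    rw [this, h1, h2, h3]
    simp
  have AB : (ν * μ - μ * ν) * (ν * μ * ν) = 0 := by
    have : (ν * μ - μ * ν) * (ν * μ * ν) = ν * (μ * ν * μ) * ν - μ * (ν * ν) * μ * ν := by
      noncomm_ring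
    rw [this, h1, h3]
    simp
  have BA : (ν * μ * ν) * (ν * μ - μ * ν) = 0 := by
    have : (ν * μ * ν) * (ν * μ - μ * ν) = ν * μ * (ν * ν) * μ - ν * (μ * ν * μ) * ν := by
      noncomm_ring
    rw [this, h1, h3]
    simp
  have BB : (ν * μ * ν) * (ν * μ * ν) = 0 := by
    have : (ν * μ * ν) * (ν * μ * ν) = ν * μ * (ν * ν) * μ * ν := by noncomm_ring
    rw [this, h1]
    simp
  generalize ν * μ - μ * ν = A at *
  generalize ν * μ * ν = B at *
  simp only [add_mul, sub_mul, mul_add, mul_sub, one_mul, mul_one, smul_mul_assoc, mul_smul_comm,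
    AA, AB, BA, BB, smul_zero]
  module

end alg

/-- piece `c1` (`q > 2`) -/
theorem c1 {U P : Submodule F V} {TU TP : Submodule F (Module.End F V)} (hU : Root G U TU)
    (hP : Root G P TP) (hdU : finrank F ↥(U ⊓ P) + 1 = finrank F U)
    (hdP : finrank F ↥(U ⊓ P) + 1 = finrank F P) (hW : U ⊓ P ≠ ⊥) {f : F} (hf0 : f ≠ 0) (hf1 : f ≠ 1) :
    HasTv G := by
  obtain ⟨u, p, πU, πP, hu, huP, hp, hpU, a1, b1, a2, b2, a3, b3⟩ := setup hdU hdP
  obtain ⟨w₁, hw₁, hw₁0⟩ := Submodule.exists_mem_ne_zero_of_ne_bot hW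
  obtain ⟨ν, hν, hνu⟩ := hP.trans u huP w₁ hw₁.2
  obtain ⟨μ, hμ, hμp⟩ := hU.trans p hpU u hu
  have hνν := Root_mul_eq_zero hP hν hν
  have hμμ := Root_mul_eq_zero hU hμ hμ
  have hνμ : ∀ v, ν (μ v) = πU (μ v) • w₁ := by
    intro v
    rw [apply_of_coord a3 (fun w hw => hP.ker ν hν w hw.2) (hU.range μ hμ v), hνu]
  have hμν : ∀ v, μ (ν v) = πP (ν v) • u := by
    intro v
    rw [apply_of_coord b3 (fun w hw => hU.ker μ hμ w hw.1) (hP.range ν hν v), hμp]
  have h3 : μ * ν * μ = 0 := by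
    ext v
    simp only [Module.End.mul_apply, hνμ, map_smul, hU.ker μ hμ w₁ hw₁.1, smul_zero,
      LinearMap.zero_apply]
  have hB : ν * μ * ν = (πP ∘ₗ ν).smulRight w₁ := by
    ext v
    simp only [Module.End.mul_apply, hμν, map_smul, hνu, LinearMap.smulRight_apply,
      LinearMap.comp_apply]
  have hsq : ∀ {T : Submodule F (Module.End F V)} {X : Submodule F V}, Root G X T →
      ∀ {κ : Module.End F V}, κ ∈ T → ∀ a : F, (a • κ) * (a • κ) = 0 := by
    intro T X hX κ hκ a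
    exact Root_mul_eq_zero hX (T.smul_mem a hκ) (T.smul_mem a hκ)
  have hX := InG_comm (hP.inG _ (TP.smul_mem f hν)) (hU.inG _ (TU.smul_mem 1 hμ))
    (hsq hP hν f) (hsq hU hμ 1)
  have hY := InG_comm (hU.inG _ (TU.smul_mem f hμ)) (hP.inG _ (TP.smul_mem 1 hν))
    (hsq hU hμ f) (hsq hP hν 1)
  rw [X_eq h3] at hX
  rw [Y_eq h3] at hY
  have hXY := hX.mul hY
  rw [prod_eq hνν hμμ h3] at hXY
  have e : (1 : Module.End F V) + (f * 1 - 1 * f) • (ν * μ - μ * ν) + (1 * 1 * f - f * f * 1) • (ν * μ * ν)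
      = 1 + ((f - f * f) • (πP ∘ₗ ν)).smulRight w₁ := by
    rw [hB]
    ext v
    simp [smul_smul]
  rw [e] at hXY
  have hff : f - f * f ≠ 0 := by
    have : f - f * f = f * (1 - f) := by ring
    rw [this]
    exact mul_ne_zero hf0 (sub_ne_zero.2 (Ne.symm hf1))
  refine ⟨(f - f * f) • (πP ∘ₗ ν), w₁, ?_, hw₁0, ?_, hXY⟩
  · intro h0
    have hν0 : ν ≠ 0 := by
      rintro rfl
      exact hw₁0 hνu.symm
    obtain ⟨x, hx⟩ := hP.onto ν hν hν0 p hp
    have := congrArg (fun ψ : Module.Dual F V => ψ x) h0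
    simp only [LinearMap.smul_apply, LinearMap.comp_apply, hx, b1, smul_eq_mul, mul_one,
      LinearMap.zero_apply] at this
    exact hff this
  · simp [hP.ker ν hν w₁ hw₁.2]

end Cfsg.Agent.Lib.Helper95Extc1
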