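import Cfsg.Agent.Lib.Helper96ExtDefs
import Cfsg.Agent.Lib.Helper95Extcoord

set_option autoImplicit false
set_option linter.unusedSectionVars false

/-! PROJECT 96, piece `c2`. -/

namespace Cfsg.Agent.Lib.Helper95Extc2

open Module Cfsg.Agent.Lib.Helper96ExtDefs Cfsg.Agent.Lib.Helper95Extcoord

variable {F V : Type*} [Field F] [AddCommGroup V] [Module F V] [Module.Finite F V]
variable {G : Subgroup (Module.End F V)ˣ}

/-- piece `c2` (`m ≥ 3`) -/
theorem c2 {U P : Submodule F V} {TU TP : Submodule F (Module.End F V)} (hU : Root G U TU)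
    (hP : Root G P TP) (hdU : finrank F ↥(U ⊓ P) + 1 = finrank F U)
    (hdP : finrank F ↥(U ⊓ P) + 1 = finrank F P) (h3 : 2 * finrank F P < finrank F V) :
    HasTv G := by
  obtain ⟨u, p, πU, πP, hu, huP, hp, hpU, a1, b1, a2, b2, a3, b3⟩ := setup hdU hdP
  obtain ⟨ν, hν, hν0, hνu⟩ := hP.two h3 u
  obtain ⟨μ, hμ, hμp⟩ := hU.trans p hpU u hu
  have hνν := Root_mul_eq_zero hP hν hν
  have hμμ := Root_mul_eq_zero hU hμ hμ
  have hνμ : ν * μ = 0 := by
    ext v
    rw [Module.End.mul_apply, apply_of_coord a3 (fun w hw => hP.ker ν hν w hw.2) (hU.range μ hμ v),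
      hνu, smul_zero]
    rfl
  have hμν : μ * ν = (πP ∘ₗ ν).smulRight u := by
    ext v
    rw [Module.End.mul_apply, apply_of_coord b3 (fun w hw => hU.ker μ hμ w hw.1) (hP.range ν hν v),
      hμp]
    rfl
  have h := InG_comm (hP.inG ν hν) (hU.inG μ hμ) hνν hμμ
  have e : 1 + ν * μ - μ * ν + μ * ν * μ - ν * μ * ν + ν * μ * ν * μ
      = 1 + (-(πP ∘ₗ ν)).smulRight u := by
    rw [mul_assoc μ ν μ, hνμ, hμν]
    ext v
    simp [sub_eq_add_neg]
  rw [e] at h
  refine ⟨-(πP ∘ₗ ν), u, ?_, ?_, ?_, h⟩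
  · intro h0
    obtain ⟨x, hx⟩ := hP.onto ν hν hν0 p hp
    have := congrArg (fun ψ : Module.Dual F V => ψ x) h0
    simp [hx, b1] at this
  · rintro rfl
    exact huP P.zero_mem
  · simp [hνu]

end Cfsg.Agent.Lib.Helper95Extc2
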