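import Cfsg.Agent.Lib.Helper96ExtDefs
import Cfsg.Agent.Lib.Helper95Extcoord

set_option autoImplicit false
set_option linter.unusedSectionVars false
set_option linter.unusedSimpArgs false

/-! PROJECT 96, piece `c3a`. -/

namespace Cfsg.Agent.Lib.Helper95Extc3a

open Module Cfsg.Agent.Lib.Helper96ExtDefs Cfsg.Agent.Lib.Helper95Extcoord

variable {F V : Type*} [Field F] [AddCommGroup V] [Module F V] [Module.Finite F V]
variable {G : Subgroup (Module.End F V)ˣ}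

lemma ring_c3a {R : Type*} [Ring R] {a b m : R} (h11 : a * a = 0) (h12 : a * b = 0)
    (h21 : b * a = 0) (h22 : b * b = 0) (hm : m * m = 0) (h1 : m * a * m = 0) (h2 : m * b * m = 0) :
    (1 + (a + b) * m - m * (a + b) + m * (a + b) * m - (a + b) * m * (a + b)
        + (a + b) * m * (a + b) * m)
      * (1 + m * a - a * m + a * m * a - m * a * m + m * a * m * a)
      * (1 + m * b - b * m + b * m * b - m * b * m + m * b * m * b)
      = 1 - (a * m * b + b * m * a) := by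
  have k11 : ∀ x, x * a * a = 0 := fun x => by rw [mul_assoc, h11, mul_zero]
  have k12 : ∀ x, x * a * b = 0 := fun x => by rw [mul_assoc, h12, mul_zero]
  have k21 : ∀ x, x * b * a = 0 := fun x => by rw [mul_assoc, h21, mul_zero]
  have k22 : ∀ x, x * b * b = 0 := fun x => by rw [mul_assoc, h22, mul_zero]
  have km : ∀ x, x * m * m = 0 := fun x => by rw [mul_assoc, hm, mul_zero]
  have k1 : ∀ x, x * m * a * m = 0 := fun x => by
    rw [mul_assoc, mul_assoc, ← mul_assoc m, h1, mul_zero]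
  have k2 : ∀ x, x * m * b * m = 0 := fun x => by
    rw [mul_assoc, mul_assoc, ← mul_assoc m, h2, mul_zero]
  simp only [mul_add, add_mul, mul_sub, sub_mul, mul_one, one_mul, ← mul_assoc, h11, h12, h21, h22,
    hm, h1, h2, k11, k12, k21, k22, km, k1, k2, zero_mul, add_zero, sub_zero, zero_add, zero_sub]
  abel

/-- piece `c3a` -/
theorem c3a {U P : Submodule F V} {TU TP : Submodule F (Module.End F V)} (hU : Root G U TU)
    (hP : Root G P TP) (hdU : finrank F ↥(U ⊓ P) + 1 = finrank F U)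
    (hdP : finrank F ↥(U ⊓ P) + 1 = finrank F P) (h2 : 2 ≤ finrank F ↥(U ⊓ P)) :
    ∃ δ : Module.End F V, InG G (1 + δ) ∧ δ ≠ 0 ∧ (∀ v, δ v ∈ U ⊓ P) ∧ (∀ v ∈ U, δ v = 0) ∧
      ∀ v ∈ P, δ v = 0 := by
  obtain ⟨u, p, πU, πP, hu, huP, hp, hpU, a1, b1, a2, b2, a3, b3⟩ := setup hdU hdP
  have hW : U ⊓ P ≠ ⊥ := by
    intro h
    rw [h, finrank_bot] at h2
    omega
  obtain ⟨w₁, hw₁, hw₁0⟩ := Submodule.exists_mem_ne_zero_of_ne_bot hW
  obtain ⟨w₂, hw₂, hw₂s⟩ : ∃ w₂ ∈ U ⊓ P, w₂ ∉ Submodule.span F {w₁} := by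
    by_contra hcon
    push Not at hcon
    have h3 : finrank F ↥(U ⊓ P) ≤ finrank F ↥(Submodule.span F {w₁}) :=
      Submodule.finrank_mono hcon
    rw [finrank_span_singleton hw₁0] at h3
    omega
  obtain ⟨ν₁, hν₁, hν₁u⟩ := hP.trans u huP w₁ hw₁.2
  obtain ⟨ν₂, hν₂, hν₂u⟩ := hP.trans u huP w₂ hw₂.2
  obtain ⟨μ, hμ, hμp⟩ := hU.trans p hpU u hu
  have hμμ := Root_mul_eq_zero hU hμ hμ
  have hνμ : ∀ {ν : Module.End F V}, ν ∈ TP → ∀ v, ν (μ v) = πU (μ v) • ν u := by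
    intro ν hν v
    rw [apply_of_coord a3 (fun w hw => hP.ker ν hν w hw.2) (hU.range μ hμ v)]
  have hμν : ∀ {ν : Module.End F V}, ν ∈ TP → ∀ v, μ (ν v) = πP (ν v) • u := by
    intro ν hν v
    rw [apply_of_coord b3 (fun w hw => hU.ker μ hμ w hw.1) (hP.range ν hν v), hμp]
  have h31 : μ * ν₁ * μ = 0 := by
    ext v
    simp only [Module.End.mul_apply, hνμ hν₁, hν₁u, map_smul, hU.ker μ hμ w₁ hw₁.1, smul_zero,
      LinearMap.zero_apply]
  have h32 : μ * ν₂ * μ = 0 := by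
    ext v
    simp only [Module.End.mul_apply, hνμ hν₂, hν₂u, map_smul, hU.ker μ hμ w₂ hw₂.1, smul_zero,
      LinearMap.zero_apply]
  have hν12 := TP.add_mem hν₁ hν₂
  have hX := InG_comm (hP.inG _ hν12) (hU.inG _ hμ) (Root_mul_eq_zero hP hν12 hν12) hμμ
  have hY₁ := InG_comm (hU.inG _ hμ) (hP.inG _ hν₁) hμμ (Root_mul_eq_zero hP hν₁ hν₁)
  have hY₂ := InG_comm (hU.inG _ hμ) (hP.inG _ hν₂) hμμ (Root_mul_eq_zero hP hν₂ hν₂)
  have hXY := (hX.mul hY₁).mul hY₂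
  rw [ring_c3a (Root_mul_eq_zero hP hν₁ hν₁) (Root_mul_eq_zero hP hν₁ hν₂)
    (Root_mul_eq_zero hP hν₂ hν₁) (Root_mul_eq_zero hP hν₂ hν₂) hμμ h31 h32, sub_eq_add_neg] at hXY
  have hδ : ∀ v, (-(ν₁ * μ * ν₂ + ν₂ * μ * ν₁) : Module.End F V) v
      = -(πP (ν₂ v) • w₁ + πP (ν₁ v) • w₂) := by
    intro v
    simp only [LinearMap.neg_apply, LinearMap.add_apply, Module.End.mul_apply, hμν hν₁, hμν hν₂,
      map_smul, hν₁u, hν₂u]
  refine ⟨_, hXY, ?_, ?_, ?_, ?_⟩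
  · intro h0
    have hν0 : ν₁ ≠ 0 := by
      rintro rfl
      exact hw₁0 hν₁u.symm
    obtain ⟨x, hx⟩ := hP.onto ν₁ hν₁ hν0 p hp
    have h4 := hδ x
    rw [h0, hx, b1, one_smul, LinearMap.zero_apply, eq_comm, neg_eq_zero] at h4
    apply hw₂s
    rw [Submodule.mem_span_singleton]
    refine ⟨-πP (ν₂ x), ?_⟩
    rw [neg_smul, eq_comm, eq_neg_iff_add_eq_zero, add_comm]
    exact h4
  · intro v
    rw [hδ]
    exact Submodule.neg_mem _ (Submodule.add_mem _ (Submodule.smul_mem _ _ hw₁)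
      (Submodule.smul_mem _ _ hw₂))
  · intro v hv
    rw [hδ, apply_of_coord a3 (fun w hw => hP.ker ν₁ hν₁ w hw.2) hv,
      apply_of_coord a3 (fun w hw => hP.ker ν₂ hν₂ w hw.2) hv, hν₁u, hν₂u, map_smul, map_smul,
      b2 w₁ hw₁, b2 w₂ hw₂]
    simp
  · intro v hv
    rw [hδ, hP.ker ν₁ hν₁ v hv, hP.ker ν₂ hν₂ v hv]
    simp

end Cfsg.Agent.Lib.Helper95Extc3a
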