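import Cfsg.Agent.Lib.Helper96ExtDefs
import Cfsg.Agent.Lib.Helper95Extcoord

set_option autoImplicit false
set_option linter.unusedSectionVars false

/-! PROJECT 96, piece `c3b`. -/

namespace Cfsg.Agent.Lib.Helper95Extc3b

open Module Cfsg.Agent.Lib.Helper96ExtDefs Cfsg.Agent.Lib.Helper95Extcoord

variable {F V : Type*} [Field F] [AddCommGroup V] [Module F V] [Module.Finite F V]
variable {G : Subgroup (Module.End F V)ˣ}

/-- piece `c3b` -/
theorem c3b {δ : Module.End F V} (hδ : InG G (1 + δ)) {W X : Submodule F V}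
    {TX : Submodule F (Module.End F V)} (hX : Root G X TX) (hWX : W ≤ X)
    (hd : finrank F W + 1 = finrank F X) (him : ∀ v, δ v ∈ W) (hker : ∀ v ∈ W, δ v = 0) {v₀ x : V}
    (hv₀ : v₀ ∈ X) (hδv : δ v₀ ≠ 0) (hx : x ∉ X) : HasTv G := by
  have hv₀W : v₀ ∉ W := fun h => hδv (hker v₀ h)
  obtain ⟨π, c1, c2, c3⟩ := exists_coord hWX hd hv₀ hv₀W
  obtain ⟨ν, hν, hνx⟩ := hX.trans x hx v₀ hv₀
  have hνν := Root_mul_eq_zero hX hν hν
  have hδδ : δ * δ = 0 := by
    ext v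
    rw [Module.End.mul_apply, hker _ (him v)]
    rfl
  have hνδ : ν * δ = 0 := by
    ext v
    rw [Module.End.mul_apply, hX.ker ν hν _ (hWX (him v))]
    rfl
  have hδν : δ * ν = (π ∘ₗ ν).smulRight (δ v₀) := by
    ext v
    rw [Module.End.mul_apply, apply_of_coord c3 hker (hX.range ν hν v)]
    rfl
  have h := InG_comm hδ (hX.inG ν hν) hδδ hνν
  have e : 1 + δ * ν - ν * δ + ν * δ * ν - δ * ν * δ + δ * ν * δ * ν
      = 1 + (π ∘ₗ ν).smulRight (δ v₀) := by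
    rw [mul_assoc δ ν δ, hνδ, hδν]
    simp
  rw [e] at h
  refine ⟨π ∘ₗ ν, δ v₀, ?_, hδv, ?_, h⟩
  · intro h0
    have := congrArg (fun ψ : Module.Dual F V => ψ x) h0
    simp [hνx, c1] at this
  · have : ν (δ v₀) = 0 := hX.ker ν hν _ (hWX (him v₀))
    simp [this]

end Cfsg.Agent.Lib.Helper95Extc3b
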