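import Mathlib

set_option autoImplicit false

/-! # Overgroups of `SL_m(K)` in `GL_{mr}(F)`: basic vocabulary (project 96, S5886)

`F ⊆ K` fields, `V` a `K`-space.  `G` is a subgroup of the units of `End_F V`. -/

namespace Cfsg.Agent.Lib.Helper96ExtDefs

open Module

variable {F K V : Type*} [Field F] [Field K] [Algebra F K] [AddCommGroup V] [Module F V] [Module K V]
  [IsScalarTower F K V]

/-- the endomorphism `f` is (the underlying map of) an element of `G` -/
def InG (G : Subgroup (Module.End F V)ˣ) (f : Module.End F V) : Prop :=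
  ∃ g ∈ G, (g : Module.End F V) = f

section InG
variable {G : Subgroup (Module.End F V)ˣ} {f f' : Module.End F V}

lemma InG.of_mem {g : (Module.End F V)ˣ} (hg : g ∈ G) : InG G (g : Module.End F V) := ⟨g, hg, rfl⟩

lemma InG.one : InG G (1 : Module.End F V) := ⟨1, G.one_mem, rfl⟩

lemma InG.mul (h : InG G f) (h' : InG G f') : InG G (f * f') := by
  obtain ⟨g, hg, rfl⟩ := h
  obtain ⟨g', hg', rfl⟩ := h'
  exact ⟨g * g', G.mul_mem hg hg', rfl⟩

/-- a right inverse of an element of `G` is in `G` -/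
lemma InG.of_mul_eq_one (h : InG G f) (h1 : f * f' = 1) : InG G f' := by
  obtain ⟨g, hg, rfl⟩ := h
  refine ⟨g⁻¹, G.inv_mem hg, ?_⟩
  calc ((g⁻¹ : (Module.End F V)ˣ) : Module.End F V)
      = ((g⁻¹ : (Module.End F V)ˣ) : Module.End F V) * ((g : Module.End F V) * f') := by rw [h1, mul_one]
    _ = f' := by rw [← mul_assoc, Units.inv_mul, one_mul]

/-- `1 + ν ∈ G`, `ν² = 0` ⟹ `1 - ν ∈ G` -/
lemma InG.one_sub {ν : Module.End F V} (h : InG G (1 + ν)) (hν : ν * ν = 0) : InG G (1 - ν) := by
  apply h.of_mul_eq_one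
  rw [add_mul, mul_sub, mul_sub, hν]
  simp

lemma InG.conj (h : InG G f) {g : (Module.End F V)ˣ} (hg : g ∈ G) :
    InG G ((g : Module.End F V) * f * ((g⁻¹ : (Module.End F V)ˣ) : Module.End F V)) :=
  ((InG.of_mem hg).mul h).mul (InG.of_mem (G.inv_mem hg))

lemma InG.conj' (h : InG G f) {g : (Module.End F V)ˣ} (hg : g ∈ G) :
    InG G (((g⁻¹ : (Module.End F V)ˣ) : Module.End F V) * f * (g : Module.End F V)) :=
  ((InG.of_mem (G.inv_mem hg)).mul h).mul (InG.of_mem hg)

end InG

/-- the `K`-linear rank one map `v ↦ φ v • y`, as an `F`-endomorphism -/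
def rk (F : Type*) {K V : Type*} [Field F] [Field K] [Algebra F K] [AddCommGroup V] [Module F V]
    [Module K V] [IsScalarTower F K V] (φ : Module.Dual K V) (y : V) : Module.End F V :=
  (φ.smulRight y).restrictScalars F

@[simp] lemma rk_apply (φ : Module.Dual K V) (y v : V) : rk F φ y v = φ v • y := rfl

/-- `G` contains every `K`-linear map `1 + φ(·)y` whose `K`-determinant `1 + φ y` has norm one -/
def Big (K : Type*) {F V : Type*} [Field F] [Field K] [Algebra F K] [AddCommGroup V] [Module F V]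
    [Module K V] [IsScalarTower F K V] (G : Subgroup (Module.End F V)ˣ) : Prop :=
  ∀ (φ : Module.Dual K V) (y : V), Algebra.norm F (1 + φ y) = 1 → InG G (1 + rk F φ y)

/-- the `K`-point `K a` as an `F`-subspace -/
def pt (F K : Type*) {V : Type*} [Field F] [Field K] [Algebra F K] [AddCommGroup V] [Module F V]
    [Module K V] [IsScalarTower F K V] (a : V) : Submodule F V :=
  (Submodule.span K {a}).restrictScalars F

lemma mem_pt {a v : V} : v ∈ pt F K a ↔ ∃ k : K, k • a = v := by
  rw [pt, Submodule.restrictScalars_mem, Submodule.mem_span_singleton]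

lemma self_mem_pt (a : V) : a ∈ pt F K a := mem_pt.2 ⟨1, one_smul _ _⟩

lemma smul_mem_pt (k : K) (a : V) : k • a ∈ pt F K a := mem_pt.2 ⟨k, rfl⟩

/-- `g` normalises the field `K` -/
def Nrm (K : Type*) {F V : Type*} [Field F] [Field K] [Algebra F K] [AddCommGroup V] [Module F V]
    [Module K V] [IsScalarTower F K V] (g : Module.End F V) : Prop :=
  ∀ k : K, ∃ k' : K, ∀ v, g (k • v) = k' • g v

/-- the images of the `K`-points under `G` -/
def Sig (K : Type*) {F V : Type*} [Field F] [Field K] [Algebra F K] [AddCommGroup V] [Module F V]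
    [Module K V] [IsScalarTower F K V] (G : Subgroup (Module.End F V)ˣ) (P : Submodule F V) : Prop :=
  ∃ g ∈ G, ∃ a : V, a ≠ 0 ∧ P = (pt F K a).map (g : Module.End F V)

/-- `T` is a "root space" for the subspace `P`: a space of maps `V/P → P` with `1 + T ⊆ G`, regular on
`V ∖ P`. -/
structure Root (G : Subgroup (Module.End F V)ˣ) (P : Submodule F V)
    (T : Submodule F (Module.End F V)) : Prop where
  inG : ∀ ν ∈ T, InG G (1 + ν)
  range : ∀ ν ∈ T, ∀ v, ν v ∈ P
  ker : ∀ ν ∈ T, ∀ v ∈ P, ν v = 0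
  trans : ∀ x, x ∉ P → ∀ y ∈ P, ∃ ν ∈ T, ν x = y
  onto : ∀ ν ∈ T, ν ≠ 0 → ∀ y ∈ P, ∃ x, ν x = y
  two : 2 * finrank F P < finrank F V → ∀ x, ∃ ν ∈ T, ν ≠ 0 ∧ ν x = 0

/-- `G` contains a (nontrivial) `F`-transvection -/
def HasTv (G : Subgroup (Module.End F V)ˣ) : Prop :=
  ∃ (ψ : Module.Dual F V) (w : V), ψ ≠ 0 ∧ w ≠ 0 ∧ ψ w = 0 ∧ InG G (1 + ψ.smulRight w)

/-- the root space of the `K`-point `K a` -/
def TK (F K : Type*) {V : Type*} [Field F] [Field K] [Algebra F K] [AddCommGroup V] [Module F V]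
    [Module K V] [IsScalarTower F K V] (a : V) : Submodule F (Module.End F V) where
  carrier := {ν | ∃ φ : Module.Dual K V, φ a = 0 ∧ ν = rk F φ a}
  add_mem' := by
    rintro _ _ ⟨φ, h, rfl⟩ ⟨φ', h', rfl⟩
    refine ⟨φ + φ', by simp [h, h'], ?_⟩
    ext v
    simp [add_smul]
  zero_mem' := ⟨0, by simp, by ext v; simp⟩
  smul_mem' := by
    rintro c _ ⟨φ, h, rfl⟩
    refine ⟨algebraMap F K c • φ, by simp [h], ?_⟩
    ext v
    simp

/-- conjugation by `g` on `End_F V` -/
def conjL (g : (Module.End F V)ˣ) : Module.End F V →ₗ[F] Module.End F V where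
  toFun ν := (g : Module.End F V) * ν * ((g⁻¹ : (Module.End F V)ˣ) : Module.End F V)
  map_add' a b := by rw [mul_add, add_mul]
  map_smul' c a := by simp

@[simp] lemma conjL_apply (g : (Module.End F V)ˣ) (ν : Module.End F V) :
    conjL g ν = (g : Module.End F V) * ν * ((g⁻¹ : (Module.End F V)ˣ) : Module.End F V) := rfl

lemma unit_inv_apply (g : (Module.End F V)ˣ) (v : V) :
    ((g⁻¹ : (Module.End F V)ˣ) : Module.End F V) ((g : Module.End F V) v) = v := by
  rw [← Module.End.mul_apply, Units.inv_mul, Module.End.one_apply]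

lemma unit_apply_inv (g : (Module.End F V)ˣ) (v : V) :
    (g : Module.End F V) (((g⁻¹ : (Module.End F V)ˣ) : Module.End F V) v) = v := by
  rw [← Module.End.mul_apply, Units.mul_inv, Module.End.one_apply]

lemma unit_injective (g : (Module.End F V)ˣ) : Function.Injective (g : Module.End F V) :=
  Function.LeftInverse.injective (unit_inv_apply g)

end Cfsg.Agent.Lib.Helper96ExtDefs
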