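import Cfsg.Agent.Lib.Helper96ExtDefs

set_option autoImplicit false

namespace Cfsg.Agent.Lib.Helper96Extc3c

open Module Cfsg.Agent.Lib.Helper96ExtDefs

variable {F K V : Type*} [Field F] [Field K] [Algebra F K] [AddCommGroup V] [Module F V] [Module K V]
  [IsScalarTower F K V] [Finite F] [Finite K] [Finite V]
variable {G : Subgroup (Module.End F V)ˣ}

/-- piece `c3c` -/
theorem c3c (hF : Nat.card F = 2) (hm : finrank K V = 2) (hbig : Big K G) {a p v₀ : V} (ha : a ≠ 0)
    (hp : p ∉ pt F K a) (hv₀ : v₀ ∉ pt F K a) :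
    ∃ h ∈ G, (∀ y ∈ pt F K a, (h : Module.End F V) y = y) ∧ (h : Module.End F V) p = v₀ := by
  have hp' : p ∉ Submodule.span K {a} := hp
  obtain ⟨φ₀, hφ₀p, hφ₀⟩ := Submodule.exists_le_ker_of_notMem hp'
  set φ : Module.Dual K V := (φ₀ p)⁻¹ • φ₀ with hφdef
  have hφp : φ p = 1 := by
    rw [hφdef, LinearMap.smul_apply, smul_eq_mul, inv_mul_cancel₀ hφ₀p]
  have hφa : ∀ y ∈ pt F K a, φ y = 0 := by
    intro y hy
    have : φ₀ y = 0 := hφ₀ hy
    rw [hφdef, LinearMap.smul_apply, this, smul_zero]
  have hker : LinearMap.ker φ = Submodule.span K {a} := by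
    symm
    apply Submodule.eq_of_le_of_finrank_eq
    · intro y hy
      exact hφa y hy
    · have h1 := LinearMap.finrank_range_add_finrank_ker φ
      have h2 : LinearMap.range φ = ⊤ := by
        rw [LinearMap.range_eq_top]
        intro k
        exact ⟨k • p, by rw [map_smul, hφp, smul_eq_mul, mul_one]⟩
      rw [h2, finrank_top, finrank_self, hm] at h1
      rw [finrank_span_singleton ha]
      omega
  have hφv : φ v₀ ≠ 0 := by
    intro h0
    apply hv₀
    have : v₀ ∈ LinearMap.ker φ := h0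
    rw [hker] at this
    exact this
  have hnorm : Algebra.norm F (1 + φ (v₀ - p)) = 1 := by
    have e : 1 + φ (v₀ - p) = φ v₀ := by rw [map_sub, hφp]; ring
    rw [e]
    have hne : Algebra.norm F (φ v₀) ≠ 0 := by
      rw [Ne, Algebra.norm_eq_zero_iff]
      exact hφv
    obtain ⟨x, y, hxy, huniv⟩ := Nat.card_eq_two_iff.mp hF
    have hmem : ∀ z : F, z = x ∨ z = y := by
      intro z
      have : z ∈ ({x, y} : Set F) := huniv ▸ Set.mem_univ z
      simpa using this
    rcases hmem 0 with h0 | h0 <;> rcases hmem 1 with h1 | h1 <;>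
      rcases hmem (Algebra.norm F (φ v₀)) with h2 | h2
    · exact absurd (h0.trans h1.symm) zero_ne_one
    · exact absurd (h0.trans h1.symm) zero_ne_one
    · exact absurd (h2.trans h0.symm) hne
    · exact h2.trans h1.symm
    · exact h2.trans h1.symm
    · exact absurd (h2.trans h0.symm) hne
    · exact absurd (h0.trans h1.symm) zero_ne_one
    · exact absurd (h0.trans h1.symm) zero_ne_one
  obtain ⟨h, hh, hval⟩ := hbig φ (v₀ - p) hnorm
  refine ⟨h, hh, ?_, ?_⟩
  · intro y hy
    rw [hval, LinearMap.add_apply, Module.End.one_apply, rk_apply, hφa y hy, zero_smul, add_zero]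
  · rw [hval, LinearMap.add_apply, Module.End.one_apply, rk_apply, hφp, one_smul]
    abel

end Cfsg.Agent.Lib.Helper96Extc3c
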