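import Cfsg.Agent.Lib.Helper96ExtDefs

set_option autoImplicit false

namespace Cfsg.Agent.Lib.Helper96Extrootconj

open Module Cfsg.Agent.Lib.Helper96ExtDefs

variable {F V : Type*} [Field F] [AddCommGroup V] [Module F V] [Module.Finite F V]
variable {G : Subgroup (Module.End F V)ˣ}

omit [Module.Finite F V] in
/-- piece `rootconj` -/
theorem root_conj {P : Submodule F V} {T : Submodule F (Module.End F V)} (h : Root G P T)
    {g : (Module.End F V)ˣ} (hg : g ∈ G) :
    Root G (P.map (g : Module.End F V)) (T.map (conjL g)) := by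
  have hmem : ∀ x, x ∈ P.map (g : Module.End F V) ↔
      ((g⁻¹ : (Module.End F V)ˣ) : Module.End F V) x ∈ P := by
    intro x
    constructor
    · rintro ⟨y, hy, rfl⟩
      rw [unit_inv_apply]
      exact hy
    · intro hx
      exact ⟨_, hx, unit_apply_inv g x⟩
  refine ⟨?_, ?_, ?_, ?_, ?_, ?_⟩
  · rintro _ ⟨ν, hν, rfl⟩
    have := (h.inG ν hν).conj hg
    convert this using 1
    rw [conjL_apply, mul_add, add_mul, mul_one, Units.mul_inv]
  · rintro _ ⟨ν, hν, rfl⟩ v
    exact ⟨_, h.range ν hν _, rfl⟩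
  · rintro _ ⟨ν, hν, rfl⟩ v hv
    rw [conjL_apply, Module.End.mul_apply, Module.End.mul_apply, h.ker ν hν _ ((hmem v).mp hv), map_zero]
  · intro x hx y hy
    obtain ⟨ν, hν, hνx⟩ := h.trans _ (fun hh => hx ((hmem x).mpr hh)) _ ((hmem y).mp hy)
    refine ⟨_, ⟨ν, hν, rfl⟩, ?_⟩
    rw [conjL_apply, Module.End.mul_apply, Module.End.mul_apply, hνx, unit_apply_inv]
  · rintro _ ⟨ν, hν, rfl⟩ hne y hy
    have hν0 : ν ≠ 0 := by
      rintro rfl
      exact hne (map_zero _)
    obtain ⟨x, hx⟩ := h.onto ν hν hν0 _ ((hmem y).mp hy)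
    refine ⟨(g : Module.End F V) x, ?_⟩
    rw [conjL_apply, Module.End.mul_apply, Module.End.mul_apply, unit_inv_apply, hx, unit_apply_inv]
  · intro h2 x
    have hfr : finrank F (P.map (g : Module.End F V)) = finrank F P :=
      (LinearEquiv.finrank_eq (Submodule.equivMapOfInjective _ (unit_injective g) P)).symm
    rw [hfr] at h2
    obtain ⟨ν, hν, hν0, hνx⟩ := h.two h2 (((g⁻¹ : (Module.End F V)ˣ) : Module.End F V) x)
    refine ⟨_, ⟨ν, hν, rfl⟩, ?_, ?_⟩
    · intro h0
      apply hν0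
      have h1 := congrArg (fun M => ((g⁻¹ : (Module.End F V)ˣ) : Module.End F V) * M * (g : Module.End F V)) h0
      simpa [mul_assoc] using h1
    · rw [conjL_apply, Module.End.mul_apply, Module.End.mul_apply, hνx, map_zero]

end Cfsg.Agent.Lib.Helper96Extrootconj
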