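import Cfsg.Agent.Lib.Helper96ExtDefs

set_option autoImplicit false

namespace Cfsg.Agent.Lib.Helper96Extw0

open Module Cfsg.Agent.Lib.Helper96ExtDefs

variable {F K V : Type*} [Field F] [Field K] [Algebra F K] [AddCommGroup V] [Module F V] [Module K V]
  [IsScalarTower F K V]

/-- piece `w0` -/
theorem exists_w0 (hr : (finrank F K).Prime) {a : V} {W : Submodule F V} (hW : W ≤ pt F K a)
    (hW0 : W ≠ ⊥) (hWne : W ≠ pt F K a) {κ : K} (hκ : κ ∉ (algebraMap F K).range) :
    ∃ w₀ ∈ W, κ • w₀ ∉ W := by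
  by_contra hcon
  push Not at hcon
  let S : Subalgebra F K :=
    { carrier := {k | ∀ w ∈ W, k • w ∈ W}
      mul_mem' := by
        intro x y hx hy w hw
        rw [mul_smul]
        exact hx _ (hy _ hw)
      add_mem' := by
        intro x y hx hy w hw
        rw [add_smul]
        exact W.add_mem (hx _ hw) (hy _ hw)
      algebraMap_mem' := by
        intro f w hw
        rw [algebraMap_smul]
        exact W.smul_mem f hw }
  have hκS : κ ∈ S := hcon
  have hsimple := Subalgebra.isSimpleOrder_of_finrank_prime F K hr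
  rcases hsimple.eq_bot_or_eq_top S with hS | hS
  · rw [hS, Algebra.mem_bot] at hκS
    obtain ⟨f, hf⟩ := hκS
    exact hκ ⟨f, hf⟩
  · apply hWne
    apply le_antisymm hW
    obtain ⟨w', hw', hw'0⟩ := Submodule.exists_mem_ne_zero_of_ne_bot hW0
    obtain ⟨c, hc⟩ := mem_pt.mp (hW hw')
    have hc0 : c ≠ 0 := by
      rintro rfl
      rw [zero_smul] at hc
      exact hw'0 hc.symm
    intro v hv
    obtain ⟨k, rfl⟩ := mem_pt.mp hv
    have hmem : k * c⁻¹ ∈ S := by
      rw [hS]
      exact Algebra.mem_top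
    have := hmem w' hw'
    rwa [← hc, smul_smul, mul_assoc, inv_mul_cancel₀ hc0, mul_one] at this

end Cfsg.Agent.Lib.Helper96Extw0
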