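import Cfsg.Agent.Lib.Helper96ExtDefs

set_option autoImplicit false
set_option linter.unusedSectionVars false
set_option linter.unusedSimpArgs false

namespace Cfsg.Agent.Lib.Helper97Extd0

open Module Cfsg.Agent.Lib.Helper96ExtDefs

variable {F K V : Type*} [Field F] [Field K] [Algebra F K] [AddCommGroup V] [Module F V] [Module K V]
  [IsScalarTower F K V] [Finite F] [Finite K] [Finite V]
variable {G : Subgroup (Module.End F V)ˣ}

/-- piece `d0` -/
theorem d0 (hm : 2 ≤ finrank K V) (hbig : Big K G) (h : HasTv G) :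
    ∃ (ψ : Module.Dual F V) (w : V), ψ ≠ 0 ∧ w ≠ 0 ∧ (∀ k : K, ψ (k • w) = 0) ∧
      InG G (1 + ψ.smulRight w) := by
  obtain ⟨ψ, w, hψ, hw, hψw, hG⟩ := h
  by_cases hK : ∀ k : K, ψ (k • w) = 0
  · exact ⟨ψ, w, hψ, hw, hK, hG⟩
  push Not at hK
  obtain ⟨c, hc⟩ := hK
  have : Module.Finite K V := Module.Finite.of_finite
  have hlt : Submodule.span K {w} < ⊤ := by
    rw [lt_top_iff_ne_top]
    intro htop
    have h1 := finrank_span_singleton (K := K) hw
    rw [htop, finrank_top] at h1
    omega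
  obtain ⟨φ, hφ0, hφle⟩ := Submodule.exists_le_ker_of_lt_top _ hlt
  have hφw : φ w = 0 := LinearMap.mem_ker.1 (hφle (Submodule.mem_span_singleton_self w))
  obtain ⟨v₀, hv₀⟩ : ∃ v, φ v ≠ 0 := by
    by_contra hcon
    push Not at hcon
    exact hφ0 (LinearMap.ext hcon)
  have hR : InG G (1 + rk F φ (c • w)) := hbig φ (c • w) (by simp [hφw])
  have hRR : rk F φ (c • w) * rk F φ (c • w) = 0 := by
    ext v
    simp [hφw]
  have hAA : ψ.smulRight w * ψ.smulRight w = (0 : Module.End F V) := by
    ext v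
    simp [hψw]
  refine ⟨-(ψ ∘ₗ rk F φ (c • w)), w, ?_, hw, ?_, ?_⟩
  · intro h0
    have := congrArg (fun f : Module.Dual F V => f ((φ v₀)⁻¹ • v₀)) h0
    simp [hv₀] at this
    exact hc this
  · intro k
    simp [hφw]
  · have := ((hR.mul hG).mul (hR.one_sub hRR)).mul (hG.one_sub hAA)
    convert this using 1
    ext v
    simp only [Module.End.mul_apply, LinearMap.add_apply, LinearMap.sub_apply, Module.End.one_apply,
      LinearMap.smulRight_apply, LinearMap.neg_apply, LinearMap.comp_apply, rk_apply, map_add,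
      map_sub, map_smul, map_neg, smul_eq_mul, hφw, hψw, mul_zero, zero_smul, add_zero, sub_zero,
      smul_zero, neg_smul]
    module

end Cfsg.Agent.Lib.Helper97Extd0
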