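import Cfsg.Agent.Lib.Helper96ExtDefs

set_option autoImplicit false
set_option linter.unusedSectionVars false
set_option linter.unusedSimpArgs false

namespace Cfsg.Agent.Lib.Helper97Extd1

open Module Cfsg.Agent.Lib.Helper96ExtDefs

variable {F K V : Type*} [Field F] [Field K] [Algebra F K] [AddCommGroup V] [Module F V] [Module K V]
  [IsScalarTower F K V] [Finite F] [Finite K] [Finite V]
variable {G : Subgroup (Module.End F V)ˣ}

/-- piece `d1` -/
theorem d1 (hN1 : AddSubgroup.closure {c : K | Algebra.norm F c = 1} = ⊤) (hbig : Big K G)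
    {ψ : Module.Dual F V} {w : V} (hw : w ≠ 0) (hψ : ∀ k : K, ψ (k • w) = 0)
    (h : InG G (1 + ψ.smulRight w)) : ∀ k : K, InG G (1 + ψ.smulRight (k • w)) := by
  intro k
  have hk : k ∈ AddSubgroup.closure {c : K | Algebra.norm F c = 1} := by rw [hN1]; trivial
  have hsq : ∀ k k' : K, ψ.smulRight (k • w) * ψ.smulRight (k' • w) = (0 : Module.End F V) := by
    intro k k'
    ext v
    simp [hψ]
  induction hk using AddSubgroup.closure_induction with
  | mem c hc =>
    obtain ⟨f, hf⟩ : ∃ f : Module.Dual K V, f w ≠ 0 := by
      have hnot : w ∉ (⊥ : Submodule K V) := by simpa using hw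
      obtain ⟨f, hf, -⟩ := Submodule.exists_le_ker_of_notMem hnot
      exact ⟨f, hf⟩
    set φ : Module.Dual K V := (f w)⁻¹ • f with hφ
    have hφw : φ w = 1 := by simp [hφ, hf]
    obtain ⟨g, hg, hge⟩ := hbig φ ((c - 1) • w) (by
      have : (1 : K) + φ ((c - 1) • w) = c := by simp [hφw]
      rw [this]; exact hc)
    have hgw : (g : Module.End F V) w = c • w := by
      rw [hge]
      simp [hφw, sub_smul]
    have hψg : ∀ v, ψ ((g : Module.End F V) v) = ψ v := by
      intro v
      rw [hge]
      simp [smul_smul, hψ]
    have := h.conj hg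
    convert this using 1
    ext v
    simp only [Module.End.mul_apply, LinearMap.add_apply, Module.End.one_apply,
      LinearMap.smulRight_apply, map_add, map_smul, unit_apply_inv, hgw]
    rw [← hψg (((g⁻¹ : (Module.End F V)ˣ) : Module.End F V) v), unit_apply_inv]
  | zero =>
    have : (1 + ψ.smulRight ((0 : K) • w) : Module.End F V) = 1 := by
      ext v
      simp
    rw [this]
    exact InG.one
  | add x y _ _ hx hy =>
    have := hx.mul hy
    convert this using 1
    rw [add_mul, mul_add, mul_add, hsq]
    ext v
    simp [add_smul]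
    abel
  | neg x _ hx =>
    have := hx.one_sub (hsq x x)
    convert this using 1
    ext v
    simp [sub_eq_add_neg]

end Cfsg.Agent.Lib.Helper97Extd1
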