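import Cfsg.Agent.Lib.Helper96ExtDefs

set_option autoImplicit false

namespace Cfsg.Agent.Lib.Helper97Extd3

open Module Cfsg.Agent.Lib.Helper96ExtDefs

variable {F K V : Type*} [Field F] [Field K] [Algebra F K] [AddCommGroup V] [Module F V] [Module K V]
  [IsScalarTower F K V] [Finite F] [Finite K] [Finite V]
variable {G : Subgroup (Module.End F V)ˣ}

/-- `b ↦ (k ↦ χ (k • b))` -/
def twist (χ : Module.Dual F V) : V →ₗ[F] Module.Dual F K where
  toFun b := χ ∘ₗ ((LinearMap.toSpanSingleton K V b).restrictScalars F)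
  map_add' b b' := by
    ext k
    simp [smul_add]
  map_smul' c b := by
    ext k
    simp [smul_comm k c b]

omit [Finite F] [Finite K] [Finite V] in
theorem twist_apply (χ : Module.Dual F V) (b : V) (k : K) : twist (K := K) χ b k = χ (k • b) := rfl

/-- piece `d3` -/
theorem d3 (hm : 2 ≤ finrank K V)
    (hall : ∀ (a : V) (ψ : Module.Dual F V), (∀ k : K, ψ (k • a) = 0) → InG G (1 + ψ.smulRight a)) :
    ∀ (χ : Module.Dual F V) (a : V), χ a = 0 → InG G (1 + χ.smulRight a) := by
  intro χ a hχa
  by_cases hK : ∀ k : K, χ (k • a) = 0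
  · exact hall a χ hK
  have : Module.Finite F V := Module.Finite.of_finite
  have : Module.Finite F K := Module.Finite.of_finite
  have : Module.Finite K V := Module.Finite.of_finite
  have hlt : finrank F (Module.Dual F K) < finrank F V := by
    rw [Subspace.dual_finrank_eq, ← Module.finrank_mul_finrank F K V]
    have hpos : 0 < finrank F K := Module.finrank_pos
    nlinarith
  have hker := LinearMap.ker_ne_bot_of_finrank_lt (f := twist (K := K) χ) hlt
  obtain ⟨b, hb, hb0⟩ := Submodule.exists_mem_ne_zero_of_ne_bot hker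
  have hχb : ∀ k : K, χ (k • b) = 0 := by
    intro k
    have := congrArg (fun f : Module.Dual F K => f k) (LinearMap.mem_ker.1 hb)
    simpa [twist_apply] using this
  have hbpt : b ∉ pt F K a := by
    intro hmem
    obtain ⟨c, rfl⟩ := mem_pt.1 hmem
    apply hK
    intro k
    have hc : c ≠ 0 := by
      rintro rfl
      simp at hb0
    have := hχb (k * c⁻¹)
    rwa [smul_smul, mul_assoc, inv_mul_cancel₀ hc, mul_one] at this
  obtain ⟨f, hfb, hfle⟩ := Submodule.exists_le_ker_of_notMem hbpt
  set ψ : Module.Dual F V := (f b)⁻¹ • f with hψ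
  have hψb : ψ b = 1 := by simp [hψ, hfb]
  have hψa : ∀ k : K, ψ (k • a) = 0 := by
    intro k
    have : f (k • a) = 0 := LinearMap.mem_ker.1 (hfle (smul_mem_pt k a))
    simp [hψ, this]
  have hψa1 : ψ a = 0 := by simpa using hψa 1
  have hχb1 : χ b = 0 := by simpa using hχb 1
  have h1 := hall a ψ hψa
  have h2 := hall b χ hχb
  have h3 := hall a (-ψ) (by intro k; simp [hψa k])
  have h4 := hall b (-χ) (by intro k; simp [hχb k])
  have := ((h1.mul h2).mul h3).mul h4
  convert this using 1
  ext v
  simp only [Module.End.mul_apply, LinearMap.add_apply, Module.End.one_apply,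
    LinearMap.smulRight_apply, LinearMap.neg_apply, map_add, map_smul, map_neg, smul_eq_mul,
    hψa1, hχb1, hψb, hχa, mul_zero, mul_one, add_zero, neg_zero, zero_smul, neg_smul]
  module

end Cfsg.Agent.Lib.Helper97Extd3
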