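import Cfsg.Agent.Lib.Helper96ExtDefs

set_option autoImplicit false
set_option linter.unusedSectionVars false
set_option linter.unusedSimpArgs false

namespace Cfsg.Agent.Lib.Helper97Extrootpt

open Module Cfsg.Agent.Lib.Helper96ExtDefs

variable {F K V : Type*} [Field F] [Field K] [Algebra F K] [AddCommGroup V] [Module F V] [Module K V]
  [IsScalarTower F K V] [Finite F] [Finite K] [Finite V]
variable {G : Subgroup (Module.End F V)ˣ}

theorem finrank_pt' {a : V} (ha : a ≠ 0) : finrank F (pt F K a) = finrank F K := by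
  have e : K ≃ₗ[F] ↥(pt F K a) :=
    ((LinearEquiv.toSpanNonzeroSingleton K V a ha).restrictScalars F).trans
      ((Submodule.restrictScalarsEquiv F K V (Submodule.span K {a})).restrictScalars F).symm
  exact e.finrank_eq.symm

/-- piece `rootpt` -/
theorem root_pt (hbig : Big K G) {a : V} (ha : a ≠ 0) : Root G (pt F K a) (TK F K a) := by
  have : Module.Finite K V := Module.Finite.of_finite
  have : Module.Finite F K := Module.Finite.of_finite
  refine ⟨?_, ?_, ?_, ?_, ?_, ?_⟩
  · rintro _ ⟨φ, hφ, rfl⟩
    exact hbig φ a (by simp [hφ])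
  · rintro _ ⟨φ, hφ, rfl⟩ v
    exact smul_mem_pt _ _
  · rintro _ ⟨φ, hφ, rfl⟩ v hv
    obtain ⟨k, rfl⟩ := mem_pt.1 hv
    simp [hφ]
  · intro x hx y hy
    obtain ⟨k, rfl⟩ := mem_pt.1 hy
    have hx' : x ∉ Submodule.span K {a} := hx
    obtain ⟨f, hfx, hfle⟩ := Submodule.exists_le_ker_of_notMem hx'
    have hfa : f a = 0 := LinearMap.mem_ker.1 (hfle (Submodule.mem_span_singleton_self a))
    refine ⟨rk F ((k * (f x)⁻¹) • f) a, ⟨_, by simp [hfa], rfl⟩, ?_⟩
    simp [hfx]
  · rintro _ ⟨φ, hφ, rfl⟩ hne y hy
    obtain ⟨k, rfl⟩ := mem_pt.1 hy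
    obtain ⟨v₀, hv₀⟩ : ∃ v, φ v ≠ 0 := by
      by_contra hcon
      push Not at hcon
      apply hne
      ext v
      simp [hcon v]
    refine ⟨(k * (φ v₀)⁻¹) • v₀, ?_⟩
    simp [hv₀]
  · intro h2 x
    rw [finrank_pt' ha, ← Module.finrank_mul_finrank F K V] at h2
    have hpos : 0 < finrank F K := Module.finrank_pos
    have hm : 3 ≤ finrank K V := by
      by_contra hcon
      have : finrank K V ≤ 2 := by omega
      nlinarith
    have hlt : Submodule.span K {a, x} < ⊤ := by
      rw [lt_top_iff_ne_top]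
      intro htop
      have h1 : finrank K (Submodule.span K {a, x}) ≤ 2 := by
        classical
        have := finrank_span_finset_le_card (R := K) ({a, x} : Finset V)
        have h4 : ({a, x} : Finset V).card ≤ 2 := Finset.card_le_two
        have h5 : Submodule.span K (({a, x} : Finset V) : Set V) = Submodule.span K {a, x} := by simp
        unfold Set.finrank at this
        rw [h5] at this
        omega
      rw [htop, finrank_top] at h1
      omega
    obtain ⟨φ, hφ0, hφle⟩ := Submodule.exists_le_ker_of_lt_top _ hlt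
    have hφa : φ a = 0 := LinearMap.mem_ker.1 (hφle (Submodule.subset_span (by simp)))
    have hφx : φ x = 0 := LinearMap.mem_ker.1 (hφle (Submodule.subset_span (by simp)))
    refine ⟨rk F φ a, ⟨φ, hφa, rfl⟩, ?_, by simp [hφx]⟩
    intro h0
    apply hφ0
    ext v
    have := congrArg (fun f : Module.End F V => f v) h0
    simpa [ha] using this

end Cfsg.Agent.Lib.Helper97Extrootpt
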