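import Cfsg.Agent.Lib.Helper15Extd2
import Cfsg.Agent.Lib.Helper15Exte1
import Cfsg.Agent.Lib.Helper15Exte1big
import Cfsg.Agent.Lib.Helper15Exte3abs
import Cfsg.Agent.Lib.Helper15Exte4abs
import Cfsg.Agent.Lib.Helper73Extc4A
import Cfsg.Agent.Lib.Helper73Extc4B
import Cfsg.Agent.Lib.Helper73Extc4setup
import Cfsg.Agent.Lib.Helper73Extfinrankpt
import Cfsg.Agent.Lib.Helper94ExtA
import Cfsg.Agent.Lib.Helper94Extd1f
import Cfsg.Agent.Lib.Helper94Extmover
import Cfsg.Agent.Lib.Helper94Extn1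
import Cfsg.Agent.Lib.Helper95Extc1
import Cfsg.Agent.Lib.Helper95Extc2
import Cfsg.Agent.Lib.Helper95Extc3a
import Cfsg.Agent.Lib.Helper95Extc3b
import Cfsg.Agent.Lib.Helper96Extc3c
import Cfsg.Agent.Lib.Helper96Extrootconj
import Cfsg.Agent.Lib.Helper96Extw0
import Cfsg.Agent.Lib.Helper97Extd0
import Cfsg.Agent.Lib.Helper97Extd1
import Cfsg.Agent.Lib.Helper97Extd3
import Cfsg.Agent.Lib.Helper97Extrootpt

set_option autoImplicit false

namespace Cfsg.Agent.Lib.Helper96ExtMain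

open Module Cfsg.Agent.Lib.Helper96ExtDefs
open Cfsg.Agent.Lib.Helper15Extd2 (exists_move)
open Cfsg.Agent.Lib.Helper15Exte1 (det_one_add_rk)
open Cfsg.Agent.Lib.Helper15Exte1big (big_of)
open Cfsg.Agent.Lib.Helper15Exte3abs (det_surj_abs)
open Cfsg.Agent.Lib.Helper15Exte4abs (proper_abs)
open Cfsg.Agent.Lib.Helper73Extc4A (c4A)
open Cfsg.Agent.Lib.Helper73Extc4B (c4B)
open Cfsg.Agent.Lib.Helper73Extc4setup (c4setup)
open Cfsg.Agent.Lib.Helper73Extfinrankpt (finrank_pt)
open Cfsg.Agent.Lib.Helper94ExtA (exists_pair)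
open Cfsg.Agent.Lib.Helper94Extd1f (d1f)
open Cfsg.Agent.Lib.Helper94Extmover (exists_mover)
open Cfsg.Agent.Lib.Helper94Extn1 (closure_norm_one)
open Cfsg.Agent.Lib.Helper95Extc1 (c1)
open Cfsg.Agent.Lib.Helper95Extc2 (c2)
open Cfsg.Agent.Lib.Helper95Extc3a (c3a)
open Cfsg.Agent.Lib.Helper95Extc3b (c3b)
open Cfsg.Agent.Lib.Helper96Extc3c (c3c)
open Cfsg.Agent.Lib.Helper96Extrootconj (root_conj)
open Cfsg.Agent.Lib.Helper96Extw0 (exists_w0)
open Cfsg.Agent.Lib.Helper97Extd0 (d0)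
open Cfsg.Agent.Lib.Helper97Extd1 (d1)
open Cfsg.Agent.Lib.Helper97Extd3 (d3)
open Cfsg.Agent.Lib.Helper97Extrootpt (root_pt)

variable {F K V : Type*} [Field F] [Field K] [Algebra F K] [AddCommGroup V] [Module F V] [Module K V]
  [IsScalarTower F K V] [Finite F] [Finite K] [Finite V]
variable {G : Subgroup (Module.End F V)ˣ}

omit [Finite F] [Finite V] in
lemma finrank_map_unit (g : (Module.End F V)ˣ) (P : Submodule F V) :
    finrank F (P.map (g : Module.End F V)) = finrank F P :=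
  (LinearEquiv.finrank_eq (Submodule.equivMapOfInjective _ (unit_injective g) P)).symm

omit [Finite F] [Finite V] in
lemma map_map_unit (g h : (Module.End F V)ˣ) (P : Submodule F V) :
    (P.map (h : Module.End F V)).map (g : Module.End F V) = P.map ((g * h : (Module.End F V)ˣ) : Module.End F V) := by
  rw [← Submodule.map_comp]
  rfl

omit [Finite F] [Finite V] in
lemma map_one_unit (P : Submodule F V) :
    P.map ((1 : (Module.End F V)ˣ) : Module.End F V) = P := by
  rw [Units.val_one]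
  exact Submodule.map_id P

omit [Finite F] [Finite K] [Finite V] in
lemma sig_pt {a : V} (ha : a ≠ 0) : Sig K G (pt F K a) :=
  ⟨1, G.one_mem, a, ha, (map_one_unit _).symm⟩

omit [Finite F] [Finite K] [Finite V] in
lemma sig_map {P : Submodule F V} (hP : Sig K G P) {g : (Module.End F V)ˣ} (hg : g ∈ G) :
    Sig K G (P.map (g : Module.End F V)) := by
  obtain ⟨h, hh, a, ha, rfl⟩ := hP
  exact ⟨g * h, G.mul_mem hg hh, a, ha, map_map_unit _ _ _⟩

lemma sig_finrank {P : Submodule F V} (hP : Sig K G P) : finrank F P = finrank F K := by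
  obtain ⟨h, hh, a, ha, rfl⟩ := hP
  rw [finrank_map_unit, finrank_pt ha]

lemma sig_exists_root (hbig : Big K G) {P : Submodule F V} (hP : Sig K G P) :
    ∃ T, Root G P T := by
  obtain ⟨h, hh, a, ha, rfl⟩ := hP
  exact ⟨_, root_conj (root_pt hbig ha) hh⟩

/-- one step of the induction: enlarge the intersection -/
theorem pair_step (hr : (finrank F K).Prime) (hbig : Big K G) {a : V} (ha : a ≠ 0) {P : Submodule F V}
    (hP : Sig K G P) (hW : pt F K a ⊓ P ≠ ⊥) (hd : finrank F ↥(pt F K a ⊓ P) + 1 < finrank F K) :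
    ∃ (a' : V) (P' : Submodule F V), a' ≠ 0 ∧ Sig K G P' ∧ P' ≠ pt F K a' ∧
      finrank F ↥(pt F K a ⊓ P) < finrank F ↥(pt F K a' ⊓ P') := by
  obtain ⟨h, hh, hfix, ⟨p₁, hp₁, hp₁U, hhp₁⟩, ⟨p₂, hp₂, hhp₂⟩⟩ :=
    exists_mover (fun h1 h2 h3 _ h4 => exists_w0 hr h1 h2 h3 h4) hbig ha (sig_finrank hP) hW hd
  obtain ⟨g, hg, b, hb, rfl⟩ := hP
  set P := (pt F K b).map (g : Module.End F V) with hPdef
  have hinv : P.map ((g⁻¹ : (Module.End F V)ˣ) : Module.End F V) = pt F K b := by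
    rw [hPdef, map_map_unit, inv_mul_cancel, map_one_unit]
  refine ⟨b, (P.map (h : Module.End F V)).map ((g⁻¹ : (Module.End F V)ˣ) : Module.End F V), hb,
    sig_map (sig_map (sig_map (sig_pt hb) hg) hh) (G.inv_mem hg), ?_, ?_⟩
  · intro heq
    rw [← hinv] at heq
    have h2 := Submodule.map_injective_of_injective (unit_injective g⁻¹) heq
    exact hhp₂ (h2 ▸ Submodule.mem_map_of_mem hp₂)
  · have e1 : pt F K b ⊓ (P.map (h : Module.End F V)).map ((g⁻¹ : (Module.End F V)ˣ) : Module.End F V)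
        = (P ⊓ P.map (h : Module.End F V)).map ((g⁻¹ : (Module.End F V)ˣ) : Module.End F V) := by
      rw [Submodule.map_inf _ (unit_injective g⁻¹), hinv]
    rw [e1, finrank_map_unit]
    apply Submodule.finrank_lt_finrank_of_lt
    refine lt_of_le_of_ne ?_ ?_
    · intro w hw
      exact ⟨hw.2, ⟨w, hw.2, hfix w hw⟩⟩
    · intro heq
      have : (h : Module.End F V) p₁ ∈ pt F K a ⊓ P := by
        rw [heq]
        exact ⟨hhp₁, Submodule.mem_map_of_mem hp₁⟩
      have h3 := hfix _ this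
      have h4 := unit_injective h h3
      exact hp₁U (h4 ▸ this.1)

/-- a pair meeting in a hyperplane of both -/
theorem exists_good_pair (hr : (finrank F K).Prime) (hbig : Big K G) :
    ∀ (k : ℕ) (a : V) (P : Submodule F V), a ≠ 0 → Sig K G P → P ≠ pt F K a → pt F K a ⊓ P ≠ ⊥ →
      finrank F K ≤ finrank F ↥(pt F K a ⊓ P) + 1 + k →
    ∃ (a' : V) (P' : Submodule F V), a' ≠ 0 ∧ Sig K G P' ∧ P' ≠ pt F K a' ∧
      finrank F ↥(pt F K a' ⊓ P') + 1 = finrank F K := by
  intro k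
  induction k with
  | zero =>
    intro a P ha hP hne hW hk
    refine ⟨a, P, ha, hP, hne, le_antisymm ?_ hk⟩
    have hlt : pt F K a ⊓ P < P := by
      refine lt_of_le_of_ne inf_le_right ?_
      intro heq
      have hle : P ≤ pt F K a := heq ▸ inf_le_left
      exact hne (Submodule.eq_of_le_of_finrank_eq hle (by rw [sig_finrank hP, finrank_pt ha]))
    have := Submodule.finrank_lt_finrank_of_lt hlt
    rw [sig_finrank hP] at this
    omega
  | succ k ih =>
    intro a P ha hP hne hW hk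
    by_cases hd : finrank F ↥(pt F K a ⊓ P) + 1 < finrank F K
    · obtain ⟨a', P', ha', hP', hne', hlt⟩ := pair_step hr hbig ha hP hW hd
      refine ih a' P' ha' hP' hne' ?_ (by omega)
      intro hbot
      rw [hbot, finrank_bot] at hlt
      omega
    · exact ih a P ha hP hne hW (by omega)


omit [Finite K] in
lemma exists_not_mem_of_ne {U P : Submodule F V} (hne : P ≠ U) (hd : finrank F P = finrank F U) :
    ∃ p ∈ P, p ∉ U := by
  by_contra hcon
  push Not at hcon
  exact hne (Submodule.eq_of_le_of_finrank_eq hcon hd)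

/-- the case `q = 2`, `m = 2`, `r ≥ 3` -/
theorem c3 (hF : Nat.card F = 2) (hm : finrank K V = 2) (hbig : Big K G) {a : V} (ha : a ≠ 0)
    {P : Submodule F V} (hP : Sig K G P) (hne : P ≠ pt F K a)
    (hd : finrank F ↥(pt F K a ⊓ P) + 1 = finrank F K) (h3 : 3 ≤ finrank F K) : HasTv G := by
  obtain ⟨TP, hTP⟩ := sig_exists_root hbig hP
  have hTU := root_pt hbig ha
  have hfU : finrank F (pt F K a) = finrank F K := finrank_pt ha
  have hfP := sig_finrank hP
  obtain ⟨δ, hδ, hδ0, him, hkU, hkP⟩ := c3a hTU hTP (by rw [hd, hfU]) (by rw [hd, hfP]) (by omega)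
  obtain ⟨v₀, hv₀⟩ : ∃ v₀, δ v₀ ≠ 0 := by
    by_contra hcon
    push Not at hcon
    exact hδ0 (LinearMap.ext hcon)
  have hv₀U : v₀ ∉ pt F K a := fun h => hv₀ (hkU _ h)
  obtain ⟨p, hp, hpU⟩ := exists_not_mem_of_ne hne (by rw [hfP, hfU])
  obtain ⟨u, hu, huP⟩ := exists_not_mem_of_ne (Ne.symm hne) (by rw [hfP, hfU])
  obtain ⟨h, hh, hfix, hhp⟩ := c3c hF hm hbig ha hpU hv₀U
  refine c3b hδ (root_conj hTP hh) (W := pt F K a ⊓ P) ?_ ?_ him (fun v hv => hkU v hv.1) (v₀ := v₀) (x := u)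
    ?_ hv₀ ?_
  · intro w hw
    exact ⟨w, hw.2, hfix w hw.1⟩
  · rw [finrank_map_unit, hd, hfP]
  · exact ⟨p, hp, hhp⟩
  · rintro ⟨y, hy, hyu⟩
    have : y = u := unit_injective h (by rw [hyu, hfix u hu])
    exact huP (this ▸ hy)

theorem c4 (hF : Nat.card F = 2) (hr : finrank F K = 2) (hm : finrank K V = 2) (hbig : Big K G) {a : V}
    (ha : a ≠ 0) {P : Submodule F V} (hP : Sig K G P) (hne : P ≠ pt F K a) (hW : pt F K a ⊓ P ≠ ⊥) :
    HasTv G := by
  obtain ⟨TP, hTP⟩ := sig_exists_root hbig hP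
  obtain ⟨ω, w, p, ν, hω, hspan, hind, hν, h1, h2, h3, h4 | h4⟩ :=
    c4setup hF hr hm ha hTP (by rw [sig_finrank hP, hr]) hne hW
  · exact c4A hF hr hbig hω hspan hind hν h1 h2 h3 h4
  · exact c4B hF hr hbig hω hspan hind hν h1 h2 h3 h4

theorem hasTv_of_good_pair (hr : (finrank F K).Prime) (hm : 2 ≤ finrank K V) (hbig : Big K G) {a : V}
    (ha : a ≠ 0) {P : Submodule F V} (hP : Sig K G P) (hne : P ≠ pt F K a)
    (hd : finrank F ↥(pt F K a ⊓ P) + 1 = finrank F K) : HasTv G := by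
  obtain ⟨TP, hTP⟩ := sig_exists_root hbig hP
  have hTU := root_pt hbig ha
  have hfU : finrank F (pt F K a) = finrank F K := finrank_pt ha
  have hfP := sig_finrank hP
  have hr2 := hr.two_le
  have hW : pt F K a ⊓ P ≠ ⊥ := by
    intro hbot
    rw [hbot, finrank_bot] at hd
    omega
  by_cases h3 : 3 ≤ finrank K V
  · refine c2 hTU hTP (by rw [hd, hfU]) (by rw [hd, hfP]) ?_
    rw [hfP, ← Module.finrank_mul_finrank F K V, mul_comm]
    exact Nat.mul_lt_mul_of_pos_left (by omega) (by omega)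
  have hm2 : finrank K V = 2 := by omega
  by_cases hq : ∃ f : F, f ≠ 0 ∧ f ≠ 1
  · obtain ⟨f, hf0, hf1⟩ := hq
    exact c1 hTU hTP (by rw [hd, hfU]) (by rw [hd, hfP]) hW hf0 hf1
  push Not at hq
  have hF : Nat.card F = 2 := by
    rw [Nat.card_eq_two_iff]
    refine ⟨0, 1, zero_ne_one, ?_⟩
    ext x
    simp only [Set.mem_insert_iff, Set.mem_singleton_iff, Set.mem_univ, iff_true]
    by_cases hx : x = 0
    · exact Or.inl hx
    · exact Or.inr (hq x hx)
  by_cases hr' : finrank F K = 2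
  · exact c4 hF hr' hm2 hbig ha hP hne hW
  · exact c3 hF hm2 hbig ha hP hne hd (by omega)

/-- from one transvection to all of them -/
theorem all_tv (hr : 2 ≤ finrank F K) (hm : 2 ≤ finrank K V) (hbig : Big K G) (h : HasTv G) :
    ∀ (χ : Module.Dual F V) (a : V), χ a = 0 → InG G (1 + χ.smulRight a) := by
  have hN1 := closure_norm_one (F := F) (K := K) hr
  obtain ⟨ψ₀, w, hψ₀, hw, hψ₀w, h0⟩ := d0 (K := K) hm hbig h
  have h1 := d1 hN1 hbig hw hψ₀w h0
  have h2 := d1f hN1 hbig hw hψ₀ hψ₀w h1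
  apply d3 (K := K) hm
  intro a ψ hψ
  by_cases ha : a = 0
  · subst ha
    have : (1 + ψ.smulRight (0 : V) : Module.End F V) = 1 := by
      ext v
      simp
    rw [this]
    exact InG.one
  obtain ⟨g, hg, hgK, hga⟩ := exists_move (K := K) hm hbig hw ha
  have h3 := h2 (ψ ∘ₗ (g : Module.End F V)) (by
    intro k
    rw [LinearMap.comp_apply, hgK, hga, hψ])
  have h4 := h3.conj hg
  convert h4 using 1
  ext v
  simp only [LinearMap.add_apply, Module.End.one_apply, LinearMap.smulRight_apply, Module.End.mul_apply,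
    LinearMap.comp_apply, map_add, map_smul, unit_apply_inv, hga]

/-- **The abstract theorem.** -/
theorem main_abs (hr : (finrank F K).Prime) (hlt : finrank F K < finrank F V)
    (G : Subgroup (Module.End F V)ˣ)
    (hG : ∀ g : (Module.End F V)ˣ,
      (∀ (k : K) (v : V), (g : Module.End F V) (k • v) = k • (g : Module.End F V) v) →
      LinearMap.det (g : Module.End F V) = 1 → g ∈ G)
    (g₀ : (Module.End F V)ˣ) (hg₀ : g₀ ∈ G)
    (hn : ¬ ∀ k : K, ∃ k' : K, ∀ v, (g₀ : Module.End F V) (k • v) = k' • (g₀ : Module.End F V) v) :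
    ∀ (ψ : Module.Dual F V) (w : V), ψ w = 0 → ∃ g ∈ G, (g : Module.End F V) = 1 + ψ.smulRight w := by
  have hbig : Big K G := big_of det_one_add_rk hG
  have hm : 2 ≤ finrank K V := by
    rw [← Module.finrank_mul_finrank F K V] at hlt
    by_contra hcon
    have : finrank K V ≤ 1 := by omega
    have := Nat.mul_le_mul_left (finrank F K) this
    omega
  obtain ⟨a, P, ha, hP, hne, hW⟩ := exists_pair hm hg₀ hn
  obtain ⟨a', P', ha', hP', hne', hd⟩ := exists_good_pair hr hbig (finrank F K) a P ha hP hne hW (by omega)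
  exact all_tv hr.two_le hm hbig (hasTv_of_good_pair hr hm hbig ha' hP' hne' hd)

end Cfsg.Agent.Lib.Helper96ExtMain
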