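import Cfsg.Agent.Lib.Helper96ExtMain
import Cfsg.Agent.Lib.Helper95SL

set_option autoImplicit false

namespace Cfsg.Agent.Lib.Helper96ExtMat

open Module Cfsg Cfsg.Geo Matrix Cfsg.Agent.Lib.Helper96ExtDefs
  Cfsg.Agent.Lib.Helper96ExtMain Cfsg.Agent.Lib.Helper95Basic
open Cfsg.Agent.Lib.Helper15Exte1 (det_one_add_rk)
open Cfsg.Agent.Lib.Helper15Exte3abs (det_surj_abs)
open Cfsg.Agent.Lib.Helper15Exte4abs (proper_abs)
open scoped MatrixGroups

/-- `main_abs` for a ring which is a field -/
theorem main_ring {F L V : Type*} [Field F] [Ring L] [iA : Algebra F L] [AddCommGroup V] [Module F V]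
    [iM : Module L V] [iT : IsScalarTower F L V] [Finite F] [Finite L] [Finite V] (hL : IsField L)
    (hr : (finrank F L).Prime) (hlt : finrank F L < finrank F V)
    (G : Subgroup (Module.End F V)ˣ)
    (hG : ∀ g : (Module.End F V)ˣ,
      (∀ (k : L) (v : V), (g : Module.End F V) (k • v) = k • (g : Module.End F V) v) →
      LinearMap.det (g : Module.End F V) = 1 → g ∈ G)
    (g₀ : (Module.End F V)ˣ) (hg₀ : g₀ ∈ G)
    (hn : ¬ ∀ k : L, ∃ k' : L, ∀ v, (g₀ : Module.End F V) (k • v) = k' • (g₀ : Module.End F V) v) :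
    ∀ (ψ : Module.Dual F V) (w : V), ψ w = 0 → ∃ g ∈ G, (g : Module.End F V) = 1 + ψ.smulRight w :=
  @main_abs F L V _ hL.toField iA _ _ iM iT _ _ _ hr hlt G hG g₀ hg₀ hn

theorem det_surj_ring {F L V : Type*} [Field F] [Ring L] [iA : Algebra F L] [AddCommGroup V] [Module F V]
    [iM : Module L V] [iT : IsScalarTower F L V] [Finite F] [Finite L] [Finite V] (hL : IsField L)
    (hV : 0 < finrank F V) (c : F) (hc : c ≠ 0) :
    ∃ g : (Module.End F V)ˣ,
      (∀ (k : L) (v : V), (g : Module.End F V) (k • v) = k • (g : Module.End F V) v) ∧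
      LinearMap.det (g : Module.End F V) = c :=
  @det_surj_abs F L V _ hL.toField iA _ _ iM iT _ _ _
    (@det_one_add_rk F L V _ hL.toField iA _ _ iM iT _ _ _) hV c hc

theorem proper_ring {F L V : Type*} [Field F] [Ring L] [iA : Algebra F L] [AddCommGroup V] [Module F V]
    [iM : Module L V] [iT : IsScalarTower F L V] [Finite F] [Finite L] [Finite V] (hL : IsField L)
    (hr : 2 ≤ finrank F L) (hlt : finrank F L < finrank F V) :
    ∃ (ψ : Module.Dual F V) (w : V), ψ w = 0 ∧
      ¬ ∀ k : L, ∃ k' : L, ∀ v, (1 + ψ.smulRight w : Module.End F V) (k • v) =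
        k' • (1 + ψ.smulRight w : Module.End F V) v :=
  @proper_abs F L V _ hL.toField iA _ _ iM iT _ _ _ hr hlt

variable {n : ℕ} {F : Type*} [Field F]

lemma isField_of {r : ℕ} {K : Subalgebra F (Matrix (Fin n) (Fin n) F)} [Nontrivial K]
    (hK : IsFieldSubalgebra r K) : IsField K := by
  refine ⟨exists_pair_ne K, fun a b => Subtype.ext (hK.comm a a.2 b b.2), ?_⟩
  intro a ha
  obtain ⟨y, hy, hxy⟩ := hK.inv a a.2 (fun h => ha (Subtype.ext h))
  exact ⟨⟨y, hy⟩, Subtype.ext hxy⟩

lemma mat_ext' {A B : Matrix (Fin n) (Fin n) F} (h : ∀ x, A *ᵥ x = B *ᵥ x) : A = B :=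
  Matrix.toLin'.injective (LinearMap.ext h)

/-- membership in the normaliser in terms of the action on vectors -/
theorem mem_normalizer_iff (K : Subalgebra F (Matrix (Fin n) (Fin n) F)) (g : GL (Fin n) F) :
    g ∈ subalgebraNormalizer K ↔
      ∀ k : K, ∃ k' : K, ∀ v : Fin n → F,
        (g : Matrix (Fin n) (Fin n) F) *ᵥ ((k : Matrix (Fin n) (Fin n) F) *ᵥ v) =
          (k' : Matrix (Fin n) (Fin n) F) *ᵥ ((g : Matrix (Fin n) (Fin n) F) *ᵥ v) := by
  constructor
  · intro hg k
    refine ⟨⟨_, (hg k).mp k.2⟩, fun v => ?_⟩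
    rw [Matrix.mulVec_mulVec, Matrix.mulVec_mulVec]
    congr 1
    simp [mul_assoc]
  · intro h
    have hfwd : ∀ k ∈ K, (g : Matrix (Fin n) (Fin n) F) * k * ((g⁻¹ : GL (Fin n) F) : Matrix (Fin n) (Fin n) F) ∈ K := by
      intro k hk
      obtain ⟨k', hk'⟩ := h ⟨k, hk⟩
      have e : (g : Matrix (Fin n) (Fin n) F) * k = (k' : Matrix (Fin n) (Fin n) F) * g := by
        apply mat_ext'
        intro v
        rw [← Matrix.mulVec_mulVec, ← Matrix.mulVec_mulVec]
        exact hk' v
      rw [e, mul_assoc, Units.mul_inv, mul_one]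
      exact k'.2
    let c : K →ₗ[F] K :=
      { toFun := fun k => ⟨_, hfwd k k.2⟩
        map_add' := fun a b => Subtype.ext (by simp [mul_add, add_mul])
        map_smul' := fun a b => Subtype.ext (by simp) }
    have hinj : Function.Injective c := by
      intro a b hab
      have h1 : (g : Matrix (Fin n) (Fin n) F) * a * ((g⁻¹ : GL (Fin n) F) : Matrix (Fin n) (Fin n) F) =
          (g : Matrix (Fin n) (Fin n) F) * b * ((g⁻¹ : GL (Fin n) F) : Matrix (Fin n) (Fin n) F) :=
        congrArg Subtype.val hab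
      apply Subtype.ext
      have h2 := congrArg (fun M => ((g⁻¹ : GL (Fin n) F) : Matrix (Fin n) (Fin n) F) * M * (g : Matrix (Fin n) (Fin n) F)) h1
      simpa [mul_assoc] using h2
    have hsurj : Function.Surjective c := LinearMap.injective_iff_surjective.mp hinj
    intro k
    refine ⟨hfwd k, fun hk => ?_⟩
    obtain ⟨k₁, hk₁⟩ := hsurj ⟨_, hk⟩
    have h1 : (g : Matrix (Fin n) (Fin n) F) * k₁ * ((g⁻¹ : GL (Fin n) F) : Matrix (Fin n) (Fin n) F) =
          (g : Matrix (Fin n) (Fin n) F) * k * ((g⁻¹ : GL (Fin n) F) : Matrix (Fin n) (Fin n) F) :=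
        congrArg Subtype.val hk₁
    have h2 := congrArg (fun M => ((g⁻¹ : GL (Fin n) F) : Matrix (Fin n) (Fin n) F) * M * (g : Matrix (Fin n) (Fin n) F)) h1
    have h3 : (k₁ : Matrix (Fin n) (Fin n) F) = k := by simpa [mul_assoc] using h2
    exact h3 ▸ k₁.2


section transfer
variable [Fintype F] {r : ℕ} {K : Subalgebra F (Matrix (Fin n) (Fin n) F)}

omit [Fintype F] in
lemma smul_def' (κ : K) (v : Fin n → F) : κ • v = (κ : Matrix (Fin n) (Fin n) F) *ᵥ v := rfl

instance tower_inst : IsScalarTower F K (Fin n → F) := ⟨fun a κ v => by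
  rw [smul_def', smul_def']
  simp [Matrix.smul_mulVec]⟩

/-- the isomorphism `GL_n(F) ≃ (End F Fⁿ)ˣ` -/
noncomputable abbrev eL (n : ℕ) (F : Type*) [Field F] : GL (Fin n) F ≃* (Module.End F (Fin n → F))ˣ :=
  Matrix.GeneralLinearGroup.toLin

omit [Fintype F] in
lemma eL_apply (g : GL (Fin n) F) (v : Fin n → F) :
    ((eL n F g : (Module.End F (Fin n → F))ˣ) : Module.End F (Fin n → F)) v =
      (g : Matrix (Fin n) (Fin n) F) *ᵥ v := rfl

omit [Fintype F] in
lemma det_eL (g : GL (Fin n) F) :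
    LinearMap.det ((eL n F g : (Module.End F (Fin n → F))ˣ) : Module.End F (Fin n → F)) =
      (g : Matrix (Fin n) (Fin n) F).det := by
  have : ((eL n F g : (Module.End F (Fin n → F))ˣ) : Module.End F (Fin n → F)) =
      Matrix.toLin' (g : Matrix (Fin n) (Fin n) F) := rfl
  rw [this, LinearMap.det_toLin']

/-- an overgroup of `N ∩ SL` not inside `N` contains `SL` -/
theorem sl_le (hr : r.Prime) (hlt : r < n) (hK : IsFieldSubalgebra r K) (G : Subgroup (GL (Fin n) F))
    (hG : subalgebraNormalizer K ⊓ specialLinear (Fin n) F ≤ G) {g₀ : GL (Fin n) F} (hg₀ : g₀ ∈ G)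
    (hn : g₀ ∉ subalgebraNormalizer K) : specialLinear (Fin n) F ≤ G := by
  classical
  have hr2 := hr.two_le
  have : Nontrivial K := Module.nontrivial_of_finrank_pos (R := F) (by rw [hK.finrank_eq]; omega)
  have : Nontrivial (Fin n) := Fin.nontrivial_iff_two_le.mpr (by omega)
  have hL := isField_of hK
  have key := main_ring (F := F) (L := K) (V := Fin n → F) hL (by rw [hK.finrank_eq]; exact hr)
    (by rw [hK.finrank_eq, Module.finrank_fin_fun]; exact hlt) (G.map (eL n F).toMonoidHom)
    (by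
      intro g hgK hdet
      refine ⟨(eL n F).symm g, hG (Subgroup.mem_inf.mpr ⟨?_, ?_⟩), (eL n F).apply_symm_apply g⟩
      · rw [mem_normalizer_iff]
        intro k
        refine ⟨k, fun v => ?_⟩
        have := hgK k v
        rw [← (eL n F).apply_symm_apply g] at this
        exact this
      · rw [mem_specialLinear_iff, ← det_eL, (eL n F).apply_symm_apply g]
        exact hdet)
    (eL n F g₀) ⟨g₀, hg₀, rfl⟩
    (by
      intro hcon
      apply hn
      rw [mem_normalizer_iff]
      exact hcon)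
  apply Cfsg.Agent.Lib.Helper95SL.specialLinear_le_of_tv
  intro a ℓ h
  obtain ⟨g', ⟨g, hg, rfl⟩, hg'⟩ := key ℓ a h
  have : tv a ℓ h = g := by
    apply gl_ext
    intro x
    rw [tv_mulVec]
    have h1 := congrArg (fun f : Module.End F (Fin n → F) => f x) hg'
    simp only [LinearMap.add_apply, Module.End.one_apply, LinearMap.smulRight_apply] at h1
    rw [← h1]
    rfl
  rw [this]
  exact hg

/-- the determinant is onto on the normaliser -/
theorem det_surj (hr : r.Prime) (hlt : r < n) (hK : IsFieldSubalgebra r K) (x : GL (Fin n) F) :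
    ∃ h ∈ subalgebraNormalizer K, (h : Matrix (Fin n) (Fin n) F).det = (x : Matrix (Fin n) (Fin n) F).det := by
  classical
  have hr2 := hr.two_le
  have : Nontrivial K := Module.nontrivial_of_finrank_pos (R := F) (by rw [hK.finrank_eq]; omega)
  have hL := isField_of hK
  obtain ⟨g, hgK, hdet⟩ := det_surj_ring (F := F) (L := K) (V := Fin n → F) hL
    (by rw [Module.finrank_fin_fun]; omega) (x : Matrix (Fin n) (Fin n) F).det
    (by
      have := (Matrix.isUnit_iff_isUnit_det _).mp x.isUnit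
      exact this.ne_zero)
  refine ⟨(eL n F).symm g, ?_, ?_⟩
  · rw [mem_normalizer_iff]
    intro k
    refine ⟨k, fun v => ?_⟩
    have := hgK k v
    rw [← (eL n F).apply_symm_apply g] at this
    exact this
  · rw [← det_eL, (eL n F).apply_symm_apply g]
    exact hdet

/-- `SL` is not contained in the normaliser -/
theorem exists_not_mem (hr : r.Prime) (hlt : r < n) (hK : IsFieldSubalgebra r K) :
    ∃ t ∈ specialLinear (Fin n) F, t ∉ subalgebraNormalizer K := by
  classical
  have hr2 := hr.two_le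
  have : Nontrivial K := Module.nontrivial_of_finrank_pos (R := F) (by rw [hK.finrank_eq]; omega)
  have hL := isField_of hK
  obtain ⟨ψ, w, hψw, hnot⟩ := proper_ring (F := F) (L := K) (V := Fin n → F) hL
    (by rw [hK.finrank_eq]; exact hr2) (by rw [hK.finrank_eq, Module.finrank_fin_fun]; exact hlt)
  refine ⟨tv w ψ hψw, tv_mem_specialLinear _ _ _, ?_⟩
  intro hmem
  rw [mem_normalizer_iff] at hmem
  apply hnot
  intro k
  obtain ⟨k', hk'⟩ := hmem k
  refine ⟨k', fun v => ?_⟩
  have := hk' v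
  rw [tv_mulVec, tv_mulVec] at this
  simp only [LinearMap.add_apply, Module.End.one_apply, LinearMap.smulRight_apply, smul_def']
  exact this

end transfer

end Cfsg.Agent.Lib.Helper96ExtMat
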