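import Mathlib

/-!
PROJECT 4064, piece `N1`: a finite group in which every element commutes with all its conjugates
is nilpotent.
-/

set_option autoImplicit false

namespace Cfsg.Agent.Lib.Helper96TiN1

theorem normal_pgroup_le_sylow {H : Type*} [Group H] [Finite H] {p : ℕ} [Fact p.Prime]
    (A : Subgroup H) [A.Normal] (hA : IsPGroup p A) (P : Sylow p H) : A ≤ P := by
  obtain ⟨Q, hQ⟩ := hA.exists_le_sylow
  obtain ⟨c, rfl⟩ := MulAction.exists_smul_eq H Q P
  intro a ha
  rw [Sylow.coe_subgroup_smul, Subgroup.mem_pointwise_smul_iff_inv_smul_mem]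
  apply hQ
  have : c⁻¹ * a * c⁻¹⁻¹ ∈ A := Subgroup.Normal.conj_mem inferInstance a ha c⁻¹
  simpa [MulAut.smul_def] using this

theorem nilpotent_of_engel {H : Type*} [Group H] [Finite H]
    (h : ∀ a b : H, Commute a (b * a * b⁻¹)) : Group.IsNilpotent H := by
  classical
  have q := (Group.isNilpotent_of_finite_tfae (G := H)).out 0 3
  rw [q]
  intro p hp P
  constructor
  intro x hx g
  set S : Set H := Group.conjugatesOfSet ({x} : Set H) with hS
  have hSmem : ∀ y ∈ S, ∃ c : H, y = c * x * c⁻¹ := by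
    intro y hy
    rw [hS, Group.mem_conjugatesOfSet_iff] at hy
    obtain ⟨a, ha, hay⟩ := hy
    rw [Set.mem_singleton_iff] at ha
    subst ha
    obtain ⟨c, hc⟩ := isConj_iff.1 hay
    exact ⟨c, hc.symm⟩
  have hcomm : ∀ y ∈ S, ∀ z ∈ S, Commute y z := by
    intro y hy z hz
    obtain ⟨c, rfl⟩ := hSmem y hy
    obtain ⟨d, rfl⟩ := hSmem z hz
    have h1 : Commute x ((c⁻¹ * d) * x * (c⁻¹ * d)⁻¹) := h x (c⁻¹ * d)
    have h2 := (Commute.conj_iff c).2 h1
    have h3 : c * (c⁻¹ * d * x * (c⁻¹ * d)⁻¹) * c⁻¹ = d * x * d⁻¹ := by group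
    rwa [h3] at h2
  set A : Subgroup H := Subgroup.normalClosure ({x} : Set H) with hA
  have hAcl : A = Subgroup.closure S := rfl
  have h1 : Subgroup.closure S ≤ Subgroup.centralizer S := by
    rw [Subgroup.closure_le]
    intro y hy
    rw [SetLike.mem_coe, Subgroup.mem_centralizer_iff]
    intro z hz
    exact (hcomm z hz y hy).eq
  have h2 : Subgroup.closure S ≤ Subgroup.centralizer (Subgroup.closure S : Set H) := by
    rw [Subgroup.closure_le]
    intro y hy
    rw [SetLike.mem_coe, Subgroup.mem_centralizer_iff]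
    intro z hz
    have := Subgroup.mem_centralizer_iff.1 (h1 hz) y hy
    exact this.symm
  have hpow : ∀ y ∈ Subgroup.closure S, y ^ orderOf x = 1 := by
    intro y hy
    induction hy using Subgroup.closure_induction with
    | mem y hy =>
      obtain ⟨c, rfl⟩ := hSmem y hy
      rw [conj_pow, pow_orderOf_eq_one]; simp
    | one => simp
    | mul a b ha hb iha ihb =>
      have : Commute a b := (Subgroup.mem_centralizer_iff.1 (h2 hb) a ha)
      rw [this.mul_pow, iha, ihb, one_mul]
    | inv a ha iha => rw [inv_pow, iha, inv_one]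
  obtain ⟨k, hk⟩ := (IsPGroup.iff_orderOf.1 P.isPGroup') ⟨x, hx⟩
  have hk' : orderOf x = p ^ k := by
    rw [← hk]; exact (Subgroup.orderOf_mk x hx).symm
  have hAp : IsPGroup p A := by
    rintro ⟨y, hy⟩
    refine ⟨k, ?_⟩
    apply Subtype.ext
    have := hpow y hy
    rw [hk'] at this
    simpa using this
  have hle : A ≤ P := normal_pgroup_le_sylow A hAp P
  apply hle
  have hxA : x ∈ A := Subgroup.subset_normalClosure (Set.mem_singleton x)
  exact Subgroup.Normal.conj_mem (inferInstance : A.Normal) x hxA g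

end Cfsg.Agent.Lib.Helper96TiN1
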