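import Mathlib
import Cfsg.Agent.Lib.Helper44VDefs

set_option autoImplicit false

/-! Project 45 (S2336), piece `phsum`. -/

namespace Cfsg.Agent.Lib.Helper97Vphsum

open Matrix Cfsg Cfsg.Agent.Lib.Helper44VDefs

variable {F : Type*} [Field F] [Fintype F] [DecidableEq F] {n : ℕ}

theorem ph_sum (n : ℕ) (g : Matrix.SpecialLinearGroup (Fin n) F) :
    ∑ l : AddChar (Additive Fˣ) ℂ, ph n l g =
      (Nat.card {v : Fin n → F // v ≠ 0 ∧ (g : Matrix (Fin n) (Fin n) F).mulVec v = v} : ℂ) := by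
  unfold ph
  rw [← Finset.mul_sum, Finset.sum_comm]
  simp only [← Finset.sum_mul, ← map_sum, AddChar.sum_apply_eq_ite]
  rw [Finset.sum_eq_single (1 : Fˣ)]
  · have h1 : (Fintype.card Fˣ : ℂ) ≠ 0 := Nat.cast_ne_zero.2 Fintype.card_ne_zero
    simp only [ofMul_one, if_true, Units.val_one, one_smul, map_natCast]
    rw [show Fintype.card (Additive Fˣ) = Fintype.card Fˣ from Fintype.card_congr Additive.toMul, ← mul_assoc, inv_mul_cancel₀ h1, one_mul]
  · intro c _ hc
    rw [if_neg (by simpa using hc)]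
    simp
  · intro h
    exact absurd (Finset.mem_univ _) h

theorem ph_one (n : ℕ) (hn : 1 ≤ n) (l : AddChar (Additive Fˣ) ℂ) : ph n l 1 ≠ 0 := by
  unfold ph
  rw [Finset.sum_eq_single (1 : Fˣ)]
  · have h1 : (Fintype.card Fˣ : ℂ) ≠ 0 := Nat.cast_ne_zero.2 Fintype.card_ne_zero
    refine mul_ne_zero (inv_ne_zero h1) (mul_ne_zero ?_ ?_)
    · simp
    · rw [Nat.cast_ne_zero]
      have : Nonempty {v : Fin n → F // v ≠ 0 ∧
          ((1 : Matrix.SpecialLinearGroup (Fin n) F) : Matrix (Fin n) (Fin n) F).mulVec v =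
            ((1 : Fˣ) : F) • v} := by
        refine ⟨⟨fun _ => 1, ?_, by simp⟩⟩
        intro h
        have := congrFun h ⟨0, by omega⟩
        simp at this
      exact Nat.card_pos.ne'
  · intro c _ hc
    have : IsEmpty {v : Fin n → F // v ≠ 0 ∧
          ((1 : Matrix.SpecialLinearGroup (Fin n) F) : Matrix (Fin n) (Fin n) F).mulVec v =
            (c : F) • v} := by
      refine ⟨fun ⟨v, hv, hvc⟩ => ?_⟩
      simp only [Matrix.SpecialLinearGroup.coe_one, Matrix.one_mulVec] at hvc
      apply hc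
      have h2 : ((c : F) - 1) • v = 0 := by rw [sub_smul, one_smul, ← hvc, sub_self]
      rcases smul_eq_zero.1 h2 with h3 | h3
      · exact Units.ext (by simpa using sub_eq_zero.1 h3)
      · exact absurd h3 hv
    rw [Nat.card_of_isEmpty]
    simp
  · intro h
    exact absurd (Finset.mem_univ _) h

end Cfsg.Agent.Lib.Helper97Vphsum
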