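import Mathlib
import Cfsg.Agent.Lib.Helper44VDefs
import Cfsg.Agent.S0157

set_option autoImplicit false

/-! Project 45 (S2336), piece `phzero`. -/

namespace Cfsg.Agent.Lib.Helper97Vphzero

open Matrix Cfsg Cfsg.Agent.Lib.Helper44VDefs

open scoped LinearAlgebra.Projectivization

variable {F : Type*} [Field F] [Fintype F] [DecidableEq F] {n : ℕ}

theorem smul_eq_mulVec' (g : Matrix.SpecialLinearGroup (Fin n) F) (v : Fin n → F) :
    g • v = (g : Matrix (Fin n) (Fin n) F).mulVec v := rfl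

theorem fixed_iff (g : Matrix.SpecialLinearGroup (Fin n) F) {v : Fin n → F} (hv : v ≠ 0) :
    g • Projectivization.mk F v hv = Projectivization.mk F v hv ↔
      ∃ c : Fˣ, (g : Matrix (Fin n) (Fin n) F).mulVec v = (c : F) • v := by
  rw [Projectivization.smul_mk, Projectivization.mk_eq_mk_iff]
  constructor
  · rintro ⟨a, ha⟩
    exact ⟨a, by rw [← smul_eq_mulVec', ← ha]; rfl⟩
  · rintro ⟨c, hc⟩
    exact ⟨c, by rw [smul_eq_mulVec', hc]; rfl⟩

theorem card_pairs (g : Matrix.SpecialLinearGroup (Fin n) F) :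
    Nat.card {p : Fˣ × (Fin n → F) // p.2 ≠ 0 ∧
      (g : Matrix (Fin n) (Fin n) F).mulVec p.2 = (p.1 : F) • p.2} =
      Nat.card (MulAction.fixedBy (ℙ F (Fin n → F)) g) * Fintype.card Fˣ := by
  rw [← Nat.card_eq_fintype_card (α := Fˣ), ← Nat.card_prod]
  symm
  have hex : ∀ x : MulAction.fixedBy (ℙ F (Fin n → F)) g, ∃ c : Fˣ,
      (g : Matrix (Fin n) (Fin n) F).mulVec (x : ℙ F (Fin n → F)).rep =
        (c : F) • (x : ℙ F (Fin n → F)).rep := by
    intro x
    rw [← fixed_iff g (x : ℙ F (Fin n → F)).rep_nonzero, Projectivization.mk_rep]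
    exact x.2
  choose c hc using hex
  have hne : ∀ (x : ℙ F (Fin n → F)) (a : Fˣ), (a : F) • x.rep ≠ 0 :=
    fun x a => smul_ne_zero a.ne_zero x.rep_nonzero
  have hmk : ∀ (x : ℙ F (Fin n → F)) (a : Fˣ), Projectivization.mk F ((a : F) • x.rep) (hne x a) = x := by
    intro x a
    conv_rhs => rw [← Projectivization.mk_rep x]
    rw [Projectivization.mk_eq_mk_iff]
    exact ⟨a, rfl⟩
  refine Nat.card_congr (Equiv.ofBijective
    (fun y : MulAction.fixedBy (ℙ F (Fin n → F)) g × Fˣ =>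
      (⟨(c y.1, (y.2 : F) • (y.1 : ℙ F (Fin n → F)).rep), hne _ _, by
        show (g : Matrix (Fin n) (Fin n) F).mulVec ((y.2 : F) • (y.1 : ℙ F (Fin n → F)).rep) =
          (c y.1 : F) • ((y.2 : F) • (y.1 : ℙ F (Fin n → F)).rep)
        rw [Matrix.mulVec_smul, hc, smul_comm]⟩ :
        {p : Fˣ × (Fin n → F) // p.2 ≠ 0 ∧
          (g : Matrix (Fin n) (Fin n) F).mulVec p.2 = (p.1 : F) • p.2})) ⟨?_, ?_⟩)
  · rintro ⟨x, a⟩ ⟨y, b⟩ hxy
    have h1 : (a : F) • (x : ℙ F (Fin n → F)).rep = (b : F) • (y : ℙ F (Fin n → F)).rep :=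
      congrArg (fun t => t.1.2) hxy
    have h2 : (x : ℙ F (Fin n → F)) = y := by
      rw [← hmk x a, ← hmk y b]
      congr 1
    have h3 : x = y := Subtype.ext h2
    subst h3
    have h4 : ((a : F) - b) • (x : ℙ F (Fin n → F)).rep = 0 := by rw [sub_smul, h1, sub_self]
    rcases smul_eq_zero.1 h4 with h5 | h5
    · have : a = b := Units.ext (sub_eq_zero.1 h5)
      rw [this]
    · exact absurd h5 (x : ℙ F (Fin n → F)).rep_nonzero
  · rintro ⟨⟨d, v⟩, hv, hgv⟩
    simp only at hv hgv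
    have hfix : Projectivization.mk F v hv ∈ MulAction.fixedBy (ℙ F (Fin n → F)) g :=
      (fixed_iff g hv).2 ⟨d, hgv⟩
    obtain ⟨a, ha⟩ := Projectivization.exists_smul_eq_mk_rep F v hv
    have ha' : (a : F) • v = (Projectivization.mk F v hv).rep := ha
    have hv' : ((a⁻¹ : Fˣ) : F) • (Projectivization.mk F v hv).rep = v := by
      rw [← ha', smul_smul, Units.inv_mul, one_smul]
    refine ⟨(⟨_, hfix⟩, a⁻¹), ?_⟩
    apply Subtype.ext
    apply Prod.ext
    · show c ⟨_, hfix⟩ = d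
      have h1 := hc ⟨_, hfix⟩
      simp only at h1
      rw [← ha', Matrix.mulVec_smul, hgv, smul_comm] at h1
      have h2 : ((d : F) - (c ⟨_, hfix⟩ : F)) • ((a : F) • v) = 0 := by rw [sub_smul, h1, sub_self]
      rcases smul_eq_zero.1 h2 with h5 | h5
      · exact (Units.ext (sub_eq_zero.1 h5)).symm
      · exact absurd h5 (smul_ne_zero a.ne_zero hv)
    · exact hv'

theorem ph_zero_eq (g : Matrix.SpecialLinearGroup (Fin n) F) :
    ph n 0 g = (Nat.card (MulAction.fixedBy (ℙ F (Fin n → F)) g) : ℂ) := by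
  unfold ph
  have h1 : (Fintype.card Fˣ : ℂ) ≠ 0 := Nat.cast_ne_zero.2 Fintype.card_ne_zero
  have h2 : ∑ c : Fˣ, (starRingEnd ℂ) ((0 : AddChar (Additive Fˣ) ℂ) (Additive.ofMul c)) *
      (Nat.card {v : Fin n → F // v ≠ 0 ∧ (g : Matrix (Fin n) (Fin n) F).mulVec v = (c : F) • v} : ℂ) =
      ((Nat.card {p : Fˣ × (Fin n → F) // p.2 ≠ 0 ∧
      (g : Matrix (Fin n) (Fin n) F).mulVec p.2 = (p.1 : F) • p.2} : ℕ) : ℂ) := by
    rw [Nat.card_congr (Equiv.subtypeProdEquivSigmaSubtype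
      (fun (c : Fˣ) (v : Fin n → F) => v ≠ 0 ∧ (g : Matrix (Fin n) (Fin n) F).mulVec v = (c : F) • v)),
      Nat.card_sigma]
    push_cast
    apply Finset.sum_congr rfl
    intro c _
    simp
  rw [h2, card_pairs]
  push_cast
  field_simp

theorem ph_zero (n : ℕ) (hn : 2 ≤ n) :
    IsIrrCharacter (Matrix.SpecialLinearGroup (Fin n) F) (fun g => ph n 0 g - 1) := by
  have hfin : Finite (ℙ F (Fin n → F)) := (Projectivization.finite_iff_of_finite F _).2 inferInstance
  have hq : 1 < Fintype.card F := Fintype.one_lt_card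
  have hcard : Fintype.card F ^ n = Nat.card (ℙ F (Fin n → F)) * (Fintype.card F - 1) + 1 := by
    have := Projectivization.card' F (Fin n → F)
    rw [Nat.card_eq_fintype_card, Nat.card_eq_fintype_card (α := F), Fintype.card_fun,
      Fintype.card_fin] at this
    exact this
  have h2 : 2 ≤ Nat.card (ℙ F (Fin n → F)) := by
    by_contra hlt
    have hN1 : Nat.card (ℙ F (Fin n → F)) ≤ 1 := by omega
    have h3 : Fintype.card F ^ 2 ≤ Fintype.card F ^ n := Nat.pow_le_pow_right (by omega) hn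
    have h4 : Fintype.card F ^ n ≤ 1 * (Fintype.card F - 1) + 1 := by
      rw [hcard]
      exact Nat.add_le_add_right (Nat.mul_le_mul_right _ hN1) 1
    have h5 : 1 * (Fintype.card F - 1) + 1 = Fintype.card F := by omega
    rw [h5] at h4
    have h6 : Fintype.card F * 2 ≤ Fintype.card F ^ 2 := by
      rw [pow_two]
      exact Nat.mul_le_mul_left _ hq
    omega
  have h2t : MulAction.IsMultiplyPretransitive (Matrix.SpecialLinearGroup (Fin n) F)
    (ℙ F (Fin n → F)) 2 := inferInstance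
  have ht : MulAction.IsPretransitive (Matrix.SpecialLinearGroup (Fin n) F) (ℙ F (Fin n → F)) :=
    MulAction.isPretransitive_of_is_two_pretransitive
  have := (Cfsg.Agent.S0157.result (ℙ F (Fin n → F)) h2).2 h2t
  simp only [ph_zero_eq]
  exact this

end Cfsg.Agent.Lib.Helper97Vphzero
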