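import Cfsg.Agent.Lib.Helper98AschBasic

set_option autoImplicit false

namespace Cfsg.Agent.Lib.Helper98AschAlt

open Cfsg Cfsg.Geo Matrix
open scoped MatrixGroups Kronecker

/-- the explicit list of geometric alternatives: THE INTERFACE of the general theorem
(`Helper98AschMain.main : 3 ≤ n → GeomAlt n F H ∨ InLinearResidualClass H`, for EVERY subgroup `H` of `GL_n(F)`). -/
def GeomAlt (n : ℕ) (F : Type*) [Field F] [Fintype F] (H : Subgroup (GL (Fin n) F)) : Prop :=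
  (∃ W : Submodule F (Fin n → F), W ≠ ⊥ ∧ W ≠ ⊤ ∧ H ≤ subspaceStabilizer W) ∨
  (∃ (t m : ℕ) (D : Fin t → Submodule F (Fin n → F)), IsMDecomposition m D ∧ H ≤ decompositionStabilizer D) ∨
  (∃ (r : ℕ) (K : Subalgebra F (Matrix (Fin n) (Fin n) F)), r.Prime ∧ IsFieldSubalgebra r K ∧
      H ≤ subalgebraNormalizer K) ∨
  (∃ (n₁ n₂ : ℕ) (e : Fin n ≃ Fin n₁ × Fin n₂) (P : GL (Fin n) F), 2 ≤ n₁ ∧ n₁ < n₂ ∧
      H ≤ tensorProductSubgroup n₁ n₂ e P) ∨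
  (∃ (F₀ : Subfield F) (r : ℕ) (P : GL (Fin n) F), r.Prime ∧ Fintype.card F = Nat.card F₀ ^ r ∧
      H ≤ subfieldSubgroup F₀ P) ∨
  (∃ (r : ℕ) (R : Subgroup (GL (Fin n) F)) (m : ℕ), IsLinearSymplecticTypeData r R ∧ n = r ^ m ∧
      H ≤ subgroupNormalizer R) ∨
  (∃ (m t : ℕ) (e : Fin n ≃ (Fin t → Fin m)) (P : GL (Fin n) F), 3 ≤ m ∧ 2 ≤ t ∧
      H ≤ tensorWreathSubgroup m t e P) ∨
  (∃ f : (Fin n → F) → (Fin n → F) → F, IsSymplecticForm f ∧ H ≤ similarityGroup f) ∨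
  (∃ (σ : F ≃+* F) (f : (Fin n → F) → (Fin n → F) → F), IsUnitaryForm σ f ∧ H ≤ similarityGroup f) ∨
  (Odd (Fintype.card F) ∧ ∃ Q : (Fin n → F) → F, IsNondegenerateQuadraticForm Q ∧ H ≤ quadSimilarityGroup Q)

end Cfsg.Agent.Lib.Helper98AschAlt
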