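import Mathlib

/-! Vocabulary of PROJECT 3599 (row S3599: `2^s` critical groups with one spectrum). -/

namespace Cfsg.Agent.Lib.Helper98CritDefs

/-- what we need of the Frobenius group `F = V ⋊ C_q` (`V` an irreducible `𝔽_p C_q`-module) -/
structure IsCrit (p q : ℕ) {F : Type*} [Group F] (V : Subgroup F) : Prop where
  normal : V.Normal
  pgroup : IsPGroup p V
  ne_bot : V ≠ ⊥
  index : V.index = q
  order : ∀ x : F, orderOf x = 1 ∨ orderOf x = p ∨ orderOf x = q
  gen : ∀ H : Subgroup F, (∃ x ∈ H, orderOf x = p) → (∃ y ∈ H, orderOf y = q) → H = ⊤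
  min : ∀ N : Subgroup F, N.Normal → N ≠ ⊥ → V ≤ N

/-- a family of such groups for pairwise distinct primes -/
structure Fam {ι : Type} (F : ι → Type) [∀ j, Group (F j)] (P Q : ι → ℕ) (V : ∀ j, Subgroup (F j)) :
    Prop where
  crit : ∀ j, IsCrit (P j) (Q j) (V j)
  pP : ∀ j, (P j).Prime
  pQ : ∀ j, (Q j).Prime
  nePQ : ∀ j j', P j ≠ Q j'
  injP : ∀ j j', P j = P j' → j = j'
  injQ : ∀ j j', Q j = Q j' → j = j'

/-- the elements killed by `r` are closed under products -/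
def Inv (r : ℕ) (G : Type*) [Group G] : Prop :=
  ∀ x y : G, x ^ r = 1 → y ^ r = 1 → (x * y) ^ r = 1

/-- the raw data from which `IsCrit` is derived -/
structure Raw (p q : ℕ) {F : Type*} [Group F] (V : Subgroup F) (y : F) : Prop where
  comm : ∀ a ∈ V, ∀ b ∈ V, a * b = b * a
  exp : ∀ a ∈ V, a ^ p = 1
  ne_bot : V ≠ ⊥
  norm : ∀ v ∈ V, y * v * y⁻¹ ∈ V
  order : orderOf y = q
  fix : ∀ v ∈ V, y * v * y⁻¹ = v → v = 1

end Cfsg.Agent.Lib.Helper98CritDefs
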