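import Cfsg.Agent.Lib.Helper98MetaC
import Cfsg.Agent.Lib.Helper3PGroup

set_option autoImplicit false

/-!
# Metacyclic `p`-groups, `p` odd: derived subgroups of subgroups
`|L'| = max(1, |G'| / |G : L|)`.
-/

namespace Cfsg.Agent.Lib.Helper98MetaD

open Cfsg.Agent.Lib.Helper98MetaA Cfsg.Agent.Lib.Helper98MetaB Cfsg.Agent.Lib.Helper98MetaC Subgroup

universe v

theorem card_commutator_congr {A B : Type*} [Group A] [Group B] (e : A ≃* B) :
    Nat.card (commutator A) = Nat.card (commutator B) := by
  have h1 := map_commutator (⊤ : Subgroup A) ⊤ e.toMonoidHom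
  rw [map_top_of_surjective _ e.surjective, ← commutator_def, ← commutator_def] at h1
  rw [← h1]
  exact Nat.card_congr (e.subgroupMap _).toEquiv

theorem isMulCommutative_iff {A : Type*} [Group A] :
    IsMulCommutative A ↔ Nat.card (commutator A) = 1 := by
  rw [card_eq_one]
  constructor
  · intro h
    rw [eq_bot_iff, commutator_eq_closure, closure_le]
    rintro _ ⟨x, y, rfl⟩
    rw [SetLike.mem_coe, mem_bot, commutatorElement_eq_one_iff_mul_comm]
    exact h.is_comm.comm x y
  · intro h
    refine ⟨⟨fun x y => ?_⟩⟩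
    rw [← commutatorElement_eq_one_iff_mul_comm, ← mem_bot, ← h]
    exact commutator_mem_commutator (mem_top x) (mem_top y)

theorem pow_mem_of_index_eq {G : Type*} [Group G] [Finite G] {p : ℕ} [hp : Fact p.Prime]
    (hG : IsPGroup p G) {L : Subgroup G} (hL : L.index = p) (y : G) : y ^ p ∈ L := by
  have hn : L.Normal := by
    apply normal_of_index_eq_minFac_card
    obtain ⟨k, hk⟩ := IsPGroup.iff_card.mp hG
    have hk0 : k ≠ 0 := by
      rintro rfl
      have h1 := L.index_dvd_card
      rw [hk, hL, pow_zero] at h1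
      exact hp.out.one_lt.ne' (Nat.dvd_one.mp h1)
    rw [hL, hk, Nat.pow_minFac hk0, hp.out.minFac_eq]
  rw [← QuotientGroup.eq_one_iff, QuotientGroup.mk_pow]
  have := pow_card_eq_one' (G := G ⧸ L) (x := QuotientGroup.mk y)
  rwa [← index_eq_card, hL] at this

/-- A subgroup of index `p` of a non-abelian metacyclic `p`-group: `|L'| = |G'| / p`. -/
theorem card_commutator_of_index_eq {G : Type*} [Group G] [Finite G] {p : ℕ} [hp : Fact p.Prime]
    (hp2 : p ≠ 2) (hG : IsPGroup p G) (h : Cfsg.IsMetacyclic G) (n : ℕ)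
    (hn : Nat.card (commutator G) = p ^ (n + 1)) (L : Subgroup G) (hL : L.index = p) :
    Nat.card (commutator L) = p ^ n := by
  have hpos : 0 < p := hp.out.pos
  have h1lt : 1 < p := hp.out.one_lt
  obtain ⟨n', hn'⟩ := IsPGroup.iff_card.mp ((hG.to_subgroup L).to_subgroup (commutator L))
  have hT1L := index_center hp2 (hG.to_subgroup L) (isMetacyclic_subgroup h L)
  have hT1G := index_center hp2 hG h
  rw [hn', ← pow_mul] at hT1L
  rw [hn, ← pow_mul] at hT1G
  have hcL := card_mul_index (center L)
  have hcG := card_mul_index (center G)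
  have hcGL := card_mul_index L
  rw [hT1L] at hcL
  rw [hT1G] at hcG
  rw [hL] at hcGL
  -- the centre of `G` lies in `L`
  have hZL : center G ≤ L := by
    rw [← agemo_eq_center hp2 hG h (n + 1) hn]
    unfold agemo
    rw [closure_le]
    rintro _ ⟨y, rfl⟩
    rw [pow_succ, pow_mul]
    exact pow_mem_of_index_eq hG hL _
  have hZle : Nat.card (center G) ≤ Nat.card (center L) := by
    have h1 : (center G).subgroupOf L ≤ center L := by
      intro x hx
      rw [mem_subgroupOf, mem_center_iff] at hx
      rw [mem_center_iff]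
      intro y
      exact Subtype.ext (hx y)
    rw [← Nat.card_congr (subgroupOfEquivOfLe hZL).toEquiv]
    exact card_le_of_le h1
  have hupper : n' ≤ n := by
    have h1 : Nat.card (center L) * p ^ (n' * 2 + 1) ≤ Nat.card (center L) * p ^ ((n + 1) * 2) := by
      calc Nat.card (center L) * p ^ (n' * 2 + 1) = Nat.card (center L) * p ^ (n' * 2) * p := by
            rw [pow_succ, mul_assoc]
        _ = Nat.card (center G) * p ^ ((n + 1) * 2) := by rw [hcL, hcGL, hcG]
        _ ≤ Nat.card (center L) * p ^ ((n + 1) * 2) := Nat.mul_le_mul_right _ hZle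
    have h2 : p ^ (n' * 2 + 1) ≤ p ^ ((n + 1) * 2) := Nat.le_of_mul_le_mul_left h1 Nat.card_pos
    have h3 := (Nat.pow_le_pow_iff_right h1lt).mp h2
    omega
  -- an element of `L` with full class size
  have hA := agemo_main hp2 hG h (n + 1) hn 1 (by omega)
  have hex : ∃ g ∈ L, g ∉ agemo G (p ^ 1) := by
    by_contra hcon
    have h1 : L ≤ agemo G (p ^ 1) := by
      intro g hg
      by_contra hg'
      exact hcon ⟨g, hg, hg'⟩
    have h2 := index_dvd_of_le h1
    rw [hA.1, hL] at h2
    have h3 := Nat.le_of_dvd hpos h2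
    have h4 : p ^ 1 < p ^ (2 * 1) := Nat.pow_lt_pow_right h1lt (by omega)
    rw [pow_one] at h4
    omega
  obtain ⟨g, hgL, hgA⟩ := hex
  rw [hA.2] at hgA
  have hlower : n ≤ n' := by
    by_contra hcon
    apply hgA
    have h1 := index_centralizer_le (⟨g, hgL⟩ : L)
    rw [hn'] at h1
    have h2 : centralizer ({(⟨g, hgL⟩ : L)} : Set L) = (centralizer ({g} : Set G)).subgroupOf L := by
      ext x
      rw [mem_subgroupOf, mem_centralizer_singleton_iff, mem_centralizer_singleton_iff]
      constructor
      · intro hx; exact congrArg Subtype.val hx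
      · intro hx; exact Subtype.ext hx
    rw [h2] at h1
    have h3 : (centralizer ({g} : Set G)).relIndex L * L.index = (centralizer ({g} : Set G) ⊓ L).index := by
      rw [← inf_relIndex_right, relIndex_mul_index inf_le_right]
    have h4 : (centralizer ({g} : Set G)).index ≤ (centralizer ({g} : Set G) ⊓ L).index :=
      Nat.le_of_dvd (Nat.pos_of_ne_zero index_ne_zero_of_finite) (index_dvd_of_le inf_le_left)
    have h5 : (centralizer ({g} : Set G)).relIndex L ≤ p ^ n' := h1
    calc (centralizer ({g} : Set G)).index ≤ (centralizer ({g} : Set G)).relIndex L * L.index := by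
          rw [h3]; exact h4
      _ ≤ p ^ n' * p := by rw [hL]; exact Nat.mul_le_mul_right _ h5
      _ = p ^ (n' + 1) := (pow_succ _ _).symm
      _ ≤ p ^ (n + 1 - 1) := Nat.pow_le_pow_right hpos (by omega)
  rw [hn', le_antisymm hupper hlower]

/-- **Key lemma**: `|L'| = max(1, |G'| / |G : L|)` for subgroups of metacyclic `p`-groups, `p` odd. -/
theorem card_commutator_subgroup {p : ℕ} [hp : Fact p.Prime] (hp2 : p ≠ 2) (u : ℕ) :
    ∀ (G : Type v) [Group G] [Finite G], IsPGroup p G → Cfsg.IsMetacyclic G → ∀ n : ℕ,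
      Nat.card (commutator G) = p ^ n → ∀ L : Subgroup G, L.index = p ^ u →
      Nat.card (commutator L) = p ^ (n - u) := by
  induction u with
  | zero =>
    intro G _ _ hG h n hn L hL
    rw [pow_zero, index_eq_one] at hL
    subst hL
    rw [card_commutator_congr topEquiv, hn, Nat.sub_zero]
  | succ u ih =>
    intro G _ _ hG h n hn L hL
    have hne : L ≠ ⊤ := by
      intro h1
      rw [h1, index_top] at hL
      exact (Nat.one_lt_pow (by omega) hp.out.one_lt).ne hL
    obtain ⟨M, hM, hLM⟩ := (eq_top_or_exists_le_coatom L).resolve_left hne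
    have hMi : M.index = p := Cfsg.Agent.Lib.Helper3PGroup.coatom_index hG hM
    have hrel : (L.subgroupOf M).index = p ^ u := by
      have h1 := relIndex_mul_index hLM
      rw [hMi, hL, pow_succ] at h1
      exact Nat.eq_of_mul_eq_mul_right hp.out.pos h1
    have hM' : Nat.card (commutator M) = p ^ (n - 1) := by
      rcases Nat.eq_zero_or_pos n with rfl | hn0
      · rw [pow_zero, ← isMulCommutative_iff] at hn
        rw [Nat.zero_sub, pow_zero, ← isMulCommutative_iff]
        exact ⟨⟨fun x y => Subtype.ext (hn.is_comm.comm (x : G) y)⟩⟩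
      · obtain ⟨n, rfl⟩ := Nat.exists_eq_succ_of_ne_zero hn0.ne'
        exact card_commutator_of_index_eq hp2 hG h n hn M hMi
    have h2 := ih M (hG.to_subgroup M) (isMetacyclic_subgroup h M) (n - 1) hM' (L.subgroupOf M) hrel
    rw [← card_commutator_congr (subgroupOfEquivOfLe hLM), h2]
    congr 1
    omega

section consequences

variable {G : Type*} [Group G] [Finite G] {p : ℕ} [hp : Fact p.Prime]

/-- `|L| |Z(L)| = |G| |Z(G)|` for subgroups `L` of index at most `|G'|`. -/
theorem card_mul_card_center (hp2 : p ≠ 2) (hG : IsPGroup p G) (h : Cfsg.IsMetacyclic G) (n : ℕ)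
    (hn : Nat.card (commutator G) = p ^ n) (L : Subgroup G) (u : ℕ) (hL : L.index = p ^ u)
    (hu : u ≤ n) :
    Nat.card L * Nat.card (center L) = Nat.card G * Nat.card (center G) := by
  have hpos : 0 < p := hp.out.pos
  have hL' := card_commutator_subgroup hp2 u G hG h n hn L hL
  have hT1L := index_center hp2 (hG.to_subgroup L) (isMetacyclic_subgroup h L)
  have hT1G := index_center hp2 hG h
  rw [hL', ← pow_mul] at hT1L
  rw [hn, ← pow_mul] at hT1G
  have hcL := card_mul_index (center L)
  have hcG := card_mul_index (center G)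
  have hcGL := card_mul_index L
  rw [hT1L] at hcL
  rw [hT1G] at hcG
  rw [hL] at hcGL
  have key : Nat.card L * Nat.card (center L) * p ^ (n * 2)
      = Nat.card G * Nat.card (center G) * p ^ (n * 2) := by
    have e : n * 2 = (n - u) * 2 + u + u := by omega
    calc Nat.card L * Nat.card (center L) * p ^ (n * 2)
        = (Nat.card L * p ^ u) * ((Nat.card (center L) * p ^ ((n - u) * 2)) * p ^ u) := by
          rw [e, pow_add, pow_add]; ring
      _ = Nat.card G * Nat.card G := by rw [hcL, hcGL]
      _ = Nat.card G * Nat.card (center G) * p ^ (n * 2) := by rw [mul_assoc, hcG]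
  exact Nat.eq_of_mul_eq_mul_right (pow_pos hpos _) key

/-- `|G : G'|² = |G| |Z(G)|`. -/
theorem index_commutator_sq (hp2 : p ≠ 2) (hG : IsPGroup p G) (h : Cfsg.IsMetacyclic G) :
    (commutator G).index ^ 2 = Nat.card G * Nat.card (center G) := by
  have hT1G := index_center hp2 hG h
  have hcG := card_mul_index (center G)
  have hc' := card_mul_index (commutator G)
  rw [hT1G] at hcG
  have hpos : 0 < Nat.card (commutator G) ^ 2 := pow_pos Nat.card_pos 2
  apply Nat.eq_of_mul_eq_mul_right hpos
  calc (commutator G).index ^ 2 * Nat.card (commutator G) ^ 2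
      = (Nat.card (commutator G) * (commutator G).index) ^ 2 := by ring
    _ = Nat.card G * Nat.card G := by rw [hc', sq]
    _ = Nat.card G * Nat.card (center G) * Nat.card (commutator G) ^ 2 := by rw [mul_assoc, hcG]

/-- A subgroup of index `p^u` is abelian iff `n ≤ u`. -/
theorem isMulCommutative_subgroup_iff (hp2 : p ≠ 2) (hG : IsPGroup p G) (h : Cfsg.IsMetacyclic G)
    (n : ℕ) (hn : Nat.card (commutator G) = p ^ n) (L : Subgroup G) (u : ℕ) (hL : L.index = p ^ u) :
    IsMulCommutative L ↔ n ≤ u := by
  rw [isMulCommutative_iff, card_commutator_subgroup hp2 u G hG h n hn L hL]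
  constructor
  · intro h1
    by_contra hcon
    exact (Nat.one_lt_pow (by omega) hp.out.one_lt).ne' h1
  · intro h1
    rw [Nat.sub_eq_zero_of_le h1, pow_zero]

/-- `|L| ≤ |G : G'|` iff `n ≤ u`. -/
theorem card_le_index_commutator_iff (n : ℕ)
    (hn : Nat.card (commutator G) = p ^ n) (L : Subgroup G) (u : ℕ) (hL : L.index = p ^ u) :
    Nat.card L ≤ (commutator G).index ↔ n ≤ u := by
  have h1 := card_mul_index L
  have h2 := card_mul_index (commutator G)
  rw [hL] at h1
  rw [hn] at h2
  have hpos : 0 < p := hp.out.pos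
  have hL0 : 0 < Nat.card L := Nat.card_pos
  constructor
  · intro h3
    by_contra hcon
    have h4 : p ^ u < p ^ n := Nat.pow_lt_pow_right hp.out.one_lt (by omega)
    have h5 : Nat.card L * p ^ u < p ^ n * (commutator G).index := by
      calc Nat.card L * p ^ u < Nat.card L * p ^ n := Nat.mul_lt_mul_of_pos_left h4 hL0
        _ ≤ (commutator G).index * p ^ n := Nat.mul_le_mul_right _ h3
        _ = p ^ n * (commutator G).index := mul_comm _ _
    omega
  · intro h3
    by_contra hcon
    have h4 : p ^ n ≤ p ^ u := Nat.pow_le_pow_right hpos h3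
    have h5 : p ^ n * (commutator G).index < Nat.card L * p ^ u := by
      calc p ^ n * (commutator G).index < p ^ n * Nat.card L :=
            Nat.mul_lt_mul_of_pos_left (by omega) (pow_pos hpos n)
        _ = Nat.card L * p ^ n := mul_comm _ _
        _ ≤ Nat.card L * p ^ u := Nat.mul_le_mul_left _ h4
    omega

/-- `|L| = |G : G'|` iff `u = n`. -/
theorem card_eq_index_commutator_iff (n : ℕ)
    (hn : Nat.card (commutator G) = p ^ n) (L : Subgroup G) (u : ℕ) (hL : L.index = p ^ u) :
    Nat.card L = (commutator G).index ↔ u = n := by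
  have h1 := card_mul_index L
  have h2 := card_mul_index (commutator G)
  rw [hL] at h1
  rw [hn] at h2
  have hL0 : 0 < Nat.card L := Nat.card_pos
  constructor
  · intro h3
    rw [h3, ← h2, mul_comm] at h1
    have h4 := Nat.eq_of_mul_eq_mul_right (by rw [← h3]; exact hL0) h1
    exact Nat.pow_right_injective hp.out.two_le h4
  · rintro rfl
    rw [← h2, mul_comm] at h1
    exact Nat.eq_of_mul_eq_mul_left (pow_pos hp.out.pos u) h1

end consequences

end Cfsg.Agent.Lib.Helper98MetaD
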