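import Cfsg.Agent.Lib.Helper98MetaD

set_option autoImplicit false

/-!
# Metacyclic `p`-groups, `p` odd: `|R| |C_G(R)| = |G| |Z(G)|` for `R ≥ Z(G)`
-/

namespace Cfsg.Agent.Lib.Helper98MetaE

open Cfsg.Agent.Lib.Helper98MetaA Cfsg.Agent.Lib.Helper98MetaB Cfsg.Agent.Lib.Helper98MetaC
  Cfsg.Agent.Lib.Helper98MetaD Subgroup

universe v

section general

variable {G : Type*} [Group G]

theorem center_eq_subgroupOf (L : Subgroup G) :
    center L = (centralizer (L : Set G)).subgroupOf L := by
  ext x
  rw [mem_center_iff, mem_subgroupOf, mem_centralizer_iff]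
  constructor
  · intro h y hy
    exact congrArg Subtype.val (h ⟨y, hy⟩)
  · intro h y
    exact Subtype.ext (h y y.2)

theorem card_subgroupOf (H L : Subgroup G) : Nat.card (H.subgroupOf L) = Nat.card ↥(H ⊓ L) := by
  rw [← inf_subgroupOf_right]
  exact Nat.card_congr (subgroupOfEquivOfLe inf_le_right).toEquiv

theorem card_center (L : Subgroup G) :
    Nat.card (center L) = Nat.card ↥(centralizer (L : Set G) ⊓ L) := by
  rw [center_eq_subgroupOf, card_subgroupOf]

theorem centralizer_subgroupOf {R L : Subgroup G} (hRL : R ≤ L) :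
    centralizer ((R.subgroupOf L : Subgroup L) : Set L) = (centralizer (R : Set G)).subgroupOf L := by
  ext x
  rw [mem_centralizer_iff, mem_subgroupOf, mem_centralizer_iff]
  constructor
  · intro h y hy
    exact congrArg Subtype.val (h ⟨y, hRL hy⟩ (by
      rw [SetLike.mem_coe, mem_subgroupOf]; exact hy))
  · intro h y hy
    rw [SetLike.mem_coe, mem_subgroupOf] at hy
    exact Subtype.ext (h y hy)

/-- A lower bound for `|Z ⟨g⟩|`. -/
theorem card_mul_le_card_sup [Finite G] (Z : Subgroup G) (g : G) (q : ℕ)
    (h : ∀ i : ℕ, g ^ i ∈ Z → q ∣ i) : Nat.card Z * q ≤ Nat.card ↥(Z ⊔ zpowers g) := by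
  let f : Z × Fin q → ↥(Z ⊔ zpowers g) := fun x =>
    ⟨(x.1 : G) * g ^ (x.2 : ℕ), mul_mem (mem_sup_left x.1.2) (mem_sup_right (pow_mem (mem_zpowers g) _))⟩
  have key : ∀ (z z' : Z) (i i' : Fin q), (i : ℕ) ≤ i' → (z : G) * g ^ (i : ℕ) = z' * g ^ (i' : ℕ) →
      z = z' ∧ i = i' := by
    intro z z' i i' hii hz
    have h1 : g ^ ((i' : ℕ) - i) = (z' : G)⁻¹ * z := by
      have h2 : g ^ (i' : ℕ) = g ^ ((i' : ℕ) - i) * g ^ (i : ℕ) := by
        rw [← pow_add, Nat.sub_add_cancel hii]
      rw [h2, ← mul_assoc] at hz
      have h3 := mul_right_cancel hz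
      rw [h3]; group
    have h4 : q ∣ (i' : ℕ) - i := h _ (by rw [h1]; exact mul_mem (inv_mem z'.2) z.2)
    have h5 : (i' : ℕ) - i < q := lt_of_le_of_lt (Nat.sub_le _ _) i'.2
    have h6 := Nat.eq_zero_of_dvd_of_lt h4 h5
    have h7 : i = i' := Fin.ext (by omega)
    subst h7
    exact ⟨Subtype.ext (mul_right_cancel hz), rfl⟩
  have hinj : Function.Injective f := by
    rintro ⟨z, i⟩ ⟨z', i'⟩ hzz
    have hz : (z : G) * g ^ (i : ℕ) = z' * g ^ (i' : ℕ) := congrArg Subtype.val hzz
    rcases le_total (i : ℕ) i' with hii | hii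
    · obtain ⟨h1, h2⟩ := key z z' i i' hii hz
      rw [h1, h2]
    · obtain ⟨h1, h2⟩ := key z' z i' i hii hz.symm
      rw [h1, h2]
  have := Nat.card_le_card_of_injective f hinj
  rwa [Nat.card_prod, Nat.card_fin] at this

end general

/-- **Chermak–Delgado measure**: `|R| |C_G(R)| = |G| |Z(G)|` for all `R ≥ Z(G)`. -/
theorem card_mul_card_centralizer {p : ℕ} [hp : Fact p.Prime] (hp2 : p ≠ 2) (N : ℕ) :
    ∀ (G : Type v) [Group G] [Finite G], Nat.card G = N → IsPGroup p G → Cfsg.IsMetacyclic G →
      ∀ R : Subgroup G, center G ≤ R →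
      Nat.card R * Nat.card (centralizer (R : Set G)) = Nat.card G * Nat.card (center G) := by
  induction N using Nat.strong_induction_on with
  | _ N ih =>
  intro G _ _ hN hG h R hZR
  have hpos : 0 < p := hp.out.pos
  obtain ⟨n, hn⟩ := IsPGroup.iff_card.mp (hG.to_subgroup (commutator G))
  obtain ⟨u, hu⟩ := hG.index R
  by_cases hab : IsMulCommutative R
  · -- abelian case
    by_cases hRZ : R ≤ center G
    · have hR : R = center G := le_antisymm hRZ hZR
      have hC : centralizer (R : Set G) = ⊤ := by
        rw [hR, eq_top_iff]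
        intro x _
        rw [mem_centralizer_iff]
        intro y hy
        exact (mem_center_iff.mp hy x).symm
      rw [hC, hR, card_top, mul_comm]
    · obtain ⟨g, hgR, hgZ⟩ := SetLike.not_le_iff_exists.mp hRZ
      set L := centralizer ({g} : Set G) with hLdef
      obtain ⟨c, hc⟩ := hG.index L
      have hcn : c ≤ n := by
        have := index_centralizer_le g
        rw [← hLdef, hc, hn] at this
        exact (Nat.pow_le_pow_iff_right hp.out.one_lt).mp this
      have hRL : R ≤ L := by
        intro x hx
        rw [hLdef, mem_centralizer_singleton_iff]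
        exact congrArg Subtype.val (hab.is_comm.comm ⟨x, hx⟩ ⟨g, hgR⟩)
      have hCL : centralizer (R : Set G) ≤ L := centralizer_le (by
        intro x hx
        rw [Set.mem_singleton_iff] at hx
        rw [hx]; exact hgR)
      have hLne : L ≠ ⊤ := by
        intro htop
        apply hgZ
        rw [mem_center_iff]
        intro x
        have : x ∈ L := htop ▸ mem_top x
        exact mem_centralizer_singleton_iff.mp this
      have hLlt : Nat.card L < N := by
        rw [← hN]
        have h1 := card_mul_index L
        have h2 : 1 < L.index := by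
          rcases Nat.lt_or_ge 1 L.index with h | h
          · exact h
          · exfalso
            have h3 : L.index = 1 := le_antisymm h (Nat.pos_of_ne_zero index_ne_zero_of_finite)
            exact hLne (index_eq_one.mp h3)
        calc Nat.card L = Nat.card L * 1 := (mul_one _).symm
          _ < Nat.card L * L.index := Nat.mul_lt_mul_of_pos_left h2 Nat.card_pos
          _ = Nat.card G := h1
      have hF1 := card_mul_card_center hp2 hG h n hn L c hc hcn
      -- the centre of `L`
      have hW1 : center G ⊔ zpowers g ≤ centralizer (L : Set G) ⊓ L := by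
        rw [sup_le_iff]
        constructor
        · intro z hz
          refine mem_inf.mpr ⟨?_, ?_⟩
          · rw [mem_centralizer_iff]
            intro y _
            exact mem_center_iff.mp hz y
          · rw [hLdef, mem_centralizer_singleton_iff]
            exact (mem_center_iff.mp hz g).symm
        · rw [zpowers_le]
          refine mem_inf.mpr ⟨?_, ?_⟩
          · rw [mem_centralizer_iff]
            intro y hy
            rw [SetLike.mem_coe, hLdef, mem_centralizer_singleton_iff] at hy
            exact hy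
          · rw [hLdef, mem_centralizer_singleton_iff]
      have hW2 : Nat.card (center G) * p ^ c ≤ Nat.card ↥(center G ⊔ zpowers g) := by
        apply card_mul_le_card_sup
        intro i hi
        rw [← hc]
        exact index_centralizer_dvd hp2 hG h g i hi
      have hW3 : Nat.card ↥(centralizer (L : Set G) ⊓ L) = Nat.card (center G) * p ^ c := by
        rw [← card_center]
        have h1 := card_mul_index L
        rw [hc] at h1
        rw [← h1] at hF1
        have h2 : Nat.card L * Nat.card (center L) = Nat.card L * (Nat.card (center G) * p ^ c) := by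
          rw [hF1]; ring
        exact Nat.eq_of_mul_eq_mul_left Nat.card_pos h2
      have hW : center G ⊔ zpowers g = centralizer (L : Set G) ⊓ L :=
        eq_of_le_of_card_ge hW1 (by rw [hW3]; exact hW2)
      have hZL : center L ≤ R.subgroupOf L := by
        rw [center_eq_subgroupOf]
        intro x hx
        rw [mem_subgroupOf] at hx ⊢
        have h1 : (x : G) ∈ centralizer (L : Set G) ⊓ L := mem_inf.mpr ⟨hx, x.2⟩
        rw [← hW] at h1
        exact (sup_le hZR (zpowers_le.mpr hgR)) h1
      have hIH := ih (Nat.card L) hLlt L rfl (hG.to_subgroup L) (isMetacyclic_subgroup h L)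
        (R.subgroupOf L) hZL
      rw [centralizer_subgroupOf hRL, card_subgroupOf, card_subgroupOf, inf_eq_left.mpr hRL,
        inf_eq_left.mpr hCL, hF1] at hIH
      exact hIH
  · -- non-abelian case
    have hun : u ≤ n := by
      by_contra hcon
      exact hab ((isMulCommutative_subgroup_iff hp2 hG h n hn R u hu).mpr (by omega))
    have hF1 := card_mul_card_center hp2 hG h n hn R u hu hun
    set C := centralizer (R : Set G) with hC
    obtain ⟨u₂, hu₂⟩ := hG.index (R ⊔ C)
    have hu₂u : u₂ ≤ u := by
      have h1 := index_dvd_of_le (le_sup_left : R ≤ R ⊔ C)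
      rw [hu, hu₂] at h1
      exact (Nat.pow_dvd_pow_iff_le_right hp.out.one_lt).mp h1
    have hF2 := card_mul_card_center hp2 hG h n hn (R ⊔ C) u₂ hu₂ (hu₂u.trans hun)
    rw [card_center] at hF1 hF2
    have hle : C ⊓ R ≤ centralizer ((R ⊔ C : Subgroup G) : Set G) ⊓ (R ⊔ C) := by
      intro x hx
      rw [mem_inf] at hx
      refine mem_inf.mpr ⟨?_, mem_sup_left hx.2⟩
      have h1 : R ⊔ C ≤ centralizer ({x} : Set G) := by
        rw [sup_le_iff]
        constructor
        · intro y hy
          rw [mem_centralizer_singleton_iff]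
          exact (mem_centralizer_iff.mp hx.1 y hy)
        · intro y hy
          rw [mem_centralizer_singleton_iff]
          exact (mem_centralizer_iff.mp hy x hx.2).symm
      rw [mem_centralizer_iff]
      intro y hy
      exact mem_centralizer_singleton_iff.mp (h1 hy)
    have hcard : Nat.card ↥(R ⊔ C) ≤ Nat.card R := by
      have h1 : Nat.card ↥(R ⊔ C) * Nat.card ↥(C ⊓ R) ≤ Nat.card R * Nat.card ↥(C ⊓ R) := by
        calc Nat.card ↥(R ⊔ C) * Nat.card ↥(C ⊓ R)
            ≤ Nat.card ↥(R ⊔ C) * Nat.card ↥(centralizer ((R ⊔ C : Subgroup G) : Set G) ⊓ (R ⊔ C)) :=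
              Nat.mul_le_mul_left _ (card_le_of_le hle)
          _ = Nat.card R * Nat.card ↥(C ⊓ R) := by rw [hF2, hF1]
      exact Nat.le_of_mul_le_mul_right h1 Nat.card_pos
    have hRC : R = R ⊔ C := eq_of_le_of_card_ge le_sup_left hcard
    have hCR : C ≤ R := by
      rw [hRC]; exact le_sup_right
    rw [inf_eq_left.mpr hCR] at hF1
    exact hF1

end Cfsg.Agent.Lib.Helper98MetaE
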