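import Cfsg.Agent.Lib.Helper98MetaD
import Cfsg.Agent.Lib.Helper1UniqInv
import Cfsg.Agent.S3883

set_option autoImplicit false

/-!
# Metacyclic `p`-groups, `p` odd, are products of two disjoint cyclic subgroups
-/

namespace Cfsg.Agent.Lib.Helper98MetaF

open Cfsg.Agent.Lib.Helper98MetaA Cfsg.Agent.Lib.Helper98MetaB Cfsg.Agent.Lib.Helper98MetaC
  Cfsg.Agent.Lib.Helper98MetaD Subgroup

universe v

section

variable {G : Type*} [Group G] [Finite G] {p : ℕ} [hp : Fact p.Prime]

/-- Every element of the subgroup generated by the `p`-th powers is a `p`-th power. -/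
theorem exists_pow_eq_of_mem_agemo (hp2 : p ≠ 2) (hG : IsPGroup p G) (h : Cfsg.IsMetacyclic G)
    {g : G} (hg : g ∈ agemo G p) : ∃ z : G, z ^ p = g := by
  obtain ⟨a, b, hN, hgen⟩ := exists_gens h
  have hN1 : (zpowers (a ^ p)).Normal := normal_zpowers_of_mem hN (pow_mem (mem_zpowers a) p)
  have hle : agemo G p ≤ zpowers (a ^ p) ⊔ zpowers (b ^ p) := by
    unfold agemo
    rw [closure_le]
    rintro _ ⟨y, rfl⟩
    obtain ⟨j, i, rfl⟩ := hgen y
    obtain ⟨ρ, hρ1, hρ⟩ := exists_rho hG (zpowers a) (b ^ i)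
    rw [SetLike.mem_coe, mul_pow_of_conj (hρ _ (pow_mem (mem_zpowers a) j)) p]
    obtain ⟨k, hk⟩ := (pow_dvd_gs_iff hp2 hρ1 1 p).mpr (by rw [pow_one])
    rw [pow_one] at hk
    apply mul_mem
    · apply mem_sup_left
      rw [hk, ← pow_mul, mul_comm j, mul_assoc, pow_mul]
      exact pow_mem (mem_zpowers _) _
    · apply mem_sup_right
      rw [← pow_mul, mul_comm, pow_mul]
      exact pow_mem (mem_zpowers _) _
  obtain ⟨y, hy, z, hz, rfl⟩ := mem_sup_of_normal_left.mp (hle hg)
  rw [← mem_powers_iff_mem_zpowers] at hy hz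
  obtain ⟨j, rfl⟩ := hy
  obtain ⟨i, rfl⟩ := hz
  obtain ⟨ρ, hρ1, hρ⟩ := exists_rho hG (zpowers a) (b ^ i)
  obtain ⟨k, hk⟩ := (pow_dvd_gs_iff hp2 hρ1 1 p).mpr (by rw [pow_one])
  rw [pow_one] at hk
  have hpk : ¬ p ∣ k := by
    intro hd
    have h1 : p ^ 2 ∣ gs ρ p := by
      rw [hk, sq]; exact Nat.mul_dvd_mul_left p hd
    have h2 := (pow_dvd_gs_iff hp2 hρ1 2 p).mp h1
    have h3 := Nat.le_of_dvd hp.out.pos h2
    have h4 : p ^ 1 < p ^ 2 := Nat.pow_lt_pow_right hp.out.one_lt (by omega)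
    rw [pow_one] at h4
    omega
  have hcop : k.Coprime (orderOf a) := by
    obtain ⟨m, hm⟩ := IsPGroup.iff_orderOf.mp hG a
    rw [hm]
    exact Nat.Coprime.pow_right m ((Nat.Prime.coprime_iff_not_dvd hp.out).mpr hpk).symm
  obtain ⟨e, he⟩ := exists_pow_eq_self_of_coprime hcop
  refine ⟨a ^ (e * j) * b ^ i, ?_⟩
  rw [mul_pow_of_conj (hρ _ (pow_mem (mem_zpowers a) _)) p, hk]
  congr 1
  · calc (a ^ (e * j)) ^ (p * k) = ((a ^ k) ^ e) ^ (p * j) := by
          rw [← pow_mul, ← pow_mul, ← pow_mul]; congr 1; ring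
      _ = (a ^ p) ^ j := by rw [he, pow_mul]
  · show (b ^ i) ^ p = (b ^ p) ^ i
    rw [← pow_mul, ← pow_mul, mul_comm]

theorem isCyclic_of_index_agemo_le (hG : IsPGroup p G) (h : Cfsg.IsMetacyclic G)
    (hle : (agemo G p).index ≤ p) : IsCyclic G := by
  rw [← Cfsg.Agent.S3883.frattini_eq_agemo hG h] at hle
  by_cases htop : frattini G = ⊤
  · have h1 : (⊥ : Subgroup G) = ⊤ := frattini_nongenerating (by rw [htop, bot_sup_eq])
    have : Subsingleton G := ⟨fun x y => by
      have hx : x ∈ (⊥ : Subgroup G) := h1 ▸ mem_top x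
      have hy : y ∈ (⊥ : Subgroup G) := h1 ▸ mem_top y
      rw [mem_bot] at hx hy
      rw [hx, hy]⟩
    infer_instance
  · obtain ⟨g, -, hg⟩ := SetLike.exists_of_lt (lt_top_iff_ne_top.mpr htop)
    have h1 : zpowers g ⊔ frattini G = ⊤ := by
      by_contra hne
      have h2 : 1 < (zpowers g ⊔ frattini G).index := by
        rcases Nat.lt_or_ge 1 (zpowers g ⊔ frattini G).index with h | h
        · exact h
        · exfalso
          exact hne (index_eq_one.mp (le_antisymm h (Nat.pos_of_ne_zero index_ne_zero_of_finite)))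
      have h3 := index_dvd_of_le (le_sup_right : frattini G ≤ zpowers g ⊔ frattini G)
      obtain ⟨k, hk⟩ := hG.index (frattini G)
      have hk1 : k ≤ 1 := by
        rw [hk] at hle
        by_contra hcon
        have : p ^ 1 < p ^ k := Nat.pow_lt_pow_right hp.out.one_lt (by omega)
        rw [pow_one] at this
        omega
      have h4 : (frattini G).index ∣ p := by
        rw [hk]; exact (pow_dvd_pow p hk1).trans (by rw [pow_one])
      have h5 : (zpowers g ⊔ frattini G).index = p :=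
        ((Nat.dvd_prime hp.out).mp (h3.trans h4)).resolve_left h2.ne'
      have h6 : (frattini G).index = p := by
        apply Nat.dvd_antisymm h4
        rw [← h5]; exact h3
      have h7 : frattini G = zpowers g ⊔ frattini G := by
        apply eq_of_le_of_card_ge le_sup_right
        have e1 := card_mul_index (frattini G)
        have e2 := card_mul_index (zpowers g ⊔ frattini G)
        rw [h6] at e1
        rw [h5] at e2
        exact (Nat.eq_of_mul_eq_mul_right hp.out.pos (e2.trans e1.symm)).le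
      apply hg
      rw [h7]
      exact mem_sup_left (mem_zpowers g)
    have h2 := frattini_nongenerating h1
    exact isCyclic_iff_exists_zpowers_eq_top.mpr ⟨g, h2⟩

theorem index_agemo_eq (hG : IsPGroup p G) (h : Cfsg.IsMetacyclic G) (hnc : ¬ IsCyclic G) :
    (agemo G p).index = p ^ 2 := by
  have h1 := index_agemo_le h p hp.out.pos
  have h2 : ¬ (agemo G p).index ≤ p := fun hle => hnc (isCyclic_of_index_agemo_le hG h hle)
  obtain ⟨k, hk⟩ := hG.index (agemo G p)
  rw [hk] at h1 h2 ⊢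
  rw [← sq] at h1
  have h3 : k ≤ 2 := (Nat.pow_le_pow_iff_right hp.out.one_lt).mp h1
  have h4 : ¬ k ≤ 1 := by
    intro h5
    apply h2
    calc p ^ k ≤ p ^ 1 := Nat.pow_le_pow_right hp.out.pos h5
      _ = p := pow_one p
  congr 1
  omega

/-- In a non-cyclic `p`-group (`p` odd) a cyclic subgroup misses some subgroup of order `p`. -/
theorem exists_order_p_disjoint (hp2 : p ≠ 2) (hG : IsPGroup p G) (hnc : ¬ IsCyclic G) (y : G) :
    ∃ x : G, orderOf x = p ∧ zpowers x ⊓ zpowers y = ⊥ := by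
  have hex : ∃ H K : Subgroup G, Nat.card H = p ∧ Nat.card K = p ∧ H ≠ K := by
    by_contra hcon
    have huniq : ∀ H K : Subgroup G, Nat.card H = p → Nat.card K = p → H = K := by
      intro H K hH hK
      by_contra hne
      exact hcon ⟨H, K, hH, hK, hne⟩
    rcases Cfsg.Agent.Lib.Helper1UniqInv.main p hG huniq with h1 | ⟨h1, -⟩
    · exact hnc h1
    · exact hp2 h1
  obtain ⟨H, K, hH, hK, hHK⟩ := hex
  have key : ∀ H : Subgroup G, Nat.card H = p → ¬ H ≤ zpowers y →
      ∃ x : G, orderOf x = p ∧ zpowers x ⊓ zpowers y = ⊥ := by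
    intro H hH hHy
    obtain ⟨x, hxH, hxy⟩ := SetLike.not_le_iff_exists.mp hHy
    have hx1 : x ≠ 1 := by
      rintro rfl
      exact hxy (one_mem _)
    have hxp : x ^ p = 1 := by
      have := pow_card_eq_one' (G := H) (x := ⟨x, hxH⟩)
      rw [hH] at this
      exact congrArg Subtype.val this
    have hox : orderOf x = p := orderOf_eq_prime hxp hx1
    refine ⟨x, hox, ?_⟩
    have h1 : Nat.card ↥(zpowers x ⊓ zpowers y) ∣ p := by
      rw [← hox, ← Nat.card_zpowers]
      exact card_dvd_of_le inf_le_left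
    rcases (Nat.dvd_prime hp.out).mp h1 with h2 | h2
    · exact card_eq_one.mp h2
    · exfalso
      have h3 : zpowers x ⊓ zpowers y = zpowers x :=
        eq_of_le_of_card_ge inf_le_left (by rw [h2, Nat.card_zpowers, hox])
      exact hxy ((inf_eq_left.mp h3) (mem_zpowers x))
  by_cases h1 : H ≤ zpowers y
  · by_cases h2 : K ≤ zpowers y
    · exfalso
      apply hHK
      -- both lie in the cyclic group `⟨y⟩`
      have hsub : ∀ H K : Subgroup G, Nat.card H = p → Nat.card K = p → H ≤ zpowers y →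
          K ≤ zpowers y → H ≤ K := by
        intro H K hH hK h1 h2
        have hKne : K ≠ ⊥ := by
          intro hb
          rw [hb, card_bot] at hK
          exact hp.out.one_lt.ne hK
        obtain ⟨k, hkK, hk1⟩ := K.bot_or_exists_ne_one.resolve_left hKne
        have hkp : k ^ p = 1 := by
          have := pow_card_eq_one' (G := K) (x := ⟨k, hkK⟩)
          rw [hK] at this
          exact congrArg Subtype.val this
        have hok : orderOf k = p := orderOf_eq_prime hkp hk1
        intro x hx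
        have hxp : x ^ p = 1 := by
          have := pow_card_eq_one' (G := H) (x := ⟨x, hx⟩)
          rw [hH] at this
          exact congrArg Subtype.val this
        have := mem_zpowers_of_pow_eq_one (zpowers y) (h2 hkK) (h1 hx) (by rw [hok]; exact hxp)
        exact (zpowers_le.mpr hkK) this
      exact le_antisymm (hsub H K hH hK h1 h2) (hsub K H hK hH h2 h1)
    · exact key K hK h2
  · exact key H hH h1

theorem orderOf_of_pow_ne_one (hG : IsPGroup p G) {x : G} (hx : x ^ p ≠ 1) :
    orderOf x = p * orderOf (x ^ p) := by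
  have hx1 : x ≠ 1 := by
    rintro rfl
    exact hx (one_pow p)
  have hd : p ∣ orderOf x := hG.dvd_orderOf hx1
  rw [orderOf_pow, Nat.gcd_eq_right hd, Nat.mul_div_cancel' hd]

theorem disjoint_of_pow (hG : IsPGroup p G) {x y : G} (hx : x ^ p ≠ 1) (hy : y ^ p ≠ 1)
    (h : zpowers (x ^ p) ⊓ zpowers (y ^ p) = ⊥) : zpowers x ⊓ zpowers y = ⊥ := by
  by_contra hne
  obtain ⟨z, hz, hz1⟩ : ∃ z ∈ zpowers x ⊓ zpowers y, z ≠ 1 := by
    by_contra hcon
    apply hne
    rw [eq_bot_iff]
    intro z hz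
    by_contra hz1
    exact hcon ⟨z, hz, fun h => hz1 (mem_bot.mpr h)⟩
  obtain ⟨k, hk1, hk2⟩ := Cfsg.Agent.Lib.Helper3PGroup.exists_pow_order_p hG hz1
  rw [mem_inf] at hz
  have h1 : z ^ k ∈ zpowers (x ^ p) := by
    apply mem_zpowers_of_pow_eq_one (zpowers x) (pow_mem (mem_zpowers x) p) (pow_mem hz.1 k)
    obtain ⟨d, hd⟩ := hG.dvd_orderOf hx
    rw [hd, pow_mul, hk2, one_pow]
  have h2 : z ^ k ∈ zpowers (y ^ p) := by
    apply mem_zpowers_of_pow_eq_one (zpowers y) (pow_mem (mem_zpowers y) p) (pow_mem hz.2 k)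
    obtain ⟨d, hd⟩ := hG.dvd_orderOf hy
    rw [hd, pow_mul, hk2, one_pow]
  have h3 : z ^ k ∈ zpowers (x ^ p) ⊓ zpowers (y ^ p) := mem_inf.mpr ⟨h1, h2⟩
  rw [h, mem_bot] at h3
  exact hk1 h3

end

/-- A metacyclic `p`-group, `p` odd, is the product of two cyclic subgroups meeting trivially. -/
theorem main {p : ℕ} [hp : Fact p.Prime] (hp2 : p ≠ 2) (N : ℕ) :
    ∀ (G : Type v) [Group G] [Finite G], Nat.card G = N → IsPGroup p G → Cfsg.IsMetacyclic G →
      ∃ x y : G, zpowers x ⊓ zpowers y = ⊥ ∧ orderOf x * orderOf y = Nat.card G := by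
  induction N using Nat.strong_induction_on with
  | _ N ih =>
  intro G _ _ hN hG h
  by_cases hcyc : IsCyclic G
  · obtain ⟨g, hg⟩ := IsCyclic.exists_generator (α := G)
    refine ⟨g, 1, ?_, ?_⟩
    · rw [zpowers_one_eq_bot, inf_bot_eq]
    · rw [orderOf_one, mul_one, orderOf_eq_card_of_forall_mem_zpowers hg]
  · have hidx := index_agemo_eq hG h hcyc
    have hcard := card_mul_index (agemo G p)
    rw [hidx] at hcard
    have hlt : Nat.card (agemo G p) < N := by
      rw [← hN, ← hcard]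
      have : 1 < p ^ 2 := Nat.one_lt_pow (by omega) hp.out.one_lt
      calc Nat.card (agemo G p) = Nat.card (agemo G p) * 1 := (mul_one _).symm
        _ < Nat.card (agemo G p) * p ^ 2 := Nat.mul_lt_mul_of_pos_left this Nat.card_pos
    obtain ⟨x₁, y₁, hdis, hord⟩ := ih _ hlt (agemo G p) rfl (hG.to_subgroup _)
      (isMetacyclic_subgroup h _)
    rw [← Subgroup.orderOf_coe, ← Subgroup.orderOf_coe] at hord
    have hdis' : zpowers (x₁ : G) ⊓ zpowers (y₁ : G) = ⊥ := by
      rw [eq_bot_iff]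
      intro z hz
      rw [mem_inf] at hz
      obtain ⟨k, hk⟩ := mem_zpowers_iff.mp hz.1
      obtain ⟨l, hl⟩ := mem_zpowers_iff.mp hz.2
      have h1 : x₁ ^ k ∈ zpowers x₁ ⊓ zpowers y₁ := by
        refine mem_inf.mpr ⟨zpow_mem (mem_zpowers _) _, ?_⟩
        have : x₁ ^ k = y₁ ^ l := Subtype.ext (by push_cast; rw [hk, hl])
        rw [this]
        exact zpow_mem (mem_zpowers _) _
      rw [hdis, mem_bot] at h1
      rw [mem_bot, ← hk]
      have := congrArg Subtype.val h1
      simpa using this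
    -- the degenerate case
    have caseB : ∀ t : G, t ∈ agemo G p → orderOf t = Nat.card (agemo G p) →
        ∃ x y : G, zpowers x ⊓ zpowers y = ⊥ ∧ orderOf x * orderOf y = Nat.card G := by
      intro t ht hot
      have hy : ∃ y : G, orderOf y * p = Nat.card G := by
        by_cases ht1 : t = 1
        · rw [ht1, orderOf_one] at hot
          rw [← hot, one_mul] at hcard
          obtain ⟨y, hy⟩ := exists_prime_orderOf_dvd_card' (G := G) p (by rw [← hcard]; exact dvd_pow_self p (by omega))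
          exact ⟨y, by rw [hy, ← hcard, sq]⟩
        · obtain ⟨y, rfl⟩ := exists_pow_eq_of_mem_agemo hp2 hG h ht
          refine ⟨y, ?_⟩
          rw [orderOf_of_pow_ne_one hG ht1, hot, ← hcard]
          ring
      obtain ⟨y, hy⟩ := hy
      obtain ⟨x, hx, hxy⟩ := exists_order_p_disjoint hp2 hG hcyc y
      exact ⟨x, y, hxy, by rw [hx, mul_comm, hy]⟩
    by_cases hx1 : (x₁ : G) = 1
    · apply caseB y₁ y₁.2
      rw [hx1, orderOf_one, one_mul] at hord
      exact hord
    · by_cases hy1 : (y₁ : G) = 1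
      · apply caseB x₁ x₁.2
        rw [hy1, orderOf_one, mul_one] at hord
        exact hord
      · obtain ⟨x, hx⟩ := exists_pow_eq_of_mem_agemo hp2 hG h x₁.2
        obtain ⟨y, hy⟩ := exists_pow_eq_of_mem_agemo hp2 hG h y₁.2
        rw [← hx] at hx1 hord hdis'
        rw [← hy] at hy1 hord hdis'
        refine ⟨x, y, disjoint_of_pow hG hx1 hy1 hdis', ?_⟩
        rw [orderOf_of_pow_ne_one hG hx1, orderOf_of_pow_ne_one hG hy1, ← hcard, ← hord]
        ring

end Cfsg.Agent.Lib.Helper98MetaF
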