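import Mathlib

set_option autoImplicit false

namespace Cfsg.Agent.Lib.Helper98NilOrb
open Equiv

theorem key_fact {α : Type*} (u v : Perm α) (hc : u * v = v * u)
    (hcop : (orderOf v).Coprime (orderOf u)) (a : α) (h : (u * v) a = a) : u a = a := by
  have h1 : ((u * v) ^ orderOf v) a = a := Perm.pow_apply_eq_self_of_apply_eq_self h _
  have h2 : (u * v) ^ orderOf v = u ^ orderOf v := by
    rw [(show Commute u v from hc).mul_pow, pow_orderOf_eq_one, mul_one]
  rw [h2] at h1
  obtain ⟨j, hj⟩ := exists_pow_eq_self_of_coprime hcop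
  have h3 : ((u ^ orderOf v) ^ j) a = a := Perm.pow_apply_eq_self_of_apply_eq_self h1 _
  rwa [hj] at h3

theorem card_orbit_mul_card_orbit_le {α : Type*} [Fintype α] [DecidableEq α] (P K : Subgroup (Perm α))
    (hcomm : ∀ x ∈ P, ∀ y ∈ K, x * y = y * x) (hcop : (Nat.card P).Coprime (Nat.card K)) (a : α) :
    Nat.card (MulAction.orbit P a) * Nat.card (MulAction.orbit K a) ≤ Fintype.card α := by
  classical
  rw [← Nat.card_prod, ← Nat.card_eq_fintype_card]
  have hP : ∀ y : MulAction.orbit P a, ∃ u : P, (u : Perm α) a = y := fun y => y.2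
  have hK : ∀ z : MulAction.orbit K a, ∃ v : K, (v : Perm α) a = z := fun z => z.2
  choose U hU using hP
  choose V hV using hK
  have hord : ∀ u ∈ P, ∀ v ∈ K, (orderOf v).Coprime (orderOf u) := by
    intro u hu v hv
    have h1 : orderOf u ∣ Nat.card P := by
      have := orderOf_dvd_natCard (⟨u, hu⟩ : P)
      rwa [Subgroup.orderOf_mk] at this
    have h2 : orderOf v ∣ Nat.card K := by
      have := orderOf_dvd_natCard (⟨v, hv⟩ : K)
      rwa [Subgroup.orderOf_mk] at this
    exact (Nat.Coprime.coprime_dvd_left h1 (Nat.Coprime.coprime_dvd_right h2 hcop)).symm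
  apply Nat.card_le_card_of_injective
    (fun yz : MulAction.orbit P a × MulAction.orbit K a => ((U yz.1 : Perm α) * (V yz.2 : Perm α)) a)
  rintro ⟨y, z⟩ ⟨y', z'⟩ h
  simp only at h
  set u : Perm α := (U y' : Perm α)⁻¹ * (U y : Perm α) with hu
  set v : Perm α := (V z' : Perm α)⁻¹ * (V z : Perm α) with hv
  have huP : u ∈ P := P.mul_mem (P.inv_mem (U y').2) (U y).2
  have hvK : v ∈ K := K.mul_mem (K.inv_mem (V z').2) (V z).2
  have huv : (u * v) a = a := by
    have e1 : u * v = (U y' : Perm α)⁻¹ * (V z' : Perm α)⁻¹ * ((U y : Perm α) * (V z : Perm α)) := by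
      rw [hu, hv]
      have := hcomm (U y) (U y).2 (V z' : Perm α)⁻¹ (K.inv_mem (V z').2)
      calc (U y' : Perm α)⁻¹ * (U y : Perm α) * ((V z' : Perm α)⁻¹ * (V z : Perm α))
          = (U y' : Perm α)⁻¹ * ((U y : Perm α) * (V z' : Perm α)⁻¹) * (V z : Perm α) := by group
        _ = (U y' : Perm α)⁻¹ * ((V z' : Perm α)⁻¹ * (U y : Perm α)) * (V z : Perm α) := by rw [this]
        _ = _ := by group
    rw [e1, Perm.mul_apply, h, ← Perm.mul_apply]
    have e2 : (U y' : Perm α)⁻¹ * (V z' : Perm α)⁻¹ * ((U y' : Perm α) * (V z' : Perm α)) = 1 := by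
      rw [hcomm (U y') (U y').2 (V z') (V z').2]; group
    rw [e2]; rfl
  have h1 : u a = a := key_fact u v (hcomm u huP v hvK) (hord u huP v hvK) a huv
  have h2 : v a = a := key_fact v u (hcomm u huP v hvK).symm (hord u huP v hvK).symm a
    (by rw [← hcomm u huP v hvK]; exact huv)
  have hy : y = y' := by
    apply Subtype.ext
    rw [← hU y, ← hU y']
    have := congrArg (U y' : Perm α) h1
    simpa [hu] using this
  have hz : z = z' := by
    apply Subtype.ext
    rw [← hV z, ← hV z']
    have := congrArg (V z' : Perm α) h2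
    simpa [hv] using this
  rw [hy, hz]

end Cfsg.Agent.Lib.Helper98NilOrb
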