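import Mathlib

set_option autoImplicit false

namespace Cfsg.Agent.Lib.Helper98NilRestrict
open Equiv

/-- invariance in both directions -/
theorem inv_iff {α : Type*} (N : Subgroup (Perm α)) (p : α → Prop)
    (hp : ∀ g ∈ N, ∀ x, p x → p (g x)) (g : Perm α) (hg : g ∈ N) (x : α) : p (g x) ↔ p x := by
  refine ⟨fun h => ?_, hp g hg x⟩
  have := hp g⁻¹ (N.inv_mem hg) _ h
  simpa using this

/-- the restriction homomorphism -/
def resHom {α : Type*} (N : Subgroup (Perm α)) (p : α → Prop)
    (hp : ∀ g ∈ N, ∀ x, p x → p (g x)) : N →* Perm {x // p x} where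
  toFun g := (g : Perm α).subtypePerm (fun x => inv_iff N p hp g g.2 x)
  map_one' := by ext; rfl
  map_mul' := fun a b => by ext; rfl

theorem resHom_apply {α : Type*} (N : Subgroup (Perm α)) (p : α → Prop)
    (hp : ∀ g ∈ N, ∀ x, p x → p (g x)) (g : N) (x : {x // p x}) :
    ((resHom N p hp g) x : α) = (g : Perm α) x := rfl

theorem exists_restrict {α : Type*} [Fintype α] [DecidableEq α] (N : Subgroup (Perm α))
    (hN : Group.IsNilpotent N) (p : α → Prop) [DecidablePred p] (hp : ∀ g ∈ N, ∀ x, p x → p (g x)) :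
    ∃ N₁ : Subgroup (Perm {x // p x}), Group.IsNilpotent N₁ ∧ Nat.card N₁ ∣ Nat.card N ∧
      ((∀ g ∈ N, (∀ x, p x → g x = x) → g = 1) → Nat.card N₁ = Nat.card N) := by
  refine ⟨(resHom N p hp).range, ?_, ?_, ?_⟩
  · exact Group.nilpotent_of_surjective (resHom N p hp).rangeRestrict
      (resHom N p hp).rangeRestrict_surjective
  · exact Subgroup.card_range_dvd _
  · intro hf
    have hinj : Function.Injective (resHom N p hp) := by
      rw [injective_iff_map_eq_one]
      intro g hg
      have : (g : Perm α) = 1 := by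
        apply hf g g.2
        intro x hx
        have := congrArg (fun f : Perm {x // p x} => ((f ⟨x, hx⟩ : {x // p x}) : α)) hg
        simpa [resHom_apply] using this
      exact Subtype.ext this
    exact (Nat.card_congr (MonoidHom.ofInjective hinj).toEquiv).symm

theorem card_le_restrict_mul {α : Type*} [Fintype α] [DecidableEq α] (N : Subgroup (Perm α))
    (hN : Group.IsNilpotent N) (p : α → Prop) [DecidablePred p] (hp : ∀ g ∈ N, ∀ x, p x → p (g x)) :
    ∃ (N₁ : Subgroup (Perm {x // p x})) (N₂ : Subgroup (Perm {x // ¬ p x})),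
      Group.IsNilpotent N₁ ∧ Group.IsNilpotent N₂ ∧ Nat.card N₁ ∣ Nat.card N ∧ Nat.card N₂ ∣ Nat.card N ∧
      Nat.card N ≤ Nat.card N₁ * Nat.card N₂ := by
  have hp' : ∀ g ∈ N, ∀ x, ¬ p x → ¬ p (g x) := fun g hg x hx h => hx ((inv_iff N p hp g hg x).mp h)
  refine ⟨(resHom N p hp).range, (resHom N (fun x => ¬ p x) hp').range, ?_, ?_, ?_, ?_, ?_⟩
  · exact Group.nilpotent_of_surjective (resHom N p hp).rangeRestrict
      (resHom N p hp).rangeRestrict_surjective
  · exact Group.nilpotent_of_surjective (resHom N (fun x => ¬ p x) hp').rangeRestrict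
      (resHom N (fun x => ¬ p x) hp').rangeRestrict_surjective
  · exact Subgroup.card_range_dvd _
  · exact Subgroup.card_range_dvd _
  · rw [← Nat.card_prod]
    apply Nat.card_le_card_of_injective
      (fun g : N => ((resHom N p hp).rangeRestrict g, (resHom N (fun x => ¬ p x) hp').rangeRestrict g))
    intro g h hgh
    have h1 : resHom N p hp g = resHom N p hp h := congrArg (fun z => (z.1 : Perm {x // p x})) hgh
    have h2 : resHom N (fun x => ¬ p x) hp' g = resHom N (fun x => ¬ p x) hp' h :=
      congrArg (fun z => (z.2 : Perm {x // ¬ p x})) hgh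
    apply Subtype.ext
    ext x
    by_cases hx : p x
    · have := congrArg (fun f : Perm {x // p x} => ((f ⟨x, hx⟩ : {x // p x}) : α)) h1
      simpa [resHom_apply] using this
    · have := congrArg (fun f : Perm {x // ¬ p x} => ((f ⟨x, hx⟩ : {x // ¬ p x}) : α)) h2
      simpa [resHom_apply] using this

end Cfsg.Agent.Lib.Helper98NilRestrict
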