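import Mathlib
import Cfsg.Agent.Lib.Helper98NilDefs
import Cfsg.Agent.Lib.Helper98NilDecomp
import Cfsg.Agent.Lib.Helper98NilRestrict
import Cfsg.Agent.Lib.Helper98NilOrb

set_option autoImplicit false

namespace Cfsg.Agent.Lib.Helper98NilMain
open Cfsg.Agent.Lib.Helper98NilDefs Equiv
open Cfsg.Agent.Lib.Helper98NilDecomp Cfsg.Agent.Lib.Helper98NilRestrict Cfsg.Agent.Lib.Helper98NilOrb

theorem card_le_of_goodBound {π : ℕ → Prop} {β : ℕ → ℕ} (h : GoodBound π β) :
    ∀ (n : ℕ) (α : Type) [Fintype α] [DecidableEq α] (N : Subgroup (Perm α)), Fintype.card α = n →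
      Group.IsNilpotent N → (∀ p, p.Prime → p ∣ Nat.card N → π p) → Nat.card N ≤ β n := by
  intro n
  induction n using Nat.strong_induction_on with
  | _ n ih =>
  intro α _ _ N hcard hN hπ
  classical
  by_cases hN1 : Nat.card N = 1
  · rw [hN1]; exact h.pos n
  have hne : Nonempty α := by
    by_contra hne
    rw [not_nonempty_iff] at hne
    apply hN1
    have : Subsingleton (Perm α) := inferInstance
    exact Nat.card_of_subsingleton (1 : N)
  obtain ⟨a⟩ := hne
  by_cases htr : ∀ b : α, b ∈ MulAction.orbit N a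
  · -- transitive
    obtain ⟨p, hp, hpd⟩ := Nat.exists_prime_and_dvd hN1
    have := Fact.mk hp
    obtain ⟨P, K, hPN, hKN, hPp, hKp, hcomm, hfac, hmul⟩ := nilp_decomp_sub N hN p
    obtain ⟨j, hj⟩ := hPp.exists_card_eq
    by_cases hK1 : Nat.card K = 1
    · -- `N` is a `p`-group
      have hNj : Nat.card N = p ^ j := by rw [← hmul, hK1, mul_one, hj]
      have hNp : IsPGroup p N := IsPGroup.of_card hNj
      obtain ⟨e, he⟩ := hNp.card_orbit a
      have huniv : MulAction.orbit N a = Set.univ := Set.eq_univ_of_forall htr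
      have hne' : n = p ^ e := by
        rw [← he, huniv, Nat.card_univ, Nat.card_eq_fintype_card, hcard]
      have hdvd : p ^ j ∣ (p ^ e).factorial := by
        rw [← hNj, ← hne', ← hcard, ← Fintype.card_perm, ← Nat.card_eq_fintype_card]
        exact Subgroup.card_subgroup_dvd_card N
      have hle : j ≤ padicValNat p (p ^ e).factorial :=
        (padicValNat_dvd_iff_le (Nat.factorial_ne_zero _)).mp hdvd
      rw [hNj, hne']
      exact (Nat.pow_le_pow_right hp.pos hle).trans (h.prime_pow p e hp (hπ p hp hpd))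
    · -- proper product
      have hP1 : Nat.card P ≠ 1 := by
        intro hP1
        rw [← hmul, hP1, one_mul] at hpd
        exact hp.one_lt.ne' (Nat.eq_one_of_dvd_coprimes hKp hpd dvd_rfl)
      have htrans : ∀ b : α, ∃ x ∈ P, ∃ y ∈ K, (x * y) a = b := by
        intro b
        obtain ⟨g, hg⟩ := htr b
        obtain ⟨x, hx, y, hy, hxy⟩ := hfac g g.2
        exact ⟨x, hx, y, hy, by rw [← hxy]; exact hg⟩
      have htrans' : ∀ b : α, ∃ y ∈ K, ∃ x ∈ P, (y * x) a = b := by
        intro b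
        obtain ⟨x, hx, y, hy, hxy⟩ := htrans b
        exact ⟨y, hy, x, hx, by rw [← hcomm x hx y hy]; exact hxy⟩
      have hPnil : Group.IsNilpotent P := hPp.isNilpotent
      have hKnil : Group.IsNilpotent K :=
        Group.nilpotent_of_mulEquiv (Subgroup.subgroupOfEquivOfLe hKN)
      obtain ⟨N₁, hN₁nil, hN₁dvd, hN₁card⟩ := exists_restrict P hPnil (fun x => x ∈ MulAction.orbit P a)
        (by
          rintro g hg x ⟨k, rfl⟩
          exact ⟨⟨g, hg⟩ * k, by simp [mul_smul, Subgroup.smul_def]⟩)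
      obtain ⟨N₂, hN₂nil, hN₂dvd, hN₂card⟩ := exists_restrict K hKnil (fun x => x ∈ MulAction.orbit K a)
        (by
          rintro g hg x ⟨k, rfl⟩
          exact ⟨⟨g, hg⟩ * k, by simp [mul_smul, Subgroup.smul_def]⟩)
      have hc₁ : Nat.card N₁ = Nat.card P :=
        hN₁card (fun g hg hfix => eq_one_of_fix_orbit P K hcomm a htrans g hg hfix)
      have hc₂ : Nat.card N₂ = Nat.card K :=
        hN₂card (fun g hg hfix => eq_one_of_fix_orbit K P (fun x hx y hy => (hcomm y hy x hx).symm) a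
          htrans' g hg hfix)
      set a₁ := Fintype.card {x // x ∈ MulAction.orbit P a} with ha₁
      set a₂ := Fintype.card {x // x ∈ MulAction.orbit K a} with ha₂
      have hprod : a₁ * a₂ ≤ n := by
        have := card_orbit_mul_card_orbit_le P K hcomm (by rw [hj]; exact (Nat.Coprime.pow_left j hKp.symm)) a
        rw [hcard] at this
        rw [ha₁, ha₂, ← Nat.card_eq_fintype_card, ← Nat.card_eq_fintype_card]
        exact this
      have h2₁ : 2 ≤ a₁ := by
        by_contra hlt
        apply hP1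
        rw [← hc₁]
        have : Subsingleton {x // x ∈ MulAction.orbit P a} := Fintype.card_le_one_iff_subsingleton.mp (by omega)
        exact Nat.card_of_subsingleton (1 : N₁)
      have h2₂ : 2 ≤ a₂ := by
        by_contra hlt
        apply hK1
        rw [← hc₂]
        have : Subsingleton {x // x ∈ MulAction.orbit K a} := Fintype.card_le_one_iff_subsingleton.mp (by omega)
        exact Nat.card_of_subsingleton (1 : N₂)
      have hlt₁ : a₁ < n := by nlinarith
      have hlt₂ : a₂ < n := by nlinarith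
      have hsum : a₁ + a₂ ≤ n := by nlinarith
      have hPd : Nat.card P ∣ Nat.card N := ⟨_, hmul.symm⟩
      have hKd : Nat.card K ∣ Nat.card N := ⟨Nat.card P, by rw [← hmul, mul_comm]⟩
      have b₁ : Nat.card N₁ ≤ β a₁ := ih a₁ hlt₁ _ N₁ rfl hN₁nil
        (fun q hq hqd => hπ q hq (hqd.trans (hN₁dvd.trans hPd)))
      have b₂ : Nat.card N₂ ≤ β a₂ := ih a₂ hlt₂ _ N₂ rfl hN₂nil
        (fun q hq hqd => hπ q hq (hqd.trans (hN₂dvd.trans hKd)))
      calc Nat.card N = Nat.card N₁ * Nat.card N₂ := by rw [hc₁, hc₂, hmul]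
        _ ≤ β a₁ * β a₂ := Nat.mul_le_mul b₁ b₂
        _ ≤ β (a₁ + a₂) := h.mul_le _ _
        _ ≤ β n := h.mono hsum
  · -- intransitive
    push Not at htr
    obtain ⟨b, hb⟩ := htr
    obtain ⟨N₁, N₂, hn₁, hn₂, hd₁, hd₂, hle⟩ := card_le_restrict_mul N hN (fun x => x ∈ MulAction.orbit N a)
      (by
        rintro g hg x ⟨k, rfl⟩
        exact ⟨⟨g, hg⟩ * k, by simp [mul_smul, Subgroup.smul_def]⟩)
    set a₁ := Fintype.card {x // x ∈ MulAction.orbit N a} with ha₁
    set a₂ := Fintype.card {x // ¬ x ∈ MulAction.orbit N a} with ha₂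
    have hsum : a₁ + a₂ = n := by
      rw [ha₁, ha₂, ← hcard]
      rw [Fintype.card_subtype_compl]
      have := Fintype.card_subtype_le (fun x => x ∈ MulAction.orbit N a)
      omega
    have h1 : 0 < a₁ := Fintype.card_pos_iff.mpr ⟨⟨a, MulAction.mem_orbit_self a⟩⟩
    have h2 : 0 < a₂ := Fintype.card_pos_iff.mpr ⟨⟨b, hb⟩⟩
    have b₁ : Nat.card N₁ ≤ β a₁ := ih a₁ (by omega) _ N₁ rfl hn₁
      (fun q hq hqd => hπ q hq (hqd.trans hd₁))
    have b₂ : Nat.card N₂ ≤ β a₂ := ih a₂ (by omega) _ N₂ rfl hn₂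
      (fun q hq hqd => hπ q hq (hqd.trans hd₂))
    calc Nat.card N ≤ Nat.card N₁ * Nat.card N₂ := hle
      _ ≤ β a₁ * β a₂ := Nat.mul_le_mul b₁ b₂
      _ ≤ β (a₁ + a₂) := h.mul_le _ _
      _ = β n := by rw [hsum]

end Cfsg.Agent.Lib.Helper98NilMain
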