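import Mathlib
import Cfsg.Agent.Lib.Helper98NilDefs
import Cfsg.Agent.Lib.Helper98NilNumA

set_option autoImplicit false

namespace Cfsg.Agent.Lib.Helper98NilNumB
open Cfsg.Agent.Lib.Helper98NilDefs Cfsg.Agent.Lib.Helper98NilNumA

theorem Bo_of_ge {n : ℕ} (h : 16 ≤ n) : Bo n = 3 ^ ((n - 1) / 2) := by
  rw [Bo, if_neg (by omega)]

theorem Bo_of_lt {n : ℕ} (h : n < 16) : Bo n = BoTab.getD n 1 := by
  rw [Bo, if_pos h]

theorem Bo_pos (n : ℕ) : 1 ≤ Bo n := by
  by_cases h : n < 16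
  · rw [Bo_of_lt h]
    interval_cases n <;> simp [BoTab]
  · rw [Bo_of_ge (by omega)]
    exact Nat.one_le_pow _ _ (by norm_num)

theorem Bo_le_pow (n : ℕ) : Bo n ≤ 3 ^ ((n - 1) / 2) := by
  by_cases h : n < 16
  · rw [Bo_of_lt h]
    interval_cases n <;> simp [BoTab]
  · rw [Bo_of_ge (by omega)]

theorem Bo_mul_le (a b : ℕ) : Bo a * Bo b ≤ Bo (a + b) := by
  by_cases h : a + b < 16
  · rw [Bo_of_lt h, Bo_of_lt (by omega : a < 16), Bo_of_lt (by omega : b < 16)]
    have ha : a < 16 := by omega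
    interval_cases a <;> (have hb : b < 16 := by omega) <;> interval_cases b <;> simp [BoTab] at h ⊢
  · rw [Bo_of_ge (by omega : 16 ≤ a + b)]
    calc Bo a * Bo b ≤ 3 ^ ((a - 1) / 2) * 3 ^ ((b - 1) / 2) := Nat.mul_le_mul (Bo_le_pow a) (Bo_le_pow b)
      _ = 3 ^ ((a - 1) / 2 + (b - 1) / 2) := (pow_add _ _ _).symm
      _ ≤ 3 ^ ((a + b - 1) / 2) := Nat.pow_le_pow_right (by norm_num) (by omega)

theorem sq_le_three_pow : ∀ p : ℕ, 3 ≤ p → p ^ 2 ≤ 3 ^ (p - 1) := by
  intro p hp
  induction p, hp using Nat.le_induction with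
  | base => norm_num
  | succ n hn ih =>
    have e : 3 ^ (n + 1 - 1) = 3 ^ (n - 1) * 3 := by
      rw [show n + 1 - 1 = (n - 1) + 1 by omega, pow_succ]
    rw [e]
    nlinarith

theorem val_pow_succ (p a : ℕ) [Fact p.Prime] :
    padicValNat p (p ^ (a + 1)).factorial = padicValNat p (p ^ a).factorial + p ^ a := by
  rw [pow_succ, mul_comm, padicValNat_factorial_mul]

theorem W1 (p a : ℕ) (hp : p.Prime) (hp2 : p ≠ 2) :
    (p ^ padicValNat p (p ^ a).factorial) ^ 2 ≤ 3 ^ (p ^ a - 1) := by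
  have := Fact.mk hp
  have hp3 : 3 ≤ p := by
    have := hp.two_le
    omega
  induction a with
  | zero => simp
  | succ a ih =>
    rw [val_pow_succ, pow_add, mul_pow]
    have h1 : (p ^ p ^ a) ^ 2 ≤ 3 ^ ((p - 1) * p ^ a) := by
      rw [← pow_mul, mul_comm (p ^ a) 2, pow_mul, pow_mul]
      exact Nat.pow_le_pow_left (sq_le_three_pow p hp3) _
    have hpos : 1 ≤ p ^ a := Nat.one_le_pow _ _ hp.pos
    have h2 : p ^ (a + 1) - 1 = (p ^ a - 1) + (p - 1) * p ^ a := by
      obtain ⟨q, rfl⟩ : ∃ q, p = q + 1 := ⟨p - 1, by omega⟩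
      rw [pow_succ (q + 1) a, Nat.add_sub_cancel]
      have : (q + 1) ^ a * (q + 1) = (q + 1) ^ a + q * (q + 1) ^ a := by ring
      omega
    rw [h2, pow_add]
    exact Nat.mul_le_mul ih h1

theorem val_prime (p : ℕ) [Fact p.Prime] : padicValNat p p.factorial = 1 := by
  have := val_pow_succ p 0
  simpa using this

theorem Bo_prime_pow (p a : ℕ) (hp : p.Prime) (hp2 : p ≠ 2) :
    p ^ padicValNat p (p ^ a).factorial ≤ Bo (p ^ a) := by
  have := Fact.mk hp
  have hp3 : 3 ≤ p := by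
    have := hp.two_le
    omega
  by_cases h : p ^ a < 16
  · rcases a with _ | a
    · simp [Bo, BoTab]
      decide
    · rcases a with _ | a
      · rw [zero_add, pow_one] at h ⊢
        rw [val_prime, pow_one, Bo_of_lt h]
        interval_cases p <;> first | (exfalso; revert hp; norm_num; done) | simp [BoTab]
      · rcases a with _ | a
        · have hp4 : p < 4 := by
            by_contra hlt
            have : 4 ^ 2 ≤ p ^ 2 := Nat.pow_le_pow_left (by omega) 2
            simp at h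
            omega
          obtain rfl : p = 3 := by omega
          rw [val_pow_succ, zero_add, pow_one, val_prime]
          simp [Bo, BoTab]
        · exfalso
          have : 3 ^ 3 ≤ p ^ (a + 1 + 1 + 1) :=
            (Nat.pow_le_pow_left hp3 3).trans (Nat.pow_le_pow_right hp.pos (by omega))
          omega
  · rw [Bo_of_ge (by omega)]
    have hodd : (p ^ a) % 2 = 1 := by
      have : Odd (p ^ a) := (hp.odd_of_ne_two hp2).pow
      exact Nat.odd_iff.mp this
    have h1 := W1 p a hp hp2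
    have h2 : 3 ^ (p ^ a - 1) = (3 ^ ((p ^ a - 1) / 2)) ^ 2 := by
      rw [← pow_mul]
      congr 1
      omega
    rw [h2] at h1
    exact (Nat.pow_le_pow_iff_left (by norm_num)).mp h1

theorem B_table : ∀ n < 16, B n = [1, 1, 2, 3, 8, 8, 16, 24, 128, 128, 256, 384, 1024, 1024, 2048, 3072].getD n 0 := by
  intro n hn
  have h := f2_table
  interval_cases n <;> simp [B, h]

theorem two_Bo_le_B (n : ℕ) (h0 : n ≠ 0) (h1 : n ≠ 1) (h3 : n ≠ 3) (h5 : n ≠ 5) (h6 : n ≠ 6) (h9 : n ≠ 9) :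
    2 * Bo n ≤ B n := by
  by_cases h : n < 16
  · rw [Bo_of_lt h, B_table n h]
    interval_cases n <;> simp [BoTab] at *
  · rw [Bo_of_ge (by omega)]
    exact (E_bound n (by omega)).trans (f2_le_B n)

theorem Bo_le_B (n : ℕ) : Bo n ≤ B n := by
  by_cases h : n < 16
  · rw [Bo_of_lt h, B_table n h]
    interval_cases n <;> simp [BoTab]
  · have := two_Bo_le_B n (by omega) (by omega) (by omega) (by omega) (by omega) (by omega)
    omega

theorem goodBound_Bo : GoodBound (fun p => p ≠ 2) Bo :=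
  ⟨Bo_pos, Bo_mul_le, fun p a hp hp2 => Bo_prime_pow p a hp hp2⟩

theorem goodBound_B : GoodBound (fun _ => True) B := by
  refine ⟨fun n => (f2_pos n).trans (f2_le_B n), B_mul_le, fun p a hp _ => ?_⟩
  by_cases hp2 : p = 2
  · subst hp2
    exact f2_le_B _
  · exact (Bo_prime_pow p a hp hp2).trans (Bo_le_B _)

end Cfsg.Agent.Lib.Helper98NilNumB
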