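import Mathlib

set_option autoImplicit false

namespace Cfsg.Agent.Lib.Helper98NilOdd
open Equiv Equiv.Perm

theorem sign_of_invol {α : Type*} [Fintype α] [DecidableEq α] (s : Perm α) (hs : s * s = 1) (m : ℕ)
    (hm : Odd m) (hsupp : s.support.card = 2 * m) : sign s = -1 := by
  have hs1 : s ≠ 1 := by
    rintro rfl
    simp at hsupp
    subst hsupp
    simp at hm
  have ho : orderOf s = 2 := orderOf_eq_prime (by rw [pow_two]; exact hs) hs1
  obtain ⟨j, hj⟩ := cycleType_prime_order (σ := s) (by rw [ho]; exact Nat.prime_two)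
  rw [ho] at hj
  have h1 := sum_cycleType s
  rw [hj, Multiset.sum_replicate, hsupp, smul_eq_mul] at h1
  have hjm : j + 1 = m := by omega
  rw [sign_of_cycleType, hj, Multiset.sum_replicate, Multiset.card_replicate, smul_eq_mul, hjm, pow_add,
    pow_mul, hm.neg_one_pow]
  simp

theorem exists_odd_commuting {α : Type*} [Fintype α] [DecidableEq α] (D : Subgroup (Perm α))
    (hD : Odd (Nat.card D)) (t : Perm α) (ht : t ≠ 1) (ht2 : t * t = 1) (hc : ∀ d ∈ D, t * d = d * t) :
    ∃ s : Perm α, Perm.sign s = -1 ∧ ∀ d ∈ D, s * d = d * s := by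
  classical
  obtain ⟨x, hx⟩ : ∃ x, t x ≠ x := by
    by_contra h
    push Not at h
    exact ht (Perm.ext h)
  have htt : ∀ y, t (t y) = y := fun y => by
    have := congrArg (fun f : Perm α => f y) ht2
    simpa using this
  have hcd : ∀ d ∈ D, ∀ y, t (d y) = d (t y) := fun d hd y => by
    have := congrArg (fun f : Perm α => f y) (hc d hd)
    simpa using this
  set Δ : Set α := MulAction.orbit D x with hΔ
  have hΔ1 : ∀ d ∈ D, ∀ y, y ∈ Δ → d y ∈ Δ := by
    rintro d hd y ⟨k, rfl⟩
    exact ⟨⟨d, hd⟩ * k, by simp [mul_smul, Subgroup.smul_def]⟩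
  have hΔinv : ∀ d ∈ D, ∀ y, d y ∈ Δ ↔ y ∈ Δ := by
    intro d hd y
    refine ⟨fun h => ?_, hΔ1 d hd y⟩
    have := hΔ1 d⁻¹ (D.inv_mem hd) _ h
    simpa using this
  have hdisj : ∀ y ∈ Δ, t y ∉ Δ := by
    rintro y ⟨d, rfl⟩ ⟨d', hd'⟩
    have h1 : (d' : Perm α) x = (d : Perm α) (t x) := by
      rw [← hcd d d.2]; exact hd'
    set e : Perm α := (d : Perm α)⁻¹ * (d' : Perm α) with he
    have heD : e ∈ D := D.mul_mem (D.inv_mem d.2) d'.2
    have h2 : e x = t x := by
      rw [he, Perm.mul_apply, h1]; simp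
    have h3 : (e ^ 2) x = x := by
      rw [pow_two, Perm.mul_apply, h2, ← hcd e heD, h2, htt]
    have hodd : Nat.Coprime 2 (orderOf e) := by
      have h4 : orderOf e ∣ Nat.card D := by
        have := orderOf_dvd_natCard (⟨e, heD⟩ : D)
        rwa [Subgroup.orderOf_mk] at this
      have : Odd (orderOf e) := hD.of_dvd_nat h4
      exact Nat.coprime_two_left.mpr this
    obtain ⟨j, hj⟩ := exists_pow_eq_self_of_coprime hodd
    have h5 : ((e ^ 2) ^ j) x = x := Perm.pow_apply_eq_self_of_apply_eq_self h3 _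
    rw [hj, h2] at h5
    exact hx h5
  set q : α → Prop := fun y => y ∈ Δ ∨ t y ∈ Δ with hq
  have hq_t : ∀ y, q (t y) ↔ q y := by
    intro y
    simp only [hq, htt]
    exact or_comm
  have hq_d : ∀ d ∈ D, ∀ y, q (d y) ↔ q y := by
    intro d hd y
    simp only [hq, hcd d hd, hΔinv d hd]
  set s : Perm α := ofSubtype (t.subtypePerm hq_t) with hs
  have hs_mem : ∀ y, q y → s y = t y := by
    intro y hy
    rw [hs, ofSubtype_apply_of_mem _ hy]
    rfl
  have hs_not : ∀ y, ¬ q y → s y = y := fun y hy => ofSubtype_apply_of_not_mem _ hy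
  have hss : s * s = 1 := by
    ext y
    by_cases hy : q y
    · rw [Perm.mul_apply, hs_mem y hy, hs_mem _ ((hq_t y).mpr hy), htt]; rfl
    · rw [Perm.mul_apply, hs_not y hy, hs_not y hy]; rfl
  set Δf : Finset α := Finset.univ.filter (· ∈ Δ) with hΔf
  have hsupp : s.support = Δf ∪ Δf.image t := by
    ext y
    simp only [Perm.mem_support, Finset.mem_union, Finset.mem_image, hΔf, Finset.mem_filter,
      Finset.mem_univ, true_and]
    constructor
    · intro h
      by_cases hy : q y
      · rcases hy with hy | hy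
        · exact Or.inl hy
        · exact Or.inr ⟨t y, hy, htt y⟩
      · exact absurd (hs_not y hy) h
    · rintro (hy | ⟨z, hz, rfl⟩)
      · rw [hs_mem y (Or.inl hy)]
        intro h
        exact hdisj y hy (by rw [h]; exact hy)
      · rw [hs_mem (t z) (Or.inr (by rw [htt]; exact hz)), htt]
        intro h
        exact hdisj z hz (by rw [← h]; exact hz)
  have hdj : Disjoint Δf (Δf.image t) := by
    rw [Finset.disjoint_left]
    intro y hy hy'
    simp only [hΔf, Finset.mem_image, Finset.mem_filter, Finset.mem_univ, true_and] at hy hy'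
    obtain ⟨z, hz, rfl⟩ := hy'
    exact hdisj z hz hy
  have hcard : s.support.card = 2 * Δf.card := by
    rw [hsupp, Finset.card_union_of_disjoint hdj, Finset.card_image_of_injective _ t.injective]
    ring
  have hΔodd : Odd Δf.card := by
    have h1 : Δf.card = Nat.card Δ := by
      rw [hΔf, Nat.card_eq_fintype_card, Fintype.card_subtype]
    have h2 : Nat.card Δ ∣ Nat.card D := by
      have := Nat.card_congr (MulAction.orbitProdStabilizerEquivGroup D x)
      rw [Nat.card_prod] at this
      exact ⟨_, this.symm⟩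
    rw [h1]
    exact hD.of_dvd_nat h2
  refine ⟨s, sign_of_invol s hss _ hΔodd hcard, ?_⟩
  intro d hd
  ext y
  rw [Perm.mul_apply, Perm.mul_apply]
  by_cases hy : q y
  · rw [hs_mem y hy, hs_mem _ ((hq_d d hd y).mpr hy), hcd d hd]
  · rw [hs_not y hy, hs_not _ (fun h => hy ((hq_d d hd y).mp h))]

end Cfsg.Agent.Lib.Helper98NilOdd
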