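import Mathlib
import Cfsg.Agent.Lib.Helper98NilDecomp
import Cfsg.Agent.Lib.Helper98NilOdd

set_option autoImplicit false

namespace Cfsg.Agent.Lib.Helper98NilOver
open Equiv Equiv.Perm Cfsg.Agent.Lib.Helper98NilDecomp Cfsg.Agent.Lib.Helper98NilOdd

theorem nilpotent_sup_of_commute {G : Type*} [Group G] (A B : Subgroup G) (hA : Group.IsNilpotent A)
    (hB : Group.IsNilpotent B) (hc : ∀ a ∈ A, ∀ b ∈ B, a * b = b * a) :
    Group.IsNilpotent (A ⊔ B : Subgroup G) := by
  have hcm : ∀ (m : A) (n : B), Commute (A.subtype m) (B.subtype n) := fun a b => hc a a.2 b b.2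
  set φ : A × B →* G := MonoidHom.noncommCoprod A.subtype B.subtype hcm with hφ
  have hr : φ.range = A ⊔ B := by
    rw [hφ, MonoidHom.noncommCoprod_range, Subgroup.range_subtype, Subgroup.range_subtype]
  rw [← hr]
  exact Group.nilpotent_of_surjective φ.rangeRestrict φ.rangeRestrict_surjective

theorem exists_nilpotent_not_le_alternating {α : Type*} [Fintype α] [DecidableEq α] (N : Subgroup (Perm α))
    (hN : Group.IsNilpotent N) (h2 : 2 ∣ Nat.card N) :
    ∃ M : Subgroup (Perm α), Group.IsNilpotent M ∧ N ≤ M ∧ ¬ M ≤ alternatingGroup α := by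
  have : Fact (Nat.Prime 2) := ⟨Nat.prime_two⟩
  obtain ⟨T, D, hTN, hDN, hT2, hDcop, hcomm, hfac, hmul⟩ := nilp_decomp_sub N hN 2
  have hDodd : Odd (Nat.card D) := Nat.coprime_two_right.mp hDcop
  have h2T : 2 ∣ Nat.card T := by
    rw [← hmul] at h2
    exact (Nat.Coprime.dvd_mul_right hDcop.symm).mp h2
  obtain ⟨t, ht⟩ := exists_prime_orderOf_dvd_card' (G := T) 2 h2T
  have ht1 : (t : Perm α) ≠ 1 := by
    intro h
    have : t = 1 := Subtype.ext h
    rw [this, orderOf_one] at ht
    norm_num at ht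
  have ht2 : (t : Perm α) * (t : Perm α) = 1 := by
    have := pow_orderOf_eq_one t
    rw [ht, pow_two] at this
    exact congrArg Subtype.val this
  obtain ⟨s, hs, hsc⟩ := exists_odd_commuting D hDodd t ht1 ht2 (fun d hd => hcomm t t.2 d hd)
  set C : Subgroup (Perm α) := Subgroup.centralizer (D : Set (Perm α)) with hC
  have hsC : s ∈ C := by
    rw [hC, Subgroup.mem_centralizer_iff]
    intro d hd
    exact (hsc d hd).symm
  have hTC : T ≤ C := by
    intro x hx
    rw [hC, Subgroup.mem_centralizer_iff]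
    intro d hd
    exact (hcomm x hx d hd).symm
  have hT' : IsPGroup 2 (T.subgroupOf C) := hT2.comap_subtype
  obtain ⟨Q, hQ⟩ := hT'.exists_le_sylow
  set Qm : Subgroup (Perm α) := (Q : Subgroup C).map C.subtype with hQm
  have hQmC : Qm ≤ C := Subgroup.map_subtype_le _
  have hTQ : T ≤ Qm := by
    intro x hx
    exact ⟨⟨x, hTC hx⟩, hQ (Subgroup.mem_subgroupOf.mpr hx), rfl⟩
  have hQnil : Group.IsNilpotent Qm := (Q.isPGroup'.map C.subtype).isNilpotent
  have hDnil : Group.IsNilpotent D := Group.nilpotent_of_mulEquiv (Subgroup.subgroupOfEquivOfLe hDN)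
  refine ⟨Qm ⊔ D, nilpotent_sup_of_commute Qm D hQnil hDnil ?_, ?_, ?_⟩
  · intro a ha b hb
    have := hQmC ha
    rw [hC, Subgroup.mem_centralizer_iff] at this
    exact (this b hb).symm
  · intro g hg
    obtain ⟨x, hx, y, hy, rfl⟩ := hfac g hg
    exact Subgroup.mul_mem _ (Subgroup.mem_sup_left (hTQ hx)) (Subgroup.mem_sup_right hy)
  · intro hM
    have hQA : Qm ≤ alternatingGroup α := le_sup_left.trans hM
    set C₀ : Subgroup C := (alternatingGroup α).subgroupOf C with hC₀
    have hQC₀ : (Q : Subgroup C) ≤ C₀ := by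
      intro x hx
      rw [hC₀, Subgroup.mem_subgroupOf]
      exact hQA ⟨x, hx, rfl⟩
    have hidx : C₀.index = 2 := by
      rw [Subgroup.index_eq_two_iff]
      refine ⟨⟨s, hsC⟩, fun b => ?_⟩
      simp only [hC₀, Subgroup.mem_subgroupOf, Subgroup.coe_mul, Perm.mem_alternatingGroup, map_mul, hs]
      rcases Int.units_eq_one_or (sign (b : Perm α)) with h | h <;> rw [h] <;> simp
    have hdvd : 2 ∣ (Q : Subgroup C).index := by
      have := Subgroup.index_dvd_of_le hQC₀
      rwa [hidx] at this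
    exact Q.not_dvd_index hdvd

end Cfsg.Agent.Lib.Helper98NilOver
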