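import Mathlib
import Cfsg.Agent.Lib.Helper98NilDefs

set_option autoImplicit false

namespace Cfsg.Agent.Lib.Helper98NilSyl
open Cfsg.Agent.Lib.Helper98NilDefs Equiv

theorem card_sylow_perm (n : ℕ) (P : Sylow 2 (Perm (Fin n))) : Nat.card P = f2 n := by
  rw [Sylow.card_eq_multiplicity, Nat.card_eq_fintype_card, Fintype.card_perm, Fintype.card_fin,
    Nat.factorization_def _ Nat.prime_two, f2]

theorem two_mul_card_sylow_alt (n : ℕ) (hn : 2 ≤ n) (P : Sylow 2 (alternatingGroup (Fin n))) :
    2 * Nat.card P = f2 n := by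
  have : Nontrivial (Fin n) := Fin.nontrivial_iff_two_le.mpr hn
  have h1 : 2 * Nat.card (alternatingGroup (Fin n)) = n.factorial := by
    have := two_mul_card_alternatingGroup (α := Fin n)
    rw [Fintype.card_perm, Fintype.card_fin] at this
    rw [Nat.card_eq_fintype_card]
    convert this
  have hpos : Nat.card (alternatingGroup (Fin n)) ≠ 0 := Nat.card_pos.ne'
  rw [Sylow.card_eq_multiplicity, Nat.factorization_def _ Nat.prime_two, f2, ← h1,
    padicValNat.mul (by norm_num) hpos, padicValNat_self, pow_add, pow_one]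

theorem two_mul_card_le {α : Type*} [Fintype α] [DecidableEq α] (N M : Subgroup (Perm α)) (hNM : N ≤ M)
    (hN : N ≤ alternatingGroup α) (hM : ¬ M ≤ alternatingGroup α) : 2 * Nat.card N ≤ Nat.card M := by
  obtain ⟨s, hsM, hsA⟩ := SetLike.not_le_iff_exists.mp hM
  have hcard : Nat.card (N ⊕ N) = 2 * Nat.card N := by
    rw [Nat.card_sum]; ring
  rw [← hcard]
  apply Nat.card_le_card_of_injective
    (fun x : N ⊕ N => Sum.elim (fun g : N => (⟨g, hNM g.2⟩ : M)) (fun g : N => ⟨s * g, M.mul_mem hsM (hNM g.2)⟩) x)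
  rintro (x | x) (y | y) h
  · simp only [Sum.elim_inl, Subtype.mk.injEq] at h
    rw [Subtype.ext h]
  · exfalso
    simp only [Sum.elim_inl, Sum.elim_inr, Subtype.mk.injEq] at h
    apply hsA
    have : s = x * (y : Perm α)⁻¹ := by rw [h]; group
    rw [this]
    exact (alternatingGroup α).mul_mem (hN x.2) ((alternatingGroup α).inv_mem (hN y.2))
  · exfalso
    simp only [Sum.elim_inl, Sum.elim_inr, Subtype.mk.injEq] at h
    apply hsA
    have : s = y * (x : Perm α)⁻¹ := by rw [← h]; group
    rw [this]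
    exact (alternatingGroup α).mul_mem (hN y.2) ((alternatingGroup α).inv_mem (hN x.2))
  · simp only [Sum.elim_inr, Subtype.mk.injEq, mul_right_inj] at h
    rw [Subtype.ext h]

end Cfsg.Agent.Lib.Helper98NilSyl
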