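import Mathlib
import Cfsg.Agent.Lib.Helper98NilDefs
import Cfsg.Agent.Lib.Helper98NilMain
import Cfsg.Agent.Lib.Helper98NilNumB
import Cfsg.Agent.Lib.Helper98NilSyl
import Cfsg.Agent.Lib.Helper98NilOver

set_option autoImplicit false

namespace Cfsg.Agent.Lib.Helper98NilAlt
open Cfsg.Agent.Lib.Helper98NilDefs Equiv
open Cfsg.Agent.Lib.Helper98NilMain Cfsg.Agent.Lib.Helper98NilNumB Cfsg.Agent.Lib.Helper98NilSyl
  Cfsg.Agent.Lib.Helper98NilOver

theorem alt_bound (n : ℕ) (h0 : n ≠ 0) (h1 : n ≠ 1) (h3 : n ≠ 3) (h5 : n ≠ 5) (h6 : n ≠ 6) (h9 : n ≠ 9)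
    (N : Subgroup (alternatingGroup (Fin n))) (hN : Group.IsNilpotent N) : 2 * Nat.card N ≤ B n := by
  set N' : Subgroup (Perm (Fin n)) := N.map (alternatingGroup (Fin n)).subtype with hN'def
  have hinj : Function.Injective (alternatingGroup (Fin n)).subtype := Subgroup.subtype_injective _
  have hcard : Nat.card N' = Nat.card N := Subgroup.card_map_of_injective hinj
  have hN' : Group.IsNilpotent N' := Group.nilpotent_of_mulEquiv (N.equivMapOfInjective _ hinj)
  have hle : N' ≤ alternatingGroup (Fin n) := Subgroup.map_subtype_le N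
  by_cases h2 : 2 ∣ Nat.card N'
  · obtain ⟨M, hM, hNM, hMA⟩ := exists_nilpotent_not_le_alternating N' hN' h2
    have e1 := two_mul_card_le N' M hNM hle hMA
    have e2 := card_le_of_goodBound goodBound_B n (Fin n) M (by simp) hM (fun _ _ _ => trivial)
    omega
  · have e1 := card_le_of_goodBound goodBound_Bo n (Fin n) N' (by simp) hN'
      (fun p _ hpd h => h2 (h ▸ hpd))
    have e2 := two_Bo_le_B n h0 h1 h3 h5 h6 h9
    omega

theorem r2255 (n : ℕ) (hn : n % 4 ≠ 3)
    (h5 : n ≠ 5) (h6 : n ≠ 6) (h9 : n ≠ 9)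
    (N : Subgroup (alternatingGroup (Fin n))) (hN : Group.IsNilpotent N)
    (P : Sylow 2 (alternatingGroup (Fin n))) :
    Nat.card N ≤ Nat.card P := by
  by_cases hn2 : n < 2
  · have : Subsingleton (Perm (Fin n)) := by
      have : Subsingleton (Fin n) := by
        rw [← Fintype.card_le_one_iff_subsingleton]; simp; omega
      infer_instance
    have hs : Subsingleton (alternatingGroup (Fin n)) := inferInstance
    rw [Nat.card_of_subsingleton (1 : N)]
    exact Nat.card_pos
  · have e := alt_bound n (by omega) (by omega) (by omega) h5 h6 h9 N hN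
    have e2 := two_mul_card_sylow_alt n (by omega) P
    rw [B, if_neg hn] at e
    omega

end Cfsg.Agent.Lib.Helper98NilAlt
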