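import Cfsg.Agent.Lib.Helper43R1Defs

set_option autoImplicit false

/-! Project 143, pieces `shh` and `schain` (pieces `sww`, `srk1` as hypotheses at the end). -/

namespace Cfsg.Agent.Lib.Helper9StShh

open Cfsg.Agent.Lib.Helper43R1

variable {n : ℕ} {K : Type*} [Field K] {Γ : Type*} [Group Γ] (S : StR n K Γ)

theorem hh_comm [Finite K] (i j k : Fin n) (hij : i ≠ j) (hik : i ≠ k) (hjk : j ≠ k) (a b : K)
    (ha : a ≠ 0) (hb : b ≠ 0)
    (hh_w_jk : ∀ (i j k : Fin n) (_ : i ≠ j) (_ : i ≠ k) (_ : j ≠ k) (a u : K) (_ : a ≠ 0)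
      (_ : u ≠ 0), S.hh i j a * S.w j k u * (S.hh i j a)⁻¹ = S.w j k (a⁻¹ * u))
    (hh_mul : ∀ (i j k : Fin n) (_ : i ≠ j) (_ : i ≠ k) (_ : j ≠ k) (a b : K)
      (_ : a ≠ 0) (_ : b ≠ 0), S.hh i j (a * b) = S.hh i j a * S.hh i j b) :
    Commute (S.hh i j a) (S.hh j k b) := by
  have h1 := hh_w_jk i j k hij hik hjk a b ha hb
  have h2 := hh_w_jk i j k hij hik hjk a 1 ha one_ne_zero
  rw [mul_one] at h2
  have h3 := hh_mul j k i hjk hij.symm hik.symm b a⁻¹ hb (inv_ne_zero ha)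
  have e : S.hh i j a * S.hh j k b * (S.hh i j a)⁻¹ = S.hh j k b := by
    have e1 : S.hh i j a * S.hh j k b * (S.hh i j a)⁻¹ =
        (S.hh i j a * S.w j k b * (S.hh i j a)⁻¹) * (S.hh i j a * S.w j k 1 * (S.hh i j a)⁻¹)⁻¹ := by
      have : S.hh j k b = S.w j k b * (S.w j k 1)⁻¹ := rfl
      rw [this]
      group
    have e2 : S.w j k (a⁻¹ * b) * (S.w j k a⁻¹)⁻¹ = S.hh j k (b * a⁻¹) * (S.hh j k a⁻¹)⁻¹ := by
      rw [mul_comm b]
      unfold StR.hh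
      group
    rw [e1, h1, h2, e2, h3, mul_inv_cancel_right]
  show S.hh i j a * S.hh j k b = S.hh j k b * S.hh i j a
  calc S.hh i j a * S.hh j k b = (S.hh i j a * S.hh j k b * (S.hh i j a)⁻¹) * S.hh i j a := by group
    _ = _ := by rw [e]

theorem hh_chain [Finite K] (i j k : Fin n) (hij : i ≠ j) (hik : i ≠ k) (hjk : j ≠ k) (a : K)
    (ha : a ≠ 0)
    (w_w_ik : ∀ (i j k : Fin n) (_ : i ≠ j) (_ : i ≠ k) (_ : j ≠ k) (u : K) (_ : u ≠ 0),
      S.w j k 1 * S.w i k u * (S.w j k 1)⁻¹ = S.w i j u)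
    (hh_w_jk : ∀ (i j k : Fin n) (_ : i ≠ j) (_ : i ≠ k) (_ : j ≠ k) (a u : K) (_ : a ≠ 0)
      (_ : u ≠ 0), S.hh i j a * S.w j k u * (S.hh i j a)⁻¹ = S.w j k (a⁻¹ * u))
    (w_hh_self : ∀ (i j k : Fin n) (_ : i ≠ j) (_ : i ≠ k) (_ : j ≠ k) (a : K) (_ : a ≠ 0),
      S.w i j 1 * S.hh i j a * (S.w i j 1)⁻¹ = (S.hh i j a)⁻¹) :
    S.hh i k a = S.hh i j a * S.hh j k a := by
  have h1 := w_w_ik i j k hij hik hjk a ha
  have h1' := w_w_ik i j k hij hik hjk 1 one_ne_zero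
  have h2 := hh_w_jk i j k hij hik hjk a a ha ha
  rw [inv_mul_cancel₀ ha] at h2
  have h3 := w_hh_self j k i hjk hij.symm hik.symm a ha
  set A := S.w j k 1 with hA
  set h := S.hh i j a with hh
  set g := S.hh j k a with hg
  have eB : S.w j k a = g * A := by rw [hg, hA]; unfold StR.hh; group
  -- (1)
  have s1 : S.hh i k a = A⁻¹ * h * A := by
    have : h = (A * S.w i k a * A⁻¹) * (A * S.w i k 1 * A⁻¹)⁻¹ := by rw [h1, h1']; rfl
    rw [this]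
    unfold StR.hh
    group
  -- (2)
  have s2 : A⁻¹ * h = h * (g * A)⁻¹ := by
    rw [eB] at h2
    have : A⁻¹ = h * (g * A)⁻¹ * h⁻¹ := by
      conv_lhs => rw [← h2]
      group
    calc A⁻¹ * h = (h * (g * A)⁻¹ * h⁻¹) * h := by rw [← this]
      _ = _ := by group
  -- (3)
  have s3 : (g * A)⁻¹ * A = g := by
    have : g⁻¹ = A * g * A⁻¹ := h3.symm
    calc (g * A)⁻¹ * A = A⁻¹ * g⁻¹ * A := by group
      _ = A⁻¹ * (A * g * A⁻¹) * A := by rw [← this]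
      _ = g := by group
  rw [s1, s2, mul_assoc, s3]

end Cfsg.Agent.Lib.Helper9StShh
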