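import Cfsg.Agent.Lib.Helper43R1Defs

set_option autoImplicit false

/-! Project 143, piece `shom` (pieces `sbx`, `r1hom` as hypotheses at the end). -/

namespace Cfsg.Agent.Lib.Helper9StShom

open Matrix Cfsg.Agent.Lib.Helper43R1

variable {n : ℕ} {K : Type*} [Field K] {Γ : Type*} [Group Γ] (S : StR n K Γ)

theorem s_hom [Finite K] (i j k : Fin n) (hij : i ≠ j) (hik : i ≠ k) (hjk : j ≠ k)
    (w_ij : ∀ (i j k : Fin n) (_ : i ≠ j) (_ : i ≠ k) (_ : j ≠ k) (t u : K) (_ : t ≠ 0),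
      S.w i j t * S.x i j u * (S.w i j t)⁻¹ = S.x j i (-(t⁻¹ ^ 2 * u)))
    (r1_hom : ∀ R : R1 K Γ, ∃ f : SpecialLinearGroup (Fin 2) K →* Γ,
      (∀ t (g : SpecialLinearGroup (Fin 2) K), (g : Matrix (Fin 2) (Fin 2) K) = !![1, t; 0, 1] →
        f g = R.x t) ∧
      (∀ t (g : SpecialLinearGroup (Fin 2) K), (g : Matrix (Fin 2) (Fin 2) K) = !![1, 0; t, 1] →
        f g = R.y t)) :
    ∃ f : SpecialLinearGroup (Fin 2) K →* Γ,
      (∀ t (g : SpecialLinearGroup (Fin 2) K), (g : Matrix (Fin 2) (Fin 2) K) = !![1, t; 0, 1] → f g = S.x i j t) ∧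
      (∀ t (g : SpecialLinearGroup (Fin 2) K), (g : Matrix (Fin 2) (Fin 2) K) = !![1, 0; t, 1] → f g = S.x j i t) :=
  r1_hom
    { x := S.x i j
      y := S.x j i
      xadd := S.add i j hij
      yadd := S.add j i hij.symm
      bx := fun t u ht => w_ij i j k hij hik hjk t u ht }

end Cfsg.Agent.Lib.Helper9StShom
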