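import Cfsg.Agent.Lib.LeadChevMisc
import Cfsg.Agent.Lib.Helper23Solv
import Cfsg.Agent.S1023
import Cfsg.Agent.S1024
import Cfsg.Agent.S1026
import Cfsg.Agent.S1032
import Cfsg.Agent.S1034
import Cfsg.Agent.S1036
import Cfsg.Agent.S1038
import Cfsg.Agent.S1100

set_option autoImplicit false

/-! Subgroups of fixed points of a field endomorphism: centralizer and normalizer. -/

namespace Cfsg.Agent.Lib.LeadChevSub

open Cfsg Cfsg.Lie Cfsg.Lie.ChevalleyDatum Cfsg.Agent.Lib.LeadChevField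
open scoped MatrixGroups Matrix

theorem facts {F : Type*} [Field F] {D : ChevalleyDatum}
    (hD : D ∈ [chevG2, chevB2, chevD4, chevF4, chevE6, chevE7, chevE8]) : Facts D F :=
  { hadd := fun r hr t₁ t₂ => Cfsg.Agent.S1023.result _ hD r hr t₁ t₂
    hone := fun r hr t => Cfsg.Agent.S1024.result _ hD r hr t
    huniq := (Cfsg.Agent.S1026.result _ hD).1
    hprod := fun g hg => Cfsg.Agent.S1034.result _ hD g hg
    hconj := fun i s hi hs c hc t => Cfsg.Agent.S1032.result _ hD i s hi hs c hc t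
    hnormU := (Cfsg.Agent.S1036.result _ hD).1
    hUH := (Cfsg.Agent.S1036.result _ hD).2
    hHN := Cfsg.Agent.S1038.result _ hD
    bex := (Cfsg.Agent.S1100.result _ hD).1
    buniq := (Cfsg.Agent.S1100.result _ hD).2 }

section decomp
variable {F K : Type*} [Field F] [Field K] (D : ChevalleyDatum) (j : K →+* F) (σ : F →+* F)
variable (hj : ∀ a : F, σ a = a ↔ a ∈ Set.range j)
variable (haddK : ∀ r, r < D.nroots → ∀ t₁ t₂ : K, D.x K r t₁ * D.x K r t₂ = D.x K r (t₁ + t₂))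
variable (honeK : ∀ r, r < D.nroots → ∀ t : K, D.x K r t = 1 ↔ t = 0)
variable (hF : Facts D F)

include hj haddK honeK hF in
theorem fixed_decomp {g : GL D.Idx F} (hg : g ∈ D.group F) (hfix : J D σ g = g) :
    ∃ l1 ∈ (D.group K).map (J D j), ∃ h ∈ D.diagonalSubgroup F, ∃ l2 ∈ (D.group K).map (J D j),
      J D σ h = h ∧ g = l1 * h * l2 := by
  obtain ⟨b, hb, n, hn, u, hu, rfl⟩ := hF.bex g hg
  have hnorm : ∀ m ∈ Subgroup.closure {g : GL D.Idx F | ∃ r : ℕ, r < D.nroots ∧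
      (g : Matrix D.Idx D.Idx F) = D.nMat F r 1}, ∀ a ∈ D.diagonalSubgroup F,
      m * a * m⁻¹ ∈ D.diagonalSubgroup F := by
    intro m hm a ha
    have hmN : m ∈ D.monomialSubgroup F := (le_sup_right : _ ≤ D.monomialSubgroup F) hm
    have haN : a ∈ D.monomialSubgroup F := (le_sup_left : _ ≤ D.monomialSubgroup F) ha
    have := hF.hHN.conj_mem ⟨a, haN⟩ (Subgroup.mem_subgroupOf.2 ha) ⟨m, hmN⟩
    exact Subgroup.mem_subgroupOf.1 this
  obtain ⟨h, hh, n0, hn0, rfl⟩ := mem_sup_of_normalizes hnorm hn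
  have hn0N : n0 ∈ D.monomialSubgroup F := (le_sup_right : _ ≤ D.monomialSubgroup F) hn0
  have hu0 : u ∈ Subgroup.closure (Sn D n0) := Subgroup.closure_mono (Sn_mul_subset D hF hh) hu
  have hbh : b * h ∈ D.borelSubgroup F :=
    mul_mem hb ((le_sup_right : _ ≤ D.borelSubgroup F) hh)
  have e : (b * h) * n0 * u = J D σ (b * h) * n0 * J D σ u := by
    have h1 : J D σ (b * (h * n0) * u) = J D σ (b * h) * n0 * J D σ u := by
      simp only [map_mul, sig_N0 D σ hn0]; group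
    rw [← h1, hfix]; group
  obtain ⟨e1, e2⟩ := (hF.buniq _ _ n0 n0 u _ hbh (sig_B D σ hbh) hn0N hn0N hu0 (sig_Sn D σ n0 hu0) e).2 rfl
  have m3 := U_fixed D j σ hj haddK honeK hF.huniq (Sn_le_U D n0 hu0) e2.symm
  have m2 : n0 ∈ (D.group K).map (J D j) := by
    have : Subgroup.closure {g : GL D.Idx F | ∃ r : ℕ, r < D.nroots ∧
      (g : Matrix D.Idx D.Idx F) = D.nMat F r 1} ≤ (D.group K).map (J D j) := by
      rw [Subgroup.closure_le]
      rintro g ⟨r, -, hgm⟩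
      exact mem_map_of_word D j haddK honeK g _ hgm (nWord_range D j r (range_one j))
    exact this hn0
  -- split the Borel part
  have hn' : ∀ h ∈ D.diagonalSubgroup F, ∀ a ∈ D.posUnipotent F, h * a * h⁻¹ ∈ D.posUnipotent F := by
    intro h hh a ha
    exact (Subgroup.mem_normalizer_iff.1 (hF.hnormU hh) a).1 ha
  obtain ⟨u1, hu1, h1, hh1, e3⟩ := mem_sup_of_normalizes hn' hbh
  have hfix' : J D σ u1 * J D σ h1 = u1 * h1 := by rw [← map_mul, ← e3, ← e1]
  have k1 : u1⁻¹ * J D σ u1 = h1 * (J D σ h1)⁻¹ := by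
    have : J D σ u1 = u1 * h1 * (J D σ h1)⁻¹ := by rw [← hfix']; group
    rw [this]; group
  have k2 : u1⁻¹ * J D σ u1 ∈ D.posUnipotent F ⊓ D.diagonalSubgroup F :=
    Subgroup.mem_inf.2 ⟨mul_mem (inv_mem hu1) (sig_U D σ hu1),
      by rw [k1]; exact mul_mem hh1 (inv_mem (sig_H D σ hh1))⟩
  rw [hF.hUH, Subgroup.mem_bot] at k2
  have hu' : J D σ u1 = u1 := (inv_mul_eq_one.1 k2).symm
  have hh' : J D σ h1 = h1 := by
    rw [k2] at k1
    exact (mul_inv_eq_one.1 k1.symm).symm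
  refine ⟨u1, U_fixed D j σ hj haddK honeK hF.huniq hu1 hu', h1, hh1, n0 * u, mul_mem m2 m3, hh', ?_⟩
  calc b * (h * n0) * u = (b * h) * (n0 * u) := by group
    _ = u1 * h1 * (n0 * u) := by rw [e3]

end decomp

section main
open Subgroup Cfsg.Agent.Lib.Helper23Grp Cfsg.Agent.Lib.Helper23RG Cfsg.Agent.Lib.Helper23RG.RG
  Cfsg.Agent.Lib.Helper23Table Cfsg.Agent.Lib.Helper23Chev Cfsg.Agent.Lib.Helper23Shape

variable {k : Type*} [Field k] {D : ChevalleyDatum} (σ : k →+* k)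

/-- the group generated by the root elements with fixed parameter -/
def Lσ (D : ChevalleyDatum) (σ : k →+* k) : Subgroup (GL D.Idx k) :=
  closure {g : GL D.Idx k | ∃ (s : ℕ) (t : k), σ t = t ∧ (g : Matrix D.Idx D.Idx k) = D.x k s t}

theorem J_xg (hR : Rel D k) (s : ℕ) (t : k) : J D σ (xg D k s t) = xg D k s (σ t) := by
  apply Units.ext
  rw [J_coe, coe_xg hR, coe_xg hR, x_map]

theorem H_conj_L (hT : TableOK D) (hR : Rel D k) {h : GL D.Idx k} (hh : h ∈ D.diagonalSubgroup k)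
    (hfix : J D σ h = h) : ∀ m ∈ Lσ D σ, h * m * h⁻¹ ∈ Lσ D σ := by
  have ok := rg_ok hT hR
  apply conj_closure_mem
  rintro g ⟨s, t, ht, hg⟩
  by_cases hs : s < D.nroots
  · have hg' : g = (rg hT hR).x ⟨s, hs⟩ t := (eq_xg_iff hR g s t).1 hg
    rw [← H_eq hT hR] at hh
    obtain ⟨_, c, _, _, hc⟩ := Mon_H ok h hh
    have e := hc ⟨s, hs⟩ t
    rw [Equiv.Perm.one_apply] at e
    rw [hg', e]
    apply Subgroup.subset_closure
    refine ⟨s, c ⟨s, hs⟩ * t, ?_, coe_xg hR _ _⟩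
    have e2 := congrArg (J D σ) e
    rw [map_mul, map_mul, map_inv, hfix] at e2
    have e3 : J D σ ((rg hT hR).x ⟨s, hs⟩ t) = (rg hT hR).x ⟨s, hs⟩ t := by
      show J D σ (xg D k s t) = xg D k s t
      rw [J_xg σ hR, ht]
    have e4 : J D σ ((rg hT hR).x ⟨s, hs⟩ (c ⟨s, hs⟩ * t)) = (rg hT hR).x ⟨s, hs⟩ (σ (c ⟨s, hs⟩ * t)) :=
      J_xg σ hR _ _
    rw [e3, e, e4] at e2
    exact ((x_eq_iff ok _ _ _).1 e2).symm
  · have : g = 1 := by
      apply Units.ext
      rw [hg, x_of_not_lt hs]; rfl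
    rw [this]; simp

theorem main (hD : D ∈ [chevG2, chevB2, chevD4, chevF4, chevE6, chevE7, chevE8])
    (K : Subgroup (GL D.Idx k)) (hKG : K ≤ D.group k) (hLK : Lσ D σ ≤ K)
    (hKfix : ∀ g ∈ K, J D σ g = g) :
    D.group k ⊓ centralizer (K : Set (GL D.Idx k)) = ⊥ ∧
    ∀ g : GL D.Idx k, g ∈ D.group k → (g ∈ normalizer (K : Set (GL D.Idx k)) ↔ J D σ g = g) := by
  have hT := Cfsg.Agent.Lib.Helper23All.tab hD
  have hR : Rel D k := Cfsg.Agent.Lib.Helper23All.rel hD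
  have hF : Facts D k := facts hD
  let K0 : Subfield k := σ.eqLocusField (RingHom.id k)
  let j : K0 →+* k := K0.subtype
  have hj : ∀ x : k, σ x = x ↔ x ∈ Set.range j := by
    intro x
    constructor
    · intro hx; exact ⟨⟨x, hx⟩, rfl⟩
    · rintro ⟨y, rfl⟩; exact y.2
  have hF0 : Facts D K0 := facts hD
  have hL' : (D.group K0).map (J D j) ≤ Lσ D σ := by
    unfold ChevalleyDatum.group
    rw [MonoidHom.map_closure, closure_le]
    rintro _ ⟨g, ⟨r, t, hg⟩, rfl⟩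
    apply Subgroup.subset_closure
    refine ⟨r, j t, t.2, ?_⟩
    rw [J_coe, hg, xMat_map]
    simp [ChevalleyDatum.x, r.2]
  have hdec : ∀ g ∈ D.group k, J D σ g = g → ∃ l1 ∈ Lσ D σ, ∃ h ∈ D.diagonalSubgroup k, ∃ l2 ∈ Lσ D σ,
      J D σ h = h ∧ g = l1 * h * l2 := by
    intro g hg hfix
    obtain ⟨l1, h1, h, hh, l2, h2, h3, h4⟩ := fixed_decomp D j σ hj hF0.hadd hF0.hone hF hg hfix
    exact ⟨l1, hL' h1, h, hh, l2, hL' h2, h3, h4⟩
  have hcent : D.group k ⊓ centralizer (K : Set (GL D.Idx k)) = ⊥ := by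
    rw [eq_bot_iff]
    rintro c ⟨hc, hcK⟩
    rw [mem_bot]
    apply Cfsg.Agent.Lib.LeadChevMisc.eq_one_of_comm hD hc
    intro r
    have : xg D k r 1 ∈ K := hLK (subset_closure ⟨r, 1, map_one σ, coe_xg hR r 1⟩)
    exact (mem_centralizer_iff.1 hcK _ this).symm
  refine ⟨hcent, fun g hg => ⟨?_, ?_⟩⟩
  · intro hgN
    have h1 : g⁻¹ * J D σ g ∈ D.group k ⊓ centralizer (K : Set (GL D.Idx k)) := by
      refine Subgroup.mem_inf.2 ⟨mul_mem (inv_mem hg) (map_le_group D σ ⟨g, hg, rfl⟩), ?_⟩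
      rw [mem_centralizer_iff]
      intro x hx
      have h2 : g * x * g⁻¹ ∈ K := conj_mem_of_mem_normalizer hgN hx
      have h3 := hKfix _ h2
      rw [map_mul, map_mul, map_inv, hKfix x hx] at h3
      calc x * (g⁻¹ * J D σ g) = g⁻¹ * (g * x * g⁻¹) * J D σ g := by group
        _ = g⁻¹ * (J D σ g * x * (J D σ g)⁻¹) * J D σ g := by rw [h3]
        _ = g⁻¹ * J D σ g * x := by group
    rw [hcent, mem_bot] at h1
    exact (inv_mul_eq_one.1 h1).symm
  · intro hfix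
    obtain ⟨l1, hl1, h, hh, l2, hl2, hhfix, rfl⟩ := hdec g hg hfix
    have key : ∀ h ∈ D.diagonalSubgroup k, J D σ h = h → ∀ x ∈ K, h * x * h⁻¹ ∈ K := by
      intro h hh hhfix x hx
      obtain ⟨m1, hm1, h', hh', m2, hm2, -, rfl⟩ := hdec x (hKG hx) (hKfix x hx)
      have hh'K : h' ∈ K := by
        have : h' = m1⁻¹ * (m1 * h' * m2) * m2⁻¹ := by group
        rw [this]
        exact mul_mem (mul_mem (inv_mem (hLK hm1)) hx) (inv_mem (hLK hm2))
      have hcomm : h * h' = h' * h := by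
        apply Cfsg.Agent.Lib.Helper23Solv.DGS_comm
        · exact H_le_DGS hT hR (by rw [H_eq hT hR]; exact hh)
        · exact H_le_DGS hT hR (by rw [H_eq hT hR]; exact hh')
      have e : h * (m1 * h' * m2) * h⁻¹ = (h * m1 * h⁻¹) * h' * (h * m2 * h⁻¹) := by
        calc h * (m1 * h' * m2) * h⁻¹ = (h * m1 * h⁻¹) * (h * h') * h⁻¹ * (h * m2 * h⁻¹) := by group
          _ = _ := by rw [hcomm]; group
      rw [e]
      exact mul_mem (mul_mem (hLK (H_conj_L σ hT hR hh hhfix m1 hm1)) hh'K)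
        (hLK (H_conj_L σ hT hR hh hhfix m2 hm2))
    have hhN : h ∈ normalizer (K : Set (GL D.Idx k)) := by
      apply mem_normalizer_of_conj (key h hh hhfix)
      intro x hx
      have := key h⁻¹ (inv_mem hh) (by rw [map_inv, hhfix]) x hx
      rwa [inv_inv] at this
    exact mul_mem (mul_mem (le_normalizer (hLK hl1)) hhN) (le_normalizer (hLK hl2))

end main

end Cfsg.Agent.Lib.LeadChevSub
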